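import Mathlib

/-! Points moved by the central involution of an almost extraspecial group. -/

set_option autoImplicit false
set_option maxRecDepth 100000

namespace Cfsg.Agent.ULT
open MulAction Pointwise

variable {H : Type*} [Group H]

/-- the homomorphism from the signs defined by an involution -/
def sgnHom (x : H) (hx : x * x = 1) : ℤˣ →* H where
  toFun u := if u = 1 then 1 else x
  map_one' := if_pos rfl
  map_mul' u v := by
    rcases Int.units_eq_one_or u with rfl | rfl <;> rcases Int.units_eq_one_or v with rfl | rfl <;>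
      simp [hx]

theorem sgnHom_neg (x : H) (hx : x * x = 1) : sgnHom x hx (-1) = x := by
  simp [sgnHom]

theorem sgnHom_comm {x y : H} (hx : x * x = 1) (h : Commute y x) (u : ℤˣ) :
    Commute y (sgnHom x hx u) := by
  rcases Int.units_eq_one_or u with rfl | rfl
  · rw [map_one]; exact .one_right _
  · rwa [sgnHom_neg]

variable {Ω : Type*} [Finite Ω] [MulAction H Ω]

theorem burn_hom {A : Type*} [Group A] [Fintype A] (φ : A →* H) :
    Fintype.card A ∣ ∑ a, (fixedBy Ω (φ a)).ncard := by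
  classical
  letI := MulAction.compHom Ω φ
  have := Fintype.ofFinite Ω
  have h := sum_card_fixedBy_eq_card_orbits_mul_card_group A Ω
  refine ⟨_, Eq.trans (Finset.sum_congr rfl fun a _ => ?_) (h.trans (mul_comm _ _))⟩
  rw [← Nat.card_eq_fintype_card, Nat.card_coe_set_eq]; rfl

theorem ncard_fix_conj {x y : H} (h : IsConj x y) : (fixedBy Ω x).ncard = (fixedBy Ω y).ncard := by
  obtain ⟨c, rfl⟩ := isConj_iff.mp h
  rw [← smul_fixedBy, Set.ncard_smul_set]

theorem burn_two {A : Type*} [Group A] [Fintype A] (φ : A →* H) {z : H} (hz : z * z = 1)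
    (hc : ∀ a, Commute z (φ a)) (h : ∀ a, a ≠ 1 → IsConj (φ a) (z * φ a)) :
    ∃ d, Nat.card Ω = (fixedBy Ω z).ncard + 2 * Fintype.card A * d := by
  classical
  obtain ⟨o, h1⟩ := burn_hom (Ω := Ω) φ
  obtain ⟨o', h2⟩ := burn_hom (Ω := Ω) ((sgnHom z hz).noncommCoprod φ
    fun u a => (sgnHom_comm hz (hc a).symm u).symm)
  rw [Fintype.sum_prod_type, Fintype.card_prod, Fintype.card_units_int,
    show (Finset.univ : Finset ℤˣ) = {1, -1} by decide, Finset.sum_pair (by decide)] at h2
  simp only [MonoidHom.noncommCoprod_apply, map_one, one_mul, sgnHom_neg] at h2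
  have h3 : ∑ a, (fixedBy Ω (φ a)).ncard + (fixedBy Ω z).ncard =
      ∑ a, (fixedBy Ω (z * φ a)).ncard + Nat.card Ω := by
    rw [← Finset.add_sum_erase _ _ (Finset.mem_univ (1 : A)),
      ← Finset.add_sum_erase _ _ (Finset.mem_univ (1 : A)), map_one, mul_one, fixedBy_one_eq_univ,
      Set.ncard_univ, Finset.sum_congr rfl fun a ha => ncard_fix_conj (Ω := Ω)
        (h a (Finset.ne_of_mem_erase ha))]
    ring
  have h4 : (fixedBy Ω z).ncard ≤ Nat.card Ω := Set.ncard_le_card _
  have h5 : 2 * Fintype.card A * o' ≤ 2 * Fintype.card A * o := by nlinarith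
  have h6 : o' ≤ o := Nat.le_of_mul_le_mul_left h5 (by positivity)
  obtain ⟨d, rfl⟩ := Nat.exists_eq_add_of_le h6
  exact ⟨d, by nlinarith⟩

theorem burn_pow {ι : Type} [Fintype ι] {z : H} {v q : ι → H} (hz : z * z = 1)
    (hv : ∀ i, v i * v i = 1) (hvv : ∀ i j, Commute (v i) (v j)) (hzv : ∀ i, Commute z (v i))
    (hq : ∀ i j, i ≠ j → Commute (q i) (v j)) (hqi : ∀ i, q i * v i = z * v i * q i) :
    ∃ d, Nat.card Ω = (fixedBy Ω z).ncard + 2 * 2 ^ Fintype.card ι * d := by
  classical
  let φ := MonoidHom.noncommPiCoprod (fun i => sgnHom (v i) (hv i)) fun i j _ a b =>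
    sgnHom_comm (hv j) (sgnHom_comm (hv i) (hvv j i) a).symm b
  have hc : ∀ a, Commute z (φ a) := fun a =>
    MonoidHom.commute_noncommPiCoprod _ (fun i u => sgnHom_comm (hv i) (hzv i) u) a
  have hφ : ∀ j, φ (Pi.mulSingle j (-1)) = v j := fun j =>
    (MonoidHom.noncommPiCoprod_mulSingle _ j _).trans (sgnHom_neg _ _)
  have := burn_two (Ω := Ω) φ hz hc fun a ha => by
    obtain ⟨i, hi⟩ := Function.ne_iff.mp ha
    have h1 : (MulAut.conj (q i)).toMonoidHom.comp φ = ((sgnHom z hz).noncommCoprod φ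
        fun u a => (sgnHom_comm hz (hc a).symm u).symm).comp
          ((Pi.evalMonoidHom _ i).prod (MonoidHom.id _)) := by
      refine MonoidHom.pi_ext fun j u => ?_
      rcases Int.units_eq_one_or u with rfl | rfl
      · simp
      by_cases hj : j = i
      · subst hj
        simp [sgnHom_neg, hφ, hqi]
      · simp [hφ, (hq i j (Ne.symm hj)).eq,
          Pi.mulSingle_eq_of_ne (Ne.symm hj)]
    have h2 := DFunLike.congr_fun h1 a
    have h3 : a i = -1 := (Int.units_eq_one_or _).resolve_left hi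
    refine isConj_iff.mpr ⟨q i, ?_⟩
    simpa [h3, sgnHom_neg] using h2
  simpa using this

theorem dvd_cases {n : ℕ} (h : n * (n - 1) ∣ 17971200) (h1 : 32 ≤ n) : n = 40 ∨ n = 65 := by
  have h2 : n ≤ 4240 := by
    have := Nat.le_of_dvd (by norm_num) h
    obtain ⟨m, rfl⟩ : ∃ m, n = m + 1 := ⟨n - 1, by omega⟩
    rw [Nat.add_sub_cancel] at this
    nlinarith
  have : ∀ n ∈ List.range 4241, 32 ≤ n → 17971200 % (n * (n - 1)) = 0 → n = 40 ∨ n = 65 := by
    decide +kernel
  exact this n (List.mem_range.mpr (by omega)) h1 (Nat.mod_eq_zero_of_dvd h)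

/-- the fixed points of an element under a subgroup of its centralizer -/
def fixSub (Ω : Type*) [MulAction H Ω] (S : Subgroup H) (z : H) (h : ∀ s ∈ S, Commute z s) :
    SubMulAction S Ω where
  carrier := fixedBy Ω z
  smul_mem' s x hx := by
    rw [mem_fixedBy] at hx ⊢
    change z • (s : H) • x = (s : H) • x
    rw [← mul_smul, (h s s.2).eq, mul_smul, hx]

theorem no_two_trans [Finite H] [FaithfulSMul H Ω] (hH : Nat.card H = 17971200) {S : Subgroup H}
    (hS : 2 ^ 11 ∣ Nat.card S) {g z : H} (hg : ∀ L, S ≤ L → g ∈ L → L = ⊤) (h1 : z ≠ 1)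
    (hzS : ∀ s ∈ S, Commute z s) {v q : Fin 4 → H} (hz : z * z = 1)
    (hv : ∀ i, v i * v i = 1) (hvv : ∀ i j, Commute (v i) (v j)) (hzv : ∀ i, Commute z (v i))
    (hq : ∀ i j, i ≠ j → Commute (q i) (v j)) (hqi : ∀ i, q i * v i = z * v i * q i)
    (hgz : g * z = v 0 * g) : ¬ IsMultiplyPretransitive H Ω 2 := by
  intro h2
  have ht : IsPretransitive H Ω := isPretransitive_of_is_two_pretransitive
  have hi : ∀ a b : Ω, a ≠ b → (fixingSubgroup H {a, b}).index = Nat.card Ω * (Nat.card Ω - 1) := by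
    intro a b hab
    rw [IsMultiplyPretransitive.index_of_fixingSubgroup_eq _ (by rwa [Set.ncard_pair hab]),
      Set.ncard_pair hab, Nat.choose_two_right, Nat.factorial_two,
      Nat.div_mul_cancel (Nat.even_mul_pred_self _).two_dvd]
  obtain ⟨d, hd⟩ := burn_pow (Ω := Ω) hz hv hvv hzv hq hqi
  have hne : fixedBy Ω z ≠ Set.univ := fun e => h1 (FaithfulSMul.eq_of_smul_eq_smul (α := Ω)
    fun x => by rw [one_smul]; exact (e ▸ Set.mem_univ x : x ∈ fixedBy Ω z))
  have hlt : (fixedBy Ω z).ncard < Nat.card Ω := by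
    rw [← Set.ncard_univ]
    exact Set.ncard_lt_ncard (Set.ssubset_univ_iff.mpr hne)
  simp only [Fintype.card_fin] at hd
  have : Nontrivial Ω := Finite.one_lt_card_iff_nontrivial.mp (by omega)
  obtain ⟨a, b, hab⟩ := exists_pair_ne Ω
  have hn := dvd_cases (hi a b hab ▸ hH ▸ Subgroup.index_dvd_card _) (by omega)
  by_cases hf : (fixedBy Ω z).ncard < 16
  · have e0 : v 0 = g * z * g⁻¹ := by rw [hgz, mul_inv_cancel_right]
    have hc : ∀ x, Commute x (v 0) → x ∈ Subgroup.centralizer {v 0} := fun x hx =>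
      Subgroup.mem_centralizer_singleton_iff.mpr hx.eq
    obtain ⟨e, he⟩ := burn_pow (H := Subgroup.centralizer {v 0}) (Ω := fixSub Ω _ (v 0) fun s hs =>
      (Subgroup.mem_centralizer_singleton_iff.mp hs).symm) (z := ⟨z, hc _ (hzv 0)⟩)
      (v := fun i : Fin 3 => ⟨v i.succ, hc _ (hvv _ _)⟩)
      (q := fun i => ⟨q i.succ, hc _ (hq _ _ (Fin.succ_ne_zero i))⟩) (Subtype.ext hz)
      (fun i => Subtype.ext (hv _)) (fun i j => Subtype.ext (hvv _ _).eq)
      (fun i => Subtype.ext (hzv _).eq)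
      (fun i j h => Subtype.ext (hq _ _ fun e => h (Fin.succ_injective _ e)).eq)
      fun i => Subtype.ext (hqi _)
    have h3 : (fixedBy Ω (v 0)).ncard = (fixedBy Ω z).ncard :=
      (ncard_fix_conj (isConj_iff.mpr ⟨g, e0.symm⟩)).symm
    simp only [Fintype.card_fin] at he
    have h4 := he
    change Nat.card (fixedBy Ω (v 0)) = _ at h4
    rw [Nat.card_coe_set_eq] at h4
    obtain rfl : e = 0 := by omega
    have h5 := (Set.eq_univ_iff_ncard _).mpr he.symm
    have h6 : fixedBy Ω (v 0) = fixedBy Ω z := Set.eq_of_subset_of_ncard_le (fun x hx => by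
      have : (⟨x, hx⟩ : fixSub Ω _ (v 0) _) ∈ fixedBy _ _ := h5 ▸ Set.mem_univ _
      exact congrArg Subtype.val this) h3.ge
    have h7 := hg (stabilizer H (fixedBy Ω z)) (fun s hs => by
      rw [mem_stabilizer_iff, smul_fixedBy, ← (hzS s hs).eq, mul_inv_cancel_right]) (by
      rw [mem_stabilizer_iff, smul_fixedBy, ← e0, h6])
    obtain ⟨x, hx⟩ := Set.nonempty_of_ncard_ne_zero (s := fixedBy Ω z) (by omega)
    refine hne (Set.eq_univ_of_forall fun y => ?_)
    obtain ⟨k, rfl⟩ := exists_smul_eq H x y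
    have : k ∈ stabilizer H (fixedBy Ω z) := h7 ▸ Subgroup.mem_top k
    rw [← mem_stabilizer_iff.mp this]
    exact Set.smul_mem_smul_set hx
  · have h3 : (fixedBy Ω z).ncard = 33 ∧ Nat.card Ω = 65 := by omega
    obtain ⟨U, hU⟩ := Sylow.exists_subgroup_card_pow_prime 2 hS
    let X := fixSub Ω (U.map S.subtype) z fun s hs => hzS s (Subgroup.map_subtype_le _ hs)
    have hX : Nat.card X = 33 := (Nat.card_coe_set_eq _).trans h3.1
    have hU' : Nat.card (U.map S.subtype) = 2 ^ 11 := by
      rw [Subgroup.card_map_of_injective S.subtype_injective, hU]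
    obtain ⟨α, hα⟩ := (IsPGroup.of_card hU').nonempty_fixed_point_of_prime_not_dvd_card X
      (by rw [hX]; decide)
    have : Nontrivial X := Finite.one_lt_card_iff_nontrivial.mp (by omega)
    obtain ⟨β, hβ⟩ := exists_ne α
    have h4 : (orbit (U.map S.subtype) β).ncard ≤ 32 := by
      have : (orbit (U.map S.subtype) β) ⊆ {α}ᶜ := by
        rintro _ ⟨u, rfl⟩ e
        exact hβ (by rw [← inv_smul_smul u β]; exact (congrArg _ e).trans (hα _))
      refine (Set.ncard_le_ncard this).trans ?_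
      rw [Set.ncard_compl, hX, Set.ncard_singleton]
    have h5 := (stabilizer (U.map S.subtype) β).card_mul_index
    rw [index_stabilizer, hU'] at h5
    have h6 : (stabilizer (U.map S.subtype) β).map (U.map S.subtype).subtype ≤
        fixingSubgroup H {(α : Ω), (β : Ω)} := by
      rintro _ ⟨u, hu, rfl⟩
      rw [mem_fixingSubgroup_iff]
      rintro _ (rfl | rfl)
      · exact congrArg Subtype.val (hα u)
      · exact congrArg Subtype.val hu
    have h7 := Subgroup.card_dvd_of_le h6
    have h8 := (fixingSubgroup H {(α : Ω), (β : Ω)}).card_mul_index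
    rw [hi _ _ (fun e => hβ (Subtype.ext e.symm)), h3.2, hH] at h8
    rw [Subgroup.card_map_of_injective (Subgroup.subtype_injective _),
      show Nat.card (fixingSubgroup H {(α : Ω), (β : Ω)}) = 4320 by omega] at h7
    have h9 := Nat.le_of_dvd (by norm_num) (Nat.dvd_gcd h7 (Dvd.intro _ h5))
    rw [show Nat.gcd 4320 (2 ^ 11) = 32 by norm_num] at h9
    have := Nat.mul_le_mul h9 h4
    omega

end Cfsg.Agent.ULT
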