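import Mathlib
import Cfsg.Agent.ULT.T2a
import Cfsg.Agent.ULT.Tits

/-! The Tits group is not doubly transitive. -/

set_option autoImplicit false
set_option maxRecDepth 100000

namespace Cfsg.Agent.ULT
namespace Tits
open Cfsg.Agent.Comp Cfsg.Agent.Comp.F42 MulAction

/-- the words -/
def Zs : List (List ℕ) := [[3, 3, 0, 0, 4, 0, 0, 3, 0, 0], [5, 2, 3, 2, 4, 0, 5],
  [2, 3, 0, 2, 3, 0], [4, 2, 1, 4, 2, 1], [3, 0, 2, 3, 0, 2], [0, 4, 2, 1, 4, 2, 0, 0],
  [1, 3, 0, 3, 0, 0], [3, 0, 3, 0], [0, 4, 1, 4, 0, 0], [4, 1, 4, 1]]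

/-- the words as a function -/
def zw (i : ℕ) : List ℕ := Zs.getD i []

/-- the elements -/
noncomputable def ze (i : Fin 10) : eps.ker :=
  ⟨ev s (zw i), sign.mem (W := List.ofFn fun i : Fin 10 => zw i) (by decide +kernel)
    (by decide +kernel) _ (List.mem_ofFn.mpr ⟨i, rfl⟩)⟩

/-- the relations -/
def Rz : List (List ℕ × List ℕ) := [([0, 0], []), ([1, 0], [2, 1])] ++
  (List.range 4).flatMap fun i => [([2 + i, 2 + i], []), ([0, 2 + i], [2 + i, 0]),
    ([6 + i, 2 + i], [0, 2 + i, 6 + i])] ++ (List.range 4).flatMap fun j =>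
      ([2 + i, 2 + j], [2 + j, 2 + i]) :: if i = j then [] else [([6 + i, 2 + j], [2 + j, 6 + i])]

theorem rz : ∀ e ∈ Rz, ev s (e.1.flatMap zw) = ev s (e.2.flatMap zw) := fun e he =>
  eqs' (E := Rz.map fun e => (e.1.flatMap zw, e.2.flatMap zw)) (by decide +kernel) _
    (List.mem_map_of_mem he)

theorem no_two {Ω : Type*} [Finite Ω] [MulAction eps.ker Ω] [FaithfulSMul eps.ker Ω] :
    ¬ IsMultiplyPretransitive eps.ker Ω 2 := by
  have := card.1
  have hm : ∀ {i : Fin 10} {a b}, mem1 T (zw i) (pt a) b = true → b < 1755 → phi (ze i) b = a :=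
    fun {i a b} h hb => by
      rw [← mem1_pt ok hb h, ← rep.ev_eq (w := zw i) (by clear h; revert i; decide)]; rfl
  refine no_two_trans cardK (S := (genW s W0).subgroupOf eps.ker) ?_ (g := ze 1) (z := ze 0)
    ?_ ?_ ?_ (v := fun i => ze ⟨2 + i, by omega⟩) (q := fun i => ze ⟨6 + i, by omega⟩)
    (Subtype.ext (by simpa [ze, ev_append] using rz ([0, 0], []) (by decide)))
    (fun i => Subtype.ext (by simpa [ze, ev_append] using rz ([2 + i, 2 + i], []) (by revert i; decide)))
    (fun i j => Subtype.ext (by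
      simpa [ze, ev_append] using rz ([2 + i, 2 + j], [2 + j, 2 + i]) (by revert i j; decide)))
    (fun i => Subtype.ext (by
      simpa [ze, ev_append] using rz ([0, 2 + i], [2 + i, 0]) (by revert i; decide)))
    (fun i j h => Subtype.ext (by
      simpa [ze, ev_append] using rz ([6 + i, 2 + j], [2 + j, 6 + i]) (by revert i j; decide)))
    (fun i => Subtype.ext (by
      simpa [ze, ev_append, mul_assoc] using rz ([6 + i, 2 + i], [0, 2 + i, 6 + i]) (by revert i; decide)))
    (Subtype.ext (by simpa [ze, ev_append] using rz ([1, 0], [2, 1]) (by decide)))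
  · have h1 := (eps.ker.subgroupOf (genW s W0)).card_mul_index
    have h2 : (eps.ker.subgroupOf (genW s W0)).index ∣ 2 :=
      index2 ▸ Subgroup.relIndex_dvd_index_of_normal _ _
    have h3 := (genW s W0).card_mul_index
    rw [stab.1, card.2.1] at h3
    rw [Nat.card_congr (⟨fun x => ⟨⟨x.1.1, x.2⟩, x.1.2⟩, fun x => ⟨⟨x.1.1, x.2⟩, x.1.2⟩,
      fun _ => rfl, fun _ => rfl⟩ : (genW s W0).subgroupOf eps.ker ≃ eps.ker.subgroupOf (genW s W0))]
    rcases (Nat.dvd_prime Nat.prime_two).mp h2 with h | h <;> rw [h] at h1 <;> omega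
  · intro L hL hg
    rcases primK ((L.map eps.ker.subtype).map phi) (Subgroup.map_mono (Subgroup.map_subtype_le _))
      (by
        rintro _ ⟨k, hk, rfl⟩ h
        exact ⟨k, ⟨⟨k, hk⟩, hL ((stab.2 k).mpr h), rfl⟩, rfl⟩) with h | h
    · exact absurd ((h _ ⟨_, ⟨_, hg, rfl⟩, rfl⟩).symm.trans
        (hm (a := 3) (by decide +kernel) (by norm_num))) (by decide)
    · rw [Subgroup.map_le_map_iff_of_injective card.2.2] at h
      refine eq_top_iff.mpr fun k _ => ?_
      obtain ⟨l, hl, e⟩ := h k.2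
      exact Subtype.ext e ▸ hl
  · intro e
    have := hm (i := 0) (a := 801) (b := 731) (by decide +kernel) (by norm_num)
    rw [e] at this
    simp at this
  · intro k hk
    have h1 := eqs' (E := W0.map fun w => (zw 0 ++ w, w ++ zw 0)) (by decide +kernel)
    have : genW s W0 ≤ Subgroup.centralizer {ev s (zw 0)} := genW_le.mpr fun w hw =>
      Subgroup.mem_centralizer_singleton_iff.mpr
        (by simpa only [ev_append] using (h1 _ (List.mem_map_of_mem hw)).symm)
    exact Subtype.ext (Subgroup.mem_centralizer_singleton_iff.mp (this hk)).symm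

end Tits

theorem no_two_congr {K M : Type*} [Group K] [Group M] {K' : Subgroup M} (e : K ≃* K') {Ω : Type*}
    [MulAction K' Ω] [FaithfulSMul K' Ω]
    (h : ∀ [MulAction K Ω] [FaithfulSMul K Ω], ¬ MulAction.IsMultiplyPretransitive K Ω 2) :
    ¬ MulAction.IsMultiplyPretransitive K' Ω 2 := by
  intro h2
  letI := MulAction.compHom Ω e.toMonoidHom
  have : FaithfulSMul K Ω := ⟨fun h => e.injective (FaithfulSMul.eq_of_smul_eq_smul (α := Ω) h)⟩
  refine h (MulAction.is_two_pretransitive_iff.mpr fun {a b c d} h3 h4 => ?_)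
  obtain ⟨g, h5⟩ := MulAction.is_two_pretransitive_iff.mp h2 h3 h4
  obtain ⟨k, rfl⟩ := e.surjective g
  exact ⟨k, h5⟩

end Cfsg.Agent.ULT
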