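import Mathlib
import Cfsg.Agent.Orth.Exc3
import Cfsg.Agent.Orth.Fix

/-!
# Geometry for the minimal degrees of orthogonal groups
-/

set_option autoImplicit false
set_option backward.isDefEq.respectTransparency false

namespace Cfsg.Agent.ULT.OD

open Module QuadraticMap Cfsg.Agent.Orth Submodule MatrixGroups

variable {F V : Type*} [Field F] [Finite F] [AddCommGroup V] [Module F V] [FiniteDimensional F V]
  {Q : QuadraticForm F V}

theorem exists_hyp_perp (hQ : ND Q) (H R : Submodule F V) (hR : H ⊓ perp Q H ≤ R)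
    (h : finrank F R + finrank F H + 3 ≤ finrank F V) :
    ∃ s s', Q s = 0 ∧ Q s' = 0 ∧ polar Q s s' = 1 ∧ s ∈ perp Q H ∧ s' ∈ perp Q H := by
  obtain ⟨C, hC⟩ := R.exists_isCompl
  have h1 := hQ.finrank_perp_add H
  have h2 := Submodule.finrank_add_eq_of_isCompl hC
  have h3 := Submodule.finrank_sup_add_finrank_inf_eq (perp Q H) C
  have h4 := Submodule.finrank_le (perp Q H ⊔ C)
  obtain ⟨s, hs0, hs⟩ := exists_singular (Q.restrict (perp Q H ⊓ C)) (by omega)
  have hsH : (s : V) ∉ H := fun h' => hs0 (Subtype.ext (by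
    have : (s : V) ∈ R ⊓ C := ⟨hR ⟨h', s.2.1⟩, s.2.2⟩
    rwa [hC.inf_eq_bot] at this))
  obtain ⟨y, h5, h6, h7⟩ := hQ.exists_hyp_partner H hsH hs s.2.1
  exact ⟨s, y, hs, h7, h6, s.2.1, h5⟩

omit [Finite F] in
theorem exists_polar_one_perp (hQ : ND Q) (H : Submodule F V) (h : 2 * finrank F H < finrank F V) :
    ∃ y w, y ∈ perp Q H ∧ w ∈ perp Q H ∧ polar Q y w = 1 := by
  have h1 := hQ.finrank_perp_add H
  obtain ⟨y, hy, hyH⟩ : ∃ y ∈ perp Q H, y ∉ H := by
    by_contra hc
    push Not at hc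
    have := Submodule.finrank_mono (show perp Q H ≤ H from hc)
    omega
  obtain ⟨w, h2, h3⟩ := hQ.exists_orth_polar_one H hyH
  exact ⟨y, w, hy, h2, h3⟩

theorem omega_witt (hQ : ND Q) (hg : Good F V) {ι : Type*} [Finite ι] (a b : ι → V)
    (ha : LinearIndependent F a) (hb : LinearIndependent F b) (h1 : ∀ i, Q (b i) = Q (a i))
    (h2 : ∀ i j, polar Q (b i) (b j) = polar Q (a i) (a j)) {s s' : V} (hs : Q s = 0)
    (hs' : Q s' = 0) (hss : polar Q s s' = 1) (h3 : ∀ i, polar Q (a i) s = 0)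
    (h4 : ∀ i, polar Q (a i) s' = 0) :
    ∃ g : commutator (OG Q), ∀ i, g.1.1 (a i) = b i := by
  obtain ⟨g, hg'⟩ := witt_family hQ a b ha hb h1 h2
  let S : Subgroup (OG Q) :=
    { carrier := {g | ∀ i, g.1 (a i) = a i}
      one_mem' := fun _ => rfl
      mul_mem' := fun {x y} hx hy i => by rw [OG.mul_apply, hy, hx]
      inv_mem' := fun {x} hx i => by nth_rw 1 [← hx i]; exact OG.inv_apply_self _ _ }
  obtain ⟨t, ht, hgt⟩ := hQ.exists_mul_mem_of_refl hg S (fun c _ => ⟨s + c • s',
    q_hyp_comb hs hs' hss c, fun i => refl_apply_of_orth (by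
      rw [polar_comm, polar_add_right, p_smul_right, h3, h4]; simp)⟩) g
  exact ⟨⟨_, hgt⟩, fun i => by change (g * t).1 _ = _; rw [OG.mul_apply, ht i, hg']⟩

omit [Finite F] [FiniteDimensional F V] in
theorem finrank_span_triple_le (u v w : V) : finrank F (span F {u, v, w}) ≤ 3 := by
  classical
  have := (finrank_span_finset_le_card (R := F) ({u, v, w} : Finset V)).trans Finset.card_le_three
  rwa [Set.finrank, Finset.coe_insert, Finset.coe_insert, Finset.coe_singleton] at this

omit [Finite F] [FiniteDimensional F V] in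
theorem finrank_span_one_le (u : V) : finrank F (span F {u}) ≤ 1 := by
  simpa using finrank_span_le_card (R := F) ({u} : Set V)

theorem witt_pair (hQ : ND Q) (h7 : 7 ≤ finrank F V) {e a e' a' : V} (he : e ≠ 0) (he' : e' ≠ 0)
    (ha : a ∉ span F {e}) (ha' : a' ∉ span F {e'}) (h1 : Q e' = Q e) (h2 : Q a' = Q a)
    (h3 : polar Q e' a' = polar Q e a) :
    ∃ g : commutator (OG Q), g.1.1 e = e' ∧ g.1.1 a = a' := by
  obtain ⟨s, s', hs, hs', hss, k1, k2⟩ := exists_hyp_perp hQ (span F {e, a}) (span F {e, a})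
    inf_le_left (by have := finrank_span_pair_le (F := F) e a; omega)
  rw [mem_perp_pair] at k1 k2
  obtain ⟨g, hg⟩ := omega_witt hQ (good_of_five_le (by omega)) ![e, a] ![e', a']
    (linearIndependent_pair_of_notMem he ha) (linearIndependent_pair_of_notMem he' ha')
    (fun i => by fin_cases i <;> simpa)
    (fun i j => by
      fin_cases i <;> fin_cases j <;> simp [p_self, h1, h2, h3, polar_comm Q a', polar_comm Q a])
    hs hs' hss (fun i => by fin_cases i <;> simp [k1.1, k1.2])
    (fun i => by fin_cases i <;> simp [k2.1, k2.2])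
  exact ⟨g, hg 0, hg 1⟩

theorem witt_one' (hQ : ND Q) (h7 : 7 ≤ finrank F V) {e e' : V} (he : e ≠ 0) (he' : e' ≠ 0)
    (h : Q e = 0) (h' : Q e' = 0) : ∃ g : commutator (OG Q), g.1.1 e = e' := by
  obtain ⟨f, h1, h2⟩ := hQ.exists_hyp he h
  obtain ⟨f', h1', h2'⟩ := hQ.exists_hyp he' h'
  have key : ∀ {e f : V}, Q e = 0 → polar Q e f = 1 → f ∉ span F {e} := fun {e f} h h1 hf => by
    obtain ⟨c, rfl⟩ := mem_span_singleton.1 hf
    simp [p_self, h] at h1
  obtain ⟨g, hg, -⟩ := witt_pair hQ h7 he he' (key h h1) (key h' h1') (by rw [h, h'])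
    (by rw [h2, h2']) (by rw [h1, h1'])
  exact ⟨g, hg⟩

omit [Finite F] [FiniteDimensional F V] in
theorem li_triple {e f a : V} (he : Q e = 0) (hf : Q f = 0) (hef : polar Q e f = 1) (ha : a ≠ 0)
    (hea : polar Q e a = 0) (hfa : polar Q f a = 0) : LinearIndependent F ![e, f, a] := by
  rw [Fintype.linearIndependent_iff]
  intro c hc
  simp only [Fin.sum_univ_three, Matrix.cons_val_zero, Matrix.cons_val_one, Matrix.cons_val] at hc
  have h0 : c 1 = 0 := by simpa [p_self, he, hef, hea] using congrArg (polar Q e) hc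
  have h1 : c 0 = 0 := by
    simpa [p_self, hf, polar_comm Q f e, hef, hfa] using congrArg (polar Q f) hc
  have h2 : c 2 = 0 := by simpa [h0, h1, ha] using hc
  intro i; fin_cases i <;> assumption

theorem witt_triple (hQ : ND Q) (h7 : 7 ≤ finrank F V) {e f a e' f' a' : V} (he : Q e = 0)
    (hf : Q f = 0) (hef : polar Q e f = 1) (ha : a ≠ 0) (hea : polar Q e a = 0)
    (hfa : polar Q f a = 0) (he' : Q e' = 0)
    (hf' : Q f' = 0) (hef' : polar Q e' f' = 1) (ha' : a' ≠ 0) (hea' : polar Q e' a' = 0)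
    (hfa' : polar Q f' a' = 0) (h : Q a' = Q a) :
    ∃ g : commutator (OG Q), g.1.1 e = e' ∧ g.1.1 f = f' ∧ g.1.1 a = a' := by
  obtain ⟨s, s', hs, hs', hss, k1, k2⟩ := exists_hyp_perp hQ (span F {e, f, a}) (span F {a})
    (fun x hx => by
      obtain ⟨h1, h2⟩ := hx
      obtain ⟨c, y, hy, rfl⟩ := mem_span_insert.1 h1
      obtain ⟨d, z, hz, rfl⟩ := mem_span_insert.1 hy
      obtain ⟨t, rfl⟩ := mem_span_singleton.1 hz
      have h3 := mem_perp_span.1 h2 e (by simp)
      have h4 := mem_perp_span.1 h2 f (by simp)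
      simp only [polar_add_right, p_smul_right, p_self, he, hf, hef, hea, hfa,
        polar_comm Q f e] at h3 h4
      obtain rfl : d = 0 := by simpa using h3
      obtain rfl : c = 0 := by simpa using h4
      simpa using hz)
    (by have := finrank_span_triple_le (F := F) e f a; have := finrank_span_one_le (F := F) a; omega)
  rw [mem_perp_span] at k1 k2
  obtain ⟨g, hg⟩ := omega_witt hQ (good_of_five_le (by omega)) ![e, f, a] ![e', f', a']
    (li_triple he hf hef ha hea hfa) (li_triple he' hf' hef' ha' hea' hfa')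
    (fun i => by fin_cases i <;> simp [he, he', hf, hf', h])
    (fun i j => by
      fin_cases i <;> fin_cases j <;> simp [p_self, he, he', hf, hf', hef, hef', hea, hea', hfa,
        hfa', h, polar_comm Q a', polar_comm Q a, polar_comm Q f e, polar_comm Q f' e'])
    hs hs' hss (fun i => by fin_cases i <;> simp [k1])
    (fun i => by fin_cases i <;> simp [k2])
  exact ⟨g, hg 0, hg 1, hg 2⟩

section ext
variable (hQ : ND Q) {e f : V} (he : Q e = 0) (hf : Q f = 0) (hef : polar Q e f = 1)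

/-- Extension by the identity on a hyperbolic plane. -/
noncomputable def ext : OG (Q.restrict (perp Q (span F {e, f}))) →* OG Q :=
  (sumHom (splitIso (hQ.isCompl_perp (hyp_inf_perp he hf hef)))).comp (MonoidHom.inr _ _)

omit [Finite F] in
theorem ext_add (h : OG (Q.restrict (perp Q (span F {e, f})))) (x : span F {e, f})
    (w : perp Q (span F {e, f})) : (ext hQ he hf hef h).1 (x + w) = x + h.1 w :=
  sumHom_apply (splitIso (hQ.isCompl_perp (hyp_inf_perp he hf hef))) (1, h) x w

omit [Finite F] in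
theorem ext_coe (h : OG (Q.restrict (perp Q (span F {e, f})))) (w : perp Q (span F {e, f})) :
    (ext hQ he hf hef h).1 w = h.1 w := by
  simpa using ext_add hQ he hf hef h 0 w

omit [Finite F] in
theorem ext_left (h : OG (Q.restrict (perp Q (span F {e, f})))) : (ext hQ he hf hef h).1 e = e := by
  simpa using ext_add hQ he hf hef h ⟨e, subset_span (by simp)⟩ 0

omit [Finite F] in
theorem ext_right (h : OG (Q.restrict (perp Q (span F {e, f})))) : (ext hQ he hf hef h).1 f = f := by
  simpa using ext_add hQ he hf hef h ⟨f, subset_span (by simp)⟩ 0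

omit [Finite F] in
theorem ext_mem {h : OG (Q.restrict (perp Q (span F {e, f})))} (hh : h ∈ commutator _) :
    ext hQ he hf hef h ∈ commutator (OG Q) := map_mem_commutator _ hh

theorem exists_ext (hg : Good F V) (hW : Good F (perp Q (span F {e, f})) ∨
      ((2 : F) = 0 ∧ ¬ IsPlus (Q.restrict (perp Q (span F {e, f}))))) {g : OG Q}
    (hm : g ∈ commutator (OG Q)) (h1 : g.1 e = e) (h2 : g.1 f = f) :
    ∃ h ∈ commutator (OG (Q.restrict (perp Q (span F {e, f})))), ext hQ he hf hef h = g := by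
  have hfix : ∀ x ∈ span F {e, f}, g.1 x = x := fun x hx => by
    obtain ⟨a, b, rfl⟩ := mem_span_pair.1 hx
    rw [map_add, map_smul, map_smul, h1, h2]
  have hs : g ∈ stab Q (span F {e, f}) := mem_stab_of_le fun v hv => by rwa [hfix v hv]
  rw [← hQ.range_sumHom_splitIso (hyp_inf_perp he hf hef)] at hs
  obtain ⟨⟨g₁, g₂⟩, rfl⟩ := hs
  obtain rfl : g₁ = 1 := OG.ext fun x => Subtype.ext (by
    have := sumHom_apply (splitIso (hQ.isCompl_perp (hyp_inf_perp he hf hef))) (g₁, g₂) x 0
    simp only [splitIso_apply, map_zero, ZeroMemClass.coe_zero, add_zero] at this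
    rw [← this, hfix _ x.2]; rfl)
  refine ⟨g₂, ?_, rfl⟩
  have hW' := hQ.nd_perp_hyp he hf hef
  obtain ⟨h3, h4⟩ := (hQ.mem_commutator_iff hg _).1 hm
  rw [rk_sumHom] at h3
  have h5 : rk (1 : OG (Q.restrict (span F {e, f}))) = 0 := by
    have : mov (1 : OG (Q.restrict (span F {e, f}))) = ⊥ := by
      rw [eq_bot_iff]; intro x hx
      obtain ⟨w, rfl⟩ := mem_mov.1 hx
      simp
    simp [rk, this]
  rw [h5, zero_add] at h3
  rcases hW with hW | ⟨h6, h7⟩
  · exact (hW'.mem_commutator_iff hW _).2 ⟨h3, (sqSpin_sumHom_right _ hQ hW' hW _).1 h4⟩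
  · exact (hW'.dickKer_of_not_isPlus h6 h7 _).2 h3

include hQ he hf hef in
omit [Finite F] in
theorem isPlus_of_perp (H : IsPlus (Q.restrict (perp Q (span F {e, f})))) : IsPlus Q :=
  let ⟨i⟩ := hQ.iso_hyp_perp he hf hef
  (isPlus_prod ((isPlus_plusQ 1).of_iso (plusOne F).symm) H).of_iso i

end ext

omit [Finite F] [FiniteDimensional F V] in
theorem Spin_perfect {H : Type*} [Group H] (h : Spin H Q) (hH : commutator H = ⊤) :
    commutator (commutator (OG Q)) = ⊤ := by
  obtain ⟨-, φ, z, h1, -, -⟩ := h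
  rw [← h1]
  have := map_commutator_eq H φ.rangeRestrict
  rw [hH, MonoidHom.range_eq_top.2 φ.rangeRestrict_surjective, ← MonoidHom.range_eq_map,
    MonoidHom.range_eq_top.2 φ.rangeRestrict_surjective] at this
  exact this.symm

theorem perfect_SL2' {K : Type*} [Field K] [Finite K] (h : 4 ≤ Nat.card K) :
    commutator SL(2, K) = ⊤ := by
  obtain ⟨a, ha, hb⟩ := Classical.SpMat.exists_sq_ne_one (F := K) (by omega)
  exact Matrix.SL2.commutator_eq_top ha hb

theorem perfect_omega (hQ : ND Q) (h3 : 3 ≤ finrank F V)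
    (h : 4 ≤ Nat.card F ∨ (4 ≤ finrank F V ∧ ¬ IsPlus Q)) :
    commutator (commutator (OG Q)) = ⊤ := by
  by_cases h5 : 5 ≤ finrank F V
  · exact hQ.commutator_perfect h5
  have hq : 2 ≤ Nat.card F := Finite.one_lt_card
  rcases (by omega : finrank F V = 2 * 1 + 1 ∨ finrank F V = 2 * 2) with h4 | h4
  · have h2 : (2 : F) ≠ 0 := fun h2 => by
      have := hQ.even_finrank_of_char_two h2
      rw [h4] at this; revert this; decide
    obtain ⟨i⟩ := hQ.og_equiv_odd h4
    exact Spin_perfect ((spin3 h2).congr i.symm) (perfect_SL2' (h.resolve_right (by omega)))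
  by_cases hp : IsPlus Q
  · obtain ⟨i⟩ := hQ.iso_plusQ hp h4
    have h6 := h.resolve_right (fun h => h.2 hp)
    refine Spin_perfect ((spin4p (by omega)).congr (ogCongr i).symm) ?_
    have := perfect_SL2' h6
    rw [commutator_def] at this ⊢
    rw [← Subgroup.top_prod_top, Subgroup.commutator_prod_prod, this]
  · obtain ⟨ζ, hζ⟩ := exists_aniso (F := F)
    obtain ⟨i⟩ := hQ.iso_minusQ hp (m := 1) h4 hζ
    have := Fintype.ofFinite F
    obtain ⟨p, hp'⟩ := CharP.exists F
    obtain ⟨n, hn, hc⟩ := FiniteField.card F p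
    have := Fact.mk hn
    have hK : Nat.card (GaloisField p (2 * n)) = Nat.card F ^ 2 := by
      rw [GaloisField.card p _ (by simp), Nat.card_eq_fintype_card, hc, ← pow_mul, mul_comm]
    refine Spin_perfect ((spin4m rfl hK hζ).congr (ogCongr i).symm) (perfect_SL2' ?_)
    rw [hK]; nlinarith

end Cfsg.Agent.ULT.OD
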