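import Mathlib
import Cfsg.Agent.ULT.OD1
import Cfsg.Agent.Classical.LSL

/-!
# Weight spaces of the Eichler groups in complex representations of orthogonal groups
-/

set_option autoImplicit false
set_option backward.isDefEq.respectTransparency false
set_option linter.unusedSectionVars false

namespace Cfsg.Agent.ULT.OD

open Module QuadraticMap Cfsg.Agent.Orth Submodule Cfsg.Agent.Classical.LS
open scoped InnerProductSpace

variable {F V : Type*} [Field F] [Fintype F] [AddCommGroup V] [Module F V] [FiniteDimensional F V]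
  [Finite V] {Q : QuadraticForm F V}

/-- Non-degenerate spaces of dimension at least seven. -/
structure Big (Q : QuadraticForm F V) : Prop where
  nd : ND Q
  h7 : 7 ≤ finrank F V

/-- The group `Ω`. -/
abbrev Gp (Q : QuadraticForm F V) := commutator (OG Q)

/-- The orthogonal complement of a pair of vectors. -/
abbrev Wp (Q : QuadraticForm F V) (e f : V) : Submodule F V := perp Q (span F {e, f})

noncomputable instance instFintypeWp (e f : V) : Fintype (Wp Q e f) := Fintype.ofFinite _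

theorem Wp_left {e f : V} (w : Wp Q e f) : polar Q e w = 0 := (mem_perp_pair.1 w.2).1
theorem Wp_right {e f : V} (w : Wp Q e f) : polar Q f w = 0 := (mem_perp_pair.1 w.2).2

theorem ψ_ne_zero' (a : F) : ψ F a ≠ 0 := fun h => by
  have := ψ_add a (-a)
  rw [h] at this; simp at this

theorem ψ_norm (a : F) : ‖ψ F a‖ = 1 := AddChar.norm_apply _ _

theorem conj_ψ_mul (a : F) : (starRingEnd ℂ) (ψ F a) * ψ F a = 1 := by
  rw [mul_comm, Complex.mul_conj, Complex.normSq_eq_norm_sq, ψ_norm]; simp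

namespace Big
variable (H : Big Q)
include H

theorem good : Good F V := good_of_five_le (by have := H.h7; omega)

/-- Eichler transformations as elements of `Ω`. -/
noncomputable def E (u v : V) : Gp Q := ⟨eich Q u v, H.nd.eich_mem_commutator H.good u v⟩

theorem E_conj (g : Gp Q) (u v : V) : g * H.E u v * g⁻¹ = H.E (g.1.1 u) (g.1.1 v) :=
  Subtype.ext (eich_conj g.1 u v)

theorem E_mul_comm (g : Gp Q) (u v : V) : g * H.E u v = H.E (g.1.1 u) (g.1.1 v) * g := by
  rw [← E_conj]; group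

theorem E_mul {u v w : V} (hu : Q u = 0) (hv : polar Q u v = 0) (hw : polar Q u w = 0) :
    H.E u v * H.E u w = H.E u (v + w) := Subtype.ext (eich_mul hu hv hw)

theorem E_apply {u v : V} (hu : Q u = 0) (hv : polar Q u v = 0) (x : V) :
    (H.E u v).1.1 x = x + (polar Q v x - Q v * polar Q u x) • u - polar Q u x • v :=
  eich_apply hu hv x

theorem E_fix {u v x : V} (hu : Q u = 0) (hv : polar Q u v = 0) (h1 : polar Q u x = 0)
    (h2 : polar Q v x = 0) : (H.E u v).1.1 x = x := eich_apply_of_orth hu hv h1 h2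

theorem E_left {u v : V} (hu : Q u = 0) (hv : polar Q u v = 0) : (H.E u v).1.1 u = u :=
  eich_apply_left hu hv

theorem E_swap {u v : V} (hu : Q u = 0) (hv : Q v = 0) (huv : polar Q u v = 0) :
    H.E v u = H.E u (-v) := Subtype.ext (eich_swap hu hv huv)

theorem E_smul_left {u v : V} (hu : Q u = 0) (huv : polar Q u v = 0) (a : F) :
    H.E (a • u) v = H.E u (a • v) := Subtype.ext (eich_smul_left hu huv a)

theorem E_add_smul {u v : V} (hu : Q u = 0) (huv : polar Q u v = 0) (a : F) :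
    H.E u (v + a • u) = H.E u v := Subtype.ext (eich_add_smul_self hu huv a)

theorem E_zero {u : V} (hu : Q u = 0) : H.E u 0 = 1 := by
  simpa using H.E_mul hu (v := 0) (w := 0) (by simp) (by simp)

variable {M : Type*} [NormedAddCommGroup M] [InnerProductSpace ℂ M] [FiniteDimensional ℂ M]
  (ρ : Representation ℂ (Gp Q) M)

/-- The weight space of the Eichler group of `e` for the character given by `a`. -/
def Mw (e a : V) : Submodule ℂ M where
  carrier := {v | ∀ w, polar Q e w = 0 → ρ (H.E e w) v = ψ F (polar Q a w) • v}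
  zero_mem' := by simp
  add_mem' {x y} hx hy w hw := by rw [map_add, hx w hw, hy w hw, smul_add]
  smul_mem' c x hx w hw := by rw [map_smul, hx w hw, smul_comm]

variable {ρ}

theorem mem_Mw {e a : V} {v : M} : v ∈ H.Mw ρ e a ↔
    ∀ w, polar Q e w = 0 → ρ (H.E e w) v = ψ F (polar Q a w) • v := Iff.rfl

theorem map_Mw (g : Gp Q) {e a : V} {v : M} (hv : v ∈ H.Mw ρ e a) :
    ρ g v ∈ H.Mw ρ (g.1.1 e) (g.1.1 a) := fun w hw => by
  obtain ⟨w, rfl⟩ := g.1.1.surjective w
  rw [OG.map_polar] at hw ⊢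
  rw [← End.mul_apply, ← map_mul, ← E_mul_comm, map_mul, End.mul_apply, hv w hw, map_smul]

theorem map_Mw' (g : Gp Q) {e a e' a' : V} (h1 : g.1.1 e = e') (h2 : g.1.1 a = a') {v : M}
    (hv : v ∈ H.Mw ρ e a) : ρ g v ∈ H.Mw ρ e' a' := h1 ▸ h2 ▸ H.map_Mw g hv

theorem Mw_congr {e a b : V} (h : ∀ w, polar Q e w = 0 → polar Q a w = polar Q b w) :
    H.Mw ρ e a = H.Mw ρ e b := by
  ext v; exact forall₂_congr fun w hw => by rw [h w hw]

theorem Mw_add_smul (e a : V) (s : F) : H.Mw ρ e (a + s • e) = H.Mw ρ e a :=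
  H.Mw_congr fun w hw => by simp [hw]

theorem Mw_smul {e : V} (he : Q e = 0) (a : V) {t : F} (ht : t ≠ 0) :
    H.Mw ρ (t • e) (t • a) = H.Mw ρ e a := by
  ext v
  refine ⟨fun h w hw => ?_, fun h w hw => ?_⟩
  · have := h (t⁻¹ • w) (by simp [hw])
    rw [H.E_smul_left he (by simp [hw])] at this
    simpa [smul_smul, ht, ← mul_assoc] using this
  · have hw' : polar Q e w = 0 := by simpa [ht] using hw
    rw [H.E_smul_left he hw', h _ (by simp [hw'])]; simp

theorem finrank_Mw_eq {e a e' a' : V} (he0 : e ≠ 0) (he0' : e' ≠ 0) (he : Q e = 0)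
    (he' : Q e' = 0) (ha : a ∉ span F {e}) (ha' : a' ∉ span F {e'}) (hea : polar Q e a = 0)
    (hea' : polar Q e' a' = 0) {t : F} (ht : t ≠ 0) (h : Q a' = t ^ 2 * Q a) :
    finrank ℂ (H.Mw ρ e' a') = finrank ℂ (H.Mw ρ e a) := by
  rw [← H.Mw_smul he a ht]
  obtain ⟨g, h1, h2⟩ := witt_pair H.nd H.h7 (smul_ne_zero ht he0) he0' (a := t • a) (fun h' => ha (by
    rw [span_singleton_smul_eq ht.isUnit] at h'
    simpa [ht] using smul_mem _ t⁻¹ h')) ha' (by rw [q_smul, he, he', mul_zero])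
    (by rw [q_smul, h]) (by simp [hea, hea'])
  refine le_antisymm (finrank_le_of_map (ρ := ρ) g⁻¹ fun v hv => H.map_Mw' _ ?_ ?_ hv)
    (finrank_le_of_map (ρ := ρ) g fun v hv => H.map_Mw' _ h1 h2 hv)
  · rw [← h1]; exact OG.inv_apply_self _ _
  · rw [← h2]; exact OG.inv_apply_self _ _

theorem orth (hu : ∀ g u v, ⟪ρ g u, ρ g v⟫_ℂ = ⟪u, v⟫_ℂ) {e a b w : V} (hw : polar Q e w = 0)
    (h : ψ F (polar Q a w) ≠ ψ F (polar Q b w)) {u v : M} (h1 : u ∈ H.Mw ρ e a)
    (h2 : v ∈ H.Mw ρ e b) : ⟪u, v⟫_ℂ = 0 := by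
  have := hu (H.E e w) u v
  rw [h1 w hw, h2 w hw, inner_smul_left, inner_smul_right, ← mul_assoc] at this
  by_contra h0
  apply h
  have h3 := (mul_eq_right₀ h0).1 this
  have h4 := conj_ψ_mul (polar Q a w)
  rw [← h4] at h3
  exact (mul_left_cancel₀ (by simpa using ψ_ne_zero' _) h3).symm

section hyp
variable {e f : V} (he : Q e = 0) (hf : Q f = 0) (hef : polar Q e f = 1)

omit H in
/-- The characters of the complement. -/
noncomputable def chr (a : Wp Q e f) : AddChar (Wp Q e f) ℂ where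
  toFun w := ψ F (polar Q (a : V) w)
  map_zero_eq_one' := by simp
  map_add_eq_mul' u v := by rw [Submodule.coe_add, polar_add_right, ψ_add]

omit H in
theorem chr_apply (a w : Wp Q e f) : chr a w = ψ F (polar Q (a : V) w) := rfl

include he hf hef

theorem eq_of_polar {a b : Wp Q e f} (h : ∀ w : Wp Q e f, ψ F (polar Q (a : V) w) =
    ψ F (polar Q (b : V) w)) : a = b := by
  rw [← sub_eq_zero]
  refine H.nd.nd_perp_hyp he hf hef _ fun w => ?_
  change polar Q ((a : V) - b) w = 0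
  rw [polar_sub_left, sub_eq_zero]
  exact eq_of_ψ fun c => by simpa [mul_comm] using h (c • w)

theorem chr_bij : Function.Bijective (chr : Wp Q e f → _) := by
  rw [Fintype.bijective_iff_injective_and_card]
  exact ⟨fun a b h => H.eq_of_polar he hf hef fun w => DFunLike.congr_fun h w,
    AddChar.card_eq.symm⟩

omit hf hef in
theorem x_add (a b : Wp Q e f) : H.E e (a + b : Wp Q e f) = H.E e a * H.E e b :=
  (H.E_mul he (Wp_left a) (Wp_left b)).symm

theorem mem_of_Wp {a : V} (ha : polar Q e a = 0) {v : M}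
    (h : ∀ w : Wp Q e f, ρ (H.E e w) v = ψ F (polar Q a w) • v) : v ∈ H.Mw ρ e a := fun w hw => by
  have := h ⟨_, hyp_proj_mem he hf hef w⟩
  simp only [hw, zero_smul, sub_zero] at this
  rw [sub_eq_add_neg, ← neg_smul, H.E_add_smul he hw] at this
  simpa [polar_comm Q a e, ha] using this

theorem Wt_eq (a : Wp Q e f) : Wt ρ (fun w : Wp Q e f => H.E e w) (chr a) = H.Mw ρ e a := by
  ext v
  rw [mem_Wt]
  exact ⟨fun h => H.mem_of_Wp he hf hef (Wp_left a) h, fun h w => h w (Wp_left w)⟩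

omit he hf hef in
/-- The projection to a weight space. -/
noncomputable def Pw (ρ : Representation ℂ (Gp Q) M) (e f : V) (a : Wp Q e f) : End ℂ M :=
  P ρ (fun w : Wp Q e f => H.E e w) (chr a)

theorem Pw_mem (a : Wp Q e f) (v : M) : H.Pw ρ e f a v ∈ H.Mw ρ e a := by
  rw [← H.Wt_eq he hf hef a]
  exact P_mem (x := fun w : Wp Q e f => H.E e w) (H.x_add he) _ v

theorem sum_Pw (v : M) : ∑ a, H.Pw ρ e f a v = v := by
  have := LinearMap.congr_fun (sum_P (ρ := ρ) (x := fun w : Wp Q e f => H.E e w) (H.x_add he)) v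
  rw [← (H.chr_bij he hf hef).sum_comp, LinearMap.sum_apply] at this
  exact this

theorem Pw_self {a : Wp Q e f} {v : M} (hv : v ∈ H.Mw ρ e a) : H.Pw ρ e f a v = v := by
  classical
  rw [← H.Wt_eq he hf hef] at hv
  rw [Pw, P_apply hv, if_pos rfl]

theorem Pw_ne {a b : Wp Q e f} (h : a ≠ b) {v : M} (hv : v ∈ H.Mw ρ e b) :
    H.Pw ρ e f a v = 0 := by
  classical
  rw [← H.Wt_eq he hf hef] at hv
  rw [Pw, P_apply hv, if_neg fun h' => h ((H.chr_bij he hf hef).1 h')]

theorem finrank_sum : finrank ℂ M = ∑ a : Wp Q e f, finrank ℂ (H.Mw ρ e a) := by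
  rw [finrank_eq_sum (ρ := ρ) (x := fun w : Wp Q e f => H.E e w) (H.x_add he),
    ← (H.chr_bij he hf hef).sum_comp]
  exact Finset.sum_congr rfl fun a _ => by rw [H.Wt_eq he hf hef]

theorem Pw_map {g : Gp Q} (h1 : g.1.1 e = e) {a b : Wp Q e f} {s : F}
    (h : g.1.1 a = b + s • e) (v : M) : ρ g (H.Pw ρ e f a v) = H.Pw ρ e f b (ρ g v) := by
  conv_rhs => rw [← H.sum_Pw (ρ := ρ) he hf hef v]
  rw [map_sum, map_sum, Finset.sum_eq_single a (fun c _ hc => ?_) (by simp)]
  · refine (H.Pw_self he hf hef ?_).symm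
    rw [← H.Mw_add_smul e b s]
    exact H.map_Mw' g h1 h (H.Pw_mem he hf hef a v)
  · have h2 : polar Q e (g.1.1 c) = 0 := by
      have := OG.map_polar g.1 e c
      rwa [h1, Wp_left] at this
    refine H.Pw_ne he hf hef (b := ⟨_, hyp_proj_mem he hf hef (g.1.1 c)⟩) (fun h3 => hc ?_) ?_
    · have h4 : g.1.1 (a - c) = (s - polar Q f (g.1.1 c)) • e := by
        have := congrArg Subtype.val h3
        simp only [h2, zero_smul, sub_zero] at this
        rw [map_sub, h, this]; module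
      have h5 : (a - c : V) = (s - polar Q f (g.1.1 c)) • e :=
        g.1.1.injective (by rw [h4, map_smul, h1])
      have h6 := congrArg (polar Q f) h5
      rw [polar_sub_right, Wp_right, Wp_right, p_smul_right, polar_comm Q f e, hef] at h6
      rw [show s - polar Q f (g.1.1 c) = 0 by simpa using h6.symm, zero_smul, sub_eq_zero] at h5
      exact Subtype.ext h5.symm
    · simp only [h2, zero_smul, sub_zero]
      rw [sub_eq_add_neg, ← neg_smul, H.Mw_add_smul]
      exact H.map_Mw' g h1 rfl (H.Pw_mem he hf hef c v)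

/-- a component vanishes if the vector is fixed by an element moving the component -/
theorem Pw_eq_zero {a : Wp Q e f} {w : V} (hw : polar Q e w = 0) (h : ψ F (polar Q (a : V) w) ≠ 1)
    {v : M} (hv : ρ (H.E e w) v = v) : H.Pw ρ e f a v = 0 := by
  have h0 : (H.E e w).1.1 a = a + polar Q w a • e := by
    rw [H.E_apply he hw, Wp_left a, mul_zero, sub_zero, zero_smul, sub_zero]
  have h1 := H.Pw_map (ρ := ρ) he hf hef (H.E_left he hw) h0 v
  rw [hv, H.Pw_mem he hf hef a v w hw] at h1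
  have h2 : (ψ F (polar Q (a : V) w) - 1) • H.Pw ρ e f a v = 0 := by
    rw [sub_smul, h1, one_smul, sub_self]
  exact (smul_eq_zero.1 h2).resolve_left (sub_ne_zero.2 h)

variable (hu : ∀ g u v, ⟪ρ g u, ρ g v⟫_ℂ = ⟪u, v⟫_ℂ)
include hu

theorem orth' {a b : Wp Q e f} (h : a ≠ b) {u v : M} (h1 : u ∈ H.Mw ρ e a)
    (h2 : v ∈ H.Mw ρ e b) : ⟪u, v⟫_ℂ = 0 := by
  obtain ⟨w, hw⟩ : ∃ w : Wp Q e f, ψ F (polar Q (a : V) w) ≠ ψ F (polar Q (b : V) w) := by
    by_contra hc; push Not at hc; exact h (H.eq_of_polar he hf hef hc)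
  exact H.orth hu (Wp_left w) hw h1 h2

theorem inner_Pw (a : Wp Q e f) (y : M) {v : M} (hv : v ∈ H.Mw ρ e a) :
    ⟪y, v⟫_ℂ = ⟪H.Pw ρ e f a y, v⟫_ℂ := by
  conv_lhs => rw [← H.sum_Pw (ρ := ρ) he hf hef y]
  rw [sum_inner, Finset.sum_eq_single a
    (fun c _ hc => H.orth' he hf hef hu hc (H.Pw_mem he hf hef c y) hv) (by simp)]

theorem inner_E (y : M) {w : V} (hw : polar Q e w = 0) : ⟪y, ρ (H.E e w) y⟫_ℂ =
    ∑ a : Wp Q e f, ψ F (polar Q (a : V) w) * (‖H.Pw ρ e f a y‖ ^ 2 : ℝ) := by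
  conv_lhs => rw [← congrArg (ρ (H.E e w)) (H.sum_Pw (ρ := ρ) he hf hef y)]
  rw [map_sum, inner_sum]
  refine Finset.sum_congr rfl fun a _ => ?_
  rw [H.Pw_mem he hf hef a y w hw, inner_smul_right, H.inner_Pw he hf hef hu a y
    (H.Pw_mem he hf hef a y), inner_self_eq_norm_sq_to_K]
  simp

theorem norm_sum (S : Finset (Wp Q e f)) (y : M) :
    ‖∑ a ∈ S, H.Pw ρ e f a y‖ ^ 2 = ∑ a ∈ S, ‖H.Pw ρ e f a y‖ ^ 2 := by
  have : (⟪∑ a ∈ S, H.Pw ρ e f a y, ∑ a ∈ S, H.Pw ρ e f a y⟫_ℂ) =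
      ∑ a ∈ S, (‖H.Pw ρ e f a y‖ ^ 2 : ℝ) := by
    rw [sum_inner, Complex.ofReal_sum]
    refine Finset.sum_congr rfl fun a ha => ?_
    rw [inner_sum, Finset.sum_eq_single a (fun c _ hc => H.orth' he hf hef hu hc.symm
      (H.Pw_mem he hf hef a y) (H.Pw_mem he hf hef c y)) (fun h => (h ha).elim),
      inner_self_eq_norm_sq_to_K]
    simp
  rw [inner_self_eq_norm_sq_to_K] at this
  exact Complex.ofReal_injective (by rw [← this]; simp)

end hyp

end Big

theorem norm_map {G M : Type*} [Group G] [NormedAddCommGroup M] [InnerProductSpace ℂ M]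
    {ρ : Representation ℂ G M} (hu : ∀ g u v, ⟪ρ g u, ρ g v⟫_ℂ = ⟪u, v⟫_ℂ) (g : G) (v : M) :
    ‖ρ g v‖ = ‖v‖ := by
  have := hu g v v
  rw [inner_self_eq_norm_sq_to_K, inner_self_eq_norm_sq_to_K] at this
  have h2 : ‖ρ g v‖ ^ 2 = ‖v‖ ^ 2 := by exact_mod_cast this
  exact (pow_left_inj₀ (norm_nonneg _) (norm_nonneg _) two_ne_zero).1 h2

end Cfsg.Agent.ULT.OD
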