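import Mathlib
import Cfsg.Agent.ULT.OD2

/-!
# Weight spaces of dimension one
-/

set_option autoImplicit false
set_option backward.isDefEq.respectTransparency false
set_option linter.unusedSectionVars false

namespace Cfsg.Agent.ULT.OD

open Module QuadraticMap Cfsg.Agent.Orth Submodule Cfsg.Agent.Classical.LS
open scoped InnerProductSpace

variable {F V : Type*} [Field F] [Fintype F] [AddCommGroup V] [Module F V] [FiniteDimensional F V]
  [Finite V] {Q : QuadraticForm F V}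

theorem triv_of_perfect {G Γ M : Type*} [Group G] [Group Γ] [AddCommGroup M] [Module ℂ M]
    [FiniteDimensional ℂ M] {ρ : Representation ℂ G M} (hΓ : commutator Γ = ⊤) (θ : Γ →* G)
    {L : Submodule ℂ M} (hL : finrank ℂ L ≤ 1) (hst : ∀ γ, ∀ v ∈ L, ρ (θ γ) v ∈ L) (γ : Γ) :
    ∀ v ∈ L, ρ (θ γ) v = v := by
  let K : Subgroup Γ :=
    { carrier := {γ | ∀ v ∈ L, ρ (θ γ) v = v}
      one_mem' := fun v _ => by simp
      mul_mem' := fun {a b} ha hb v hv => by rw [map_mul, map_mul, End.mul_apply, hb v hv, ha v hv]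
      inv_mem' := fun {a} ha v hv => by
        nth_rw 1 [← ha v hv]
        rw [← End.mul_apply, ← map_mul, ← map_mul, inv_mul_cancel, map_one, map_one]; rfl }
  have : commutator Γ ≤ K := Subgroup.commutator_le.2 fun a _ b _ v hv =>
    fix_of_comm hL (hst a⁻¹) (hst b⁻¹) (by
      rw [← map_mul, ← map_mul, ← map_mul, commutatorElement_def]; congr 1; group) (hst _) hv
  exact this (hΓ ▸ Subgroup.mem_top γ)

theorem exists_ψ_ne_one : ∃ c : F, ψ F c ≠ 1 := by
  simpa using exists_ψ_ne (F := F) one_ne_zero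

theorem sum_ψ (c : F) [Decidable (c = 0)] :
    ∑ s : F, ψ F (s * c) = if c = 0 then (Fintype.card F : ℂ) else 0 := by
  classical
  have := AddChar.sum_mulShift c (ψ_prim (F := F))
  rw [this]; split_ifs <;> simp

namespace Big
variable (H : Big Q) {M : Type*} [NormedAddCommGroup M] [InnerProductSpace ℂ M]
  [FiniteDimensional ℂ M] {ρ : Representation ℂ (Gp Q) M}
include H

theorem fixE (U : Submodule F V) (hU : 2 * finrank F U + 3 ≤ finrank F V) {x : V} (hx : Q x = 0)
    (hxU : x ∈ U) (hxp : x ∈ perp Q U) {L : Submodule ℂ M} (hL : finrank ℂ L ≤ 1)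
    (hst : ∀ g : Gp Q, (∀ u ∈ U, g.1.1 u = u) → ∀ v ∈ L, ρ g v ∈ L) {w : V} (hw : w ∈ perp Q U) :
    ∀ v ∈ L, ρ (H.E x w) v = v := by
  have st : ∀ {s y}, Q s = 0 → polar Q s y = 0 → s ∈ perp Q U → y ∈ perp Q U →
      ∀ v ∈ L, ρ (H.E s y) v ∈ L := fun hs hsy h1 h2 =>
    hst _ fun u hu => H.E_fix hs hsy (mem_perp'.1 h1 u hu) (mem_perp'.1 h2 u hu)
  have h1 : ∀ s ∈ perp Q U, Q s = 0 → ∀ v ∈ L, ρ (H.E x s) v = v := fun s hs hs0 v hv => by
    obtain ⟨y, w, hy, hw, hyw⟩ := exists_polar_one_perp H.nd (U ⊔ span F {s}) (by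
      have := Submodule.finrank_add_le_finrank_add_finrank U (span F {s})
      have := finrank_span_one_le (F := F) s
      omega)
    rw [perp_sup, Submodule.mem_inf, mem_perp_singleton] at hy hw
    have hxs := hs x hxU
    have e1 : (H.E s y).1.1 x = x := H.E_fix hs0 hy.2 (mem_perp'.1 hs x hxU) (mem_perp'.1 hy.1 x hxU)
    have e2 : (H.E s y).1.1 w = w + s := by
      rw [H.E_apply hs0 hy.2, hw.2, hyw]; simp
    refine fix_of_comm hL (st hs0 hy.2 hs hy.1) (st hx (hw.1 x hxU) hxp hw.1) ?_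
      (st hx hxs hxp hs) hv
    rw [H.E_mul_comm, e1, e2, mul_assoc, H.E_mul_comm (H.E s y) x s, e1, H.E_left hs0 hy.2,
      ← mul_assoc, H.E_mul hx (hw.1 x hxU) hxs]
  have hadd : ∀ a ∈ perp Q U, ∀ b ∈ perp Q U, (∀ v ∈ L, ρ (H.E x a) v = v) →
      (∀ v ∈ L, ρ (H.E x b) v = v) → ∀ v ∈ L, ρ (H.E x (a + b)) v = v :=
    fun a ha b hb h1 h2 v hv => by
      rw [← H.E_mul hx (ha x hxU) (hb x hxU), map_mul, End.mul_apply, h2 v hv, h1 v hv]
  obtain ⟨s, s', hs, hs', hss, k1, k2⟩ := exists_hyp_perp H.nd U U inf_le_left (by omega)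
  have key : ∀ w ∈ perp Q U, polar Q s w ≠ 0 → ∀ v ∈ L, ρ (H.E x w) v = v := fun w hw h => by
    have := hadd (w - (Q w / polar Q s w) • s) (sub_mem hw (smul_mem _ _ k1))
      ((Q w / polar Q s w) • s) (smul_mem _ _ k1) (h1 _ (sub_mem hw (smul_mem _ _ k1)) (by
        rw [q_sub, q_smul, p_smul_right, hs, polar_comm Q w s]; field_simp; ring))
      (h1 _ (smul_mem _ _ k1) (by rw [q_smul, hs, mul_zero]))
    rwa [sub_add_cancel] at this
  by_cases h : polar Q s w = 0
  · have := hadd (w + s') (add_mem hw k2) (-s') (neg_mem k2)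
      (key _ (add_mem hw k2) (by rw [polar_add_right, h, hss]; simp))
      (h1 _ (neg_mem k2) (by simpa using hs'))
    rwa [add_neg_cancel_right] at this
  · exact key w hw h

theorem fixR {e a w : V} (ha : Q a = 0) (hea : polar Q e a = 0)
    (hL : finrank ℂ (H.Mw ρ e a) ≤ 1) (h1 : polar Q e w = 0) (h2 : polar Q a w = 0) :
    ∀ v ∈ H.Mw ρ e a, ρ (H.E a w) v = v :=
  H.fixE (span F {e, a}) (by have := finrank_span_pair_le (F := F) e a; have := H.h7; omega) ha
    (subset_span (by simp)) (mem_perp_pair.2 ⟨hea, by rw [p_self, ha, mul_zero]⟩) hL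
    (fun g hg v hv => H.map_Mw' g (hg e (subset_span (by simp))) (hg a (subset_span (by simp))) hv)
    (mem_perp_pair.2 ⟨h1, h2⟩)

theorem E_trans {a y y' : V} (ha : Q a = 0) (hy : Q y = 0) (hy' : Q y' = 0) (h : polar Q a y = 1)
    (h' : polar Q a y' = 1) : (H.E a (y - y')).1.1 y = y' := by
  rw [H.E_apply ha (by simp [h, h']), h, q_sub, polar_sub_left, p_self, hy, hy', polar_comm Q y' y]
  simp

variable {e f : V} (he : Q e = 0) (hf : Q f = 0) (hef : polar Q e f = 1)
include he hf hef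

theorem ne_zero_left : e ≠ 0 := by rintro rfl; simp at hef

theorem notMem_span {a : Wp Q e f} (ha : a ≠ 0) : (a : V) ∉ span F {e} := fun h => by
  obtain ⟨c, hc⟩ := mem_span_singleton.1 h
  have := Wp_right a
  rw [← hc, p_smul_right, polar_comm, hef, mul_one] at this
  exact ha (Subtype.ext (by rw [← hc, this, zero_smul]; rfl))

theorem fix_stab (hq : 4 ≤ Fintype.card F ∨ (8 ≤ finrank F V ∧ ¬ IsPlus Q)) {a : Wp Q e f}
    (ha0 : a ≠ 0) (ha : Q a = 0) (hL : finrank ℂ (H.Mw ρ e a) ≤ 1) {g : Gp Q} (h1 : g.1.1 e = e)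
    (h2 : g.1.1 f = f) (h3 : g.1.1 a = a) : ∀ v ∈ H.Mw ρ e a, ρ g v = v := by
  have hW := H.nd.nd_perp_hyp he hf hef
  have hd : finrank F (Wp Q e f) + 2 = _ := H.nd.finrank_perp_hyp he hf hef
  have hd₀ := H.nd.finrank_perp_hyp he hf hef
  have h7 := H.h7
  have ha₀ : (Q.restrict (Wp Q e f)) a = 0 := ha
  obtain ⟨a', haa, ha'⟩ := hW.exists_hyp ha0 ha₀
  have hW' := hW.nd_perp_hyp ha₀ ha' haa
  have hd' := hW.finrank_perp_hyp ha₀ ha' haa
  have haa' : polar Q (a : V) a' = 1 := haa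
  have k1 : polar Q e (g.1.1 a') = 0 := by
    have := OG.map_polar g.1 e a'; rwa [h1, Wp_left] at this
  have k2 : polar Q f (g.1.1 a') = 0 := by
    have := OG.map_polar g.1 f a'; rwa [h2, Wp_right] at this
  have k3 : polar Q (a : V) (g.1.1 a') = 1 := by
    have := OG.map_polar g.1 a a'; rwa [h3, haa'] at this
  set w : V := g.1.1 a' - a' with hw
  have w1 : polar Q e w = 0 := by rw [hw, polar_sub_right, k1, Wp_left, sub_zero]
  have w2 : polar Q f w = 0 := by rw [hw, polar_sub_right, k2, Wp_right, sub_zero]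
  have w3 : polar Q (a : V) w = 0 := by rw [hw, polar_sub_right, k3, haa', sub_self]
  have ae : polar Q (a : V) e = 0 := by rw [polar_comm, Wp_left]
  have af : polar Q (a : V) f = 0 := by rw [polar_comm, Wp_right]
  obtain ⟨h₁, hh₁, e₁⟩ := exists_ext H.nd he hf hef H.good (Or.inl (good_of_five_le (by omega)))
    (H.E a w * g).2
    (by change (H.E a w).1.1 (g.1.1 e) = e; rw [h1, H.E_fix ha w3 ae (by rwa [polar_comm])])
    (by change (H.E a w).1.1 (g.1.1 f) = f; rw [h2, H.E_fix ha w3 af (by rwa [polar_comm])])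
  have hnp : ¬ IsPlus Q → ¬ IsPlus ((Q.restrict (Wp Q e f)).restrict
      (perp (Q.restrict (Wp Q e f)) (span F {a, a'}))) := fun h h' =>
    h (isPlus_of_perp H.nd he hf hef (isPlus_of_perp hW ha₀ ha' haa h'))
  obtain ⟨h₂, hh₂, e₂⟩ := exists_ext hW ha₀ ha' haa (good_of_five_le (by omega)) (by
      by_cases h2 : Fintype.card F = 2
      · refine Or.inr ⟨?_, hnp (hq.resolve_left (by omega)).2⟩
        have := FiniteField.cast_card_eq_zero F
        rwa [h2] at this
      · exact Or.inl (good_of_card (Or.inl h2))) hh₁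
    (Subtype.ext (by
      rw [← ext_coe H.nd he hf hef, e₁]
      change (H.E a w).1.1 (g.1.1 a) = a
      rw [h3, H.E_left ha w3]))
    (Subtype.ext (by
      rw [← ext_coe H.nd he hf hef, e₁]
      exact H.E_trans ha ((OG.map_Q _ _).trans ha') ha' k3 haa'))
  let θ : commutator (OG ((Q.restrict (Wp Q e f)).restrict
      (perp (Q.restrict (Wp Q e f)) (span F {a, a'})))) →* Gp Q :=
    (((ext H.nd he hf hef).comp (ext hW ha₀ ha' haa)).comp (Subgroup.subtype _)).codRestrict _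
      fun γ => ext_mem H.nd he hf hef (ext_mem hW ha₀ ha' haa γ.2)
  have key := triv_of_perfect (ρ := ρ) (perfect_omega hW' (by omega) (by
    rw [Nat.card_eq_fintype_card]
    exact hq.imp id fun h => ⟨by omega, hnp h.2⟩)) θ hL (fun γ v hv => H.map_Mw' _
      (ext_left H.nd he hf hef _) ((ext_coe H.nd he hf hef _ a).trans
        (congrArg Subtype.val (ext_left hW ha₀ ha' haa _))) hv) ⟨h₂, hh₂⟩
  have e₃ : θ ⟨h₂, hh₂⟩ = H.E a w * g := Subtype.ext (by rw [← e₁, ← e₂]; rfl)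
  intro v hv
  have := key v hv
  rw [e₃, map_mul, End.mul_apply, H.fixR ha (Wp_left a) hL w1 w3 _ (H.map_Mw' g h1 h3 hv)] at this
  exact this

open scoped _root_.Classical in
theorem avg_eq {w : V} (hw : polar Q e w = 0) (y : M) :
    y - (Fintype.card F : ℂ)⁻¹ • ∑ s : F, ρ (H.E e (s • w)) y =
      ∑ x ∈ Finset.univ.filter fun x : Wp Q e f => polar Q x.1 w ≠ 0, H.Pw ρ e f x y := by
  have hq : (Fintype.card F : ℂ) ≠ 0 := by simp
  have e1 : ∀ s : F, ρ (H.E e (s • w)) y =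
      ∑ x : Wp Q e f, ψ F (s * polar Q (x : V) w) • H.Pw ρ e f x y := fun s => by
    conv_lhs => rw [← H.sum_Pw (ρ := ρ) he hf hef y]
    rw [map_sum]
    exact Finset.sum_congr rfl fun x _ => by
      rw [H.Pw_mem he hf hef x y _ (by simp [hw]), p_smul_right]
  simp only [e1]
  rw [Finset.sum_comm, Finset.smul_sum, Finset.sum_filter]
  conv_lhs => rw [← congrArg (· - _) (H.sum_Pw (ρ := ρ) he hf hef y)]
  rw [← Finset.sum_sub_distrib]
  refine Finset.sum_congr rfl fun x _ => ?_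
  rw [← Finset.sum_smul, sum_ψ, smul_smul]
  by_cases h1 : polar Q x.1 w = 0 <;> simp [h1, hq]

/-- the components of a vector fixed by many Eichler transformations -/
theorem Pw_eq_zero' (U : Submodule F V) (heU : e ∈ U) {x : Wp Q e f} (hx : (x : V) ∉ U) {v : M}
    (hv : ∀ w ∈ perp Q U, ρ (H.E e w) v = v) : H.Pw ρ e f x v = 0 := by
  obtain ⟨w, h1, h2⟩ := H.nd.exists_orth_polar_one U hx
  obtain ⟨c, hc⟩ := exists_ψ_ne_one (F := F)
  exact H.Pw_eq_zero he hf hef (w := c • w) (by simp [h1 e heU]) (by simpa [h2])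
    (hv _ (smul_mem _ c h1))

end Big

end Cfsg.Agent.ULT.OD
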