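import Mathlib
import Cfsg.Agent.ULT.OD3

/-!
# Fixed vectors of the stabiliser of a singular vector
-/

set_option autoImplicit false
set_option backward.isDefEq.respectTransparency false
set_option linter.unusedSectionVars false

namespace Cfsg.Agent.ULT.OD

open Module QuadraticMap Cfsg.Agent.Orth Submodule Cfsg.Agent.Classical.LS
open scoped InnerProductSpace

variable {F V : Type*} [Field F] [Fintype F] [AddCommGroup V] [Module F V] [FiniteDimensional F V]
  [Finite V] {Q : QuadraticForm F V}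

namespace Big
variable (H : Big Q) {M : Type*} [NormedAddCommGroup M] [InnerProductSpace ℂ M]
  [FiniteDimensional ℂ M] {ρ : Representation ℂ (Gp Q) M}
  (hu : ∀ g u v, ⟪ρ g u, ρ g v⟫_ℂ = ⟪u, v⟫_ℂ)

/-- Only the singular characters occur, with multiplicity one. -/
structure Sg (ρ : Representation ℂ (Gp Q) M) : Prop where
  one : ∀ e a, Q e = 0 → e ≠ 0 → polar Q e a = 0 → Q a = 0 → a ∉ span F {e} →
    finrank ℂ (H.Mw ρ e a) = 1
  bot : ∀ e a, Q e = 0 → e ≠ 0 → polar Q e a = 0 → Q a ≠ 0 → H.Mw ρ e a = ⊥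

variable {e f : V} (he : Q e = 0) (hf : Q f = 0) (hef : polar Q e f = 1)
include H he hf hef

theorem Pw_bot (S : H.Sg ρ) {x : Wp Q e f} (hx : Q x ≠ 0) (y : M) : H.Pw ρ e f x y = 0 := by
  have := H.Pw_mem (ρ := ρ) he hf hef x y
  rwa [S.bot e x he (H.ne_zero_left he hf hef) (Wp_left x) hx] at this

include hu

theorem norm_Pw_eq {x a : Wp Q e f} (hx0 : x ≠ 0) (ha0 : a ≠ 0) (h : Q x = Q a) {y : M}
    (hy : ∀ g : Gp Q, g.1.1 e = e → g.1.1 f = f → ρ g y = y) :
    ‖H.Pw ρ e f x y‖ = ‖H.Pw ρ e f a y‖ := by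
  obtain ⟨g, h1, h2, h3⟩ := witt_triple H.nd H.h7 he hf hef (a := a) (by simpa using ha0)
    (Wp_left a) (Wp_right a) he hf hef (a' := x) (by simpa using hx0) (Wp_left x) (Wp_right x) h
  have := H.Pw_map (ρ := ρ) he hf hef h1 (a := a) (b := x) (s := 0) (by simpa using h3) y
  rw [hy g h1 h2] at this
  rw [← this, norm_map hu]

open scoped _root_.Classical in
theorem norm_sq_eq (S : H.Sg ρ) {a : Wp Q e f} (ha0 : a ≠ 0) (ha : Q a = 0) {y : M}
    (hy : ∀ g : Gp Q, g.1.1 e = e → g.1.1 f = f → ρ g y = y) (c : Wp Q e f → ℂ) :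
    ∑ x, c x * (‖H.Pw ρ e f x y‖ ^ 2 : ℝ) = c 0 * (‖H.Pw ρ e f 0 y‖ ^ 2 : ℝ) +
      (∑ x ∈ Finset.univ.filter fun x : Wp Q e f => x ≠ 0 ∧ Q x = 0, c x) *
        (‖H.Pw ρ e f a y‖ ^ 2 : ℝ) := by
  rw [← Finset.add_sum_erase _ _ (Finset.mem_univ 0), Finset.sum_mul]
  congr 1
  symm
  refine Finset.sum_subset_zero_on_sdiff (fun x hx => ?_) (fun x hx => ?_) fun x hx => ?_
  · simpa using (Finset.mem_filter.1 hx).2.1
  · have : Q x ≠ 0 := fun h => by simp [h] at hx
    simp [H.Pw_bot he hf hef S this]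
  · obtain ⟨h1, h2⟩ := (Finset.mem_filter.1 hx).2
    rw [H.norm_Pw_eq hu he hf hef h1 ha0 (h2.trans ha.symm) hy]

omit hu in
theorem exists_inv (hq : 4 ≤ Fintype.card F ∨ (8 ≤ finrank F V ∧ ¬ IsPlus Q)) (S : H.Sg ρ)
    {a : Wp Q e f} (ha0 : a ≠ 0) (ha : Q a = 0) :
    ∃ y, (∀ g : Gp Q, g.1.1 e = e → g.1.1 f = f → ρ g y = y) ∧ H.Pw ρ e f a y ≠ 0 := by
  classical
  have hL := S.one e a he (H.ne_zero_left he hf hef) (Wp_left a) ha (H.notMem_span he hf hef ha0)
  obtain ⟨v, hv, hv0⟩ := (Submodule.ne_bot_iff (H.Mw ρ e a)).1 fun h => by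
    rw [h, finrank_bot] at hL; exact zero_ne_one hL
  have := Fintype.ofFinite (Gp Q)
  let T : Finset (Gp Q) := {g | g.1.1 e = e ∧ g.1.1 f = f}
  refine ⟨∑ g ∈ T, ρ g v, fun g h1 h2 => ?_, ?_⟩
  · rw [map_sum]
    refine Finset.sum_bij (fun k _ => g * k) (fun k hk => ?_) (fun k _ k' _ h => mul_left_cancel h)
      (fun k hk => ⟨g⁻¹ * k, ?_, by simp⟩) fun k _ => by rw [map_mul]; rfl
    · simp only [T, Finset.mem_filter, Finset.mem_univ, true_and] at hk ⊢
      constructor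
      · change g.1.1 (k.1.1 e) = e; rw [hk.1, h1]
      · change g.1.1 (k.1.1 f) = f; rw [hk.2, h2]
    · simp only [T, Finset.mem_filter, Finset.mem_univ, true_and] at hk ⊢
      constructor
      · change (g.1⁻¹).1 (k.1.1 e) = e; rw [hk.1]; nth_rw 1 [← h1]; exact OG.inv_apply_self _ _
      · change (g.1⁻¹).1 (k.1.1 f) = f; rw [hk.2]; nth_rw 1 [← h2]; exact OG.inv_apply_self _ _
  · have h : H.Pw ρ e f a (∑ g ∈ T, ρ g v) =
        ((T.filter fun g : Gp Q => g.1.1 a = (a : V)).card : ℂ) • v := by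
      rw [map_sum, Finset.card_filter, Nat.cast_sum, Finset.sum_smul]
      refine Finset.sum_congr rfl fun g hg => ?_
      obtain ⟨h1, h2⟩ := (Finset.mem_filter.1 hg).2
      split_ifs with h3
      · rw [H.fix_stab he hf hef hq ha0 ha hL.le h1 h2 h3 v hv, H.Pw_self he hf hef hv]; simp
      · have k1 : polar Q e (g.1.1 a) = 0 := by
          have := OG.map_polar g.1 e a; rwa [h1, Wp_left] at this
        have k2 : polar Q f (g.1.1 a) = 0 := by
          have := OG.map_polar g.1 f a; rwa [h2, Wp_right] at this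
        rw [H.Pw_ne he hf hef (b := ⟨_, mem_perp_pair.2 ⟨k1, k2⟩⟩)
          (fun h => h3 (congrArg Subtype.val h).symm) (H.map_Mw' g h1 rfl hv)]; simp
    rw [h]
    refine smul_ne_zero (Nat.cast_ne_zero.2 (Finset.card_ne_zero.2 ⟨1, ?_⟩)) hv0
    simp [T]

omit hu in
theorem fix_comp (S : H.Sg ρ) {a a' : V} (ha : Q a = 0) (ha' : Q a' = 0) (haa : polar Q a a' = 1)
    (ae : polar Q a e = 0) (af : polar Q a f = 0) (ae' : polar Q a' e = 0) (af' : polar Q a' f = 0)
    {y : M} (hyf : ∀ g : Gp Q, g.1.1 e = e → g.1.1 f = f → ρ g y = y) {b : Wp Q a a'}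
    (hb1 : polar Q (b : V) f ≠ 0) {w : V} (hw1 : polar Q e w = 0) (hw2 : polar Q a w = 0) :
    ρ (H.E e w) (H.Pw ρ a a' b y) = H.Pw ρ a a' b y := by
  by_cases h0 : H.Pw ρ a a' b y = 0
  · rw [h0, map_zero]
  have hb2 : (b : V) ∈ span F {a, e, f} := by
    by_contra hn
    refine h0 (H.Pw_eq_zero' ha ha' haa _ (subset_span (by simp)) hn fun w hw => ?_)
    rw [mem_perp_span] at hw
    have w1 := hw a (by simp)
    exact hyf _ (H.E_fix ha w1 ae (by rw [polar_comm]; exact hw e (by simp)))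
      (H.E_fix ha w1 af (by rw [polar_comm]; exact hw f (by simp)))
  have hb3 : Q b = 0 := by
    by_contra hn; exact h0 (H.Pw_bot ha ha' haa S hn y)
  have hb0 : b ≠ 0 := by rintro rfl; simp at hb1
  have k1 := H.Pw_mem (ρ := ρ) ha ha' haa b y
  have k2 := S.one a b ha (H.ne_zero_left ha ha' haa) (Wp_left b) hb3 (H.notMem_span ha ha' haa hb0)
  have k3 := Wp_left b
  have k4 := Wp_right b
  generalize H.Pw ρ a a' b y = v at *
  generalize (b : V) = b' at *
  obtain ⟨γ, z, hz, e3⟩ := mem_span_insert.1 hb2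
  obtain ⟨α, β, rfl⟩ := mem_span_pair.1 hz
  have hγ : γ = 0 := by simpa [e3, polar_comm Q a' a, haa, ae', af'] using k4
  rw [hγ, zero_smul, zero_add] at e3
  have hα : α ≠ 0 := by simpa [e3, hef, p_self, hf] using hb1
  have hβ : β = 0 := by simpa [e3, q_add, q_smul, he, hf, hef, hα] using hb3
  rw [hβ, zero_smul, add_zero] at e3
  have := H.fixR (ρ := ρ) (e := a) (a := b') (w := α⁻¹ • w) hb3 k3 k2.le (by simp [hw2])
    (by simp [e3, hw1]) _ k1
  rwa [e3, H.E_smul_left he (by simp [hw1]), smul_smul, mul_inv_cancel₀ hα, one_smul] at this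

theorem exists_fixed (hq : 4 ≤ Fintype.card F ∨ (8 ≤ finrank F V ∧ ¬ IsPlus Q)) (S : H.Sg ρ) :
    ∃ z, z ≠ 0 ∧ z ∈ H.Mw ρ e 0 ∧ ∀ g : Gp Q, g.1.1 e = e → g.1.1 f = f → ρ g z = z := by
  classical
  by_contra hc
  have hz : ∀ y, (∀ g : Gp Q, g.1.1 e = e → g.1.1 f = f → ρ g y = y) → H.Pw ρ e f 0 y = 0 := by
    intro y hy
    by_contra h0
    refine hc ⟨_, h0, H.Pw_mem he hf hef 0 y, fun g h1 h2 => ?_⟩
    rw [H.Pw_map he hf hef h1 (b := 0) (s := 0) (by simp), hy g h1 h2]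
  have hW := H.nd.nd_perp_hyp he hf hef
  have hd : finrank F (Wp Q e f) + 2 = _ := H.nd.finrank_perp_hyp he hf hef
  have h7 := H.h7
  have he0 := H.ne_zero_left he hf hef
  obtain ⟨a, ha0, ha₀⟩ := exists_singular (Q.restrict (Wp Q e f)) (by omega)
  have ha : Q a = 0 := ha₀
  obtain ⟨a', haa₀, ha'₀⟩ := hW.exists_hyp ha0 ha₀
  have ha' : Q a' = 0 := ha'₀
  have haa : polar Q (a : V) a' = 1 := haa₀
  have ae : polar Q (a : V) e = 0 := by rw [polar_comm, Wp_left]
  have af : polar Q (a : V) f = 0 := by rw [polar_comm, Wp_right]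
  have fe : polar Q f e = 1 := by rw [polar_comm, hef]
  have ha1 : (a : V) ≠ 0 := by simpa using ha0
  obtain ⟨y, hyf, hya⟩ := H.exists_inv he hf hef hq S ha0 ha
  obtain ⟨n, n1, n2, n3⟩ := witt_triple H.nd H.h7 he hf hef ha1 (Wp_left a) (Wp_right a) hf he fe
    ha1 (Wp_right a) (Wp_left a) rfl
  have hy' : ∀ g : Gp Q, g.1.1 e = e → g.1.1 f = f → ρ g (ρ n y) = ρ n y := fun g h1 h2 => by
    have := hyf (n⁻¹ * g * n) (by
      change (n.1⁻¹).1 (g.1.1 (n.1.1 e)) = e; rw [n1, h2, ← n1]; exact OG.inv_apply_self _ _) (by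
      change (n.1⁻¹).1 (g.1.1 (n.1.1 f)) = f; rw [n2, h1, ← n2]; exact OG.inv_apply_self _ _)
    conv_rhs => rw [← this]
    rw [← End.mul_apply, ← End.mul_apply, ← map_mul, ← map_mul]; congr 2; group
  -- equal norms
  have hN : ∀ y, (∀ g : Gp Q, g.1.1 e = e → g.1.1 f = f → ρ g y = y) → ‖y‖ ^ 2 =
      ((Finset.univ.filter fun x : Wp Q e f => x ≠ 0 ∧ Q x = 0).card : ℝ) *
        ‖H.Pw ρ e f a y‖ ^ 2 := fun y hy => by
    have h1 := H.norm_sq_eq hu he hf hef S ha0 ha hy (fun _ => 1)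
    have h2 := H.norm_sum he hf hef hu Finset.univ y
    rw [H.sum_Pw he hf hef] at h2
    rw [hz y hy] at h1
    apply Complex.ofReal_injective
    rw [h2]; simpa using h1
  have hΛ : ‖H.Pw ρ e f a (ρ n y)‖ ^ 2 = ‖H.Pw ρ e f a y‖ ^ 2 := by
    have h1 := hN _ hy'
    rw [norm_map hu, hN y hyf] at h1
    refine (mul_left_cancel₀ (Nat.cast_ne_zero.2 (Finset.card_ne_zero.2 ⟨a, ?_⟩)) h1).symm
    simp [ha0, ha]
  set Λ := ‖H.Pw ρ e f a y‖ ^ 2 with hΛ'
  have hΛ0 : 0 < Λ := by positivity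
  set t : M := y - (Fintype.card F : ℂ)⁻¹ • ∑ s : F, ρ (H.E a (s • f)) y with ht
  -- lower bound
  have low : Fintype.card F * Λ ≤ ‖t‖ ^ 2 := by
    have e1 : ρ n t = ρ n y - (Fintype.card F : ℂ)⁻¹ • ∑ s : F, ρ (H.E e (s • -(a : V))) (ρ n y) := by
      rw [ht, map_sub, map_smul, map_sum]
      congr 2
      refine Finset.sum_congr rfl fun s _ => ?_
      rw [← End.mul_apply, ← map_mul, H.E_mul_comm, n3, map_smul, n2, map_mul, End.mul_apply,
        H.E_swap (u := s • e) (by rw [q_smul, he, mul_zero]) ha (by simp [Wp_left a]),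
        H.E_smul_left he (by simp [Wp_left a])]
    rw [← norm_map hu n, e1, H.avg_eq he hf hef (by simp [Wp_left a]), H.norm_sum he hf hef hu]
    have h1 := hW.card_hyp_partner ha0 ha₀ 0
    let S₁ : Finset (Wp Q e f) := {x | Q x = 0 ∧ polar Q (a : V) x = 1}
    have h2 : Fintype.card F ≤ S₁.card := by
      rw [← Nat.card_eq_finsetCard, ← Nat.card_eq_fintype_card]
      refine le_trans (Nat.le_self_pow (n := finrank F (Wp Q e f) - 2) (by omega) _) (h1.symm.le.trans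
        (Nat.card_le_card_of_injective (fun x => ⟨x.1, by simpa [S₁] using x.2⟩)
          fun x y h => Subtype.ext (congrArg Subtype.val h :)))
    calc _ ≤ S₁.card * Λ := by gcongr
      _ = ∑ x ∈ S₁, ‖H.Pw ρ e f x (ρ n y)‖ ^ 2 := by
        rw [Finset.sum_congr rfl (g := fun _ => Λ) fun x hx => ?_]
        · simp
        · obtain ⟨h3, h4⟩ := (Finset.mem_filter.1 hx).2
          rw [H.norm_Pw_eq hu he hf hef (by rintro rfl; simp at h4) ha0 (h3.trans ha.symm) hy', hΛ]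
      _ ≤ _ := Finset.sum_le_sum_of_subset_of_nonneg (fun x hx => by
        simp [polar_comm Q x.1, (Finset.mem_filter.1 hx).2.2]) fun _ _ _ => by positivity
  -- upper bound
  have e2 := H.avg_eq (ρ := ρ) ha ha' haa af y
  rw [← ht] at e2
  have hfix : ∀ w ∈ perp Q (span F {e, (a : V)}), ρ (H.E e w) t = t := fun w hw => by
    rw [mem_perp_pair] at hw
    rw [e2, map_sum]
    exact Finset.sum_congr rfl fun b hb => H.fix_comp he hf hef S ha ha' haa ae af
      (by rw [polar_comm, Wp_left]) (by rw [polar_comm, Wp_right]) hyf (Finset.mem_filter.1 hb).2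
      hw.1 hw.2
  let S₂ : Finset (Wp Q e f) := (Finset.univ.erase (0 : F)).image fun s => s • a
  have h3 : ‖∑ x ∈ S₂, H.Pw ρ e f x y‖ ^ 2 ≤ (Fintype.card F - 1) * Λ := by
    rw [H.norm_sum he hf hef hu, Finset.sum_congr rfl (g := fun _ => Λ) fun x hx => ?_]
    · have : S₂.card ≤ Fintype.card F - 1 := Finset.card_image_le.trans (by simp)
      have h1 : 1 ≤ Fintype.card F := Fintype.card_pos
      rw [Finset.sum_const, nsmul_eq_mul]
      gcongr
      exact_mod_cast this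
    · obtain ⟨s, hs, rfl⟩ := Finset.mem_image.1 hx
      rw [H.norm_Pw_eq hu he hf hef (smul_ne_zero (Finset.ne_of_mem_erase hs) ha0) ha0
        (by rw [Submodule.coe_smul, q_smul, ha, mul_zero]) hyf]
  have h4 : ⟪t, y⟫_ℂ = ⟪t, ∑ x ∈ S₂, H.Pw ρ e f x y⟫_ℂ := by
    conv_lhs => rw [← H.sum_Pw (ρ := ρ) he hf hef y]
    rw [inner_sum, inner_sum]
    symm
    refine Finset.sum_subset (Finset.subset_univ _) fun x _ hx => ?_
    rcases eq_or_ne x 0 with rfl | hx0
    · rw [hz y hyf, inner_zero_right]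
    rw [H.inner_Pw he hf hef hu x t (H.Pw_mem he hf hef x y),
      H.Pw_eq_zero' he hf hef (span F {e, (a : V)}) (subset_span (by simp)) (fun h => hx ?_) hfix,
      inner_zero_left]
    obtain ⟨α, β, e3⟩ := mem_span_pair.1 h
    have hα : α = 0 := by
      have := Wp_right x
      rw [← e3] at this
      simpa [fe, Wp_right a] using this
    rw [hα, zero_smul, zero_add] at e3
    refine Finset.mem_image.2 ⟨β, Finset.mem_erase.2 ⟨?_, Finset.mem_univ _⟩, Subtype.ext e3⟩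
    rintro rfl
    exact hx0 (Subtype.ext (by rw [← e3]; simp))
  have h5 : ⟪y, t⟫_ℂ = (‖t‖ ^ 2 : ℝ) := by
    rw [e2, H.norm_sum ha ha' haa hu, inner_sum, Complex.ofReal_sum]
    refine Finset.sum_congr rfl fun b _ => ?_
    rw [H.inner_Pw ha ha' haa hu b y (H.Pw_mem ha ha' haa b y), inner_self_eq_norm_sq_to_K]; simp
  have h6 : ‖t‖ ^ 2 ≤ ‖t‖ * ‖∑ x ∈ S₂, H.Pw ρ e f x y‖ := by
    have := norm_inner_le_norm (𝕜 := ℂ) t (∑ x ∈ S₂, H.Pw ρ e f x y)
    rwa [← h4, norm_inner_symm, h5, Complex.norm_real, Real.norm_of_nonneg (by positivity)] at this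
  have h7 := norm_nonneg t
  have h8 := norm_nonneg (∑ x ∈ S₂, H.Pw ρ e f x y)
  generalize ‖t‖ = A at *
  generalize ‖∑ x ∈ S₂, H.Pw ρ e f x y‖ = B at *
  nlinarith [sq_nonneg (A - B)]

theorem exists_moved (h9 : 9 ≤ finrank F V) {c : F} (hc : c ≠ 0)
    (h0 : ∀ a : Wp Q e f, a ≠ 0 → Q a = 0 → H.Mw ρ e a = ⊥)
    (h1 : ∀ u a, Q u = 0 → u ≠ 0 → polar Q u a = 0 → Q a = c → finrank ℂ (H.Mw ρ u a) = 1) :
    ∃ g : Gp Q, g.1.1 e = e ∧ g.1.1 f = f ∧ ∃ y ∈ H.Mw ρ e 0, ρ g y ≠ y := by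
  classical
  have hd : finrank F (Wp Q e f) + 2 = _ := H.nd.finrank_perp_hyp he hf hef
  obtain ⟨u, hu0, hu₀⟩ := exists_singular (Q.restrict (Wp Q e f)) (by omega)
  have hu1 : Q u = 0 := hu₀
  have ue : polar Q (u : V) e = 0 := by rw [polar_comm, Wp_left]
  have uf : polar Q (u : V) f = 0 := by rw [polar_comm, Wp_right]
  obtain ⟨s, s', hs, hs', hss, k1, k2⟩ := exists_hyp_perp H.nd (span F {e, f, (u : V)}) _
    inf_le_left (by have := finrank_span_triple_le (F := F) e f u; omega)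
  rw [mem_perp_span] at k1 k2
  set a : V := s + c • s' with ha
  have qa : Q a = c := q_hyp_comb hs hs' hss c
  have oa : ∀ x ∈ ({e, f, (u : V)} : Set V), polar Q x a = 0 := fun x hx => by
    simp [ha, k1 x hx, k2 x hx]
  have hL := h1 u a hu1 (by simpa using hu0) (oa u (by simp)) qa
  obtain ⟨v, hv, hv0⟩ := (Submodule.ne_bot_iff (H.Mw ρ u a)).1 fun h => by
    rw [h, finrank_bot] at hL; exact zero_ne_one hL
  obtain ⟨t, ht⟩ := exists_ψ_ne_one (F := F)
  have w1 : polar Q (u : V) (t • s') = 0 := by simp [k2]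
  have g1 : (H.E u (t • s')).1.1 e = e := H.E_fix hu1 w1 ue (by simp [polar_comm Q s', k2])
  refine ⟨H.E u (t • s'), g1, H.E_fix hu1 w1 uf (by simp [polar_comm Q s', k2]),
    H.Pw ρ e f 0 v, H.Pw_mem he hf hef 0 v, ?_⟩
  rw [H.Pw_map he hf hef g1 (b := 0) (s := 0) (by simp), hv _ w1, map_smul]
  have e1 : polar Q a (t • s') = t := by simp [ha, hss, p_self, hs']
  rw [e1]
  intro h2
  have h3 : H.Pw ρ e f 0 v = 0 := by
    have : (ψ F t - 1) • H.Pw ρ e f 0 v = 0 := by rw [sub_smul, h2, one_smul, sub_self]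
    exact (smul_eq_zero.1 this).resolve_left (sub_ne_zero.2 ht)
  let X := perp Q (span F {e, f, (u : V)})
  have := Fintype.ofFinite X
  have hX : ∀ w : X, ∀ x ∈ ({e, f, (u : V)} : Set V), polar Q x w = 0 := fun w =>
    mem_perp_span.1 w.2
  have h4 : ∑ w : X, ⟪v, ρ (H.E e w) v⟫_ℂ = 0 := by
    simp only [fun w : X => H.inner_E he hf hef hu v (hX w e (by simp))]
    rw [Finset.sum_comm]
    refine Finset.sum_eq_zero fun x _ => ?_
    rw [← Finset.sum_mul]
    by_cases hx : (x : V) ∈ span F {e, f, (u : V)}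
    · suffices H.Pw ρ e f x v = 0 by simp [this]
      rcases eq_or_ne x 0 with rfl | hx0
      · exact h3
      obtain ⟨α, z, hz, e3⟩ := mem_span_insert.1 hx
      obtain ⟨β, γ, rfl⟩ := mem_span_pair.1 hz
      have hβ : β = 0 := by
        have := Wp_left x
        rw [e3] at this
        simpa [hef, p_self, he, Wp_left u] using this
      have hα : α = 0 := by
        have := Wp_right x
        rw [e3] at this
        simpa [polar_comm Q f e, hef, p_self, hf, Wp_right u] using this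
      have := H.Pw_mem (ρ := ρ) he hf hef x v
      rwa [h0 x hx0 (by simp [e3, hα, hβ, q_smul, hu1])] at this
    · obtain ⟨w, k3, k4⟩ := H.nd.exists_orth_polar_one _ hx
      let l : AddChar X ℂ :=
        { toFun := fun w => ψ F (polar Q (x : V) w)
          map_zero_eq_one' := by simp
          map_add_eq_mul' := fun u v => by rw [Submodule.coe_add, polar_add_right, ψ_add] }
      have : l ≠ 0 := fun h => ht (by
        simpa [l, k4] using DFunLike.congr_fun h ⟨t • w, smul_mem _ t k3⟩)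
      rw [show ∑ w : X, ψ F (polar Q (x : V) w) = 0 from AddChar.sum_eq_zero_iff_ne_zero.2 this,
        zero_mul]
  have h5 : ∀ w : X, ⟪v, ρ (H.E e w) v⟫_ℂ = if polar Q (w : V) a = 0 then (‖v‖ ^ 2 : ℝ) else 0 := by
    intro w
    have w2 := hX w e (by simp)
    split_ifs with h
    · rw [H.fixE (span F {e, (u : V), a}) (by
          have := finrank_span_triple_le (F := F) e u a; omega) he (subset_span (by simp))
        (mem_perp_span.2 (by simp [p_self, he, ue, polar_comm Q a, oa])) hL.le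
        (fun g hg v hv => H.map_Mw' g (hg u (subset_span (by simp))) (hg a (subset_span (by simp))) hv)
        (mem_perp_span.2 (by simp [w2, hX w u, polar_comm Q a, h])) v hv, inner_self_eq_norm_sq_to_K]
      simp
    · have k := H.map_Mw' (H.E e w) (H.E_fix he w2 (Wp_left u) (by rw [polar_comm]; simp [hX w u]))
        (H.E_apply he w2 a) hv
      refine H.orth hu (w := (t / polar Q (w : V) a) • f) (by simp [uf]) ?_ hv k
      simpa [polar_comm Q a, oa, hef, h] using ht.symm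
  simp only [h5] at h4
  rw [← Complex.ofReal_sum, Complex.ofReal_eq_zero] at h4
  have h6 := (Finset.sum_eq_zero_iff_of_nonneg (fun w _ => by split_ifs <;> positivity)).1 h4 0
    (Finset.mem_univ _)
  simp [hv0] at h6

end Big

end Cfsg.Agent.ULT.OD
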