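import Mathlib
import Cfsg.Agent.ULT.OD4

/-!
# The Gram matrix of the orbit of a vector fixed by the stabiliser of a singular vector
-/

set_option autoImplicit false
set_option backward.isDefEq.respectTransparency false
set_option linter.unusedSectionVars false

namespace Cfsg.Agent.ULT.OD

open Module QuadraticMap Cfsg.Agent.Orth Submodule Cfsg.Agent.Classical.LS
open scoped InnerProductSpace

variable {F V : Type*} [Field F] [Fintype F] [AddCommGroup V] [Module F V] [FiniteDimensional F V]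
  [Finite V] {Q : QuadraticForm F V}

/-- The number of singular vectors with inner product one with a given vector. -/
noncomputable def Yn (Q : QuadraticForm F V) (w : V) : ℕ :=
  Nat.card {x : V // Q x = 0 ∧ polar Q w x = 1}

open scoped _root_.Classical in
theorem card_fiber [Fintype V] (w : V) {β : F} (hβ : β ≠ 0) :
    (Finset.univ.filter fun x : V => Q x = 0 ∧ polar Q w x = β).card = Yn Q w := by
  rw [Yn, Nat.subtype_card (Finset.univ.filter fun x : V => Q x = 0 ∧ polar Q w x = 1) (by simp)]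
  symm
  refine Finset.card_bij (fun x _ => β • x) (fun x hx => ?_)
    (fun x _ y _ h => smul_right_injective V hβ h) fun x hx => ⟨β⁻¹ • x, ?_, by simp [hβ]⟩
  · simp only [Finset.mem_filter, Finset.mem_univ, true_and] at hx ⊢
    simp [q_smul, hx.1, hx.2]
  · simp only [Finset.mem_filter, Finset.mem_univ, true_and] at hx ⊢
    simp [q_smul, hx.1, hx.2, hβ]

open scoped _root_.Classical in
theorem sum_fiber [Fintype V] (w : V) (T : Finset V)
    (hT : ∀ x, polar Q w x ≠ 0 → (x ∈ T ↔ Q x = 0)) (B : F → ℂ) :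
    ∑ x ∈ T, B (polar Q w x) = (T.filter fun x => polar Q w x = 0).card * B 0 +
      Yn Q w * ∑ β ∈ Finset.univ.erase 0, B β := by
  rw [← Finset.sum_fiberwise_of_maps_to (t := Finset.univ) (g := fun x => polar Q w x)
    (fun _ _ => Finset.mem_univ _), ← Finset.add_sum_erase _ _ (Finset.mem_univ 0), Finset.mul_sum]
  congr 1
  · rw [Finset.sum_congr rfl (g := fun _ => B 0) fun x hx => by rw [(Finset.mem_filter.1 hx).2]]
    simp
  · refine Finset.sum_congr rfl fun β hβ => ?_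
    have hβ := Finset.ne_of_mem_erase hβ
    rw [Finset.sum_congr rfl (g := fun _ => B β) fun x hx => by rw [(Finset.mem_filter.1 hx).2],
      Finset.sum_const, nsmul_eq_mul, ← card_fiber w hβ]
    congr 3
    ext x
    simp only [Finset.mem_filter, Finset.mem_univ, true_and, and_congr_left_iff]
    exact fun h => hT x (h ▸ hβ)

open scoped _root_.Classical in
theorem sum_sing_ψ [Fintype V] (w : V) (T : Finset V) (h : ∀ x, x ∈ T ↔ x ≠ 0 ∧ Q x = 0) :
    ∑ x ∈ T, ψ F (polar Q x w) = T.card - Fintype.card F * Yn Q w := by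
  have hT : ∀ x, polar Q w x ≠ 0 → (x ∈ T ↔ Q x = 0) := fun x hx => by
    have : x ≠ 0 := by rintro rfl; simp at hx
    simp [this, h]
  have h1 := sum_fiber w _ hT (ψ F)
  have h2 := sum_fiber w _ hT (fun _ => 1)
  have h3 := Finset.add_sum_erase _ (fun s : F => ψ F (s * 1)) (Finset.mem_univ 0)
  rw [sum_ψ, if_neg one_ne_zero] at h3
  simp only [mul_one, AddChar.map_zero_eq_one] at h1 h3
  simp only [Finset.sum_const, nsmul_eq_mul, mul_one, Finset.card_erase_of_mem (Finset.mem_univ _),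
    Finset.card_univ, Nat.cast_sub (Fintype.card_pos (α := F)), Nat.cast_one] at h2
  simp only [polar_comm Q _ w]
  rw [h1, h2]
  linear_combination (Yn Q w : ℂ) * h3

theorem scalar_of_comm {G M : Type*} [Group G] [AddCommGroup M] [Module ℂ M]
    [FiniteDimensional ℂ M] [Nontrivial M] {ρ : Representation ℂ G M} (h : ρ.IsIrreducible)
    (T : End ℂ M) (hT : ∀ g v, ρ g (T v) = T (ρ g v)) : ∃ c : ℂ, ∀ v, T v = c • v := by
  obtain ⟨c, hc⟩ := End.exists_eigenvalue T
  let U : Subrepresentation ρ := ⟨T.eigenspace c, fun g v hv => by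
    rw [End.mem_eigenspace_iff] at hv ⊢
    rw [← hT, hv, map_smul]⟩
  rcases h.eq_bot_or_eq_top U with e | e
  · exact (hc (congrArg Subrepresentation.toSubmodule e)).elim
  · have e' : T.eigenspace c = ⊤ := congrArg Subrepresentation.toSubmodule e
    exact ⟨c, fun v => End.mem_eigenspace_iff.1 (e' ▸ Submodule.mem_top)⟩

theorem eq_zero_of_inv {G M : Type*} [Group G] [AddCommGroup M] [Module ℂ M]
    {ρ : Representation ℂ G M} (h : ρ.IsIrreducible) (h2 : 2 ≤ finrank ℂ M)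
    {u : M} (hu : ∀ g, ρ g u = u) : u = 0 := by
  let U : Subrepresentation ρ := ⟨span ℂ {u}, fun g v hv => by
    obtain ⟨c, rfl⟩ := mem_span_singleton.1 hv
    rw [map_smul, hu]; exact hv⟩
  rcases h.eq_bot_or_eq_top U with e | e
  · exact span_singleton_eq_bot.1 (congrArg Subrepresentation.toSubmodule e)
  · have e' : span ℂ {u} = ⊤ := congrArg Subrepresentation.toSubmodule e
    have := finrank_span_one_le (F := ℂ) u
    rw [e', finrank_top] at this
    omega

namespace Big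
variable (H : Big Q) {M : Type*} [NormedAddCommGroup M] [InnerProductSpace ℂ M]
  [FiniteDimensional ℂ M] {ρ : Representation ℂ (Gp Q) M}
  (hu : ∀ g u v, ⟪ρ g u, ρ g v⟫_ℂ = ⟪u, v⟫_ℂ)
  {e f : V} (he : Q e = 0) (hf : Q f = 0) (hef : polar Q e f = 1)
include H hu he hf hef

theorem exists_eigen (hq : 4 ≤ Fintype.card F ∨ (8 ≤ finrank F V ∧ ¬ IsPlus Q)) (S : H.Sg ρ) :
    ∃ (z : M) (ν : F → ℂ), ‖z‖ = 1 ∧ ∀ t, t ≠ 0 → ∀ g : Gp Q, g.1.1 e = t • e → ρ g z = ν t • z := by
  classical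
  have he0 := H.ne_zero_left he hf hef
  let Y : Submodule ℂ M :=
    { carrier := {v | ∀ g : Gp Q, g.1.1 e = e → ρ g v = v}
      zero_mem' := by simp
      add_mem' := fun {a b} ha hb g hg => by rw [map_add, ha g hg, hb g hg]
      smul_mem' := fun c a ha g hg => by rw [map_smul, ha g hg] }
  obtain ⟨z₀, h0, h1, h2⟩ := H.exists_fixed hu he hf hef hq S
  have hz : z₀ ∈ Y := fun g hg => by
    have k : polar Q e (g.1.1 f) = 1 := by
      have := OG.map_polar g.1 e f; rwa [hg, hef] at this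
    have w1 : polar Q e (g.1.1 f - f) = 0 := by rw [polar_sub_right, k, hef, sub_self]
    have := h2 (H.E e (g.1.1 f - f) * g)
      (by change (H.E e _).1.1 (g.1.1 e) = e; rw [hg, H.E_left he w1])
      (H.E_trans he ((OG.map_Q _ _).trans hf) hf k hef)
    rw [map_mul, End.mul_apply] at this
    simpa [w1] using (H.map_Mw' g hg (map_zero _) h1 _ w1).symm.trans this
  obtain ⟨t₀, ht₀⟩ := IsCyclic.exists_generator (α := Fˣ)
  obtain ⟨g₀, hg₀⟩ := witt_one' H.nd H.h7 he0 (smul_ne_zero t₀.ne_zero he0) he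
    (by rw [q_smul, he, mul_zero])
  have hY : ∀ v ∈ Y, ρ g₀ v ∈ Y := fun v hv g hg => by
    have := hv (g₀⁻¹ * g * g₀) (by
      change (g₀.1⁻¹).1 (g.1.1 (g₀.1.1 e)) = e
      rw [hg₀, map_smul, hg, ← hg₀]; exact OG.inv_apply_self _ _)
    conv_rhs => rw [← this]
    rw [← End.mul_apply, ← End.mul_apply, ← map_mul, ← map_mul]; congr 2; group
  have : Nontrivial Y := ⟨⟨z₀, hz⟩, 0, fun h => h0 (congrArg Subtype.val h)⟩
  obtain ⟨c, hc⟩ := End.exists_eigenvalue ((ρ g₀).restrict hY)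
  obtain ⟨z, hz1⟩ := hc.exists_hasEigenvector
  have hz2 : ρ g₀ z = c • (z : M) := congrArg Subtype.val hz1.apply_eq_smul
  have hz3 : (z : M) ≠ 0 := fun h => hz1.2 (Subtype.ext h)
  have hp : ∀ j : ℕ, (g₀ ^ j).1.1 e = (t₀ ^ j).1 • e ∧ ρ (g₀ ^ j) z = c ^ j • (z : M) := by
    intro j
    induction j with
    | zero => simp
    | succ j ih =>
      rw [pow_succ, pow_succ, pow_succ, map_mul, End.mul_apply, hz2, map_smul, ih.2, smul_smul,
        mul_comm c]
      refine ⟨?_, rfl⟩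
      change (g₀ ^ j).1.1 (g₀.1.1 e) = _
      rw [hg₀, map_smul, ih.1, smul_smul, mul_comm]; rfl
  have : ∀ t : F, ∃ ν : ℂ, t ≠ 0 → ∀ g : Gp Q, g.1.1 e = t • e → ρ g z = ν • (z : M) := by
    intro t
    by_cases ht : t = 0
    · exact ⟨0, fun h => (h ht).elim⟩
    obtain ⟨j, hj⟩ := (mem_powers_iff_mem_zpowers).2 (ht₀ (Units.mk0 t ht))
    refine ⟨c ^ j, fun _ g hg => ?_⟩
    have k := (hp j).1
    simp only at hj
    rw [hj, Units.val_mk0] at k
    have := z.2 ((g₀ ^ j)⁻¹ * g) (by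
      change ((g₀ ^ j).1⁻¹).1 (g.1.1 e) = e
      rw [hg, ← k]; exact OG.inv_apply_self _ _)
    rw [← (hp j).2]
    conv_rhs => rw [← this]
    rw [← End.mul_apply, ← map_mul, mul_inv_cancel_left]
  choose ν hν using this
  refine ⟨((‖(z : M)‖⁻¹ : ℝ) : ℂ) • (z : M), ν, ?_, fun t ht g hg => ?_⟩
  · rw [norm_smul, Complex.norm_real, norm_inv, norm_norm, inv_mul_cancel₀ (norm_ne_zero_iff.2 hz3)]
  · rw [map_smul, hν t ht g hg, smul_comm]

theorem exists_phi (hq : 4 ≤ Fintype.card F ∨ (8 ≤ finrank F V ∧ ¬ IsPlus Q)) (S : H.Sg ρ) :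
    ∃ (φ : V → M) (ν : F → ℂ), ∀ x, x ≠ 0 → Q x = 0 → ‖φ x‖ = 1 ∧
      (∀ g : Gp Q, φ (g.1.1 x) = ρ g (φ x)) ∧ ∀ t, t ≠ 0 → φ (t • x) = ν t • φ x := by
  classical
  have he0 := H.ne_zero_left he hf hef
  obtain ⟨z, ν, h1, h2⟩ := H.exists_eigen hu he hf hef hq S
  have hν : ν 1 = 1 := by
    have := h2 1 one_ne_zero 1 (by simp)
    exact smul_left_injective ℂ (m := z) (by rintro rfl; simp at h1) (by simpa using this.symm)
  choose! γ hγ using fun (x : V) (h : x ≠ 0 ∧ Q x = 0) => witt_one' H.nd H.h7 he0 h.1 he h.2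
  have key : ∀ t, t ≠ 0 → ∀ g k : Gp Q, k.1.1 e = t • g.1.1 e → ρ k z = ν t • ρ g z := by
    intro t ht g k h
    rw [← map_smul, ← h2 t ht (g⁻¹ * k) (by
      change (g.1⁻¹).1 (k.1.1 e) = _
      rw [h, map_smul, OG.inv_apply_self]), ← End.mul_apply, ← map_mul, mul_inv_cancel_left]
  refine ⟨fun x => ρ (γ x) z, ν, fun x hx0 hx => ⟨by rw [norm_map hu, h1], fun g => ?_,
    fun t ht => key t ht _ _ ?_⟩⟩
  · have := key 1 one_ne_zero (g * γ x) (γ (g.1.1 x)) (by
      rw [hγ _ ⟨by simpa [OG.apply_eq_zero] using hx0, by simpa using hx⟩, one_smul]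
      change _ = g.1.1 ((γ x).1.1 e)
      rw [hγ x ⟨hx0, hx⟩])
    rw [hν, one_smul, map_mul] at this
    exact this
  · rw [hγ x ⟨hx0, hx⟩, hγ _ ⟨smul_ne_zero ht hx0, by rw [q_smul, hx, mul_zero]⟩]

open scoped _root_.Classical in
theorem main_eq (hq : 4 ≤ Fintype.card F ∨ (8 ≤ finrank F V ∧ ¬ IsPlus Q)) (S : H.Sg ρ)
    (hirr : ρ.IsIrreducible) (h2 : 2 ≤ finrank ℂ M) :
    ∃ (Λ : ℝ) (K : ℕ) (κ ν : F → ℂ), (∀ t, t ≠ 0 → ‖ν t‖ = 1 ∧ ∀ β, κ (t * β) = ν t * κ β) ∧
      (∀ w : Wp Q e f, w ≠ 0 → κ (-Q w) =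
        (1 - Λ * (Fintype.card F * Yn (Q.restrict (Wp Q e f)) w) : ℝ)) ∧
      nv Q 0 = Fintype.card F + K + (Fintype.card F - 1) * Fintype.card F ^ (finrank F V - 2) ∧
      ∑ t ∈ Finset.univ.erase 0, ν t + (K * κ 0 +
        Fintype.card F ^ (finrank F V - 2) * ∑ β ∈ Finset.univ.erase 0, κ β) = 0 ∧
      (finrank ℂ M : ℝ) * (Fintype.card F - 1 + (K * ‖κ 0‖ ^ 2 + Fintype.card F ^ (finrank F V - 2) *
        ∑ β ∈ Finset.univ.erase 0, ‖κ β‖ ^ 2)) = nv Q 0 - 1 := by
  have := Fintype.ofFinite V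
  obtain ⟨φ, ν, hφ⟩ := H.exists_phi hu he hf hef hq S
  have fe : polar Q f e = 1 := by rw [polar_comm, hef]
  have he0 := H.ne_zero_left he hf hef
  have hf0 := H.ne_zero_left hf he fe
  have hd : finrank F (Wp Q e f) + 2 = _ := H.nd.finrank_perp_hyp he hf hef
  have h7 := H.h7
  obtain ⟨a, ha0, ha₀⟩ := exists_singular (Q.restrict (Wp Q e f)) (by omega)
  have ha : Q a = 0 := ha₀
  have ea := Wp_left a
  have fa := Wp_right a
  have af : (a : V) ∉ span F {f} := fun h => by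
    obtain ⟨c, hc⟩ := mem_span_singleton.1 h
    rw [← hc, p_smul_right, hef, mul_one] at ea
    exact ha0 (Subtype.ext (by rw [← hc, ea, zero_smul]; rfl))
  have ns : ∀ x, polar Q f x ≠ 0 → x ∉ span F {f} := fun x hx h => by
    obtain ⟨c, rfl⟩ := mem_span_singleton.1 h
    simp [p_self, hf] at hx
  let κ : F → ℂ := fun β => ⟪φ f, φ (if β = 0 then (a : V) else β • e)⟫_ℂ
  have hκ : ∀ x, Q x = 0 → x ∉ span F {f} → ⟪φ f, φ x⟫_ℂ = κ (polar Q f x) := fun x hx hxf => by
    have hx0 : x ≠ 0 := by rintro rfl; simp at hxf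
    obtain ⟨g, g1, g2⟩ := witt_pair H.nd h7 hf0 hf0 hxf
      (a' := if polar Q f x = 0 then (a : V) else polar Q f x • e)
      (by split_ifs with h; exacts [af, ns _ (by simpa [fe] using h)]) rfl
      (by split_ifs with h <;> simp [hx, ha, q_smul, he])
      (by split_ifs with h <;> simp [h, fa, fe])
    simp only [κ]
    rw [← g2, (hφ x hx0 hx).2.1, ← hu g, ← (hφ f hf0 hf).2.1, g1]
  have hν : ∀ t, t ≠ 0 → ‖ν t‖ = 1 := fun t ht => by
    have := (hφ (t • f) (smul_ne_zero ht hf0) (by rw [q_smul, hf, mul_zero])).1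
    rwa [(hφ f hf0 hf).2.2 t ht, norm_smul, (hφ f hf0 hf).1, mul_one] at this
  have hff : ⟪φ f, φ f⟫_ℂ = 1 := by rw [inner_self_eq_norm_sq_to_K, (hφ f hf0 hf).1]; simp
  set T := Finset.univ.filter fun x : V => x ≠ 0 ∧ Q x = 0 with hT
  have hTc : nv Q 0 = T.card + 1 := by
    rw [nv, Nat.subtype_card (insert 0 T) (fun x => by
      by_cases h : x = 0 <;> simp [hT, h]), Finset.card_insert_of_notMem (by simp [hT])]
  set K := ((T.filter fun x => x ∉ span F {f}).filter fun x => polar Q f x = 0).card with hK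
  have hY : Yn Q f = Fintype.card F ^ (finrank F V - 2) := by
    rw [← Nat.card_eq_fintype_card]; exact H.nd.card_hyp_partner hf0 hf 0
  have dec : ∀ (Φ : V → ℂ) (A B : F → ℂ), (∀ t, t ≠ 0 → Φ (t • f) = A t) →
      (∀ x, Q x = 0 → x ∉ span F {f} → Φ x = B (polar Q f x)) →
      ∑ x ∈ T, Φ x = ∑ t ∈ Finset.univ.erase 0, A t + (K * B 0 +
        Fintype.card F ^ (finrank F V - 2) * ∑ β ∈ Finset.univ.erase 0, B β) := by
    intro Φ A B hA hB
    rw [← Finset.sum_filter_add_sum_filter_not T (fun x => x ∈ span F {f})]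
    congr 1
    · symm
      refine Finset.sum_bij (fun t _ => t • f) (fun t ht => ?_)
        (fun s _ t _ h => smul_left_injective F hf0 h) (fun x hx => ?_)
        fun t ht => (hA t (Finset.ne_of_mem_erase ht)).symm
      · simp [hT, q_smul, hf, hf0, Finset.ne_of_mem_erase ht, smul_mem, mem_span_singleton_self]
      · obtain ⟨h1, h3⟩ := Finset.mem_filter.1 hx
        obtain ⟨c, rfl⟩ := mem_span_singleton.1 h3
        refine ⟨c, Finset.mem_erase.2 ⟨?_, Finset.mem_univ _⟩, rfl⟩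
        rintro rfl; simp [hT] at h1
    · rw [Finset.sum_congr rfl (g := fun x => B (polar Q f x)) fun x hx => hB x
        (Finset.mem_filter.1 (Finset.mem_filter.1 hx).1).2.2 (Finset.mem_filter.1 hx).2,
        sum_fiber f _ (fun x hx => by
          have : x ≠ 0 := by rintro rfl; simp at hx
          simp [hT, this, ns x hx]) B, hY, Nat.cast_pow]
  have hq1 : 1 ≤ Fintype.card F := Fintype.card_pos
  have hperm : ∀ (g : Gp Q) (Φ : V → M), ∑ x ∈ T, Φ (g.1.1 x) = ∑ x ∈ T, Φ x := fun g Φ =>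
    Finset.sum_bij (fun x _ => g.1.1 x) (fun x hx => by
      simpa [hT, OG.apply_eq_zero] using hx) (fun x _ y _ h => g.1.1.injective h)
      (fun x hx => by
        obtain ⟨y, rfl⟩ := g.1.1.surjective x
        exact ⟨y, by simpa [hT, OG.apply_eq_zero] using hx, rfl⟩) fun _ _ => rfl
  have hyf : ∀ g : Gp Q, g.1.1 e = e → g.1.1 f = f → ρ g (φ f) = φ f := fun g _ h => by
    rw [← (hφ f hf0 hf).2.1, h]
  refine ⟨‖H.Pw ρ e f a (φ f)‖ ^ 2, K, κ, ν, fun t ht => ⟨hν t ht, fun β => ?_⟩, fun w hw => ?_,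
    ?_, ?_, ?_⟩
  · have hx : ∃ x, x ≠ 0 ∧ Q x = 0 ∧ x ∉ span F {f} ∧ polar Q f x = β := by
      by_cases h : β = 0
      · exact ⟨a, by simpa using ha0, ha, af, by rw [fa, h]⟩
      · exact ⟨β • e, smul_ne_zero h he0, by rw [q_smul, he, mul_zero], ns _ (by simpa [fe] using h),
          by simp [fe]⟩
    obtain ⟨x, x0, x1, x2, rfl⟩ := hx
    rw [← hκ x x1 x2, ← inner_smul_right, ← (hφ x x0 x1).2.2 t ht, hκ _ (by rw [q_smul, x1, mul_zero])
      (fun h => x2 (by simpa [ht] using smul_mem _ t⁻¹ h)), p_smul_right]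
  · have ew := Wp_left w
    have fw := Wp_right w
    have e1 : (H.E e w).1.1 f = f - Q w • e - w := by
      rw [H.E_apply he ew, polar_comm Q w.1 f, fw, hef]; module
    have e2 : polar Q f ((H.E e w).1.1 f) = -Q w := by simp [e1, p_self, hf, fe, fw]
    rw [← e2, ← hκ _ ((OG.map_Q _ _).trans hf) fun h => ?_, (hφ f hf0 hf).2.1,
      H.inner_E he hf hef hu _ ew, H.norm_sq_eq hu he hf hef S ha0 ha hyf]
    · have h1 := H.norm_sq_eq hu he hf hef S ha0 ha hyf (fun _ => 1)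
      have h3 := H.norm_sum he hf hef hu Finset.univ (φ f)
      rw [H.sum_Pw he hf hef, (hφ f hf0 hf).1] at h3
      have h4 := sum_sing_ψ (Q := Q.restrict (Wp Q e f)) w
        (Finset.univ.filter fun x : Wp Q e f => x ≠ 0 ∧ Q x = 0) fun x => by simp
      simp only [one_mul, ← Complex.ofReal_sum, ← h3, Finset.sum_const, nsmul_eq_mul, mul_one] at h1
      have h5 : ∑ x ∈ Finset.univ.filter fun x : Wp Q e f => x ≠ 0 ∧ Q x = 0,
          ψ F (polar Q (x : V) w) = _ := h4
      rw [h5]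
      simp only [ZeroMemClass.coe_zero, polar_zero_left, AddChar.map_zero_eq_one, one_mul]
      push_cast at h1 ⊢
      linear_combination -h1
    · obtain ⟨c, hc⟩ := mem_span_singleton.1 h
      have k1 := congrArg (polar Q e) hc
      have k2 := congrArg (polar Q f) hc
      rw [e2] at k2
      simp only [e1, p_smul_right, hef, polar_sub_right, p_self, he, hf, ew, mul_zero, sub_zero,
        mul_one] at k1 k2
      rw [e1, k1, neg_eq_zero.1 k2.symm, zero_smul, one_smul, sub_zero] at hc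
      exact hw (Subtype.ext (sub_eq_self.1 hc.symm))
  · have := dec (fun _ => 1) (fun _ => 1) (fun _ => 1) (fun _ _ => rfl) (fun _ _ _ => rfl)
    simp only [Finset.sum_const, nsmul_eq_mul, mul_one, Finset.card_erase_of_mem (Finset.mem_univ _),
      Finset.card_univ] at this
    have h3 : T.card = Fintype.card F - 1 + (K + Fintype.card F ^ (finrank F V - 2) *
      (Fintype.card F - 1)) := by exact_mod_cast this
    rw [hTc, h3, mul_comm]; omega
  · rw [← dec (fun x => ⟪φ f, φ x⟫_ℂ) ν κ (fun t ht => by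
      rw [(hφ f hf0 hf).2.2 t ht, inner_smul_right, hff, mul_one]) hκ, ← inner_sum,
      eq_zero_of_inv hirr h2 (u := ∑ x ∈ T, φ x) fun g => ?_, inner_zero_right]
    rw [map_sum, ← hperm g φ]
    exact Finset.sum_congr rfl fun x hx => ((hφ x (Finset.mem_filter.1 hx).2.1
      (Finset.mem_filter.1 hx).2.2).2.1 g).symm
  · have : Nontrivial M := Module.nontrivial_of_finrank_pos (R := ℂ) (by omega)
    let L : End ℂ M := ∑ x ∈ T, (innerₛₗ ℂ (φ x)).smulRight (φ x)
    have hL : ∀ v, L v = ∑ x ∈ T, ⟪φ x, v⟫_ℂ • φ x := fun v => by simp [L]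
    obtain ⟨c, hc⟩ := scalar_of_comm hirr L fun g v => by
      rw [hL, hL, map_sum, ← hperm g fun x => ⟪φ x, ρ g v⟫_ℂ • φ x]
      refine Finset.sum_congr rfl fun x hx => ?_
      rw [(hφ x (Finset.mem_filter.1 hx).2.1 (Finset.mem_filter.1 hx).2.2).2.1 g, hu, map_smul]
    have t1 : LinearMap.trace ℂ M L = T.card := by
      rw [map_sum, Finset.sum_congr rfl (g := fun _ => 1) fun x hx => ?_]
      · simp
      · rw [LinearMap.trace_smulRight, innerₛₗ_apply_apply, inner_self_eq_norm_sq_to_K,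
          (hφ x (Finset.mem_filter.1 hx).2.1 (Finset.mem_filter.1 hx).2.2).1]; simp
    have t2 : L = c • 1 := LinearMap.ext hc
    rw [t2, map_smul, LinearMap.trace_one, smul_eq_mul] at t1
    have t3 : ⟪φ f, L (φ f)⟫_ℂ = c := by rw [hc, inner_smul_right, hff, mul_one]
    have t4 : ∀ x, ⟪φ f, ⟪φ x, φ f⟫_ℂ • φ x⟫_ℂ = (‖⟪φ f, φ x⟫_ℂ‖ ^ 2 : ℝ) := fun x => by
      rw [inner_smul_right, ← inner_conj_symm, Complex.conj_mul']; simp
    rw [hL, inner_sum] at t3
    simp only [t4] at t3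
    rw [dec _ (fun _ => 1) (fun β => (‖κ β‖ ^ 2 : ℝ)) (fun t ht => by
        rw [(hφ f hf0 hf).2.2 t ht, inner_smul_right, hff, mul_one, hν t ht]; simp)
        (fun x h1 h3 => by rw [hκ x h1 h3])] at t3
    apply Complex.ofReal_injective
    rw [hTc]
    push_cast at t3 ⊢
    simp only [Finset.sum_const, nsmul_eq_mul, mul_one, Finset.card_erase_of_mem (Finset.mem_univ _),
      Finset.card_univ, Nat.cast_sub hq1, Nat.cast_one] at t3
    rw [t3]; linear_combination t1

end Big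

end Cfsg.Agent.ULT.OD
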