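import Mathlib
import Cfsg.Agent.ULT.OD5

/-!
# The trichotomy for representations of orthogonal groups, and counting lemmas
-/

set_option autoImplicit false
set_option backward.isDefEq.respectTransparency false
set_option linter.unusedSectionVars false

namespace Cfsg.Agent.ULT.OD

open Module QuadraticMap Cfsg.Agent.Orth Submodule Cfsg.Agent.Classical.LS
open scoped InnerProductSpace

variable {F V : Type*} [Field F] [Fintype F] [AddCommGroup V] [Module F V] [FiniteDimensional F V]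
  [Finite V] {Q : QuadraticForm F V}

theorem Yn_sing (hQ : ND Q) {w : V} (h0 : w ≠ 0) (h : Q w = 0) :
    Yn Q w = Fintype.card F ^ (finrank F V - 2) := by
  rw [← Nat.card_eq_fintype_card]; exact hQ.card_hyp_partner h0 h 0

theorem Yn_mul (hQ : ND Q) {w : V} (h : Q w ≠ 0) :
    nv Q (Q w) * Yn Q w = (nv Q 0 - 1) * Fintype.card F ^ (finrank F V - 2) := by
  classical
  have := Fintype.ofFinite V
  have h1 := Finset.card_mul_eq_card_mul (s := Finset.univ.filter fun x : V => Q x = Q w)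
    (t := Finset.univ.filter fun x : V => x ≠ 0 ∧ Q x = 0) (fun x y => polar Q x y = 1)
    (m := Yn Q w) (n := Fintype.card F ^ (finrank F V - 2)) (fun x hx => ?_) (fun y hy => ?_)
  · rw [nv, Nat.subtype_card (Finset.univ.filter fun x : V => Q x = Q w) (by simp), h1, nv,
      Nat.subtype_card (insert 0 (Finset.univ.filter fun x : V => x ≠ 0 ∧ Q x = 0)) (fun x => by
        by_cases h : x = 0 <;> simp [h]), Finset.card_insert_of_notMem (by simp)]
    simp
  · have hx := (Finset.mem_filter.1 hx).2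
    obtain ⟨g, rfl⟩ := witt_one hQ (ne_zero_of_Q_ne_zero h) (ne_zero_of_Q_ne_zero (hx ▸ h)) hx.symm
    rw [← Nat.card_eq_finsetCard, Yn]
    symm
    refine Nat.card_congr (g.1.toEquiv.subtypeEquiv fun y => ?_)
    simp only [Finset.bipartiteAbove, Finset.mem_filter, Finset.mem_univ, true_and,
      LinearEquiv.coe_toEquiv, OG.map_Q, OG.map_polar, ne_eq, OG.apply_eq_zero]
    refine ⟨fun h => ⟨⟨?_, h.1⟩, h.2⟩, fun h => ⟨h.1.2, h.2⟩⟩
    rintro rfl; simp at h
  · obtain ⟨h1, h2⟩ := (Finset.mem_filter.1 hy).2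
    rw [← Nat.card_eq_finsetCard, ← Nat.card_eq_fintype_card, ← hQ.card_hyp_partner h1 h2 (Q w)]
    refine Nat.card_congr (Equiv.subtypeEquivRight fun x => ?_)
    simp [Finset.bipartiteBelow, polar_comm Q x y]

theorem sum_nv : ∑ c, nv Q c = Fintype.card F ^ finrank F V := by
  classical
  have := Fintype.ofFinite V
  rw [← Module.card_eq_pow_finrank, ← Finset.card_univ,
    Finset.card_eq_sum_card_fiberwise (f := Q) (t := Finset.univ) (by simp)]
  exact Finset.sum_congr rfl fun c _ => Nat.subtype_card _ (by simp)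

theorem nv_even (hQ : ND Q) (h : Even (finrank F V)) {c : F} (hc : c ≠ 0) : nv Q c = nv Q 1 := by
  obtain ⟨i⟩ := hQ.iso_of_isPlus_iff (nd_smul hQ hc) rfl h (isPlus_smul_iff hc).symm
  rw [nv_iso i]
  exact Nat.card_congr (Equiv.subtypeEquivRight fun v => by simp [hc])

theorem nv_even' (hQ : ND Q) (h : Even (finrank F V)) :
    (nv Q 0 : ℝ) + (Fintype.card F - 1) * nv Q 1 = Fintype.card F ^ finrank F V := by
  classical
  have := sum_nv (Q := Q)
  rw [← Finset.add_sum_erase _ _ (Finset.mem_univ 0), Finset.sum_congr rfl (g := fun _ => nv Q 1)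
    fun c hc => nv_even hQ h (Finset.ne_of_mem_erase hc)] at this
  simp only [Finset.sum_const, smul_eq_mul, Finset.card_erase_of_mem (Finset.mem_univ _),
    Finset.card_univ] at this
  have h1 : 1 ≤ Fintype.card F := Fintype.card_pos
  exact_mod_cast this

theorem nv_unQ (h2 : (2 : F) ≠ 0) {c₀ x : F} (h0 : c₀ ≠ 0) (hx : x ≠ 0) :
    nv (unQ c₀) (c₀ * x ^ 2) = 2 := by
  classical
  rw [nv, Nat.subtype_card {x, -x} (fun y => by simp [unQ_apply, h0, sq_eq_sq_iff_eq_or_eq_neg]),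
    Finset.card_pair]
  intro h
  exact mul_ne_zero h2 hx (by linear_combination h)

theorem nv_unQ' {c₀ c : F} (h : ∀ x, c₀ * x ^ 2 ≠ c) : nv (unQ c₀) c = 0 := by
  have : IsEmpty {x // unQ c₀ x = c} := ⟨fun x => h x.1 (by rw [← unQ_apply]; exact x.2)⟩
  exact Nat.card_of_isEmpty

theorem nv_plus_unQ (c₀ c : F) (k : ℕ) : (nv ((plusQ k F).prod (unQ c₀)) c : ℤ) =
    Fintype.card F ^ (2 * k) + Fintype.card F ^ k * (nv (unQ c₀) c - 1) := by
  induction k with
  | zero => rw [← nv_iso (zeroProdIso _ _)]; simp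
  | succ k ih =>
    rw [nv_plus_prod_succ, ih, Nat.card_eq_fintype_card, finrank_self]; ring

theorem nv_odd (hQ : ND Q) (h2 : (2 : F) ≠ 0) {k : ℕ} (h : finrank F V = 2 * k + 1) :
    (∀ c, c ≠ 0 → (nv Q c : ℝ) = (Fintype.card F ^ k) ^ 2 + Fintype.card F ^ k ∨
      (nv Q c : ℝ) = (Fintype.card F ^ k) ^ 2 - Fintype.card F ^ k) ∧
    (∃ c, c ≠ 0 ∧ (nv Q c : ℝ) = (Fintype.card F ^ k) ^ 2 + Fintype.card F ^ k) ∧
    (∃ c, c ≠ 0 ∧ (nv Q c : ℝ) = (Fintype.card F ^ k) ^ 2 - Fintype.card F ^ k) ∧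
    (nv Q 0 : ℝ) = (Fintype.card F ^ k) ^ 2 := by
  obtain ⟨c₀, h0, ⟨i⟩⟩ := hQ.iso_odd h
  have e : ∀ c, (nv Q c : ℝ) =
      (Fintype.card F ^ k) ^ 2 + Fintype.card F ^ k * (nv (unQ c₀) c - 1) := fun c => by
    rw [← nv_iso i, ← pow_mul, mul_comm k]; exact_mod_cast nv_plus_unQ c₀ c k
  have e1 : ∀ x, x ≠ 0 → (nv Q (c₀ * x ^ 2) : ℝ) = (Fintype.card F ^ k) ^ 2 + Fintype.card F ^ k :=
    fun x hx => by rw [e, nv_unQ h2 h0 hx]; norm_num
  have e2 : ∀ c, (∀ x, c₀ * x ^ 2 ≠ c) →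
      (nv Q c : ℝ) = (Fintype.card F ^ k) ^ 2 - Fintype.card F ^ k :=
    fun c hc => by rw [e, nv_unQ' hc]; ring
  refine ⟨fun c hc => ?_, ⟨_, by simpa using h0, e1 1 one_ne_zero⟩, ?_, ?_⟩
  · by_cases h3 : ∃ x, c₀ * x ^ 2 = c
    · obtain ⟨x, rfl⟩ := h3
      exact Or.inl (e1 x (by rintro rfl; simp at hc))
    · exact Or.inr (e2 c (by simpa using h3))
  · obtain ⟨a, ha⟩ := exists_not_isSquare h2
    exact ⟨c₀ * a, mul_ne_zero h0 (by rintro rfl; simp at ha), e2 _ fun x hx =>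
      ha ⟨x, by rw [← mul_left_cancel₀ h0 hx, pow_two]⟩⟩
  · rw [← nv_iso i, nv_plus_prod_unQ k h0, Nat.card_eq_fintype_card]; push_cast; ring

theorem exists_core {G M : Type*} [Group G] [Finite G] [AddCommGroup M] [Module ℂ M]
    [FiniteDimensional ℂ M] (ρ : Representation ℂ G M) : ∃ c : InnerProductSpace.Core ℂ M,
      ∀ g u v, c.inner (ρ g u) (ρ g v) = c.inner u v := by
  have := Fintype.ofFinite G
  let φ : M ≃ₗ[ℂ] EuclideanSpace ℂ (Fin (finrank ℂ M)) := LinearEquiv.ofFinrankEq _ _ (by simp)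
  refine ⟨{ inner := fun u v => ∑ g, ⟪φ (ρ g u), φ (ρ g v)⟫_ℂ
            conj_inner_symm := fun u v => by simp
            re_inner_nonneg := fun u => by
              rw [map_sum]; exact Finset.sum_nonneg fun g _ => inner_self_nonneg
            add_left := fun u v w => by simp [inner_add_left, Finset.sum_add_distrib]
            smul_left := fun u v c => by simp [inner_smul_left, Finset.mul_sum, mul_comm]
            definite := fun u hu => ?_ }, fun g u v => ?_⟩
  · have h1 := congrArg RCLike.re hu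
    rw [map_sum, map_zero] at h1
    have h2 := (Finset.sum_eq_zero_iff_of_nonneg fun g _ => inner_self_nonneg).1 h1 1
      (Finset.mem_univ _)
    rw [inner_self_eq_norm_sq] at h2
    simpa using h2
  · change ∑ k, _ = ∑ k, _
    rw [← Equiv.sum_comp (Equiv.mulRight g) fun k => ⟪φ (ρ k u), φ (ρ k v)⟫_ℂ]
    simp

namespace Big
variable (H : Big Q) {M : Type*} [NormedAddCommGroup M] [InnerProductSpace ℂ M]
  [FiniteDimensional ℂ M] {ρ : Representation ℂ (Gp Q) M}
  (hu : ∀ g u v, ⟪ρ g u, ρ g v⟫_ℂ = ⟪u, v⟫_ℂ)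
  {e f : V} (he : Q e = 0) (hf : Q f = 0) (hef : polar Q e f = 1)
include H he hf hef

theorem nv_rec (c : F) : nv Q c = (Fintype.card F - 1) * Fintype.card F ^ (finrank F V - 2) +
    Fintype.card F * nv (Q.restrict (Wp Q e f)) c := by
  obtain ⟨i⟩ := H.nd.iso_hyp_perp he hf hef
  rw [← nv_iso i, nv_hyp_prod, Module.natCard_eq_pow_finrank (K := F) (V := Wp Q e f),
    Nat.card_eq_fintype_card,
    ← H.nd.finrank_perp_hyp he hf hef, Nat.add_sub_cancel]

theorem exists_Wp (c : F) : ∃ a : Wp Q e f, a ≠ 0 ∧ Q a = c := by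
  have hd : finrank F (Wp Q e f) + 2 = _ := H.nd.finrank_perp_hyp he hf hef
  have h7 := H.h7
  rcases eq_or_ne c 0 with rfl | hc
  · exact exists_singular (Q.restrict (Wp Q e f)) (by omega)
  · obtain ⟨a, ha⟩ := ND.exists_Q_eq (V := Wp Q e f) (H.nd.nd_perp_hyp he hf hef) (by omega) c
    exact ⟨a, by rintro rfl; simp [hc.symm] at ha, ha⟩

include hu in
theorem trichotomy (hρ : ∃ g, ρ g ≠ 1) (L : ℝ) (hL0 : L + 1 ≤ nv (Q.restrict (Wp Q e f)) 0)
    (hL : ∀ c, c ≠ 0 → L ≤ nv (Q.restrict (Wp Q e f)) c) :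
    2 * L ≤ finrank ℂ M ∨ H.Sg ρ ∨ ∃ c, c ≠ 0 ∧ (∀ t : F, t ≠ 0 → t ^ 2 = 1) ∧
      finrank ℂ M = finrank ℂ (H.Mw ρ e 0) + nv (Q.restrict (Wp Q e f)) c ∧ (9 ≤ finrank F V →
      ∃ g : Gp Q, g.1.1 e = e ∧ g.1.1 f = f ∧ ∃ y ∈ H.Mw ρ e 0, ρ g y ≠ y) := by
  classical
  have he0 := H.ne_zero_left he hf hef
  choose r r0 r1 using H.exists_Wp he hf hef
  let m : F → ℕ := fun c => finrank ℂ (H.Mw ρ e (r c))
  have hm : ∀ u a, Q u = 0 → u ≠ 0 → polar Q u a = 0 → a ∉ span F {u} →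
      finrank ℂ (H.Mw ρ u a) = m (Q a) := fun u a h1 h2 h3 h4 =>
    H.finrank_Mw_eq he0 h2 he h1 (H.notMem_span he hf hef (r0 _)) h4 (Wp_left _) h3 one_ne_zero
      (by rw [r1]; simp)
  have hm' : ∀ c t, t ≠ 0 → m (t ^ 2 * c) = m c := fun c t ht =>
    H.finrank_Mw_eq he0 he0 he he (H.notMem_span he hf hef (r0 _)) (H.notMem_span he hf hef (r0 _))
      (Wp_left _) (Wp_left _) ht (by rw [r1, r1])
  have ns : ∀ u a : V, Q u = 0 → Q a ≠ 0 → a ∉ span F {u} := fun u a h1 h2 h => by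
    obtain ⟨c, rfl⟩ := mem_span_singleton.1 h
    simp [q_smul, h1] at h2
  let n : F → ℕ := fun c => ((Finset.univ.erase 0).filter fun a : Wp Q e f => Q a = c).card
  have hn : ∀ c, c ≠ 0 → n c = nv (Q.restrict (Wp Q e f)) c := fun c hc =>
    (Nat.subtype_card _ fun a => by
      simp only [Finset.mem_filter, Finset.mem_erase, Finset.mem_univ, and_true]
      exact ⟨fun h => h.2, fun h => ⟨by rintro rfl; simp [hc.symm] at h, h⟩⟩).symm
  have hn0 : nv (Q.restrict (Wp Q e f)) 0 = n 0 + 1 := by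
    rw [nv, Nat.subtype_card (insert 0 ((Finset.univ.erase 0).filter fun a : Wp Q e f => Q a = 0))
      (fun x => by by_cases h : x = 0 <;> simp [h]), Finset.card_insert_of_notMem (by simp)]
  have hLn : ∀ c, L ≤ n c := fun c => by
    rcases eq_or_ne c 0 with rfl | hc
    · rw [hn0] at hL0; push_cast at hL0; linarith
    · rw [hn c hc]; exact hL c hc
  have hd : finrank ℂ M = finrank ℂ (H.Mw ρ e 0) + ∑ c, n c * m c := by
    rw [H.finrank_sum (ρ := ρ) he hf hef, ← Finset.add_sum_erase _ _ (Finset.mem_univ 0),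
      ← Finset.sum_fiberwise_of_maps_to (t := Finset.univ) (g := fun a : Wp Q e f => Q a)
        (fun _ _ => Finset.mem_univ _)]
    congr 1
    refine Finset.sum_congr rfl fun c _ => ?_
    rw [Finset.sum_congr rfl (g := fun _ => m c) fun a ha => ?_]
    · simp [n]
    · obtain ⟨h1, h2⟩ := Finset.mem_filter.1 ha
      rw [hm e a he he0 (Wp_left a) (H.notMem_span he hf hef (Finset.ne_of_mem_erase h1)), h2]
  obtain ⟨c, hc⟩ : ∃ c, m c ≠ 0 := by
    by_contra hc
    push Not at hc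
    obtain ⟨g, hg⟩ := hρ
    have key : ∀ u v, Q u = 0 → polar Q u v = 0 → ρ (H.E u v) = 1 := fun u v h1 h2 => by
      rcases eq_or_ne u 0 with rfl | h0
      · have : H.E 0 v = 1 := Subtype.ext (OG.ext fun x => by rw [H.E_apply h1 h2]; simp)
        rw [this, map_one]
      obtain ⟨u', h3, h4⟩ := H.nd.exists_hyp h0 h1
      ext y
      conv_lhs => rw [← H.sum_Pw (ρ := ρ) h1 h4 h3 y]
      conv_rhs => rw [← H.sum_Pw (ρ := ρ) h1 h4 h3 y]
      rw [map_sum, map_sum]
      refine Finset.sum_congr rfl fun a _ => ?_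
      rcases eq_or_ne a 0 with rfl | ha
      · rw [H.Pw_mem h1 h4 h3 0 y v h2]; simp
      · have := H.Pw_mem (ρ := ρ) h1 h4 h3 a y
        rw [Submodule.finrank_eq_zero.1 ((hm u a h1 h0 (Wp_left a)
          (H.notMem_span h1 h4 h3 ha)).trans (hc _))] at this
        rw [(Submodule.mem_bot ℂ).1 this]; simp
    obtain ⟨k, hk, e1⟩ := H.nd.commutator_le_of_siegel (by have := H.h7; omega)
      ((MonoidHom.ker ρ).map (Gp Q).subtype) (fun u v h1 _ h2 => ⟨H.E u v, key u v h1 h2, rfl⟩) g.2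
    exact hg (Subtype.ext e1 ▸ hk)
  have cast : ∀ k : ℕ, k ≤ ∑ c, n c * m c → (k : ℝ) ≤ finrank ℂ M := fun k hk => by
    rw [hd]; exact_mod_cast hk.trans (Nat.le_add_left _ _)
  by_cases h1 : ∃ c', c' ≠ c ∧ m c' ≠ 0
  · obtain ⟨c', h1, h2⟩ := h1
    left
    have := cast (n c' + n c) (le_trans (by
      rw [Finset.sum_pair h1]
      exact add_le_add (Nat.le_mul_of_pos_right _ (by omega)) (Nat.le_mul_of_pos_right _ (by omega)))
      (Finset.sum_le_sum_of_subset (f := fun c => n c * m c) (Finset.subset_univ {c', c})))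
    push_cast at this
    linarith [hLn c, hLn c']
  push Not at h1
  rw [Finset.sum_eq_single c (fun c' _ h => by rw [h1 c' h, mul_zero]) (by simp)] at hd cast
  by_cases h2 : 2 ≤ m c
  · left
    have := cast (n c * 2) (Nat.mul_le_mul_left _ h2)
    push_cast at this
    linarith [hLn c]
  have h3 : m c = 1 := by omega
  right
  rcases eq_or_ne c 0 with rfl | hc0
  · exact Or.inl ⟨fun u a k1 k2 k3 k4 k5 => by rw [hm u a k1 k2 k3 k5, k4, h3],
      fun u a k1 k2 k3 k4 => Submodule.finrank_eq_zero.1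
        ((hm u a k1 k2 k3 (ns u a k1 k4)).trans (h1 _ k4))⟩
  refine Or.inr ⟨c, hc0, fun t ht => ?_, by rw [hd, h3, mul_one, hn c hc0], fun h9 =>
    H.exists_moved hu he hf hef h9 hc0 (fun a k1 k2 => Submodule.finrank_eq_zero.1 ?_)
      fun u a k1 k2 k3 k4 => ?_⟩
  · by_contra h
    exact hc ((hm' c t ht).symm.trans (h1 _ fun h' => h ((mul_eq_right₀ hc0).1 h')))
  · rw [hm e a he he0 (Wp_left a) (H.notMem_span he hf hef k1), k2, h1 0 hc0.symm]
  · rw [hm u a k1 k2 k3 (ns u a k1 (k4 ▸ hc0)), k4, h3]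

end Big

end Cfsg.Agent.ULT.OD
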