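import Mathlib
import Cfsg.Agent.ULT.OD6

/-!
# The minimal degrees of complex representations of orthogonal groups
-/

set_option autoImplicit false
set_option backward.isDefEq.respectTransparency false
set_option linter.unusedSectionVars false

namespace Cfsg.Agent.ULT.OD

open Module QuadraticMap Cfsg.Agent.Orth Submodule Cfsg.Agent.Classical.LS
open scoped InnerProductSpace

theorem even_num {q y ε Λ d : ℝ} (hq : 2 ≤ q) (hy : 2 ≤ y) (hε : ε = 1 ∨ ε = -1)
    (h2 : q - 1 + (q * ((q * y - ε) * (y + ε)) * (1 - Λ * (q * y ^ 2)) +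
      q ^ 2 * y ^ 2 * ((q - 1) * (1 - Λ * (q * (y * (y + ε)))))) = 0)
    (h3 : d * (q - 1 + (q * ((q * y - ε) * (y + ε)) * (1 - Λ * (q * y ^ 2)) ^ 2 +
      q ^ 2 * y ^ 2 * ((q - 1) * (1 - Λ * (q * (y * (y + ε)))) ^ 2))) =
        (q ^ 2 * y - ε) * (q * y + ε)) :
    (q ^ 2 * y - ε) * q * (y + ε) = (q ^ 2 - 1) * d := by
  have e : ε ^ 2 = 1 := by rcases hε with rfl | rfl <;> norm_num
  have hqy : 4 ≤ q * y := by nlinarith
  have p1 : q ^ 2 * y - ε ≠ 0 := by rcases hε with rfl | rfl <;> nlinarith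
  have p2 : y + ε ≠ 0 := by rcases hε with rfl | rfl <;> linarith
  have p3 : q * y + ε ≠ 0 := by rcases hε with rfl | rfl <;> linarith
  have p4 : q ≠ 0 := by linarith
  have p5 : y ≠ 0 := by linarith
  have h4 : Λ * (q ^ 2 * y ^ 2 * (y + ε)) = q * y + ε := by
    apply mul_left_cancel₀ p1
    rcases hε with rfl | rfl <;> linear_combination -h2
  obtain rfl : Λ = (q * y + ε) / (q ^ 2 * y ^ 2 * (y + ε)) := by rw [← h4]; field_simp
  apply mul_right_cancel₀ p3
  have h5 : q - 1 + (q * ((q * y - ε) * (y + ε)) *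
      (1 - (q * y + ε) / (q ^ 2 * y ^ 2 * (y + ε)) * (q * y ^ 2)) ^ 2 + q ^ 2 * y ^ 2 * ((q - 1) *
      (1 - (q * y + ε) / (q ^ 2 * y ^ 2 * (y + ε)) * (q * (y * (y + ε)))) ^ 2)) =
      (q ^ 2 - 1) * (q * y + ε) / (q * (y + ε)) := by
    field_simp
    rcases hε with rfl | rfl <;> ring
  rw [h5] at h3
  field_simp at h3
  linear_combination -h3 * (q * y + ε)

variable {F V : Type*} [Field F] [Fintype F] [AddCommGroup V] [Module F V] [FiniteDimensional F V]
  [Finite V] {Q : QuadraticForm F V}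

theorem exists_sq_ne_one' (hq : 4 ≤ Fintype.card F) : ¬ ∀ t : F, t ≠ 0 → t ^ 2 = 1 := fun h => by
  obtain ⟨a, ha, hb⟩ := Classical.SpMat.exists_sq_ne_one (F := F)
    (by rw [Nat.card_eq_fintype_card]; omega)
  exact hb (h a ha)

open scoped _root_.Classical in
theorem sum_erase_const {R : Type*} [Ring R] {g : F → R} {c : R} (h : ∀ t, t ≠ 0 → g t = c) :
    ∑ t ∈ Finset.univ.erase 0, g t = (Fintype.card F - 1) * c := by
  rw [Finset.sum_congr rfl fun t ht => h t (Finset.ne_of_mem_erase ht)]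
  simp [Nat.cast_sub (Fintype.card_pos (α := F))]

namespace Big
variable (H : Big Q) {M : Type*} [NormedAddCommGroup M] [InnerProductSpace ℂ M]
  [FiniteDimensional ℂ M] {ρ : Representation ℂ (Gp Q) M}
  (hu : ∀ g u v, ⟪ρ g u, ρ g v⟫_ℂ = ⟪u, v⟫_ℂ) (hirr : ρ.IsIrreducible) (h2 : 2 ≤ finrank ℂ M)
include H hu hirr h2

theorem odd_bound (hodd : (2 : F) ≠ 0) (hq : 4 ≤ Fintype.card F) {k : ℕ}
    (hD : finrank F V = 2 * k + 3) : ((Fintype.card F : ℝ) ^ (k + 1)) ^ 2 - 1 ≤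
      (Fintype.card F ^ 2 - 1) * finrank ℂ M := by
  have h7 := H.h7
  obtain ⟨e, he0, he⟩ := exists_singular Q (by omega)
  obtain ⟨f, hef, hf⟩ := H.nd.exists_hyp he0 he
  have hW := H.nd.nd_perp_hyp he hf hef
  have hd : finrank F (Wp Q e f) = 2 * k + 1 := by
    have := H.nd.finrank_perp_hyp he hf hef; change finrank F (Wp Q e f) + 2 = _ at this; omega
  obtain ⟨n1, ⟨c₁, k1, n2⟩, ⟨c₂, k2, n3⟩, n4⟩ := nv_odd (V := Wp Q e f) hW hodd hd
  obtain ⟨-, -, -, n5⟩ := nv_odd H.nd hodd (k := k + 1) hD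
  have hq' : (4 : ℝ) ≤ Fintype.card F := by exact_mod_cast hq
  have hx : (4 : ℝ) ≤ Fintype.card F ^ k :=
    hq'.trans (le_self_pow₀ (by linarith) (by omega))
  have e1 : (Fintype.card F : ℝ) ^ (finrank F V - 2) = Fintype.card F * (Fintype.card F ^ k) ^ 2 := by
    rw [hD, show 2 * k + 3 - 2 = k * 2 + 1 by omega, pow_succ', pow_mul]
  have e2 : (Fintype.card F : ℝ) * Fintype.card F ^ (finrank F (Wp Q e f) - 2) =
      (Fintype.card F ^ k) ^ 2 := by
    rw [hd, ← pow_succ', ← pow_mul]; congr 1; omega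
  rw [pow_succ' _ k] at n5 ⊢
  rcases H.trichotomy hu he hf hef (nontriv_of_irr ρ hirr h2)
    ((Fintype.card F ^ k) ^ 2 - Fintype.card F ^ k) (by rw [n4]; linarith)
    (fun c hc => by rcases n1 c hc with h | h <;> linarith) with h | S | ⟨c, -, h, -⟩
  · generalize (Fintype.card F : ℝ) ^ k = x at *
    generalize (Fintype.card F : ℝ) = q at *
    have h3 : 0 ≤ q ^ 2 - 1 := by nlinarith
    have h4 : 0 ≤ (q ^ 2 - 16) * (x * (x - 2)) := by
      apply mul_nonneg <;> nlinarith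
    nlinarith [mul_le_mul_of_nonneg_left h h3]
  swap
  · exact (exists_sq_ne_one' hq h).elim
  obtain ⟨Λ, K, κ, ν, m1, m2, m3, -, m4⟩ := H.main_eq hu he hf hef (Or.inl hq) S hirr h2
  have hN : ((nv (Q.restrict (Wp Q e f)) 0 - 1 : ℕ) : ℝ) = (Fintype.card F ^ k) ^ 2 - 1 := by
    rw [Nat.cast_sub nv_pos, n4, Nat.cast_one]
  have v0 : κ 0 = (1 - Λ * (Fintype.card F ^ k) ^ 2 : ℝ) := by
    obtain ⟨w, w0, w1⟩ := H.exists_Wp he hf hef 0
    have := m2 w w0
    rwa [w1, neg_zero, Yn_sing (V := Wp Q e f) hW w0 w1, Nat.cast_pow, e2] at this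
  have v1 : ∀ c (δ : ℝ), c ≠ 0 → δ ^ 2 = 1 → (nv (Q.restrict (Wp Q e f)) c : ℝ) =
      (Fintype.card F ^ k) ^ 2 + δ * Fintype.card F ^ k → ‖κ 1‖ ^ 2 =
      (1 - Λ * ((Fintype.card F ^ k) ^ 2 - δ * Fintype.card F ^ k)) ^ 2 := fun c δ hc hδ h => by
    obtain ⟨w, w0, rfl⟩ := H.exists_Wp he hf hef c
    have h3 := congrArg (Nat.cast : ℕ → ℝ) (Yn_mul (V := Wp Q e f) hW (w := w) hc)
    rw [Nat.cast_mul, Nat.cast_mul, hN, Nat.cast_pow] at h3
    erw [h] at h3
    have h4 := (m1 (-Q w) (neg_ne_zero.2 hc)).2 1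
    rw [mul_one, m2 w w0] at h4
    have h5 := congrArg norm h4
    rw [norm_mul, (m1 _ (neg_ne_zero.2 hc)).1, one_mul, Complex.norm_real] at h5
    rw [← h5, Real.norm_eq_abs, sq_abs]
    congr 3
    have h6 : (Fintype.card F : ℝ) ^ k * (Fintype.card F ^ k + δ) ≠ 0 := by
      apply mul_ne_zero <;> nlinarith
    apply mul_left_cancel₀ h6
    linear_combination (Fintype.card F : ℝ) * h3 + ((Fintype.card F ^ k) ^ 2 - 1) * e2 +
      ((Fintype.card F : ℝ) ^ k) ^ 2 * hδ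
  have v2 := v1 c₁ 1 k1 (by norm_num) (by rw [n2]; ring)
  have v3 := v1 c₂ (-1) k2 (by norm_num) (by rw [n3]; ring)
  rw [sum_erase_const (c := ‖κ 1‖ ^ 2) (fun t ht => by
    have := (m1 t ht).2 1
    rw [mul_one] at this
    rw [this, norm_mul, (m1 t ht).1, one_mul]), v0, Complex.norm_real, Real.norm_eq_abs, sq_abs,
    e1, n5] at m4
  have m5 := congrArg (Nat.cast : ℕ → ℝ) m3
  push_cast [Fintype.card_pos] at m5
  rw [e1, n5] at m5
  have hd2 : (2 : ℝ) ≤ finrank ℂ M := by exact_mod_cast h2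
  generalize (Fintype.card F : ℝ) ^ k = x at *
  generalize (Fintype.card F : ℝ) = q at *
  generalize ‖κ 1‖ ^ 2 = r at *
  have h3 : Λ * (1 - Λ * x ^ 2) = 0 := by
    apply mul_left_cancel₀ (show 4 * x ≠ 0 by linarith)
    linear_combination v3 - v2
  rcases mul_eq_zero.1 h3 with rfl | h4
  · exfalso
    have : (finrank ℂ M - 1 : ℝ) * ((q * x) ^ 2 - 1) = 0 := by
      rw [v2] at m4; linear_combination m4 + finrank ℂ M * m5
    rcases mul_eq_zero.1 this with h | h <;> nlinarith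
  · have h5 : x ^ 2 * r = 1 := by
      rw [v2]
      linear_combination (x ^ 2 * (1 - Λ * x ^ 2) + 2 * Λ * x ^ 3 - (1 + Λ * x ^ 2)) * h4
    rw [h4] at m4
    apply le_of_eq
    linear_combination -m4 + finrank ℂ M * q * (q - 1) * h5

theorem even_core (hq : 4 ≤ Fintype.card F ∨ ¬ IsPlus Q) {j : ℕ} (hD : finrank F V = 2 * j + 4)
    {ε : ℝ} (hε : ε = 1 ∨ ε = -1) (hnv : (nv Q 0 : ℝ) = Fintype.card F ^ 3 * (Fintype.card F ^ j) ^ 2
      + ε * (Fintype.card F ^ 2 * Fintype.card F ^ j - Fintype.card F * Fintype.card F ^ j))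
    {e f : V} (he : Q e = 0) (hf : Q f = 0) (hef : polar Q e f = 1) :
    ((Fintype.card F : ℝ) ^ 2 * Fintype.card F ^ j - ε) * Fintype.card F * (Fintype.card F ^ j + ε) ≤
      (Fintype.card F ^ 2 - 1) * finrank ℂ M ∨ ((∀ t : F, t ≠ 0 → t ^ 2 = 1) ∧
      (finrank ℂ M : ℝ) = finrank ℂ (H.Mw ρ e 0) +
        Fintype.card F ^ j * (Fintype.card F * Fintype.card F ^ j - ε) ∧ (9 ≤ finrank F V →
      ∃ g : Gp Q, g.1.1 e = e ∧ g.1.1 f = f ∧ ∃ y ∈ H.Mw ρ e 0, ρ g y ≠ y)) := by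
  have h7 := H.h7
  have hW := H.nd.nd_perp_hyp he hf hef
  have hd : finrank F (Wp Q e f) = 2 * j + 2 := by
    have := H.nd.finrank_perp_hyp he hf hef; change finrank F (Wp Q e f) + 2 = _ at this; omega
  have hq' : (2 : ℝ) ≤ Fintype.card F := by exact_mod_cast Fintype.one_lt_card
  have hy : (4 : ℝ) ≤ Fintype.card F ^ j :=
    le_trans (by nlinarith) (pow_le_pow_right₀ (by linarith) (show 2 ≤ j by omega))
  have e1 : (Fintype.card F : ℝ) ^ (finrank F V - 2) =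
      Fintype.card F ^ 2 * (Fintype.card F ^ j) ^ 2 := by
    rw [hD, ← pow_mul, ← pow_add]; congr 1; omega
  have e2 : (Fintype.card F : ℝ) ^ (finrank F (Wp Q e f) - 2) = (Fintype.card F ^ j) ^ 2 := by
    rw [hd, ← pow_mul]; congr 1; omega
  have e3 : (Fintype.card F : ℝ) ^ finrank F (Wp Q e f) =
      Fintype.card F ^ 2 * (Fintype.card F ^ j) ^ 2 := by
    rw [hd, ← pow_mul, ← pow_add]; congr 1; omega
  have ee : ε ^ 2 = 1 := by rcases hε with rfl | rfl <;> norm_num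
  have n0 := congrArg (Nat.cast : ℕ → ℝ) (H.nv_rec he hf hef 0)
  push_cast [Fintype.card_pos] at n0
  have n1 : (nv (Q.restrict (Wp Q e f)) 0 : ℝ) = (Fintype.card F * Fintype.card F ^ j - ε) *
      (Fintype.card F ^ j + ε) + 1 := by
    apply mul_left_cancel₀ (show (Fintype.card F : ℝ) ≠ 0 by linarith)
    rw [e1, hnv] at n0
    linear_combination -n0 + Fintype.card F * ee
  have n2 : ∀ c, c ≠ 0 → (nv (Q.restrict (Wp Q e f)) c : ℝ) =
      Fintype.card F ^ j * (Fintype.card F * Fintype.card F ^ j - ε) := fun c hc => by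
    have he : Even (finrank F (Wp Q e f)) := ⟨j + 1, by omega⟩
    have := nv_even' (V := Wp Q e f) hW he
    rw [nv_even (V := Wp Q e f) hW he hc]
    apply mul_left_cancel₀ (show (Fintype.card F : ℝ) - 1 ≠ 0 by linarith)
    erw [n1, e3] at this
    linear_combination this + ee
  rcases H.trichotomy hu he hf hef (nontriv_of_irr ρ hirr h2)
    (min ((Fintype.card F * Fintype.card F ^ j - ε) * (Fintype.card F ^ j + ε))
      (Fintype.card F ^ j * (Fintype.card F * Fintype.card F ^ j - ε)))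
    (by rw [n1]; simp) (fun c hc => by rw [n2 c hc]; simp) with h | S | ⟨c, hc, h1, h3, h4⟩
  · left
    generalize (Fintype.card F : ℝ) ^ j = y at *
    generalize (Fintype.card F : ℝ) = q at *
    have h3 : 0 ≤ q ^ 2 - 1 := by nlinarith
    refine le_trans ?_ (mul_le_mul_of_nonneg_left h h3)
    obtain ⟨a, rfl⟩ : ∃ a, q = a + 2 := ⟨q - 2, by ring⟩
    obtain ⟨b, rfl⟩ : ∃ b, y = b + 4 := ⟨y - 4, by ring⟩
    have ha : 0 ≤ a := by linarith
    have hb : 0 ≤ b := by linarith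
    rcases hε with rfl | rfl
    · rw [min_eq_right (by nlinarith [mul_nonneg ha hb]), ← sub_nonneg]
      ring_nf; positivity
    · rw [min_eq_left (by nlinarith [mul_nonneg ha hb]), ← sub_nonneg]
      ring_nf; positivity
  swap
  · refine Or.inr ⟨h1, ?_, h4⟩
    rw [h3, Nat.cast_add, n2 c hc]
  left
  obtain ⟨Λ, K, κ, ν, m1, m2, m3, m4, m5⟩ := H.main_eq hu he hf hef
    (hq.imp id fun h => ⟨by omega, h⟩) S hirr h2
  have v0 : κ 0 = (1 - Λ * (Fintype.card F * (Fintype.card F ^ j) ^ 2) : ℝ) := by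
    obtain ⟨w, w0, w1⟩ := H.exists_Wp he hf hef 0
    have := m2 w w0
    rwa [w1, neg_zero, Yn_sing (V := Wp Q e f) hW w0 w1, Nat.cast_pow, e2] at this
  have p1 : (Fintype.card F : ℝ) * Fintype.card F ^ j - ε ≠ 0 := by
    rcases hε with rfl | rfl <;> nlinarith
  have v1 : ∀ β, β ≠ 0 → κ β =
      (1 - Λ * (Fintype.card F * (Fintype.card F ^ j * (Fintype.card F ^ j + ε))) : ℝ) := by
    intro β hβ
    obtain ⟨w, w0, w1⟩ := H.exists_Wp he hf hef (-β)
    have hc : Q w ≠ 0 := by simpa [w1] using hβ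
    have h3 := congrArg (Nat.cast : ℕ → ℝ) (Yn_mul (V := Wp Q e f) hW (w := w) hc)
    rw [Nat.cast_mul, Nat.cast_mul, Nat.cast_sub nv_pos, Nat.cast_pow] at h3
    erw [n1, n2 _ hc, e2] at h3
    have := m2 w w0
    rw [w1, neg_neg] at this
    rw [this]
    congr 4
    apply mul_left_cancel₀ (mul_ne_zero (show (Fintype.card F : ℝ) ^ j ≠ 0 by linarith) p1)
    linear_combination h3
  have v2 : ∀ t, t ≠ 0 → ν t = 1 := fun t ht => by
    by_contra h
    have k0 := (m1 t ht).2 0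
    have k1 := (m1 t ht).2 1
    rw [mul_zero] at k0
    rw [mul_one, v1 t ht, ← v1 1 one_ne_zero] at k1
    have k2 := (mul_left_eq_self₀.1 k0.symm).resolve_left h
    have k3 := (mul_left_eq_self₀.1 k1.symm).resolve_left h
    rw [v0, Complex.ofReal_eq_zero] at k2
    rw [v1 1 one_ne_zero, Complex.ofReal_eq_zero] at k3
    have k4 : ε = 0 := by
      linear_combination (Fintype.card F ^ j + ε) * k2 - (Fintype.card F : ℝ) ^ j * k3
    rcases hε with h | h <;> linarith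
  have m6 := congrArg (Nat.cast : ℕ → ℝ) m3
  push_cast [Fintype.card_pos] at m6
  have hK : (K : ℝ) = Fintype.card F * ((Fintype.card F * Fintype.card F ^ j - ε) *
      (Fintype.card F ^ j + ε)) := by
    rw [e1, hnv] at m6
    linear_combination -m6 + Fintype.card F * ee
  rw [sum_erase_const v2, sum_erase_const v1, v0] at m4
  rw [sum_erase_const fun t ht => by rw [v1 t ht], v0, Complex.norm_real, Complex.norm_real,
    Real.norm_eq_abs, Real.norm_eq_abs, sq_abs, sq_abs, hK, e1, hnv] at m5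
  refine (even_num (Λ := Λ) hq' (by linarith) hε ?_ ?_).le
  · rw [← hK, ← e1]
    apply Complex.ofReal_injective
    push_cast at m4 ⊢
    linear_combination m4
  · linear_combination m5 + ee

end Big

theorem two_le_of_ne (H : Big Q) {M : Type*} [AddCommGroup M] [Module ℂ M] [FiniteDimensional ℂ M]
    (ρ : Representation ℂ (Gp Q) M) (h : ∃ g, ρ g ≠ 1) : 2 ≤ finrank ℂ M := by
  by_contra hlt
  obtain ⟨g, hg⟩ := h
  exact hg (LinearMap.ext fun v => triv_of_perfect (ρ := ρ) (H.nd.commutator_perfect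
    (by have := H.h7; omega)) (MonoidHom.id _) (L := ⊤) (by rw [finrank_top]; omega)
    (fun _ _ _ => trivial) g v trivial)

theorem odd_final (H : Big Q) (hodd : (2 : F) ≠ 0) (hq : 4 ≤ Fintype.card F) {k : ℕ}
    (hD : finrank F V = 2 * k + 3) {M : Type*} [AddCommGroup M] [Module ℂ M] [FiniteDimensional ℂ M]
    (ρ : Representation ℂ (Gp Q) M) (hirr : ρ.IsIrreducible) (h2 : 2 ≤ finrank ℂ M) :
    Fintype.card F ^ (2 * (k + 1)) - 1 ≤ (Fintype.card F ^ 2 - 1) * finrank ℂ M := by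
  obtain ⟨c, hc⟩ := exists_core ρ
  letI := c.toNormedAddCommGroup
  letI := InnerProductSpace.ofCore c.toCore
  have := H.odd_bound (ρ := ρ) hc hirr h2 hodd hq hD
  rw [← pow_mul, mul_comm (k + 1)] at this
  have h1 : ∀ i, 1 ≤ Fintype.card F ^ i := fun i => Nat.one_le_pow _ _ Fintype.card_pos
  rify [h1]
  exact this

theorem plus_final (H : Big Q) (hp : IsPlus Q) (hq : 4 ≤ Fintype.card F) {j : ℕ}
    (hD : finrank F V = 2 * j + 4) {M : Type*} [AddCommGroup M] [Module ℂ M] [FiniteDimensional ℂ M]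
    (ρ : Representation ℂ (Gp Q) M) (hirr : ρ.IsIrreducible) (h2 : 2 ≤ finrank ℂ M) :
    (Fintype.card F ^ (j + 2) - 1) * (Fintype.card F ^ (j + 1) + Fintype.card F) ≤
      (Fintype.card F ^ 2 - 1) * finrank ℂ M := by
  obtain ⟨c, hc⟩ := exists_core ρ
  letI := c.toNormedAddCommGroup
  letI := InnerProductSpace.ofCore c.toCore
  obtain ⟨e, he0, he⟩ := exists_singular Q (by omega)
  obtain ⟨f, hef, hf⟩ := H.nd.exists_hyp he0 he
  obtain ⟨i⟩ := H.nd.iso_plusQ hp (m := j + 1 + 1) (by omega)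
  have h3 := congrArg (Int.cast : ℤ → ℝ) (nv_plusQ (F := F) (j + 1))
  rw [nv_iso i, Nat.card_eq_fintype_card] at h3
  push_cast at h3
  have := (H.even_core (ρ := ρ) hc hirr h2 (Or.inl hq) hD (Or.inl rfl) (by rw [h3]; ring)
    he hf hef).resolve_right fun h => exists_sq_ne_one' hq h.1
  have h1 : ∀ i, 1 ≤ Fintype.card F ^ i := fun i => Nat.one_le_pow _ _ Fintype.card_pos
  rify [h1]
  exact le_of_eq_of_le (by ring) this

universe u w in
theorem minus_final (j : ℕ) : ∀ {V : Type u} [AddCommGroup V] [Module F V] [FiniteDimensional F V]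
    [Finite V] {Q : QuadraticForm F V} (_ : ND Q) (_ : ¬ IsPlus Q) (_ : finrank F V = 2 * (j + 2) + 4)
    (M : Type w) [AddCommGroup M] [Module ℂ M] [FiniteDimensional ℂ M]
    (ρ : Representation ℂ (Gp Q) M) (_ : ∃ g, ρ g ≠ 1),
    ((Fintype.card F : ℝ) ^ 2 * Fintype.card F ^ (j + 2) + 1) * Fintype.card F *
      (Fintype.card F ^ (j + 2) - 1) ≤ (Fintype.card F ^ 2 - 1) * finrank ℂ M := by
  induction j using Nat.strong_induction_on with | _ j ih
  intro V _ _ _ _ Q hQ hp hD M _ _ _ ρ hρ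
  have H : Big Q := ⟨hQ, by omega⟩
  have hq' : (2 : ℝ) ≤ Fintype.card F := by exact_mod_cast Fintype.one_lt_card
  have hq2 : (0 : ℝ) < Fintype.card F ^ 2 - 1 := by nlinarith
  rw [mul_comm _ (finrank ℂ M : ℝ), ← div_le_iff₀ hq2, ← Nat.ceil_le]
  refine le_of_irr (fun M _ _ _ ρ hirr hρ => ?_) M ρ hρ
  rw [Nat.ceil_le, div_le_iff₀ hq2, mul_comm (finrank ℂ M : ℝ)]
  obtain ⟨c, hc⟩ := exists_core ρ
  letI := c.toNormedAddCommGroup
  letI := InnerProductSpace.ofCore c.toCore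
  obtain ⟨e, he0, he⟩ := exists_singular Q (by omega)
  obtain ⟨f, hef, hf⟩ := hQ.exists_hyp he0 he
  obtain ⟨ζ, hζ⟩ := exists_aniso (F := F)
  obtain ⟨i⟩ := hQ.iso_minusQ hp (m := j + 2 + 1) (by omega) hζ
  have h3 := congrArg (Int.cast : ℤ → ℝ) (nv_minusQ (F := F) (j + 2 + 1) hζ)
  rw [nv_iso i, Nat.card_eq_fintype_card] at h3
  push_cast at h3
  rcases H.even_core (ρ := ρ) hc hirr (two_le_of_ne H ρ hρ) (Or.inr hp) hD (Or.inr rfl)
    (by rw [h3]; ring) he hf hef with h | ⟨-, h4, h5⟩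
  · exact le_of_eq_of_le (by ring) h
  rw [h4]
  rcases j with _ | j
  · have := Nat.cast_nonneg (α := ℝ) (finrank ℂ (H.Mw ρ e 0))
    generalize (finrank ℂ (H.Mw ρ e 0) : ℝ) = A at *
    generalize (Fintype.card F : ℝ) = q at *
    have h6 : 0 ≤ (q ^ 2 - 1) * (A + (q ^ 2 - q)) := mul_nonneg hq2.le (by nlinarith)
    exact sub_nonneg.1 (le_of_le_of_eq h6 (by ring))
  have hd := hQ.finrank_perp_hyp he hf hef
  obtain ⟨g, g1, g2, y, hy, hgy⟩ := h5 (by omega)
  let θ : Gp (Q.restrict (Wp Q e f)) →* Gp Q :=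
    ((ext hQ he hf hef).comp (Subgroup.subtype _)).codRestrict _ fun γ => ext_mem hQ he hf hef γ.2
  let U : Subrepresentation (ρ.comp θ) := ⟨H.Mw ρ e 0, fun γ v hv =>
    H.map_Mw' (θ γ) (ext_left hQ he hf hef _) (map_zero _) hv⟩
  obtain ⟨k, hk, e1⟩ := exists_ext hQ he hf hef H.good (Or.inl (good_of_five_le (by omega))) g.2 g1 g2
  have h6 := ih j (by omega) (hQ.nd_perp_hyp he hf hef) (fun h => hp (isPlus_of_perp hQ he hf hef h))
    (by omega) (H.Mw ρ e 0) U.toRepresentation ⟨⟨k, hk⟩, fun h => hgy (by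
      have := congrArg Subtype.val (LinearMap.congr_fun h ⟨y, hy⟩)
      rwa [← show θ ⟨k, hk⟩ = g from Subtype.ext e1])⟩
  rw [show j + 1 + 2 = j + 2 + 1 from rfl, pow_succ' _ (j + 2)]
  have h7 : (0 : ℝ) ≤ Fintype.card F ^ (j + 2) := by positivity
  generalize (finrank ℂ (H.Mw ρ e 0) : ℝ) = A at *
  generalize (Fintype.card F : ℝ) ^ (j + 2) = y at *
  generalize (Fintype.card F : ℝ) = q at *
  have h8 : 0 ≤ (q ^ 2 - 1) * (q ^ 2 * y) := by positivity
  linear_combination h6 + h8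

end Cfsg.Agent.ULT.OD
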