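import Mathlib
import Cfsg.Agent.Classical.LSE

/-! Weights of the Siegel radical of a symplectic group in odd characteristic. -/

set_option autoImplicit false
set_option backward.isDefEq.respectTransparency false
set_option linter.unusedSectionVars false

namespace Cfsg.Agent.ULT.SW
open Module Cfsg.Agent.Classical Cfsg.Agent.Classical.LS Cfsg.Agent.Classical.SpWitt
  Cfsg.Agent.Classical.AutSp

variable {F V : Type*} [Field F] [Fintype F] [AddCommGroup V] [Module F V] [Finite V]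

/-- A Lagrangian subspace in odd characteristic. -/
structure Lag (B : LinearMap.BilinForm F V) (U : Submodule F V) : Prop where
  nd : B.Nondegenerate
  alt : B.IsAlt
  iso : ∀ u ∈ U, ∀ v ∈ U, B u v = 0
  max : ∀ x, (∀ u ∈ U, B x u = 0) → x ∈ U
  two : (2 : F) ≠ 0
  rk : 2 ≤ finrank F U

variable {B : LinearMap.BilinForm F V} {U : Submodule F V}

theorem rs_apply {g h : SG B} (hg : g ∈ RS B U) (hh : h ∈ RS B U) (z : V) :
    g.1 (h.1 z) = g.1 z + (h.1 z - z) := by
  rw [← hg.1 _ (hh.2 z), ← map_add, add_sub_cancel]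

instance commRS : CommGroup (RS B U) :=
  { (inferInstance : Group (RS B U)) with
    mul_comm := fun g h => Subtype.ext (SG.ext fun z => by
      change g.1.1 (h.1.1 z) = h.1.1 (g.1.1 z)
      rw [rs_apply g.2 h.2, rs_apply h.2 g.2]; abel) }

instance finSG : Finite (SG B) := Finite.of_injective (fun g : SG B => (g.1 : V → V))
    fun _ _ h => SG.ext (congrFun h)

noncomputable instance fintypeRS : Fintype (Additive (RS B U)) := Fintype.ofFinite _

variable (B U) in
/-- The Siegel radical as a family. -/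
def xN (a : Additive (RS B U)) : SG B := (a.toMul : RS B U)

theorem xN_add (a b : Additive (RS B U)) : xN B U (a + b) = xN B U a * xN B U b := rfl

theorem xN_mem (a : Additive (RS B U)) : xN B U a ∈ RS B U := a.toMul.2

/-- An element of the radical, additively. -/
def mkN (n : SG B) (hn : n ∈ RS B U) : Additive (RS B U) := Additive.ofMul ⟨n, hn⟩

@[simp] theorem xN_mk (n : SG B) (hn : n ∈ RS B U) : xN B U (mkN n hn) = n := rfl

namespace Lag
variable (H : Lag B U)
include H

theorem symm (x y : V) : B x y = -B y x := (H.alt.neg_eq y x).symm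

theorem self (x : V) : B x x = 0 := H.alt.self_eq_zero x

/-- The characters of rank at most one. -/
noncomputable def lz (a : F) (z : V) : AddChar (Additive (RS B U)) ℂ where
  toFun n := ψ F (a * B z ((xN B U n).1 z))
  map_zero_eq_one' := by
    change ψ F (a * B z z) = 1
    simp [H.self]
  map_add_eq_mul' m n := by
    rw [xN_add, SG.mul_apply, rs_apply (xN_mem m) (xN_mem n), ← ψ_add]
    simp [H.self, mul_add]

theorem lz_apply (a : F) (z : V) (n : Additive (RS B U)) :
    H.lz a z n = ψ F (a * B z ((xN B U n).1 z)) := rfl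

theorem tv_mem {u : V} (hu : u ∈ U) (c : F) : tv H.alt u c ∈ RS B U :=
  ⟨fun v hv => by simp [tv_apply, H.iso v hv _ hu],
    fun z => by simpa [tv_apply] using U.smul_mem _ hu⟩

theorem eich_mem {u v : V} (hu : u ∈ U) (hv : v ∈ U) : eich H.alt u v 0 ∈ RS B U :=
  ⟨fun w hw => by simp [eich_apply H.alt (H.iso u hu v hv), H.iso w hw _ hu, H.iso w hw _ hv],
    fun z => by
      simpa [eich_apply H.alt (H.iso u hu v hv), add_assoc] using
        U.add_mem (U.smul_mem _ hv) (U.smul_mem _ hu)⟩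

theorem lz_tv (a : F) (z : V) {u : V} {c : F} (hn : tv H.alt u c ∈ RS B U) :
    H.lz a z (mkN _ hn) = ψ F (a * B z u ^ 2 * c) := by
  rw [lz_apply, xN_mk, tv_apply]; congr 1; simp [H.self]; ring

theorem lz_eich (a : F) (z : V) {u v : V} (hu : u ∈ U) (hv : v ∈ U) :
    H.lz a z (mkN _ (H.eich_mem hu hv)) = ψ F (2 * a * B z u * B z v) := by
  rw [lz_apply, xN_mk, eich_apply H.alt (H.iso u hu v hv)]; congr 1; simp [H.self]; ring

theorem lz_add (a : F) (z : V) {u : V} (hu : u ∈ U) : H.lz a (z + u) = H.lz a z := by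
  ext n
  have h := xN_mem n
  have := H.iso u hu _ (h.2 z)
  rw [map_sub, sub_eq_zero] at this
  simp only [lz_apply, map_add, h.1 u hu, LinearMap.add_apply, H.self, this, H.symm u z]
  congr 1; ring

theorem lz_congr (a : F) {z z' : V} (h : z - z' ∈ U) : H.lz a z = H.lz a z' := by
  rw [← H.lz_add a z' h, add_sub_cancel]

theorem lz_smul (a c : F) (z : V) : H.lz a (c • z) = H.lz (a * c ^ 2) z := by
  ext n
  simp only [lz_apply, map_smul, LinearMap.smul_apply, smul_eq_mul]
  congr 1; ring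

theorem lz_zero (z : V) : H.lz 0 z = 0 := by
  ext n; simp [lz_apply]

/-- The stabiliser of the Lagrangian. -/
def PS : Subgroup (SG B) where
  carrier := {g | ∀ u ∈ U, g.1 u ∈ U}
  one_mem' _ hu := hu
  mul_mem' ha hb u hu := ha _ (hb u hu)
  inv_mem' {g} hg u hu := H.max _ fun v hv => by
    rw [← SG.map g, SG.apply_inv]; exact H.iso _ hu _ (hg v hv)

theorem RS_le : RS B U ≤ H.PS := fun _ hg u hu => (hg.1 u hu).symm ▸ hu

theorem conj_mem {p n : SG B} (hp : p ∈ H.PS) (hn : n ∈ RS B U) : p⁻¹ * n * p ∈ RS B U :=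
  ⟨fun u hu => by rw [SG.mul_apply, SG.mul_apply, hn.1 _ (hp u hu), SG.inv_apply], fun x => by
    have := H.PS.inv_mem hp _ (hn.2 (p.1 x))
    rwa [map_sub, SG.inv_apply] at this⟩

theorem mem_RS {p : SG B} (h : ∀ u ∈ U, p.1 u = u) : p ∈ RS B U :=
  ⟨h, fun x => H.max _ fun u hu => by
    rw [map_sub, LinearMap.sub_apply]
    nth_rw 1 [← h u hu]
    rw [SG.map, sub_self]⟩

theorem exists_r {z : V} (hz : z ∉ U) : ∃ r ∈ U, B z r = 1 := by
  by_contra h
  push Not at h
  refine hz (H.max z fun u hu => by_contra fun h0 => h ((B z u)⁻¹ • u) (U.smul_mem _ hu) ?_)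
  simp [h0]

theorem closure_tv {n : SG B} (hn : n ∈ RS B U) :
    n ∈ Subgroup.closure {g | ∃ u ∈ U, ∃ c, g = tv H.alt u c} := by
  suffices h : ∀ K : Submodule F V, ∀ n ∈ RS B U, (∀ x, x ∈ K ↔ n.1 x = x) →
      n ∈ Subgroup.closure {g | ∃ u ∈ U, ∃ c, g = tv H.alt u c} from
    h (LinearMap.eqLocus n.1.toLinearMap LinearMap.id) n hn fun _ => Iff.rfl
  intro K
  induction K using WellFoundedGT.induction with
  | ind K ih =>
  intro n hn hK
  by_cases h : ∃ x, B x (n.1 x) ≠ 0
  · obtain ⟨x, hx⟩ := h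
    have hu := hn.2 x
    let t := tv H.alt (n.1 x - x) (B x (n.1 x))⁻¹
    have ht : t ∈ RS B U := H.tv_mem hu _
    have t1 : t.1 x = n.1 x := by
      rw [tv_apply, map_sub, H.self, sub_zero, inv_mul_cancel₀ hx]; simp
    have t2 : ∀ y, n.1 y = y → t.1 y = y := fun y hy => by
      rw [tv_apply, map_sub]
      nth_rw 2 [← hy]
      rw [SG.map]; simp
    have key : ∀ y, t.1 y = n.1 y → (t⁻¹ * n).1 y = y := fun y hy => by
      rw [SG.mul_apply, ← hy, SG.inv_apply]
    have := ih (LinearMap.eqLocus (t⁻¹ * n).1.toLinearMap LinearMap.id) (lt_of_le_of_ne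
      (fun y hy => key y (by rw [t2 y ((hK y).1 hy), (hK y).1 hy])) fun e => ?_) (t⁻¹ * n)
      (mul_mem (inv_mem ht) hn) fun _ => Iff.rfl
    · have ht' : t ∈ Subgroup.closure {g | ∃ u ∈ U, ∃ c, g = tv H.alt u c} :=
        Subgroup.subset_closure ⟨_, hu, _, rfl⟩
      simpa using mul_mem ht' this
    · have : x ∈ K := e ▸ key x t1
      rw [(hK x).1 this, H.self] at hx
      exact hx rfl
  · push Not at h
    have : n = 1 := SG.ext fun y => by
      rw [SG.one_apply, ← sub_eq_zero]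
      refine H.nd.2 _ fun x => ?_
      have e1 := h (x + y)
      have e2 := H.iso _ (hn.2 x) _ (hn.2 y)
      simp only [map_add, LinearMap.add_apply, map_sub, LinearMap.sub_apply, h, SG.map,
        H.symm (n.1 x) y] at e1 e2 ⊢
      exact mul_left_cancel₀ H.two (by linear_combination e1 - e2)
    rw [this]; exact one_mem _

theorem ext_tv {l l' : AddChar (Additive (RS B U)) ℂ}
    (h : ∀ u (hu : u ∈ U) c, l (mkN _ (H.tv_mem hu c)) = l' (mkN _ (H.tv_mem hu c))) : l = l' := by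
  ext n
  suffices ∀ g ∈ Subgroup.closure {g | ∃ u ∈ U, ∃ c, g = tv H.alt u c},
      ∃ hg : g ∈ RS B U, l (mkN g hg) = l' (mkN g hg) from
    (this _ (H.closure_tv (xN_mem n))).2
  intro g hg
  induction hg using Subgroup.closure_induction with
  | mem g hg => obtain ⟨u, hu, c, rfl⟩ := hg; exact ⟨_, h u hu c⟩
  | one => exact ⟨one_mem _, l.map_zero_eq_one.trans l'.map_zero_eq_one.symm⟩
  | mul a b _ _ ha hb =>
    obtain ⟨a1, a2⟩ := ha
    obtain ⟨b1, b2⟩ := hb
    exact ⟨mul_mem a1 b1, (l.map_add_eq_mul (mkN a a1) (mkN b b1)).trans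
      (by rw [a2, b2]; exact (l'.map_add_eq_mul _ _).symm)⟩
  | inv a _ ha =>
    obtain ⟨a1, a2⟩ := ha
    exact ⟨inv_mem a1, (l.map_neg_eq_inv (mkN a a1)).trans
      (by rw [a2]; exact (l'.map_neg_eq_inv _).symm)⟩

variable {W : Type*} [AddCommGroup W] [Module ℂ W] (ρ : Representation ℂ (SG B) W)

/-- The weight spaces of rank at most one. -/
noncomputable def M (a : F) (z : V) : Submodule ℂ W := Wt ρ (xN B U) (H.lz a z)

/-- The projectors. -/
noncomputable def pj (a : F) (z : V) : End ℂ W := P ρ (xN B U) (H.lz a z)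

variable {ρ}

theorem mem_M {a : F} {z : V} {v : W} :
    v ∈ H.M ρ a z ↔ ∀ n ∈ RS B U, ρ n v = ψ F (a * B z (n.1 z)) • v :=
  mem_Wt.trans ⟨fun h n hn => h (mkN n hn), fun h n => h _ (xN_mem n)⟩

theorem M_tv {a : F} {z : V} {v : W} (hv : v ∈ H.M ρ a z) {u : V} (hu : u ∈ U) (c : F) :
    ρ (tv H.alt u c) v = ψ F (a * B z u ^ 2 * c) • v := by
  rw [← H.lz_tv a z (H.tv_mem hu c)]; exact mem_Wt.1 hv (mkN _ (H.tv_mem hu c))

theorem M_eich {a : F} {z : V} {v : W} (hv : v ∈ H.M ρ a z) {u u' : V} (hu : u ∈ U) (hu' : u' ∈ U) :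
    ρ (eich H.alt u u' 0) v = ψ F (2 * a * B z u * B z u') • v := by
  rw [← H.lz_eich a z hu hu']; exact mem_Wt.1 hv (mkN _ (H.eich_mem hu hu'))

theorem pj_mem (a : F) (z : V) (v : W) : H.pj ρ a z v ∈ H.M ρ a z := P_mem xN_add _ v

theorem pj_of_mem {a : F} {z : V} {v : W} (hv : v ∈ H.M ρ a z) : H.pj ρ a z v = v := by
  classical
  rw [pj, P_apply hv, if_pos rfl]

theorem M_map {p : SG B} (hp : p ∈ H.PS) {a : F} {z : V} {v : W} (hv : v ∈ H.M ρ a z) :
    ρ p v ∈ H.M ρ a (p.1 z) := H.mem_M.2 fun n hn => by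
  have : n * p = p * (p⁻¹ * n * p) := by group
  rw [← End.mul_apply, ← map_mul, this, map_mul, End.mul_apply, H.mem_M.1 hv _ (H.conj_mem hp hn),
    map_smul, SG.mul_apply, SG.mul_apply, ← SG.map p, SG.apply_inv]

theorem pj_comm {p : SG B} (hp : p ∈ H.PS) (a : F) (z : V) (v : W) :
    H.pj ρ a (p.1 z) (ρ p v) = ρ p (H.pj ρ a z v) := by
  let e : Additive (RS B U) ≃ Additive (RS B U) :=
    { toFun := fun n => mkN _ (H.conj_mem hp (xN_mem n))
      invFun := fun n => mkN _ (H.conj_mem (inv_mem hp) (xN_mem n))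
      left_inv := fun n => Subtype.ext (by
        change p⁻¹⁻¹ * (p⁻¹ * xN B U n * p) * p⁻¹ = xN B U n; group)
      right_inv := fun n => Subtype.ext (by
        change p⁻¹ * (p⁻¹⁻¹ * xN B U n * p⁻¹) * p = xN B U n; group) }
  simp only [pj, P, LinearMap.smul_apply, LinearMap.sum_apply, map_smul, map_sum]
  congr 1
  rw [← e.sum_comp (fun m => H.lz a z (-m) • ρ p (ρ (xN B U m) v))]
  refine Finset.sum_congr rfl fun n _ => ?_
  have h1 : xN B U (e n) = p⁻¹ * xN B U n * p := rfl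
  rw [AddChar.map_neg_eq_inv, AddChar.map_neg_eq_inv, lz_apply, lz_apply, h1, ← End.mul_apply,
    ← map_mul, ← End.mul_apply, ← map_mul, SG.mul_apply, SG.mul_apply, ← SG.map p z, SG.apply_inv]
  congr 3; group

omit H in
theorem P_N (l : AddChar (Additive (RS B U)) ℂ) {n : SG B} (hn : n ∈ RS B U) (v : W) :
    P ρ (xN B U) l (ρ n v) = l (mkN n hn) • P ρ (xN B U) l v := by
  rw [← mem_Wt.1 (P_mem xN_add l v) (mkN n hn)]
  simp only [P, LinearMap.smul_apply, LinearMap.sum_apply, map_smul, map_sum]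
  congr 1
  refine Finset.sum_congr rfl fun m _ => ?_
  rw [← End.mul_apply, ← map_mul, ← End.mul_apply, ← map_mul]
  exact congrArg (fun g => l (-m) • ρ g v) (x_comm xN_add m (mkN n hn))

omit H in
theorem eig_of_P {l : AddChar (Additive (RS B U)) ℂ} {v : W} (h : P ρ (xN B U) l v ≠ 0) {n : SG B}
    (hn : n ∈ RS B U) {c : ℂ} (hc : ρ n v = c • v) : l (mkN n hn) = c := by
  have := P_N (ρ := ρ) l hn v
  rw [hc, map_smul] at this
  exact (smul_left_injective ℂ h this).symm

omit H in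
theorem P_stable {S : Submodule ℂ W} (hS : ∀ n ∈ RS B U, ∀ v ∈ S, ρ n v ∈ S)
    (l : AddChar (Additive (RS B U)) ℂ) {v : W} (hv : v ∈ S) : P ρ (xN B U) l v ∈ S := by
  simp only [P, LinearMap.smul_apply, LinearMap.sum_apply]
  exact S.smul_mem _ (S.sum_mem fun n _ => S.smul_mem _ (hS _ (xN_mem n) v hv))

omit H in
theorem eq_sum_all (v : W) : v = ∑ l, P ρ (xN B U) l v := by
  rw [← LinearMap.sum_apply, sum_P (x := xN B U) xN_add, End.one_apply]

omit H in
theorem eq_sum {ι : Type*} [Fintype ι] (f : ι → AddChar (Additive (RS B U)) ℂ)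
    (hf : Function.Injective f) {v : W} (h : ∀ l, P ρ (xN B U) l v ≠ 0 → ∃ i, l = f i) :
    v = ∑ i, P ρ (xN B U) (f i) v := by
  classical
  refine (eq_sum_all v).trans (Finset.sum_of_injOn f hf.injOn (by simp) (fun l _ hl => ?_) fun _ _ => rfl).symm
  by_contra h0
  obtain ⟨i, rfl⟩ := h l h0
  exact hl ⟨i, by simp, rfl⟩

end Lag
end Cfsg.Agent.ULT.SW
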