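import Mathlib
import Cfsg.Agent.ULT.SW1

/-! The action of the Weyl elements on representations of rank one. -/

set_option autoImplicit false
set_option backward.isDefEq.respectTransparency false
set_option linter.unusedSectionVars false

namespace Cfsg.Agent.ULT.SW
open Module Cfsg.Agent.Classical Cfsg.Agent.Classical.LS Cfsg.Agent.Classical.SpWitt
  Cfsg.Agent.Classical.AutSp

variable {F V : Type*} [Field F] [Fintype F] [AddCommGroup V] [Module F V] [Finite V]
  {B : LinearMap.BilinForm F V} {U : Submodule F V}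

/-- A Gauss sum. -/
noncomputable def Gs (d : F) : ℂ := ∑ s : F, ψ F (-(d * s ^ 2))

theorem app_mul {G W : Type*} [Group G] [AddCommGroup W] [Module ℂ W] (ρ : Representation ℂ G W)
    {a b c e : G} (h : a * b = c * e) (v : W) : ρ a (ρ b v) = ρ c (ρ e v) := by
  rw [← End.mul_apply, ← map_mul, h, map_mul, End.mul_apply]

namespace Lag
variable (H : Lag B U)
include H

/-- The Weyl elements. -/
def ww (e e' : V) (c : F) : SG B := tv H.alt e c * tv H.alt e' c⁻¹ * tv H.alt e c

section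
variable {e e' : V} (h1 : B e' e = 1) {c : F} (hc : c ≠ 0)
include h1 hc

theorem ww_apply (x : V) : (H.ww e e' c).1 x =
    x - B e' x • e - B x e • e' - (B e' x * c⁻¹) • e' + (B x e * c) • e := by
  simp only [ww, SG.mul_apply, tv_apply, map_add, map_smul, LinearMap.add_apply,
    LinearMap.smul_apply, H.self, smul_eq_mul, h1, H.symm e e', H.symm x e']
  match_scalars <;> field_simp <;> ring

theorem ww_perp {x : V} (a : B x e = 0) (b : B e' x = 0) : (H.ww e e' c).1 x = x := by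
  simp [H.ww_apply h1 hc, a, b]

theorem ww_e : (H.ww e e' c).1 e = -c⁻¹ • e' := by simp [H.ww_apply h1 hc, h1, H.self]

theorem ww_e' : (H.ww e e' c).1 e' = c • e := by simp [H.ww_apply h1 hc, h1, H.self]

theorem ww_braid : tv H.alt e (-c) * H.ww e e' c * tv H.alt e (-c) * H.ww e e' c =
    H.ww e e' c * tv H.alt e c := by
  have : H.ww e e' c * tv H.alt e c * (H.ww e e' c)⁻¹ = tv H.alt e' c⁻¹ := by
    rw [conj_tv, H.ww_e h1 hc, tv_smul]; congr 1; field_simp
  rw [mul_inv_eq_iff_eq_mul.1 this, tv_neg]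
  congr 1
  rw [ww]; group

theorem ww_tv {u : V} (a : B u e = 0) (b : B e' u = 0) (d : F) :
    tv H.alt u d * H.ww e e' c = H.ww e e' c * tv H.alt u d := by
  have := conj_tv H.alt (H.ww e e' c) u d
  rw [H.ww_perp h1 hc a b] at this
  exact (mul_inv_eq_iff_eq_mul.1 this).symm

end

theorem split {e e' : V} (he : e ∈ U) (h1 : B e' e = 1) {z : V}
    (h : ∀ u ∈ U, B e' u = 0 → B z u = 0) : z - B z e • e' ∈ U := H.max _ fun u hu => by
  have := h (u - B e' u • e) (U.sub_mem hu (U.smul_mem _ he)) (by simp [h1])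
  simp only [map_sub, map_smul, smul_eq_mul, LinearMap.sub_apply, LinearMap.smul_apply] at this ⊢
  linear_combination this

theorem gam_mem {r y : V} (hr : r ∈ U) (h : B r y = 0) : eich H.alt r y 0 ∈ H.PS := fun u hu => by
  simpa [eich_apply H.alt h, H.iso u hu r hr] using U.add_mem hu (U.smul_mem _ hr)

variable {W : Type*} [AddCommGroup W] [Module ℂ W] (ρ : Representation ℂ (SG B) W)

/-- All weights have rank at most one. -/
def R1 : Prop :=
  ∀ l : AddChar (Additive (RS B U)) ℂ, Wt ρ (xN B U) l ≠ ⊥ → ∃ a z, l = H.lz a z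

variable {ρ} (hR : H.R1 ρ)
include hR

theorem of_P {l : AddChar (Additive (RS B U)) ℂ} {v : W} (h : P ρ (xN B U) l v ≠ 0) :
    ∃ a z, l = H.lz a z :=
  hR l ((Submodule.ne_bot_iff _).2 ⟨_, P_mem xN_add l v, h⟩)

theorem y0 {e e' : V} (he : e ∈ U) (h1 : B e' e = 1) {y : W}
    (hy : ∀ u ∈ U, B e' u = 0 → ∀ c, ρ (tv H.alt u c) y = y) {l : AddChar (Additive (RS B U)) ℂ}
    (hl : P ρ (xN B U) l y ≠ 0) : ∃ b, l = H.lz b e' := by
  obtain ⟨b, z, rfl⟩ := H.of_P hR hl
  by_cases hb : b = 0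
  · exact ⟨0, by rw [hb, lz_zero, lz_zero]⟩
  refine ⟨b * B z e ^ 2, ?_⟩
  rw [← lz_smul]
  refine H.lz_congr b (H.split he h1 fun u hu h => ?_)
  have : b * B z u ^ 2 = 0 := eq_zero_of_ψ fun c => by
    rw [← H.lz_tv b z (H.tv_mem hu c)]
    exact eig_of_P hl _ ((hy u hu h c).trans (one_smul _ _).symm)
  simpa [hb] using this

theorem y0_fix {e e' : V} (he : e ∈ U) (h1 : B e' e = 1) {y : W}
    (hy : ∀ u ∈ U, B e' u = 0 → ∀ c, ρ (tv H.alt u c) y = y) {n : SG B} (hn : n ∈ RS B U)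
    (h : B e' (n.1 e') = 0) : ρ n y = y := by
  have : y = ∑ l, P ρ (xN B U) l y := eq_sum_all y
  rw [this, map_sum]
  refine Finset.sum_congr rfl fun l _ => ?_
  by_cases hl : P ρ (xN B U) l y = 0
  · rw [hl, map_zero]
  obtain ⟨b, rfl⟩ := H.y0 hR he h1 hy hl
  rw [H.mem_M.1 (P_mem xN_add _ y) n hn, h]; simp

section
variable {a : F} (ha : a ≠ 0) {e e' r z : V} (he : e ∈ U) (h1 : B e' e = 1) (hr : r ∈ U)
  (h2 : B e' r = 0) (h3 : B z r = 1) (h4 : B z e = 0) (h5 : B z e' = 0) {c : F} (hc : c ≠ 0)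
include ha he h1 hr h2 h3 h4 h5 hc

theorem ka {m : W} (hm : m ∈ H.M ρ a z) : ρ (H.ww e e' c) m =
    ∑ s : F, ρ (eich H.alt r (s • e') 0) (H.pj ρ a z (ρ (H.ww e e' c) m)) := by
  have h2' : ∀ s : F, B r (s • e') = 0 := fun s => by simp [H.symm r, h2]
  have hw : ∀ u ∈ U, B e' u = 0 → (H.ww e e' c).1 u = u := fun u hu h =>
    H.ww_perp h1 hc (H.iso u hu e he) h
  refine (eq_sum (ρ := ρ) (fun t : F => H.lz a (z + t • e')) (fun t t' h => ?_) fun l hl => ?_).trans
    (Finset.sum_congr rfl fun s _ => ?_)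
  · have : 2 * a * t = 2 * a * t' := eq_of_ψ fun d => by
      have := DFunLike.congr_fun h (mkN _ (H.eich_mem hr (U.smul_mem d he)))
      simp only [H.lz_eich _ _ hr (U.smul_mem d he)] at this
      simpa [h1, h2, h3, h4, mul_assoc, mul_comm d] using this
    simpa [ha, H.two] using this
  · obtain ⟨b, y, rfl⟩ := H.of_P hR hl
    have key : ∀ u ∈ U, B e' u = 0 → b * B y r * B y u = a * B z u := fun u hu h => by
      refine mul_left_cancel₀ H.two (eq_of_ψ fun d => ?_)
      have hd := U.smul_mem d hu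
      have e1 := conj_eich H.alt (H.ww e e' c) r (d • u) 0
      rw [hw r hr h2, hw _ hd (by simp [h])] at e1
      have := eig_of_P hl (H.eich_mem hr hd) (by
        rw [app_mul ρ (mul_inv_eq_iff_eq_mul.1 e1).symm, H.M_eich hm hr hd, map_smul])
      rw [H.lz_eich _ _ hr hd, h3] at this
      simp only [map_smul, smul_eq_mul] at this
      convert this using 2 <;> ring
    have k1 := key r hr h2
    rw [h3, mul_one] at k1
    have h0 : B y r ≠ 0 := fun h => ha (by rw [← k1, h, mul_zero])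
    refine ⟨B ((B y r)⁻¹ • y - z) e, ?_⟩
    have := H.split he h1 (z := (B y r)⁻¹ • y - z) fun u hu h => by
      have := key u hu h
      simp only [map_sub, map_smul, LinearMap.sub_apply, LinearMap.smul_apply, smul_eq_mul]
      refine mul_left_cancel₀ ha ?_
      rw [mul_sub, ← this, ← k1]; field_simp; ring
    rw [sub_sub] at this
    rw [← H.lz_congr a this, lz_smul, ← k1]; congr 1; field_simp
  · have e1 := conj_eich H.alt (H.ww e e' c) r ((-s * c) • e) 0
    rw [hw r hr h2, map_smul, H.ww_e h1 hc, smul_smul,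
      show -s * c * -c⁻¹ = s by field_simp] at e1
    have e2 : (eich H.alt r (s • e') 0).1 z = z + s • e' := by
      simp [eich_apply H.alt (h2' s), h3, h5]
    rw [← H.pj_comm (H.gam_mem hr (h2' s)), e2, app_mul ρ (mul_inv_eq_iff_eq_mul.1 e1).symm,
      H.M_eich hm hr (U.smul_mem _ he)]
    simp [h4, pj]

theorem kb {m : W} (hm : m ∈ H.M ρ a z) : Gs (a * c) • H.pj ρ a z (ρ (H.ww e e' c) m) = m := by
  have h2' : ∀ s : F, B r (s • e') = 0 := fun s => by simp [H.symm r, h2]
  have ka := fun m hm => H.ka hR ha he h1 hr h2 h3 h4 h5 hc (m := m) hm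
  have key : H.pj ρ a z (ρ (H.ww e e' c) m) =
      Gs (a * c) • H.pj ρ a z (ρ (H.ww e e' c) (H.pj ρ a z (ρ (H.ww e e' c) m))) := by
    have e0 := congrArg (fun g => H.pj ρ a z (ρ g m)) (H.ww_braid h1 hc)
    simp only [map_mul, End.mul_apply] at e0
    rw [H.M_tv hm he, h4, pj, P_N _ (H.tv_mem he _), lz_tv, h4, ka m hm] at e0
    simp only [ne_eq, OfNat.ofNat_ne_zero, not_false_eq_true, zero_pow, mul_zero, zero_mul,
      AddChar.map_zero_eq_one, one_smul] at e0
    refine e0.symm.trans ?_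
    rw [Gs, Finset.sum_smul, map_sum, map_sum, map_sum]
    refine Finset.sum_congr rfl fun s _ => ?_
    have e1 := conj_eich H.alt (H.ww e e' c) r (s • e') 0
    rw [H.ww_perp h1 hc (H.iso r hr e he) h2, map_smul, H.ww_e' h1 hc, smul_smul] at e1
    rw [H.M_tv (H.M_map (H.gam_mem hr (h2' s)) (H.pj_mem a z _)) he, map_smul, map_smul,
      app_mul ρ (mul_inv_eq_iff_eq_mul.1 e1), P_N _ (H.eich_mem hr (U.smul_mem _ he)),
      H.lz_eich _ _ hr (U.smul_mem _ he)]
    simp [eich_apply H.alt (h2' s), h3, h4, h5, h1, pj, mul_right_comm a c]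
  have hm' : m - Gs (a * c) • H.pj ρ a z (ρ (H.ww e e' c) m) ∈ H.M ρ a z :=
    sub_mem hm (Submodule.smul_mem _ _ (H.pj_mem _ _ _))
  have := ka _ hm'
  rw [map_sub, map_sub, map_smul, map_smul, ← key, sub_self] at this
  simp only [map_zero, Finset.sum_const_zero, sub_eq_zero, ← map_smul] at this
  simpa only [map_smul] using (apply_injective _ this).symm

theorem kc {m : W} (hm : m ∈ H.M ρ a z) :
    Gs (a * c) • ρ (H.ww e e' c) m = ∑ s : F, ρ (eich H.alt r (s • e') 0) m := by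
  rw [H.ka hR ha he h1 hr h2 h3 h4 h5 hc hm, Finset.smul_sum]
  simp only [← map_smul, H.kb hR ha he h1 hr h2 h3 h4 h5 hc hm]

end

end Lag
end Cfsg.Agent.ULT.SW
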