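import Mathlib
import Cfsg.Agent.ULT.SW2

/-! The stabiliser of a weight of rank one acts by scalars. -/

set_option autoImplicit false
set_option backward.isDefEq.respectTransparency false
set_option linter.unusedSectionVars false

namespace Cfsg.Agent.ULT.SW
open Module Cfsg.Agent.Classical Cfsg.Agent.Classical.LS Cfsg.Agent.Classical.SpWitt
  Cfsg.Agent.Classical.AutSp Cfsg.Agent.Classical.SpSimple

variable {F V : Type*} [Field F] [Fintype F] [AddCommGroup V] [Module F V] [Finite V]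
  {B : LinearMap.BilinForm F V} {U : Submodule F V}

namespace Lag
variable (H : Lag B U)
include H

theorem ww_neg_mul (e e' : V) (c : F) : H.ww e e' (-c) * H.ww e e' c = 1 := by
  simp only [ww, inv_neg, tv_neg]; group

theorem conj_ww (g : SG B) (e e' : V) (c : F) :
    g * H.ww e e' c * g⁻¹ = H.ww (g.1 e) (g.1 e') c := by
  simp only [ww, ← conj_tv, mul_assoc, inv_mul_cancel_left]

theorem hh_apply {e e' : V} (h1 : B e' e = 1) {c : F} (hc : c ≠ 0) (x : V) :
    (H.ww e e' (-c) * H.ww e e' 1).1 x = x + ((c - 1) * B e' x) • e + ((c⁻¹ - 1) * B x e) • e' := by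
  simp only [SG.mul_apply, H.ww_apply h1 one_ne_zero, H.ww_apply h1 (neg_ne_zero.2 hc), map_add,
    map_sub, map_smul, LinearMap.add_apply, LinearMap.sub_apply, LinearMap.smul_apply, H.self, h1,
    smul_eq_mul]
  match_scalars <;> field_simp <;> ring

theorem ww_mul_mem {e e' : V} (he : e ∈ U) (h1 : B e' e = 1) {c d : F} (hc : c ≠ 0) (hd : d ≠ 0) :
    H.ww e e' c * H.ww e e' d ∈ H.PS := fun u hu => by
  have : u = (u - B e' u • e) + B e' u • e := by abel
  have h := U.sub_mem hu (U.smul_mem (B e' u) he)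
  have a := H.iso _ h e he
  have b : B e' (u - B e' u • e) = 0 := by simp [h1]
  rw [this, SG.mul_apply, map_add, map_add, H.ww_perp h1 hd a b, H.ww_perp h1 hc a b, map_smul,
    map_smul, H.ww_e h1 hd, map_smul, H.ww_e' h1 hc]
  exact U.add_mem h (U.smul_mem _ (U.smul_mem _ (U.smul_mem _ he)))

theorem exists_r' {z e e' : V} (hz : z ∉ U) (he : e ∈ U) (h1 : B e' e = 1) (h4 : B z e = 0) :
    ∃ r ∈ U, B e' r = 0 ∧ B z r = 1 := by
  obtain ⟨r, hr, h⟩ := H.exists_r hz
  exact ⟨r - B e' r • e, U.sub_mem hr (U.smul_mem _ he), by simp [h1], by simp [h, h4]⟩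

theorem pm {a : F} (ha : a ≠ 0) {z z' : V} (hz : z ∉ U) (h : H.lz a z' = H.lz a z) :
    z' - z ∈ U ∨ z' + z ∈ U := by
  obtain ⟨r, hr, h3⟩ := H.exists_r hz
  have key : ∀ u ∈ U, B z' r * B z' u = B z u := fun u hu => by
    refine mul_left_cancel₀ (mul_ne_zero H.two ha) (eq_of_ψ fun d => ?_)
    have := DFunLike.congr_fun h (mkN _ (H.eich_mem hr (U.smul_mem d hu)))
    simp only [H.lz_eich _ _ hr (U.smul_mem d hu), h3, map_smul, smul_eq_mul] at this
    convert this using 2 <;> ring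
  have := key r hr
  rw [h3, mul_self_eq_one_iff] at this
  refine this.imp (fun e => H.max _ fun u hu => ?_) fun e => H.max _ fun u hu => ?_
  · simp [← key u hu, e]
  · simp [← key u hu, e]

variable {W : Type*} [AddCommGroup W] [Module ℂ W] {ρ : Representation ℂ (SG B) W}

theorem M_congr (a : F) {z z' : V} (h : z - z' ∈ U) : H.M ρ a z = H.M ρ a z' := by
  rw [M, H.lz_congr a h, M]

variable (hR : H.R1 ρ) {a : F} (ha : a ≠ 0) {z : V} (hz : z ∉ U)
include hR ha hz

theorem sc_h {e e' : V} (he : e ∈ U) (h1 : B e' e = 1) (h4 : B z e = 0) {c : F} (hc : c ≠ 0) :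
    ∃ k : ℂ, ∀ m ∈ H.M ρ a z, ρ (H.ww e e' (-c) * H.ww e e' 1) m = k • m := by
  obtain ⟨r, hr, h2, h3⟩ := H.exists_r' hz he h1 h4
  refine ⟨Gs (a * c) / Gs (a * 1), fun m hm => ?_⟩
  rw [← H.M_congr a (z := z + B z e' • e) (by simpa using U.smul_mem _ he)] at hm
  have h3' : B (z + B z e' • e) r = 1 := by simp [h3, H.iso e he r hr]
  have h4' : B (z + B z e' • e) e = 0 := by simp [h4, H.self]
  have h5' : B (z + B z e' • e) e' = 0 := by simp [H.symm e e', h1]
  by_cases hG : Gs (a * 1) = 0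
  · rw [← H.kb hR ha he h1 hr h2 h3' h4' h5' one_ne_zero hm, hG]; simp
  have := (H.kc hR ha he h1 hr h2 h3' h4' h5' one_ne_zero hm).trans
    (H.kc hR ha he h1 hr h2 h3' h4' h5' hc hm).symm
  rw [← eq_inv_smul_iff₀ hG] at this
  rw [map_mul, End.mul_apply, this, map_smul, map_smul, ← End.mul_apply, ← map_mul, ww_neg_mul,
    map_one, End.one_apply, smul_smul, div_eq_inv_mul]

theorem triv_eich {u y : V} (hu : u ∈ U) (hy : B u y = 0) (h4 : B z u = 0) {m : W}
    (hm : m ∈ H.M ρ a z) : ρ (eich H.alt u y 0) m = m := by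
  by_cases h0 : u = 0
  · rw [show eich H.alt u y 0 = 1 from SG.ext fun x => by
      rw [eich_apply H.alt hy]; simp [h0, SG.one_apply], map_one, End.one_apply]
  obtain ⟨e, he⟩ := exists_one H.nd H.alt.isRefl h0
  have h1 : B (-e) u = 1 := by simp [H.symm e, he]
  generalize -e = e' at h1
  obtain ⟨k, hk⟩ := H.sc_h hR ha hz hu h1 h4 (c := -1) (by simp)
  set h := H.ww u e' (- -1) * H.ww u e' 1
  set y1 := (2 : F)⁻¹ • (y - B e' y • u) with hy1
  have a1 : B u y1 = 0 := by simp [hy1, hy, H.self]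
  have a2 : B y1 u = 0 := by rw [H.symm, a1, neg_zero]
  have a3 : B e' y1 = 0 := by simp [hy1, h1]
  have a4 : B (-u) y1 = 0 := by simp [a1]
  have e1 := conj_eich H.alt h u y1 0
  have hh := H.hh_apply h1 (c := -1) (by simp)
  rw [show h.1 u = -u by rw [hh, h1, H.self]; module,
    show h.1 y1 = y1 by rw [hh, a2, a3]; simp] at e1
  have hσ : ρ (eich H.alt u y1 0) m ∈ H.M ρ a z := by
    rw [← H.M_congr a (z := (eich H.alt u y1 0).1 z)
      (by simpa [eich_apply H.alt a1, h4] using U.smul_mem _ hu)]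
    exact H.M_map (H.gam_mem hu a1) hm
  by_cases hk0 : k = 0
  · have : m = 0 := apply_injective (ρ := ρ) h (by rw [hk m hm, hk0]; simp)
    simp [this]
  have e2 := app_mul ρ (mul_inv_eq_iff_eq_mul.1 e1) m
  rw [hk _ hσ, hk m hm, map_smul] at e2
  have e3 := smul_right_injective W hk0 e2
  have e4 : eich H.alt u y1 0 * eich H.alt (-u) y1 0 = 1 := SG.ext fun x => by
    simp [SG.mul_apply, eich_apply H.alt a1, eich_apply H.alt a4, a1, a2, H.self, SG.one_apply]
    abel
  have e5 : eich H.alt u y 0 = eich H.alt u y1 0 * eich H.alt u y1 0 * tv H.alt u (2 * B e' y) :=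
    SG.ext fun x => by
      have e6 : y = (2 : F) • y1 + B e' y • u := by simp [hy1, smul_smul, H.two]
      rw [eich_apply H.alt hy]
      generalize B e' y = t at e6 ⊢
      rw [e6]
      simp only [SG.mul_apply, eich_apply H.alt a1, tv_apply, map_add,
        map_smul, LinearMap.add_apply, LinearMap.smul_apply, a1, a2, H.self, smul_eq_mul]
      module
  rw [e5, map_mul, map_mul, End.mul_apply, End.mul_apply, H.M_tv hm hu, h4]
  simp only [ne_eq, OfNat.ofNat_ne_zero, not_false_eq_true, zero_pow, mul_zero, zero_mul,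
    AddChar.map_zero_eq_one, one_smul]
  rw [show ρ (eich H.alt u y1 0) m = _ from e3, ← End.mul_apply, ← map_mul, e4, map_one,
    End.one_apply]

theorem sc_stab {p : SG B} (hp : p ∈ H.PS) (hpz : p.1 z - z ∈ U) :
    ∃ k : ℂ, ∀ m ∈ H.M ρ a z, ρ p m = k • m := by
  suffices h : ∀ K : Submodule F V, ∀ p ∈ H.PS, p.1 z - z ∈ U → (∀ x, x ∈ K ↔ x ∈ U ∧ p.1 x = x) →
      ∃ k : ℂ, ∀ m ∈ H.M ρ a z, ρ p m = k • m from
    h (U ⊓ LinearMap.eqLocus p.1.toLinearMap LinearMap.id) p hp hpz fun _ => Iff.rfl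
  intro K
  induction K using WellFoundedGT.induction with
  | ind K ih =>
  intro p hp hpz hK
  by_cases h : ∀ u ∈ U, p.1 u = u
  · exact ⟨_, fun m hm => H.mem_M.1 hm p (H.mem_RS h)⟩
  push Not at h
  obtain ⟨x, hx, hpx⟩ := h
  have hu := U.sub_mem (hp x hx) hx
  have h4 : B z (p.1 x - x) = 0 := by
    have := H.iso _ hpz _ (hp x hx)
    rw [map_sub, LinearMap.sub_apply, SG.map] at this
    rw [map_sub]; linear_combination -this
  obtain ⟨y1, hy1, b1⟩ := exists_orth_one H.nd H.alt.isRefl K (u := x) fun h => hpx ((hK x).1 h).2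
  obtain ⟨y2, hy2, b2⟩ := exists_orth_one H.nd H.alt.isRefl K (u := p.1 x) fun h =>
    hpx (p.1.injective ((hK _).1 h).2)
  obtain ⟨y, hy, h3, h5⟩ : ∃ y, (∀ h ∈ K, B h y = 0) ∧ B x y = 1 ∧ B (p.1 x) y ≠ 0 := by
    by_cases c : B (p.1 x) y1 = 0
    · exact ⟨y2 + (1 - B x y2) • y1, fun h hh => by simp [hy1 h hh, hy2 h hh], by simp [b1],
        by simp [b2, c]⟩
    · exact ⟨y1, hy1, b1, c⟩
  obtain ⟨σ, s1, s2, ⟨k, s3⟩⟩ : ∃ σ : SG B, (∀ v ∈ U, σ.1 v = v + B v y • (p.1 x - x)) ∧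
      σ.1 z - z ∈ U ∧ ∃ k : ℂ, ∀ m ∈ H.M ρ a z, ρ σ m = k • m := by
    have hd : B (p.1 x - x) y + 1 ≠ 0 := by simpa [h3] using h5
    generalize p.1 x - x = u at hu h4 hd
    by_cases d : B u y = 0
    · exact ⟨eich H.alt u y 0, fun v hv => by simp [eich_apply H.alt d, H.iso v hv u hu],
        by simpa [eich_apply H.alt d, h4] using U.smul_mem _ hu, 1,
        fun m hm => by rw [H.triv_eich hR ha hz hu d h4 hm, one_smul]⟩
    · have h1 : B (-(B u y)⁻¹ • y) u = 1 := by simp [H.symm y u, d]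
      refine ⟨_, fun v hv => ?_, ?_, H.sc_h hR ha hz hu h1 h4 hd⟩
      · rw [H.hh_apply h1 hd, H.iso v hv u hu]
        simp [H.symm y v, ← mul_assoc, d]
      · rw [H.hh_apply h1 hd, h4]; simpa using U.smul_mem _ hu
  have s0 : σ ∈ H.PS := fun v hv => s1 v hv ▸ U.add_mem hv (U.smul_mem _ hu)
  have key : ∀ y, σ.1 y = p.1 y → (σ⁻¹ * p).1 y = y := fun y hy => by
    rw [SG.mul_apply, ← hy, SG.inv_apply]
  obtain ⟨k', hk'⟩ := ih (U ⊓ LinearMap.eqLocus (σ⁻¹ * p).1.toLinearMap LinearMap.id)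
    (lt_of_le_of_ne (fun v hv => ⟨((hK v).1 hv).1, key v (by
      rw [s1 v ((hK v).1 hv).1, hy v hv, ((hK v).1 hv).2]; simp)⟩) fun e => by
        have : x ∈ K := e ▸ ⟨hx, key x (by rw [s1 x hx, h3]; simp)⟩
        exact hpx ((hK x).1 this).2) (σ⁻¹ * p) (mul_mem (inv_mem s0) hp) (by
          have := inv_mem s0 _ (U.sub_mem hpz s2)
          rwa [sub_sub_sub_cancel_right, map_sub, SG.inv_apply] at this) fun _ => Iff.rfl
  refine ⟨k' * k, fun m hm => ?_⟩
  rw [← mul_inv_cancel_left σ p, map_mul, End.mul_apply, hk' m hm, map_smul, s3 m hm, smul_smul]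

theorem pj_span {m : W} (hm : m ∈ H.M ρ a z) {ε : ℂ} (hε : ρ (negSG B) m = ε • m) {p : SG B}
    (hp : p ∈ H.PS) : H.pj ρ a z (ρ p m) ∈ Submodule.span ℂ {m} := by
  classical
  rw [pj, P_apply (H.M_map hp hm)]
  split_ifs with h
  swap
  · exact zero_mem _
  rcases H.pm ha hz h.symm with h | h
  · obtain ⟨k, hk⟩ := H.sc_stab hR ha hz hp h
    rw [hk m hm]; exact Submodule.smul_mem _ _ (Submodule.mem_span_singleton_self m)
  · obtain ⟨k, hk⟩ := H.sc_stab hR ha hz (p := p * negSG B)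
      (mul_mem hp fun u hu => by simpa [negSG_apply] using hu)
      (by rw [SG.mul_apply, negSG_apply, map_neg, ← neg_add']; exact U.neg_mem h)
    rw [← mul_one p, ← negSG_mul_self, ← mul_assoc, map_mul, End.mul_apply, hε, map_smul, hk m hm]
    exact Submodule.smul_mem _ _ (Submodule.smul_mem _ _ (Submodule.mem_span_singleton_self m))

end Lag
end Cfsg.Agent.ULT.SW
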