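import Mathlib
import Cfsg.Agent.ULT.SW3

/-! The submodule generated by a weight vector of rank one. -/

set_option autoImplicit false
set_option backward.isDefEq.respectTransparency false
set_option linter.unusedSectionVars false

namespace Cfsg.Agent.ULT.SW
open Module Cfsg.Agent.Classical Cfsg.Agent.Classical.LS Cfsg.Agent.Classical.SpWitt
  Cfsg.Agent.Classical.AutSp Cfsg.Agent.Classical.SpSimple

variable {F V : Type*} [Field F] [Fintype F] [AddCommGroup V] [Module F V] [Finite V]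
  {B : LinearMap.BilinForm F V} {U : Submodule F V}

namespace Lag
variable (H : Lag B U)
include H

theorem exists_rep (f : Dual F U) : ∃ y, ∀ u : U, B y u = f u := by
  obtain ⟨g, hg⟩ := LinearMap.exists_extend f
  refine ⟨(B.toDual H.nd).symm g, fun u => ?_⟩
  rw [LinearMap.BilinForm.apply_toDual_symm_apply, ← hg]; rfl

theorem exists_pair {e e' : V} (he : e ∈ U) (h1 : B e' e = 1) :
    ∃ d ∈ U, ∃ d', B d' d = 1 ∧ B e' d = 0 ∧ B d' e = 0 ∧ B e' d' = 0 := by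
  obtain ⟨d, hd, h0⟩ : ∃ d : U, B e' d = 0 ∧ d ≠ 0 := by
    by_contra h
    push Not at h
    have := LinearMap.finrank_le_finrank_of_injective (f := (B e').domRestrict U)
      ((injective_iff_map_eq_zero _).2 h)
    rw [finrank_self] at this
    exact absurd (H.rk.trans this) (by norm_num)
  obtain ⟨y, hy⟩ := exists_one H.nd H.alt.isRefl (u := (d : V)) (by simpa using h0)
  refine ⟨d, d.2, -y + B y e • e' - B y e' • e, ?_, hd, ?_, ?_⟩
  · simp [H.symm y d, hy, hd, H.iso e he d d.2]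
  · simp [h1, H.self]
  · simp [h1, H.self, H.symm y e']

theorem eich_zero (u : V) : eich H.alt u 0 0 = 1 := SG.ext fun x => by
  rw [eich_apply H.alt (by simp)]; simp [SG.one_apply]

variable {W : Type*} [AddCommGroup W] [Module ℂ W] {ρ : Representation ℂ (SG B) W}

theorem eig_pj {a : F} {z : V} {v : W} (h : H.pj ρ a z v ≠ 0) {u : V} (hu : u ∈ U) {c : F} {k : ℂ}
    (hc : ρ (tv H.alt u c) v = k • v) : ψ F (a * B z u ^ 2 * c) = k := by
  rw [← H.lz_tv a z (H.tv_mem hu c)]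
  exact eig_of_P (l := H.lz a z) (v := v) h _ hc

variable (hR : H.R1 ρ) {S : Submodule ℂ W} (hS : ∀ p ∈ H.PS, ∀ v ∈ S, ρ p v ∈ S)
include hR hS

theorem g1 {b : F} (hb : b ≠ 0) {e e' r z : V} (he : e ∈ U) (h1 : B e' e = 1) (hr : r ∈ U)
    (h2 : B e' r = 0) (h3 : B z r = 1) {c : F} (hc : c ≠ 0) {v : W} (hv : v ∈ H.M ρ b z)
    (hvS : v ∈ S) : ρ (H.ww e e' c) v ∈ S := by
  have h2' : ∀ s : F, B r (s • e') = 0 := fun s => by simp [H.symm r, h2]
  set t := B z e with ht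
  have m0 := H.M_map (H.gam_mem hr (h2' (-t))) hv
  have s0 := hS _ (H.gam_mem hr (h2' (-t))) v hvS
  rw [H.M_congr b (z' := z - t • e' + B z e' • e) (by
    rw [eich_apply H.alt (h2' _), h3]
    convert U.sub_mem (U.smul_mem (B z (-t • e')) hr) (U.smul_mem (B z e') he) using 1
    module)] at m0
  have e1 : v = ρ (eich H.alt r (t • e') 0) (ρ (eich H.alt r (-t • e') 0) v) := by
    rw [← End.mul_apply, ← map_mul, show eich H.alt r (t • e') 0 * eich H.alt r (-t • e') 0 = 1 from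
      SG.ext fun x => by
        simp only [SG.mul_apply, eich_apply H.alt (h2' _), map_add, map_smul, LinearMap.add_apply,
          LinearMap.smul_apply, H.self, h2, H.symm r e', SG.one_apply, smul_eq_mul]
        module, map_one, End.one_apply]
  have e2 := conj_eich H.alt (H.ww e e' c) r (t • e') 0
  rw [H.ww_perp h1 hc (H.iso r hr e he) h2, map_smul, H.ww_e' h1 hc, smul_smul] at e2
  rw [e1, app_mul ρ (mul_inv_eq_iff_eq_mul.1 e2)]
  refine hS _ (H.RS_le (H.eich_mem hr (U.smul_mem _ he))) _ ?_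
  generalize ρ (eich H.alt r (-t • e') 0) v = m at m0 s0
  have h3' : B (z - t • e' + B z e' • e) r = 1 := by simp [h2, h3, H.iso e he r hr]
  have h4' : B (z - t • e' + B z e' • e) e = 0 := by simp [h1, H.self, ht]
  have h5' : B (z - t • e' + B z e' • e) e' = 0 := by simp [H.symm e e', h1, H.self]
  by_cases hG : Gs (b * c) = 0
  · rw [← H.kb hR hb he h1 hr h2 h3' h4' h5' hc m0, hG]; simp
  rw [← S.smul_mem_iff hG, H.kc hR hb he h1 hr h2 h3' h4' h5' hc m0]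
  exact S.sum_mem fun s _ => hS _ (H.gam_mem hr (h2' s)) _ s0

theorem g2 {b : F} (hb : b ≠ 0) {e e' : V} (he : e ∈ U) (h1 : B e' e = 1) {c : F} (hc : c ≠ 0)
    {v : W} (hv : v ∈ H.M ρ b e') (hvS : v ∈ S) : ρ (H.ww e e' c) v ∈ S ⊔ H.M ρ 0 0 := by
  obtain ⟨d, hd, d', k1, k2, k3, k4⟩ := H.exists_pair he h1
  have k5 := H.iso e he d hd
  have k6 : ∀ s : F, B e (s • d') = 0 := fun s => by simp [H.symm e, k3]
  have hy : ∀ u ∈ U, B e' u = 0 → ∀ s, ρ (tv H.alt u s) (ρ (H.ww e e' c) v) = ρ (H.ww e e' c) v :=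
    fun u hu h s => by
      rw [app_mul ρ (H.ww_tv h1 hc (H.iso u hu e he) h s), H.M_tv hv hu, h]; simp
  have comm : H.ww d d' 1 * H.ww e e' c = H.ww e e' c * H.ww d d' 1 := by
    have := H.conj_ww (H.ww e e' c) d d' 1
    rw [H.ww_perp h1 hc (H.iso d hd e he) k2, H.ww_perp h1 hc k3 k4] at this
    exact (mul_inv_eq_iff_eq_mul.1 this).symm
  have c1 := app_mul ρ comm v
  obtain ⟨y, hyy⟩ : ∃ y, ρ (H.ww e e' c) v = y := ⟨_, rfl⟩
  rw [hyy] at hy c1
  have ey : y = ∑ l, P ρ (xN B U) l y := eq_sum_all y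
  rw [hyy, ey]
  refine Submodule.sum_mem _ fun l _ => ?_
  by_cases hl : P ρ (xN B U) l y = 0
  · rw [hl]; exact zero_mem _
  obtain ⟨a, rfl⟩ := H.y0 hR he h1 hy hl
  by_cases ha : a = 0
  · refine Submodule.mem_sup_right ?_
    rw [ha, lz_zero, M, lz_zero]; exact P_mem xN_add _ _
  refine Submodule.mem_sup_left ?_
  have e1 : H.pj ρ a e' (ρ (H.ww d d' 1) y) = H.pj ρ a e' (ρ (H.ww d d' 1) (H.pj ρ a e' y)) := by
    conv_lhs => rw [ey, map_sum, map_sum]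
    refine Finset.sum_eq_single (H.lz a e') (fun l _ hl' => ?_) (by simp)
    by_contra h0
    have hl : P ρ (xN B U) l y ≠ 0 := fun h => h0 (by rw [h]; simp)
    obtain ⟨a', rfl⟩ := H.y0 hR he h1 hy hl
    suffices h : a' = a from hl' (by rw [h])
    refine eq_of_ψ fun s => ?_
    have hm : P ρ (xN B U) (H.lz a' e') y ∈ H.M ρ a' e' := H.pj_mem a' e' y
    have := H.eig_pj h0 he (c := s) (k := ψ F (a' * s)) (by
      rw [app_mul ρ (H.ww_tv k1 one_ne_zero k5 k3 s),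
        H.M_tv hm he, map_smul, h1]; simp)
    simpa [h1] using this.symm
  have e2 := conj_eich H.alt (H.ww d d' 1) e (-d) 0
  rw [H.ww_perp k1 one_ne_zero k5 k3, map_neg, H.ww_e k1 one_ne_zero, ← neg_smul, neg_neg,
    inv_one] at e2
  have e3 := H.pj_comm (ρ := ρ) (H.gam_mem he (k6 1)) a e' (ρ (H.ww d d' 1) y)
  rw [app_mul ρ (mul_inv_eq_iff_eq_mul.1 e2).symm, H.y0_fix hR he h1 hy (H.eich_mem he (U.neg_mem hd))
    (by simp [eich_apply H.alt (show B e (-d) = 0 by simp [k5]), H.self, k2]),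
    show (eich H.alt e ((1 : F) • d') 0).1 e' = e' + d' by
      rw [eich_apply H.alt (k6 1)]; simp [h1, k4], e1, c1] at e3
  change H.pj ρ a e' y ∈ S
  rw [← H.kb hR ha hd k1 he k3 h1 k2 k4 one_ne_zero (H.pj_mem a e' y)]
  refine S.smul_mem _ ?_
  rw [← ρ.inv_self_apply (eich H.alt e ((1 : F) • d') 0) (H.pj ρ a e' _), ← e3]
  refine hS _ (inv_mem (H.gam_mem he (k6 1))) _ ?_
  by_cases hG : Gs (b * 1) = 0
  · rw [← H.kb hR hb hd k1 he k3 h1 k2 k4 one_ne_zero hv, hG]; simp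
  rw [← S.smul_mem_iff hG, ← map_smul, ← map_smul, H.kc hR hb hd k1 he k3 h1 k2 k4 one_ne_zero hv,
    map_sum, map_sum]
  refine S.sum_mem fun s _ => ?_
  by_cases hs : s = 0
  · rw [hs, zero_smul, H.eich_zero, map_one, End.one_apply, hyy]
    by_cases h0 : H.pj ρ a (e' + d') y = 0
    · rw [h0]; exact zero_mem _
    refine absurd (eq_zero_of_ψ fun s => ?_) ha
    have := H.eig_pj h0 hd ((hy d hd k2 s).trans (one_smul _ _).symm)
    simpa [k1, k2] using this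
  · refine P_stable (fun n hn => hS n (H.RS_le hn)) _ (H.g1 hR hS hb he h1 (U.smul_mem s⁻¹ hd)
      (by simp [k2]) ?_ hc (H.M_map (H.gam_mem he (k6 s)) hv) (hS _ (H.gam_mem he (k6 s)) _ hvS))
    simp [eich_apply H.alt (k6 s), h1, k1, k2, k5, hs]

theorem g3 {b : F} (hb : b ≠ 0) {z : V} (hz : z ∉ U) {e e' : V} (he : e ∈ U) (h1 : B e' e = 1)
    {c : F} (hc : c ≠ 0) {v : W} (hv : v ∈ H.M ρ b z) (hvS : v ∈ S) :
    ρ (H.ww e e' c) v ∈ S ⊔ H.M ρ 0 0 := by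
  by_cases h : ∀ u ∈ U, B e' u = 0 → B z u = 0
  · have := H.split he h1 h
    have h0 : B z e ≠ 0 := fun h0 => hz (by simpa [h0] using this)
    rw [H.M_congr b this, M, lz_smul] at hv
    exact H.g2 hR hS (mul_ne_zero hb (pow_ne_zero 2 h0)) he h1 hc hv hvS
  · push Not at h
    obtain ⟨u, hu, h2, h3⟩ := h
    exact Submodule.mem_sup_left (H.g1 hR hS hb he h1 (U.smul_mem (B z u)⁻¹ hu) (by simp [h2])
      (by simp [h3]) hc hv hvS)

omit hS

omit hR in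
theorem mem_M0 {v : W} : v ∈ H.M ρ 0 0 ↔ ∀ n ∈ RS B U, ρ n v = v := by simp [mem_M]

theorem eich_fix {u y : V} (hu : u ∈ U) (hy : B u y = 0) (c : F) {v : W} (hv : v ∈ H.M ρ 0 0) :
    ρ (eich H.alt u y c) v = v := by
  rw [show eich H.alt u y c = eich H.alt u y 0 * tv H.alt u c from SG.ext fun x => by
    simp only [SG.mul_apply, eich_apply H.alt hy, tv_apply, map_add, map_smul, LinearMap.add_apply,
      LinearMap.smul_apply, H.self, hy, smul_eq_mul]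
    module, map_mul, End.mul_apply, H.mem_M0.1 hv _ (H.tv_mem hu c)]
  by_cases h : y ∈ U
  · exact H.mem_M0.1 hv _ (H.eich_mem hu h)
  obtain ⟨e, he, h1⟩ := H.exists_r h
  have hy' : B y u = 0 := by rw [H.symm, hy, neg_zero]
  have e2 := conj_eich H.alt (H.ww e y 1) u (-e) 0
  rw [H.ww_perp h1 one_ne_zero (H.iso u hu e he) hy', map_neg, H.ww_e h1 one_ne_zero, ← neg_smul,
    neg_neg, inv_one, one_smul] at e2
  rw [← ρ.self_inv_apply (H.ww e y 1) v, app_mul ρ (mul_inv_eq_iff_eq_mul.1 e2).symm,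
    H.y0_fix hR he h1 (fun u' hu' h s => ?_) (H.eich_mem hu (U.neg_mem he))
      (by simp [eich_apply H.alt (show B u (-e) = 0 by simp [H.iso u hu e he]), H.self, hy'])]
  refine apply_injective (ρ := ρ) (H.ww e y 1) ?_
  rw [app_mul ρ (H.ww_tv h1 one_ne_zero (H.iso u' hu' e he) h s).symm, ρ.self_inv_apply,
    H.mem_M0.1 hv _ (H.tv_mem hu' s)]

theorem trans_pair {e e' d d' : V} (he : e ∈ U) (h1 : B e' e = 1) (hd : d ∈ U) (k1 : B d' d = 1) :
    ∃ g ∈ H.PS, (∀ v ∈ H.M ρ 0 0, ρ g v = v) ∧ g.1 e = d ∧ g.1 e' = d' := by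
  obtain ⟨γ, ⟨g, g1, g2, g3⟩, hγ⟩ := trans_of_shear (Γ := {γ : U →ₗ[F] U | ∃ g ∈ H.PS,
      (∀ v ∈ H.M ρ 0 0, ρ g v = v) ∧ ∀ u : U, g.1 u = γ u}) H.rk (by
        rintro γ ⟨g, g1, g2, g3⟩ δ ⟨h, h1, h2, h3⟩
        exact ⟨g * h, mul_mem g1 h1, fun v hv => by rw [map_mul, End.mul_apply, h2 v hv, g2 v hv],
          fun u => by rw [SG.mul_apply, h3, g3]; rfl⟩) (fun x f hf => by
        obtain ⟨y, hy⟩ := H.exists_rep f
        have h0 : B x (-y) = 0 := by rw [map_neg, H.symm, hy, hf]; simp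
        exact ⟨eich H.alt x (-y) 0, H.gam_mem x.2 h0, fun v hv => H.eich_fix hR x.2 h0 0 hv,
          fun u => by simp [eich_apply H.alt h0, H.iso _ u.2 _ x.2, H.symm u y, hy]⟩)
    ⟨e, he⟩ ⟨d, hd⟩ (fun h => by simp_all) fun h => by simp_all
  have a1 : g.1 e = d := by rw [g3 ⟨e, he⟩, hγ]
  have a2 : B (g.1 e') d = 1 := by rw [← a1, SG.map, h1]
  have h0 : B d (d' - g.1 e') = 0 := by simp [H.symm d, a2, k1]
  refine ⟨eich H.alt d (d' - g.1 e') (-B (g.1 e') d') * g, mul_mem (fun u hu => ?_) g1,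
    fun v hv => by rw [map_mul, End.mul_apply, g2 v hv, H.eich_fix hR hd h0 _ hv], ?_, ?_⟩
  · simpa [eich_apply H.alt h0, H.iso u hu d hd] using U.add_mem hu (U.smul_mem _ hd)
  · rw [SG.mul_apply, a1, eich_apply H.alt h0, h0, H.self]; simp
  · rw [SG.mul_apply, eich_apply H.alt h0, a2]; simp [H.self]

theorem main {a : F} (ha : a ≠ 0) {z : V} (hz : z ∉ U) {m : W} (hm : m ∈ H.M ρ a z) {ε : ℂ}
    (hε : ρ (negSG B) m = ε • m) : ∃ S : Submodule ℂ W, m ∈ S ∧ (∀ g, ∀ v ∈ S, ρ g v ∈ S) ∧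
      ∀ v ∈ S, H.pj ρ a z v ∈ Submodule.span ℂ {m} := by
  let S0 := Submodule.span ℂ (Set.range fun p : H.PS => ρ p m)
  have hS0 : ∀ p ∈ H.PS, ∀ v ∈ S0, ρ p v ∈ S0 := fun p hp v hv =>
    (Submodule.span_le (p := S0.comap (ρ p))).2 (by
      rintro _ ⟨g, rfl⟩
      exact Submodule.subset_span ⟨⟨p * g, mul_mem hp g.2⟩, by simp⟩) hv
  have hV : ∀ p ∈ H.PS, ∀ v ∈ H.M ρ 0 0, ρ p v ∈ H.M ρ 0 0 := fun p hp v hv => by
    simpa using H.M_map hp hv
  let A := S0 ⊔ H.M ρ 0 0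
  have hA : ∀ p ∈ H.PS, ∀ v ∈ A, ρ p v ∈ A := fun p hp v hv => by
    obtain ⟨x, hx, y, hy, rfl⟩ := Submodule.mem_sup.1 hv
    rw [map_add]; exact Submodule.add_mem_sup (hS0 p hp x hx) (hV p hp y hy)
  have hw : ∀ e ∈ U, ∀ e', B e' e = 1 → ∀ c ≠ 0, ∀ v ∈ S0, ρ (H.ww e e' c) v ∈ A :=
    fun e he e' h1 c hc v hv => (Submodule.span_le (p := A.comap (ρ (H.ww e e' c)))).2 (by
      rintro _ ⟨g, rfl⟩
      exact H.g3 hR hS0 ha (fun h => hz (by simpa [SG.inv_apply] using inv_mem g.2 _ h)) he h1 hc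
        (H.M_map g.2 hm) (Submodule.subset_span ⟨g, rfl⟩)) hv
  let S : Submodule ℂ W :=
    { carrier := {v | v ∈ A ∧ ∀ e ∈ U, ∀ e', B e' e = 1 → ∀ c ≠ 0, ρ (H.ww e e' c) v ∈ A}
      zero_mem' := ⟨zero_mem _, by simp⟩
      add_mem' := fun h h' => ⟨add_mem h.1 h'.1, fun e he e' h1 c hc => by
        rw [map_add]; exact add_mem (h.2 e he e' h1 c hc) (h'.2 e he e' h1 c hc)⟩
      smul_mem' := fun k v h => ⟨A.smul_mem k h.1, fun e he e' h1 c hc => by
        rw [map_smul]; exact A.smul_mem k (h.2 e he e' h1 c hc)⟩ }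
  have s1 : ∀ p ∈ H.PS, ∀ v ∈ S, ρ p v ∈ S := fun p hp v hv => ⟨hA p hp v hv.1,
    fun e he e' h1 c hc => by
      have := H.conj_ww p⁻¹ e e' c
      rw [app_mul ρ (c := p) (e := H.ww ((p⁻¹).1 e) ((p⁻¹).1 e') c) (by rw [← this]; group)]
      exact hA p hp _ (hv.2 _ (inv_mem hp e he) _ (by rw [SG.map, h1]) c hc)⟩
  have s2 : ∀ e ∈ U, ∀ e', B e' e = 1 → ∀ c ≠ 0, ∀ v ∈ S, ρ (H.ww e e' c) v ∈ S :=
    fun e he e' h1 c hc v hv => ⟨hv.2 e he e' h1 c hc, fun d hd d' k1 c' hc' => by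
      obtain ⟨x, hx, y, hy, e1⟩ := Submodule.mem_sup.1 (hv.2 e he e' h1 c hc)
      obtain ⟨g, g1, g2, g3, g4⟩ := H.trans_pair hR he h1 hd k1
      rw [← e1, map_add]
      refine add_mem (hw d hd d' k1 c' hc' x hx) ?_
      have := H.conj_ww g e e' c'
      rw [g3, g4] at this
      rw [← g2 y hy, app_mul ρ (mul_inv_eq_iff_eq_mul.1 this).symm, eq_sub_of_add_eq' e1, map_sub,
        ← End.mul_apply, ← map_mul]
      exact hA g g1 _ (sub_mem (hA _ (H.ww_mul_mem he h1 hc' hc) v hv.1) (hw e he e' h1 c' hc' x hx))⟩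
  have s3 : ∀ x c, ∀ v ∈ S, ρ (tv H.alt x c) v ∈ S := fun x c v hv => by
    by_cases hx : x ∈ U
    · exact s1 _ (H.RS_le (H.tv_mem hx c)) v hv
    by_cases hc : c = 0
    · simpa [hc, tv_zero] using hv
    obtain ⟨e, he, h1⟩ := H.exists_r hx
    have : tv H.alt x c = tv H.alt e (-c⁻¹) * H.ww e x c⁻¹ * tv H.alt e (-c⁻¹) := by
      simp only [ww, tv_neg, inv_inv]; group
    rw [this, map_mul, map_mul, End.mul_apply, End.mul_apply]
    exact s1 _ (H.RS_le (H.tv_mem he _)) _ (s2 e he x h1 _ (inv_ne_zero hc) _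
      (s1 _ (H.RS_le (H.tv_mem he _)) v hv))
  let K : Subgroup (SG B) :=
    { carrier := {g | ∀ v, v ∈ S ↔ ρ g v ∈ S}
      one_mem' := by simp
      mul_mem' := fun ha hb v => by rw [hb, ha, map_mul, End.mul_apply]
      inv_mem' := fun {g} hg v => by rw [hg (ρ g⁻¹ v), ρ.self_inv_apply] }
  have hK := eq_top_of_tv H.nd H.alt K fun x c v => ⟨s3 x c v, fun h => by
    simpa [tv_neg] using s3 x (-c) _ h⟩
  have hm0 : m ∈ S0 := Submodule.subset_span ⟨1, by simp⟩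
  refine ⟨S, ⟨Submodule.mem_sup_left hm0, fun e he e' h1 c hc => hw e he e' h1 c hc m hm0⟩,
    fun g v hv => ((hK ▸ Subgroup.mem_top g : g ∈ K) v).1 hv, fun v hv => ?_⟩
  obtain ⟨x, hx, y, hy, rfl⟩ := Submodule.mem_sup.1 hv.1
  have : H.pj ρ a z y = 0 := by
    by_contra h0
    obtain ⟨r, hr, h3⟩ := H.exists_r hz
    refine ha (eq_zero_of_ψ fun s => ?_)
    have := H.eig_pj h0 hr ((H.mem_M0.1 hy _ (H.tv_mem hr s)).trans (one_smul _ _).symm)
    simpa [h3] using this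
  rw [map_add, this, add_zero]
  exact (Submodule.span_le (p := (Submodule.span ℂ {m}).comap (H.pj ρ a z))).2 (by
    rintro _ ⟨g, rfl⟩
    exact H.pj_span hR ha hz hm hε g.2) hx

end Lag
end Cfsg.Agent.ULT.SW
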