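import Mathlib
import Cfsg.Agent.ULT.SW4

/-! Weights of rank at least two force a large degree. -/

set_option autoImplicit false
set_option backward.isDefEq.respectTransparency false
set_option linter.unusedSectionVars false

namespace Cfsg.Agent.ULT.SW
open Module Cfsg.Agent.Classical Cfsg.Agent.Classical.LS Cfsg.Agent.Classical.SpWitt
  Cfsg.Agent.Classical.AutSp

section count
variable {F U : Type*} [Field F] [Fintype F] [AddCommGroup U] [Module F U] [Fintype U]
  {h : U →ₗ[F] U →ₗ[F] F} (hs : ∀ x y, h x y = h y x)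
include hs

open scoped _root_.Classical in
theorem card_perp_le {x : U} (hx : h x ≠ 0) {c : F} (hc : c ≠ 0) :
    Finset.card {y | h x y = 0 ∧ h y y = c} ≤ 2 * Fintype.card F ^ (finrank F U - 2) := by
  have h1 := card_norm_le (σ := RingHom.id F)
    (h.domRestrict₁₂ (LinearMap.ker (h x)) (LinearMap.ker (h x)))
    (fun u v e => (hs v u).trans e) card_sq_le hc
  have h2 := Module.Dual.finrank_ker_add_one_of_ne_zero hx
  rw [show finrank F (LinearMap.ker (h x)) - 1 = finrank F U - 2 by omega] at h1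
  refine le_trans ?_ h1
  rw [← Nat.card_eq_finsetCard]
  exact Nat.card_le_card_of_injective (fun y => ⟨⟨y.1, (Finset.mem_filter.1 y.2).2.1⟩,
    (Finset.mem_filter.1 y.2).2.2⟩) fun a b e => Subtype.ext (congrArg (fun z => (z.1 : U)) e)

open scoped _root_.Classical in
theorem card_val_le2 (h2 : (2 : F) ≠ 0) {x y : U} (hx : h x x ≠ 0) (hxy : h x y = 0)
    (hy : h y y ≠ 0) (hn : 2 ≤ finrank F U) :
    Finset.card {z | h z z = h x x} ≤ (Fintype.card F + 1) * Fintype.card F ^ (finrank F U - 2) := by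
  obtain ⟨k, hk⟩ : ∃ k, finrank F U = k + 2 := ⟨_, (Nat.sub_add_cancel hn).symm⟩
  have hq : 0 < Fintype.card F := Fintype.card_pos
  have ck : ∀ u, h u ≠ 0 → Finset.card {z | h u z = 0} = Fintype.card F ^ (k + 1) := fun u hu => by
    have := card_ker hu
    rw [hk] at this
    rw [← Nat.card_eq_finsetCard]
    exact (Nat.card_congr (Equiv.subtypeEquivRight fun z => by simp)).trans this
  have hx0 : h x ≠ 0 := fun e => hx (by rw [e]; rfl)
  rw [hk, Nat.add_sub_cancel]
  by_cases H : ∃ u, h u u = 0 ∧ h u ≠ 0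
  · obtain ⟨u, hu, hu0⟩ := H
    have a1 := card_perp_le hs hu0 hx
    rw [hk, Nat.add_sub_cancel] at a1
    have a2 : Fintype.card F * Finset.card {z | ¬ h u z = 0 ∧ h z z = h x x} ≤
        Finset.card {z | ¬ h u z = 0} := by
      rw [← Finset.card_univ, ← Finset.card_product]
      refine Finset.card_le_card_of_injOn (fun p => p.2 + p.1 • u) (fun p hp => ?_)
        fun p hp r hr e => ?_
      · simp only [Finset.coe_product, Set.mem_prod, Finset.coe_filter, Finset.mem_univ, true_and,
          Set.mem_ofPred_eq] at hp ⊢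
        simpa [hu] using hp.2.1
      · simp only [Finset.coe_product, Set.mem_prod, Finset.coe_filter, Finset.mem_univ, true_and,
          Set.mem_ofPred_eq] at hp hr e
        have e1 : r.2 = p.2 + (p.1 - r.1) • u := by linear_combination (norm := module) -e
        have e2 := hr.2.2
        rw [e1, ← hp.2.2] at e2
        simp only [map_add, map_smul, LinearMap.add_apply, LinearMap.smul_apply, hu, hs p.2 u,
          smul_eq_mul] at e2
        have e3 : p.1 - r.1 = 0 := mul_left_cancel₀ (mul_ne_zero h2 hp.2.1) (by linear_combination e2)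
        rw [e3, zero_smul, add_zero] at e1
        exact Prod.ext (sub_eq_zero.1 e3) e1.symm
    have a3 := Finset.card_filter_add_card_filter_not (s := (Finset.univ : Finset U))
      fun z => h u z = 0
    rw [Finset.card_univ, Module.card_eq_pow_finrank (K := F), hk, ck u hu0] at a3
    have a4 := Finset.card_filter_add_card_filter_not (s := ({z | h z z = h x x} : Finset U))
      fun z => h u z = 0
    simp only [Finset.filter_filter, and_comm (a := h _ _ = h x x)] at a4
    refine Nat.le_of_mul_le_mul_left ?_ hq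
    rw [← a4, mul_add]
    have := Nat.mul_le_mul_left (Fintype.card F) a1
    simp only [pow_succ] at a3
    nlinarith
  · push Not at H
    have a4 := Finset.card_filter_add_card_filter_not (s := ({z | h z z = h x x} : Finset U))
      fun z => h x (z - x) = 0
    rw [← a4, add_mul, one_mul, add_comm, ← pow_succ']
    have key : ∀ z, h z z = h x x → h (z - x) (z - x) = -2 * h x (z - x) := fun z hz => by
      simp only [map_sub, LinearMap.sub_apply, hz, hs z x]; ring
    refine add_le_add ?_ ?_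
    · rw [← ck x hx0]
      refine Finset.card_le_card_of_injOn (fun z => (h x (z - x))⁻¹ • (z - x) - (h x x)⁻¹ • x)
        (fun z hz => ?_) fun z hz w hw e => ?_
      · simp only [Finset.coe_filter, Finset.mem_filter, Finset.mem_univ, true_and,
          Set.mem_ofPred_eq] at hz ⊢
        rw [map_sub, map_smul, map_smul, smul_eq_mul, smul_eq_mul, inv_mul_cancel₀ hz.2,
          inv_mul_cancel₀ hx, sub_self]
      · simp only [Finset.coe_filter, Finset.mem_filter, Finset.mem_univ, true_and,
          Set.mem_ofPred_eq, sub_left_inj] at hz hw e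
        have e1 := congrArg (fun v => h v v) e
        simp only [map_smul, LinearMap.smul_apply, key z hz.1, key w hw.1, smul_eq_mul] at e1
        have e2 : (h x (z - x))⁻¹ = (h x (w - x))⁻¹ := by
          have a := hz.2
          have b := hw.2
          refine mul_left_cancel₀ (neg_ne_zero.2 h2) ?_
          convert e1 using 1 <;> field_simp
        rw [e2] at e
        simpa using smul_right_injective U (inv_ne_zero hw.2) e
    · have hf : (h y).domRestrict (LinearMap.ker (h x)) ≠ 0 := fun e =>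
        hy (LinearMap.congr_fun e ⟨y, hxy⟩)
      have a1 := card_ker hf
      have a2 := Module.Dual.finrank_ker_add_one_of_ne_zero hx0
      rw [show finrank F (LinearMap.ker (h x)) - 1 = k by omega] at a1
      rw [← a1, ← Nat.card_eq_finsetCard]
      refine Nat.card_le_card_of_injective (fun z => ⟨⟨z.1 - x, (Finset.mem_filter.1 z.2).2⟩, ?_⟩)
        fun a b e => Subtype.ext (sub_left_injective (congrArg (fun z => (z.1 : U)) e))
      obtain ⟨b1, b2⟩ := Finset.mem_filter.1 z.2
      have := H (z.1 - x) (by rw [key _ (Finset.mem_filter.1 b1).2, b2, mul_zero])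
      change h y (z.1 - x) = 0
      rw [hs, this]; rfl

omit hs in
theorem orbit_bound2 (h2 : (2 : F) ≠ 0) (O : Finset (U →ₗ[F] U →ₗ[F] F))
    (hO : ∀ h ∈ O, ∀ γ : U →ₗ[F] U, Function.Injective γ → h.compl₁₂ γ γ ∈ O)
    (hs : ∀ h ∈ O, ∀ x y, h x y = h y x) (hh : h ∈ O) {x₀ y₀ : U} (hx : h x₀ x₀ ≠ 0)
    (hxy : h x₀ y₀ = 0) (hy : h y₀ y₀ ≠ 0) :
    (Fintype.card F ^ finrank F U - 1) * (Fintype.card F ^ finrank F U - Fintype.card F) ≤
      2 * (Fintype.card F + 1) * O.card := by
  classical
  have li : LinearIndependent F ![x₀, y₀] :=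
    (LinearIndependent.pair_iff' (by rintro rfl; simp at hx)).2 fun a ha => by
      rw [← ha] at hy hxy
      simp only [map_smul, smul_eq_mul, mul_eq_zero, hx, or_false] at hxy
      simp [hxy] at hy
  have hn : 2 ≤ finrank F U := by simpa using li.fintype_card_le_finrank
  set N := Fintype.card F ^ (finrank F U - 2) with hN
  have key := Finset.card_mul_le_card_mul (s := {p : U × U | LinearIndependent F ![p.1, p.2]})
    (t := O) (m := N * N) (n := (Fintype.card F + 1) * N * (2 * N))
    (fun p (Q' : U →ₗ[F] U →ₗ[F] F) => Q' p.1 p.1 = h x₀ x₀ ∧ Q' p.1 p.2 = 0 ∧ Q' p.2 p.2 = h y₀ y₀)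
    (fun p hp => ?_) (fun Q' hQ' => ?_)
  · rw [card_pairs] at key
    refine Nat.le_of_mul_le_mul_right (key.trans (le_of_eq (by ring))) (c := N * N) ?_
    have := Fintype.card_pos (α := F)
    positivity
  · obtain ⟨x, y⟩ := p
    have hp := (Finset.mem_filter.1 hp).2
    obtain ⟨g, g1, g2⟩ := exists_equiv_pair hp li
    have h1 := hO h hh g g.injective
    have e1 : h.compl₁₂ g.toLinearMap g.toLinearMap x x = h x₀ x₀ := by simp [← g1]
    have e2 : h.compl₁₂ g.toLinearMap g.toLinearMap y y = h y₀ y₀ := by simp [← g2]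
    have e3 : h.compl₁₂ g.toLinearMap g.toLinearMap x y = 0 := by simp [← hxy, ← g1, ← g2]
    generalize h.compl₁₂ g.toLinearMap g.toLinearMap = Q₁ at *
    have e4 : Q₁ y x = 0 := by rw [hs _ h1, e3]
    have : Finite (Dual F U) := Finite.of_injective _ DFunLike.coe_injective
    rw [hN, ← card_ann_two hp, ← Nat.card_prod, ← Nat.card_eq_finsetCard]
    have a1 : ∀ f : (Submodule.span F (Set.range ![x, y])).dualAnnihilator, f.1 x = 0 := fun f =>
      (Submodule.mem_dualAnnihilator _).1 f.2 _ (Submodule.subset_span ⟨0, rfl⟩)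
    have a2 : ∀ f : (Submodule.span F (Set.range ![x, y])).dualAnnihilator, f.1 y = 0 := fun f =>
      (Submodule.mem_dualAnnihilator _).1 f.2 _ (Submodule.subset_span ⟨1, rfl⟩)
    refine Nat.card_le_card_of_injective (fun f => ⟨Q₁.compl₁₂
      (LinearMap.id + f.1.1.smulRight x + f.2.1.smulRight y)
      (LinearMap.id + f.1.1.smulRight x + f.2.1.smulRight y), ?_⟩) fun f f' e => ?_
    · simp only [Finset.bipartiteAbove, Finset.mem_filter]
      refine ⟨hO _ h1 _ ((injective_iff_map_eq_zero _).2 fun z hz => ?_), by simp [a1, e1],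
        by simp [a1, a2, e3], by simp [a2, e2]⟩
      have h3 : z + f.1.1 z • x + f.2.1 z • y = 0 := hz
      have h4 : f.1.1 z = 0 := by simpa [a1, a2] using congrArg f.1.1 h3
      have h5 : f.2.1 z = 0 := by simpa [a1, a2] using congrArg f.2.1 h3
      simpa [h4, h5] using h3
    · refine Prod.ext (Subtype.ext (LinearMap.ext fun z => ?_))
        (Subtype.ext (LinearMap.ext fun z => ?_))
      · have := congrArg (fun h => h.1 x z) e
        simpa [a1, e1, e3, hx] using this
      · have := congrArg (fun h => h.1 y z) e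
        simpa [a2, e2, e4, hy] using this
  · rcases Finset.eq_empty_or_nonempty (Finset.bipartiteBelow
        (fun (p : U × U) (Q' : U →ₗ[F] U →ₗ[F] F) =>
          Q' p.1 p.1 = h x₀ x₀ ∧ Q' p.1 p.2 = 0 ∧ Q' p.2 p.2 = h y₀ y₀)
        {p : U × U | LinearIndependent F ![p.1, p.2]} Q') with h | ⟨⟨x, y⟩, hp⟩
    · simp [h]
    obtain ⟨e1, e2, e3⟩ := (Finset.mem_filter.1 hp).2
    simp only at e1 e2 e3
    refine (Finset.card_le_mul_card_image_of_maps_to (f := Prod.fst) (n := 2 * N)
      (t := {z | Q' z z = Q' x x}) (fun p hp => by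
        simpa [e1] using (Finset.mem_filter.1 hp).2.1) fun z hz => ?_).trans ?_
    · refine le_trans ?_ (card_perp_le (hs _ hQ') (x := z) (fun e => hx (by
        rw [← e1, ← (Finset.mem_filter.1 hz).2, e]; rfl)) hy)
      refine Finset.card_le_card_of_injOn Prod.snd (fun p hp => ?_) fun p hp r hr h => ?_
      · obtain ⟨h1, rfl⟩ := Finset.mem_filter.1 hp
        simpa using (Finset.mem_filter.1 h1).2.2
      · exact Prod.ext ((Finset.mem_filter.1 hp).2.trans (Finset.mem_filter.1 hr).2.symm) h
    · rw [mul_comm]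
      exact Nat.mul_le_mul_right _ (card_val_le2 (hs _ hQ') h2 (e1 ▸ hx) e2 (e3 ▸ hy) hn)

end count

variable {F V : Type*} [Field F] [Fintype F] [AddCommGroup V] [Module F V] [Finite V]
  {B : LinearMap.BilinForm F V} {U : Submodule F V}

theorem Lag.bound_or (H : Lag B U) {W : Type*} [AddCommGroup W] [Module ℂ W]
    [FiniteDimensional ℂ W] (ρ : Representation ℂ (SG B) W) : H.R1 ρ ∨
    (Fintype.card F ^ finrank F U - 1) * (Fintype.card F ^ finrank F U - Fintype.card F) ≤
      2 * (Fintype.card F + 1) * finrank ℂ W := by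
  classical
  refine or_iff_not_imp_left.2 fun hR => ?_
  simp only [Lag.R1, not_forall, not_exists] at hR
  obtain ⟨l, hl, hne⟩ := hR
  have := Fintype.ofFinite U
  have : Finite (U →ₗ[F] U →ₗ[F] F) :=
    Finite.of_injective (fun h : U →ₗ[F] U →ₗ[F] F => fun u v => h u v)
      fun a b e => LinearMap.ext₂ fun u v => congrFun (congrFun e u) v
  have := Fintype.ofFinite (U →ₗ[F] U →ₗ[F] F)
  have Sg := siegS H.nd H.alt H.iso H.rk
  let w : (U →ₗ[F] U →ₗ[F] F) → U × U → ℂ := fun h i => ψ F (h i.1 i.2)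
  let O : Finset (U →ₗ[F] U →ₗ[F] F) := {h | Wt ρ (sS H.alt U) (w h) ≠ ⊥}
  have hO : O.card * 1 ≤ finrank ℂ W :=
    card_mul_le (ρ := ρ) Sg.comm O w (fun a _ b _ e => LinearMap.ext₂ fun u v => eq_of_ψ fun c => by
      simpa [w, mul_comm] using congrFun e (u, c • v)) fun h hh => by
        have := Submodule.nontrivial_iff_ne_bot.2 (Finset.mem_filter.1 hh).2
        exact finrank_pos
  have hs : ∀ h ∈ O, ∀ x y, h x y = h y x := fun h hh x y => eq_of_ψ fun b => by
    simpa using Sg.swap_form (Finset.mem_filter.1 hh).2 y x b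
  have hβ : Wt ρ (sS H.alt U) (fun i => l (mkN _ (H.eich_mem i.1.2 i.2.2))) ≠ ⊥ := by
    obtain ⟨v, hv, h0⟩ := (Submodule.ne_bot_iff _).1 hl
    exact (Submodule.ne_bot_iff _).2 ⟨v, mem_Wt.2 fun i =>
      mem_Wt.1 hv (mkN _ (H.eich_mem i.1.2 i.2.2)), h0⟩
  obtain ⟨h, hh⟩ := Sg.exists_form hβ
  have hm : h ∈ O := Finset.mem_filter.2 ⟨Finset.mem_univ _, by
    rwa [show w h = _ from funext fun i => (hh i.1 i.2).symm]⟩
  have ht : ∀ u (hu : u ∈ U) c, l (mkN _ (H.tv_mem hu c)) = ψ F (c / 2 * h ⟨u, hu⟩ ⟨u, hu⟩) :=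
    fun u hu c => by
      rw [← smul_eq_mul, ← map_smul, ← hh]
      congr 2
      rw [Submodule.coe_smul, eich_smul, zero_add, mul_div_cancel₀ _ H.two]
  obtain ⟨x, y, h1, h2, h3⟩ : ∃ x y, h x x ≠ 0 ∧ h x y = 0 ∧ h y y ≠ 0 := by
    by_contra hc
    push Not at hc
    by_cases h0 : ∀ x, h x x = 0
    · exact hne 0 0 (H.ext_tv fun u hu c => by rw [ht u hu, h0, H.lz_tv]; simp)
    push Not at h0
    obtain ⟨x, hx⟩ := h0
    obtain ⟨z, hz⟩ := H.exists_rep (h x)
    refine hne (2 * h x x)⁻¹ z (H.ext_tv fun u hu c => ?_)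
    have := hc x (⟨u, hu⟩ - (h x ⟨u, hu⟩ / h x x) • x) hx (by simp [hx])
    simp only [map_sub, map_smul, LinearMap.sub_apply, LinearMap.smul_apply, smul_eq_mul,
      hs h hm ⟨u, hu⟩ x] at this
    have h2 := H.two
    rw [ht u hu, H.lz_tv, hz ⟨u, hu⟩]
    congr 1
    field_simp at this ⊢
    linear_combination c * this
  refine (orbit_bound2 H.two O (fun h hh γ hγ => ?_) hs hm h1 h2 h3).trans
    (Nat.mul_le_mul_left _ (by simpa using hO))
  obtain ⟨g, hg⟩ := Sg.move γ (mem_ΓS H.nd H.alt H.iso γ hγ)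
  exact Finset.mem_filter.2 ⟨Finset.mem_univ _, Wt_ne_bot (ρ := ρ) (β := w h) (g := g)
    (π := fun i => (γ i.1, γ i.2)) (fun i => hg i.1 i.2) (Finset.mem_filter.1 hh).2⟩

end Cfsg.Agent.ULT.SW
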