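import Mathlib
import Cfsg.Agent.ULT.SW5

/-! Uniqueness of the irreducible representations of rank one. -/

set_option autoImplicit false
set_option backward.isDefEq.respectTransparency false
set_option linter.unusedSectionVars false

namespace Cfsg.Agent.ULT.SW
open Module Cfsg.Agent.Classical Cfsg.Agent.Classical.LS Cfsg.Agent.Classical.SpWitt
  Cfsg.Agent.Classical.AutSp Cfsg.Agent.Classical.SpSimple

theorem char_eq_of_graph {G X W₁ W₂ : Type*} [Group G] [AddCommGroup X] [Module ℂ X]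
    [AddCommGroup W₁] [Module ℂ W₁] [AddCommGroup W₂] [Module ℂ W₂] [FiniteDimensional ℂ X]
    [FiniteDimensional ℂ W₁] {σ : Representation ℂ G X} {ρ₁ : Representation ℂ G W₁}
    {ρ₂ : Representation ℂ G W₂} (h₁ : ρ₁.IsIrreducible) (h₂ : ρ₂.IsIrreducible)
    (f : X →ₗ[ℂ] W₁) (f' : X →ₗ[ℂ] W₂) (hf : ∀ g x, f (σ g x) = ρ₁ g (f x))
    (hf' : ∀ g x, f' (σ g x) = ρ₂ g (f' x)) (hi : ∀ x, f x = 0 → f' x = 0 → x = 0)
    (h0 : ∃ x, f x ≠ 0) (h1 : ∃ y, ∀ x, f x = 0 → f' x ≠ y) : σ.character = ρ₁.character := by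
  let T : Subrepresentation ρ₁ := ⟨LinearMap.range f, by
    rintro g _ ⟨x, rfl⟩; exact ⟨_, hf g x⟩⟩
  let T' : Subrepresentation ρ₂ := ⟨(LinearMap.ker f).map f', by
    rintro g _ ⟨x, hx, rfl⟩
    exact ⟨σ g x, by simp [hf, show f x = 0 from hx], hf' g x⟩⟩
  have hs : Function.Surjective f := LinearMap.range_eq_top.1 (by
    refine congrArg Subrepresentation.toSubmodule ((h₁.eq_bot_or_eq_top T).resolve_left fun e => ?_)
    obtain ⟨x, hx⟩ := h0
    have : LinearMap.range f = ⊥ := congrArg Subrepresentation.toSubmodule e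
    exact hx (by rw [← Submodule.mem_bot ℂ, ← this]; exact ⟨x, rfl⟩))
  have hj : Function.Injective f := (injective_iff_map_eq_zero _).2 fun x hx => hi x hx (by
    have : (LinearMap.ker f).map f' = ⊥ := congrArg Subrepresentation.toSubmodule
      ((h₂.eq_bot_or_eq_top T').resolve_right fun e => by
        obtain ⟨y, hy⟩ := h1
        have : (LinearMap.ker f).map f' = ⊤ := congrArg Subrepresentation.toSubmodule e
        obtain ⟨x, a, b⟩ : y ∈ (LinearMap.ker f).map f' := this ▸ trivial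
        exact hy x a b)
    rw [← Submodule.mem_bot ℂ, ← this]; exact ⟨x, hx, rfl⟩)
  exact Representation.char_iso (.mk (LinearEquiv.ofBijective f ⟨hj, hs⟩) fun g =>
    LinearMap.ext fun x => hf g x)

variable {F V : Type*} [Field F] [Fintype F] [AddCommGroup V] [Module F V] [Finite V]
  {B : LinearMap.BilinForm F V} {U : Submodule F V}
  {W : Type*} [AddCommGroup W] [Module ℂ W] {ρ : Representation ℂ (SG B) W}

theorem neg_scalar (h : ρ.IsIrreducible) :
    ∃ ε : ℂ, ε * ε = 1 ∧ ∀ v, ρ (negSG B) v = ε • v := by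
  let T : Subrepresentation ρ := ⟨End.eigenspace (ρ (negSG B)) 1, fun g v hv => by
    rw [End.mem_eigenspace_iff, one_smul] at hv ⊢
    rw [app_mul ρ (Subgroup.mem_center_iff.1 negSG_mem_center g).symm, hv]⟩
  rcases h.eq_bot_or_eq_top T with e | e
  · have e' : End.eigenspace (ρ (negSG B)) 1 = ⊥ := congrArg Subrepresentation.toSubmodule e
    refine ⟨-1, by simp, fun v => ?_⟩
    have : v + ρ (negSG B) v ∈ End.eigenspace (ρ (negSG B)) 1 := by
      rw [End.mem_eigenspace_iff, one_smul, map_add, ← End.mul_apply, ← map_mul, negSG_mul_self,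
        map_one, End.one_apply, add_comm]
    rw [e', Submodule.mem_bot] at this
    rw [neg_one_smul, eq_neg_of_add_eq_zero_right this]
  · have e' : End.eigenspace (ρ (negSG B)) 1 = ⊤ := congrArg Subrepresentation.toSubmodule e
    exact ⟨1, by simp, fun v => End.mem_eigenspace_iff.1 (e' ▸ trivial)⟩

/-- Conjugation by a similitude. -/
def tw (D : V ≃ₗ[F] V) {δ : F} (hδ : δ ≠ 0) (hD : ∀ x y, B (D x) (D y) = δ * B x y) :
    SG B →* SG B where
  toFun g := ⟨D * g.1 * D⁻¹, fun u v => by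
    change B (D (g.1 (D.symm u))) (D (g.1 (D.symm v))) = _
    rw [hD, SG.map, ← hD]; simp⟩
  map_one' := Subtype.ext (by simp)
  map_mul' g h := Subtype.ext (by simp [mul_assoc])

theorem tw_surj (D : V ≃ₗ[F] V) {δ : F} (hδ : δ ≠ 0) (hD : ∀ x y, B (D x) (D y) = δ * B x y) :
    Function.Surjective (tw D hδ hD) :=
  Finite.injective_iff_surjective.1 fun g h e => Subtype.ext (by
    simpa [tw] using congrArg Subtype.val e)

theorem irr_comp {G H : Type*} [Group G] [Group H] {ρ : Representation ℂ G W}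
    (h : ρ.IsIrreducible) (f : H →* G) (hf : Function.Surjective f) :
    Representation.IsIrreducible (ρ.comp f) := by
  have := h.toNontrivial
  have : Nontrivial (Subrepresentation (ρ.comp f)) := ⟨⊥, ⊤, fun e =>
    (bot_ne_top (α := Subrepresentation ρ)) (Subrepresentation.toSubmodule_injective
      (congrArg Subrepresentation.toSubmodule e :))⟩
  refine ⟨fun T => ?_⟩
  refine (h.eq_bot_or_eq_top ⟨T.toSubmodule, fun g v hv => ?_⟩).imp (fun e => ?_) fun e => ?_
  · obtain ⟨g, rfl⟩ := hf g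
    exact T.apply_mem_toSubmodule g hv
  · exact Subrepresentation.toSubmodule_injective (congrArg Subrepresentation.toSubmodule e :)
  · exact Subrepresentation.toSubmodule_injective (congrArg Subrepresentation.toSubmodule e :)

namespace Lag
variable (H : Lag B U)
include H

theorem M_tw (D : V ≃ₗ[F] V) {δ : F} (hδ : δ ≠ 0) (hD : ∀ x y, B (D x) (D y) = δ * B x y)
    (hU : ∀ x, D x ∈ U ↔ x ∈ U) {a : F} {z : V} {v : W} (hv : v ∈ H.M ρ a (D z)) :
    v ∈ H.M (ρ.comp (tw D hδ hD)) (a * δ) z := H.mem_M.2 fun n hn => by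
  have e : ∀ x, (tw D hδ hD n).1 x = D (n.1 (D.symm x)) := fun _ => rfl
  rw [MonoidHom.comp_apply, H.mem_M.1 hv _ (H.mem_RS fun u hu => by
    rw [e, hn.1 _ ((hU _).1 (by simpa)), D.apply_symm_apply]), e, hD, D.symm_apply_apply, mul_assoc]

theorem exists_wt_ne (hR : H.R1 ρ) (hρ : ∃ g, ρ g ≠ 1) :
    ∃ a ≠ 0, ∃ z ∉ U, ∃ v ≠ 0, v ∈ H.M ρ a z := by
  by_contra h
  push Not at h
  have h1 : ∀ n ∈ RS B U, ρ n = 1 := fun n hn => LinearMap.ext fun v => by
    rw [eq_sum_all (ρ := ρ) (U := U) v, map_sum, map_sum]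
    refine Finset.sum_congr rfl fun l _ => ?_
    by_cases hl : P ρ (xN B U) l v = 0
    · rw [hl, map_zero, map_zero]
    obtain ⟨a, z, rfl⟩ := H.of_P hR hl
    have hm : P ρ (xN B U) (H.lz a z) v ∈ H.M ρ a z := H.pj_mem a z v
    rw [H.mem_M.1 hm n hn, End.one_apply]
    by_cases ha : a = 0
    · simp [ha]
    by_cases hz : z ∈ U
    · simp [hn.1 z hz, H.self]
    exact absurd hm (h a ha z hz _ hl)
  obtain ⟨g, hg⟩ := hρ
  have : Nontrivial U := Module.nontrivial_of_finrank_pos (R := F) (by have := H.rk; omega)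
  obtain ⟨u, hu⟩ := exists_ne (0 : U)
  have hK := eq_top_of_tv H.nd H.alt (MonoidHom.ker ρ.toHomUnits) fun v c => by
    refine MonoidHom.mem_ker.2 (Units.ext ?_)
    change ρ _ = 1
    rcases eq_or_ne v 0 with rfl | hv
    · rw [tv_zero_vec, map_one]
    obtain ⟨s, hs⟩ := witt_one H.nd H.alt (u := u) (by simpa using hu) hv
    have := conj_eq_one ρ (h1 _ (H.tv_mem u.2 c)) s
    rwa [conj_tv, hs] at this
  exact hg (congrArg Units.val
    (MonoidHom.mem_ker.1 (hK ▸ Subgroup.mem_top g : g ∈ ρ.toHomUnits.ker)))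

variable [FiniteDimensional ℂ W] {W' : Type*} [AddCommGroup W'] [Module ℂ W']
  [FiniteDimensional ℂ W'] {ρ' : Representation ℂ (SG B) W'}

theorem uniq (h : ρ.IsIrreducible) (h' : ρ'.IsIrreducible) (hR : H.R1 ρ) (hR' : H.R1 ρ') {a : F}
    (ha : a ≠ 0) {z : V} (hz : z ∉ U) {v : W} {v' : W'} (hv : v ∈ H.M ρ a z) (hv' : v' ∈ H.M ρ' a z)
    (h0 : v ≠ 0) (h0' : v' ≠ 0) {ε : ℂ} (hε : ρ (negSG B) v = ε • v)
    (hε' : ρ' (negSG B) v' = ε • v') : ρ.character = ρ'.character := by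
  have hM : ∀ {x : W} {x' : W'}, x ∈ H.M ρ a z → x' ∈ H.M ρ' a z → (x, x') ∈ H.M (ρ.prod ρ') a z :=
    fun hx hx' => H.mem_M.2 fun n hn => Prod.ext (H.mem_M.1 hx n hn) (H.mem_M.1 hx' n hn)
  obtain ⟨S, s1, s2, s3⟩ := H.main (ρ := ρ.prod ρ') (fun l hl => by
    obtain ⟨x, hx, hx0⟩ := (Submodule.ne_bot_iff _).1 hl
    by_cases h1 : x.1 = 0
    · exact hR' l ((Submodule.ne_bot_iff _).2 ⟨x.2, mem_Wt.2 fun i =>
        congrArg Prod.snd (mem_Wt.1 hx i), fun h2 => hx0 (Prod.ext h1 h2)⟩)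
    · exact hR l ((Submodule.ne_bot_iff _).2 ⟨x.1, mem_Wt.2 fun i =>
        congrArg Prod.fst (mem_Wt.1 hx i), h1⟩)) ha hz (hM hv hv') (ε := ε) (Prod.ext hε hε')
  let T : Subrepresentation (ρ.prod ρ') := ⟨S, fun g _ hx => s2 g _ hx⟩
  have e1 := char_eq_of_graph (σ := T.toRepresentation) h h' (LinearMap.fst ℂ W W' ∘ₗ S.subtype)
    (LinearMap.snd ℂ W W' ∘ₗ S.subtype) (fun _ _ => rfl) (fun _ _ => rfl)
    (fun x a b => Subtype.ext (Prod.ext a b)) ⟨⟨_, s1⟩, h0⟩ ⟨v', fun x a b => by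
      have := s3 _ x.2
      rw [show x.1 = (0, v') from Prod.ext a b, H.pj_of_mem (hM (zero_mem _) hv')] at this
      obtain ⟨c, hc⟩ := Submodule.mem_span_singleton.1 this
      simp only [Prod.smul_mk, Prod.mk.injEq, smul_eq_zero, h0, or_false] at hc
      exact h0' (by rw [← hc.2, hc.1, zero_smul])⟩
  have e2 := char_eq_of_graph (σ := T.toRepresentation) h' h (LinearMap.snd ℂ W W' ∘ₗ S.subtype)
    (LinearMap.fst ℂ W W' ∘ₗ S.subtype) (fun _ _ => rfl) (fun _ _ => rfl)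
    (fun x a b => Subtype.ext (Prod.ext b a)) ⟨⟨_, s1⟩, h0'⟩ ⟨v, fun x a b => by
      have := s3 _ x.2
      rw [show x.1 = (v, 0) from Prod.ext b a, H.pj_of_mem (hM hv (zero_mem _))] at this
      obtain ⟨c, hc⟩ := Submodule.mem_span_singleton.1 this
      simp only [Prod.smul_mk, Prod.mk.injEq, smul_eq_zero, h0', or_false] at hc
      exact h0 (by rw [← hc.1, hc.2, zero_smul])⟩
  rw [← e1, e2]

theorem M_ne_bot (e : ρ.character = ρ'.character) {a : F} {z : V} (h : H.M ρ a z ≠ ⊥) :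
    H.M ρ' a z ≠ ⊥ := fun h' => h (Submodule.finrank_eq_zero.1 (by
  have h1 := trace_P (ρ := ρ) (x := xN B U) xN_add (H.lz a z)
  have h2 := trace_P (ρ := ρ') (x := xN B U) xN_add (H.lz a z)
  have h3 : ∀ g, LinearMap.trace ℂ W (ρ g) = LinearMap.trace ℂ W' (ρ' g) := congrFun e
  simp only [P, map_smul, map_sum, h3] at h1 h2
  rw [h2, show Wt ρ' _ _ = ⊥ from h', finrank_bot] at h1
  exact_mod_cast h1.symm))

theorem irr_of_dim (hf : ∀ v, (∀ g, ρ g v = v) → v = 0) [Nontrivial W]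
    (hd : finrank ℂ W < Fintype.card F ^ finrank F U - 1) : ρ.IsIrreducible := by
  have : Nontrivial (Subrepresentation ρ) := ⟨⊥, ⊤, fun e =>
    (bot_ne_top (α := Submodule ℂ W)) (congrArg Subrepresentation.toSubmodule e :)⟩
  refine ⟨fun T => ?_⟩
  by_contra hT
  push Not at hT
  obtain ⟨T', hT'⟩ := Char.exists_isCompl T
  have key : ∀ T : Subrepresentation ρ, T.toSubmodule ≠ ⊥ →
      Fintype.card F ^ finrank F U - 1 ≤ 2 * finrank ℂ T.toSubmodule := fun T h =>
    sp_bound H.nd H.alt H.iso H.two H.rk T.toRepresentation (by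
      by_contra h1
      push Not at h1
      obtain ⟨v, hv, h0⟩ := (Submodule.ne_bot_iff _).1 h
      exact h0 (hf v fun g => congrArg Subtype.val (LinearMap.congr_fun (h1 g) ⟨v, hv⟩)))
  have h1 := key T fun e => hT.1 (Subrepresentation.toSubmodule_injective e)
  have h2 := key T' fun e => hT.2 (Subrepresentation.toSubmodule_injective (by
    have := hT'.sup_eq_top; rwa [e, sup_bot_eq] at this))
  have := Submodule.finrank_add_eq_of_isCompl hT'
  omega

end Lag
end Cfsg.Agent.ULT.SW
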