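import Mathlib
import Cfsg.Agent.ULT.SW6

/-! The four Weil characters of the symplectic groups in odd characteristic. -/

set_option autoImplicit false
set_option backward.isDefEq.respectTransparency false
set_option linter.unusedSectionVars false

namespace Cfsg.Agent.ULT.SW
open Module Cfsg.Agent.Classical Cfsg.Agent.Classical.LS Cfsg.Agent.Classical.SpWitt
  Cfsg.Agent.Classical.AutSp Cfsg.Agent.Classical.SpSimple Cfsg.Agent.Classical.SpMat

variable {F ι : Type*} [Field F] [Fintype F] [Fintype ι] [DecidableEq ι] [DecidableEq F]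

variable (F ι) in
/-- The standard Lagrangian. -/
def U0 : Submodule F (ι ⊕ ι → F) := LinearMap.ker (LinearMap.funLeft F F Sum.inl)

theorem mem_U0 {v : ι ⊕ ι → F} : v ∈ U0 F ι ↔ v ∘ Sum.inl = 0 := Iff.rfl

theorem finrank_U0 : finrank F (U0 F ι) = Fintype.card ι := by
  have := LinearMap.finrank_range_add_finrank_ker (LinearMap.funLeft F F (Sum.inl : ι → ι ⊕ ι))
  rw [LinearMap.range_eq_top.2 (LinearMap.funLeft_surjective_of_injective _ _ _ Sum.inl_injective),
    finrank_top, finrank_fintype_fun_eq_card, finrank_fintype_fun_eq_card, Fintype.card_sum] at this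
  exact Nat.add_left_cancel this

theorem lag (h2 : (2 : F) ≠ 0) (hι : 2 ≤ Fintype.card ι) : Lag (sB ι F) (U0 F ι) where
  nd := sB_nondeg
  alt := sB_alt
  iso u hu v hv := by rw [sB_eq_dot, mem_U0.1 hu, mem_U0.1 hv]; simp
  max x h := mem_U0.2 (funext fun i => by
    have := h (Sum.elim 0 (Pi.single i 1)) (mem_U0.2 rfl)
    rw [sB_eq_dot, Sum.elim_comp_inl, Sum.elim_comp_inr] at this
    simpa using this)
  two := h2
  rk := finrank_U0 (F := F) (ι := ι) ▸ hι

/-- The delta function at the origin. -/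
noncomputable def d0 : (ι → F) → ℂ := Pi.single 0 1

theorem Hs_d0 (z : ι ⊕ ι → F) (x : ι → F) : Hs z d0 x = if x = -(z ∘ Sum.inl) then
    ψ F ((z ∘ Sum.inr) ⬝ᵥ x + (z ∘ Sum.inl) ⬝ᵥ (z ∘ Sum.inr) / 2) else 0 := by
  simp [Hs_apply, d0, Pi.single_apply, add_eq_zero_iff_eq_neg]

theorem Hs_U {u : ι ⊕ ι → F} (hu : u ∈ U0 F ι) : Hs u d0 = d0 := funext fun x => by
  rw [Hs_d0, mem_U0.1 hu]
  by_cases h : x = 0 <;> simp [h, d0]

theorem eq_d0 {f : (ι → F) → ℂ} (h : ∀ u ∈ U0 F ι, Hs u f = f) : f = f 0 • d0 := funext fun x => by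
  by_cases hx : x = 0
  · simp [hx, d0]
  obtain ⟨i, hi⟩ := Function.ne_iff.1 hx
  obtain ⟨b, hb⟩ := exists_ψ_ne hi
  have := congrFun (h (Sum.elim 0 (Pi.single i b)) (mem_U0.2 rfl)) x
  simp only [Hs_apply, Sum.elim_comp_inr, Sum.elim_comp_inl, single_dotProduct, zero_dotProduct,
    zero_div, add_zero, mul_comm b] at this
  have : f x = 0 := by
    by_contra h0
    exact hb (mul_right_cancel₀ h0 (this.trans (one_mul _).symm))
  simp [this, d0, hx]

theorem eq_sum_Hs (f : (ι → F) → ℂ) : f = ∑ x, f x • Hs (Sum.elim (-x) 0) d0 := funext fun y => by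
  simp [Finset.sum_apply, Hs_d0]

section
variable (H : Lag (sB ι F) (U0 F ι)) {ρ : Representation ℂ (SG (sB ι F)) ((ι → F) → ℂ)}
  (hρ : ∀ g v, ρ g * Hs v = Hs (g.1 v) * ρ g)
include H hρ

theorem ρ_d0 {p : SG (sB ι F)} (hp : p ∈ H.PS) : ρ p d0 = ρ p d0 0 • d0 := eq_d0 fun u hu => by
  rw [← SG.apply_inv p u, ← End.mul_apply, ← hρ, End.mul_apply, Hs_U (inv_mem hp u hu)]

theorem N_d0 {n : SG (sB ι F)} (hn : n ∈ RS (sB ι F) (U0 F ι)) : ρ n d0 = d0 := by
  have hd : (d0 : (ι → F) → ℂ) ≠ 0 := fun h => by simpa [d0] using congrFun h 0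
  let c : H.PS →* ℂ :=
    { toFun := fun p => ρ p d0 0
      map_one' := by simp [d0]
      map_mul' := fun p p' => by
        rw [Subgroup.coe_mul, map_mul, End.mul_apply, ρ_d0 H hρ p'.2, map_smul]
        simp [d0, mul_comm] }
  have c0 : ∀ p, c p ≠ 0 := fun p h => by
    have := map_mul c p p⁻¹
    rw [h] at this; simp at this
  let t : U0 F ι → F → H.PS := fun u s => ⟨_, H.RS_le (H.tv_mem u.2 s)⟩
  have h1 : ∀ u u' s, u ≠ 0 → u' ≠ 0 → c (t u s) = c (t u' s) := fun u u' s hu hu' => by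
    obtain ⟨γ, ⟨g, hg⟩, e⟩ := (siegS H.nd H.alt H.iso H.rk).trans u u' hu hu'
    let p : H.PS := ⟨g, fun x hx => by rw [hg ⟨x, hx⟩]; exact (γ _).2⟩
    have : p * t u s = t u' s * p := Subtype.ext (mul_inv_eq_iff_eq_mul.1 (by
      change g * tv H.alt _ _ * g⁻¹ = tv H.alt _ _
      rw [conj_tv, hg, e]))
    have := congrArg c this
    rw [map_mul, map_mul, mul_comm] at this
    exact mul_right_cancel₀ (c0 p) this
  have h2 : ∀ u s, c (t u s) = 1 := fun w s => by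
    by_cases hw : w = 0
    · rw [show t w s = 1 from Subtype.ext (by simp [t, hw, tv_zero_vec]), map_one]
    obtain ⟨f, hf⟩ := exists_linearIndependent_of_le_finrank H.rk
    have hf' := Fintype.linearIndependent_iff.1 hf
    obtain ⟨s, rfl⟩ : ∃ s', s = s' + s' := ⟨s / 2, by have := H.two; field_simp; ring⟩
    have e1 : t (f 0 + f 1) s * t (f 0 - f 1) s = t (f 0) (s + s) * t (f 1) (s + s) :=
      Subtype.ext (SG.ext fun x => by
        change (tv H.alt _ _ * tv H.alt _ _).1 x = (tv H.alt _ _ * tv H.alt _ _).1 x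
        simp only [SG.mul_apply, tv_apply, Submodule.coe_add,
          Submodule.coe_sub, map_add, map_sub, map_smul, LinearMap.add_apply, LinearMap.sub_apply,
          LinearMap.smul_apply, H.iso _ (f _).2 _ (f _).2, smul_eq_mul]
        module)
    have e2 : t w s * t w s = t w (s + s) := Subtype.ext (tv_add H.alt _ _ _).symm
    have := congrArg c e1
    rw [map_mul, map_mul,
      h1 (f 0 + f 1) w _ (fun h => by simpa using hf' ![1, 1] (by simpa using h) 0) hw,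
      h1 (f 0 - f 1) w _ (fun h => by
        simpa using hf' ![1, -1] (by simpa [sub_eq_add_neg] using h) 0) hw,
      h1 _ w _ (hf.ne_zero 0) hw, h1 _ w _ (hf.ne_zero 1) hw, ← map_mul, e2] at this
    exact mul_left_cancel₀ (c0 _) (this.symm.trans (mul_one _).symm)
  let K : Subgroup (SG (sB ι F)) :=
    { carrier := {g | ρ g d0 = d0}
      one_mem' := by simp
      mul_mem' := fun ha hb => by
        simp only [Set.mem_ofPred_eq, map_mul, End.mul_apply] at *; rw [hb, ha]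
      inv_mem' := fun {g} hg => by
        change ρ g⁻¹ d0 = d0
        nth_rw 1 [← show ρ g d0 = d0 from hg]
        exact ρ.inv_self_apply _ _ }
  refine (Subgroup.closure_le K).2 ?_ (H.closure_tv hn)
  rintro _ ⟨u, hu, s, rfl⟩
  exact (ρ_d0 H hρ (H.RS_le (H.tv_mem hu s))).trans
    (by rw [show ρ _ d0 0 = 1 from h2 ⟨u, hu⟩ s, one_smul])

theorem Hs_mem (z : ι ⊕ ι → F) : Hs z d0 ∈ H.M ρ 2⁻¹ z := H.mem_M.2 fun n hn => by
  have := LinearMap.congr_fun (Hs_mul H.two z (n.1 z - z)) d0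
  rw [End.mul_apply, Hs_U (hn.2 z), add_sub_cancel, LinearMap.smul_apply] at this
  rw [← End.mul_apply, hρ, End.mul_apply, N_d0 H hρ hn, this, smul_smul, ← ψ_add, map_sub, H.self]
  simp [div_eq_inv_mul]

theorem wt_weil {l : AddChar (Additive (RS (sB ι F) (U0 F ι))) ℂ} {f : (ι → F) → ℂ} (h0 : f ≠ 0)
    (hf : f ∈ Wt ρ (xN _ _) l) : ∃ x, f x ≠ 0 ∧ l = H.lz 2⁻¹ (Sum.elim (-x) 0) := by
  classical
  by_contra h
  push Not at h
  apply h0
  have : P ρ (xN _ _) l f = f := by rw [P_apply hf, if_pos rfl]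
  rw [← this, eq_sum_Hs f, map_sum]
  refine Finset.sum_eq_zero fun x _ => ?_
  by_cases hx : f x = 0
  · simp [hx]
  rw [map_smul, P_apply (Hs_mem H hρ _), if_neg (h x hx), smul_zero]

theorem no_fix {f : (ι → F) → ℂ} (hf : ∀ g, ρ g f = f) : f = 0 := by
  have h1 : f = f 0 • d0 := by
    refine (H.pj_of_mem (H.mem_M0.2 fun n _ => hf n)).symm.trans
      ((congrArg (H.pj ρ 0 0) (eq_sum_Hs f)).trans ?_)
    rw [map_sum, Finset.sum_eq_single 0 (fun x _ hx => ?_) (by simp),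
      Hs_U (mem_U0.2 (by simp)), map_smul, H.pj_of_mem (H.mem_M0.2 fun n hn => N_d0 H hρ hn)]
    by_contra h0
    obtain ⟨r, hr, h⟩ := H.exists_r (z := Sum.elim (-x) 0) (by simpa [mem_U0] using hx)
    refine inv_ne_zero H.two (eq_zero_of_ψ fun c => ?_)
    have := H.eig_pj (right_ne_zero_of_smul (map_smul (H.pj ρ 0 0) _ _ ▸ h0)) hr
      (H.M_tv (Hs_mem H hρ _) hr c)
    simpa [h] using this.symm
  by_contra h0
  have h2 : f 0 ≠ 0 := fun h => h0 (by rw [h1, h, zero_smul])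
  have : Nontrivial (U0 F ι) := Module.nontrivial_of_finrank_pos (R := F) (by have := H.rk; omega)
  obtain ⟨u, hu⟩ := exists_ne (0 : U0 F ι)
  obtain ⟨z, hz⟩ := exists_one H.nd H.alt.isRefl (u := u.1) (by simpa using hu)
  obtain ⟨g, hg⟩ := witt_one H.nd H.alt (u := u.1) (v := z) (by simpa using hu)
    (by rintro rfl; simp at hz)
  have h3 : ρ g d0 = d0 := by
    have := hf g
    rw [h1, map_smul] at this
    exact smul_right_injective _ h2 this
  have := LinearMap.congr_fun (hρ g u) d0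
  rw [End.mul_apply, End.mul_apply, Hs_U u.2, h3, hg] at this
  have := congrFun this 0
  rw [Hs_d0, if_neg fun h => by
    rw [H.iso _ u.2 z (mem_U0.2 (neg_eq_zero.1 h.symm))] at hz; exact zero_ne_one hz] at this
  simp [d0] at this

omit hρ in
theorem vec_Ev {s : ℂ} (hs : s * s = 1) (z : ι ⊕ ι → F) :
    Hs z d0 + s • Hs (-z) d0 ∈ Ev F ι s := mem_Ev.2 (by
  have : Par F ι d0 = d0 := funext fun x => by simp [Par_apply, d0, Pi.single_apply]
  rw [map_add, map_smul, ← End.mul_apply, ← End.mul_apply, Par_mul_Hs, Par_mul_Hs, neg_neg,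
    End.mul_apply, End.mul_apply, this, smul_add, smul_smul, hs, one_smul, add_comm])

omit hρ in
theorem vec_ne (s : ℂ) {z : ι ⊕ ι → F} (hz : z ∉ U0 F ι) : Hs z d0 + s • Hs (-z) d0 ≠ 0 := fun h => by
  have := congrFun h (-(z ∘ Sum.inl))
  rw [Pi.add_apply, Pi.smul_apply, Hs_d0, Hs_d0, if_pos rfl, if_neg fun e => hz (mem_U0.2 (by
    rw [Pi.neg_comp, neg_inj, eq_neg_iff_add_eq_zero, ← two_smul F] at e
    exact (smul_eq_zero.1 e).resolve_left H.two))] at this
  simp [ψ_ne_zero] at this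

theorem vec_mem (s : ℂ) (z : ι ⊕ ι → F) : Hs z d0 + s • Hs (-z) d0 ∈ H.M ρ 2⁻¹ z := by
  refine add_mem (Hs_mem H hρ z) (Submodule.smul_mem _ _ ?_)
  have := Hs_mem H hρ (-z)
  rwa [← neg_one_smul F z, Lag.M, H.lz_smul, neg_one_sq, mul_one, neg_one_smul] at this

theorem neg_Par : ∃ c : ℂ, ρ (negSG _) = c • Par F ι := by
  obtain ⟨c, hc⟩ := scalar_of_comm H.two (T := ρ (negSG _) * Par F ι) fun v => by
    rw [mul_assoc, Par_mul_Hs, ← mul_assoc, hρ, negSG_apply, neg_neg, mul_assoc]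
  exact ⟨c, by rw [← mul_one (ρ _), ← Par_mul_Par, ← mul_assoc, hc, smul_mul_assoc, one_mul]⟩

end

theorem num_lt {q n d : ℕ} (hq : 3 ≤ q) (hn : 2 ≤ n) (hd : 2 * d ≤ q ^ n + 1) :
    2 * (q + 1) * d < (q ^ n - 1) * (q ^ n - q) := by
  have h1 : q ^ 2 ≤ q ^ n := Nat.pow_le_pow_right (by omega) hn
  generalize q ^ n = X at *
  have h2 : 2 * q + 3 ≤ X := by nlinarith
  obtain ⟨y, rfl⟩ : ∃ y, X = y + (2 * q + 3) := ⟨_, (Nat.sub_add_cancel h2).symm⟩
  rw [show y + (2 * q + 3) - 1 = y + 2 * q + 2 by omega, show y + (2 * q + 3) - q = y + q + 3 by omega]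
  nlinarith

theorem weil_class (h2 : (2 : F) ≠ 0) (hι : 2 ≤ Fintype.card ι) :
    ∃ χ : ℂ → Bool → SG (sB ι F) → ℂ, (∀ s, s * s = 1 → (∀ j, IsIrrCharacter _ (χ s j) ∧
      2 * χ s j 1 = Fintype.card F ^ Fintype.card ι + s) ∧ χ s false ≠ χ s true) ∧
      ∀ (k : ℕ) (ρ : Representation ℂ (SG (sB ι F)) (Fin k → ℂ)), ρ.IsIrreducible → 2 ≤ k →
        (∃ s j, s * s = 1 ∧ ρ.character = χ s j) ∨ (Fintype.card F ^ Fintype.card ι - 1) *
          (Fintype.card F ^ Fintype.card ι - Fintype.card F) ≤ 2 * (Fintype.card F + 1) * k := by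
  have H := lag h2 hι
  have hc : ringChar F ≠ 2 := fun h => h2 (by exact_mod_cast (ringChar.spec F 2).2 (h ▸ dvd_refl _))
  have hq : 3 ≤ Fintype.card F := by
    have := FiniteField.odd_card_of_char_ne_two hc
    have := Fintype.one_lt_card (α := F)
    omega
  obtain ⟨δ, hδ⟩ := FiniteField.exists_nonsquare hc
  have hδ0 : δ ≠ 0 := by rintro rfl; simp at hδ
  let c : ι ⊕ ι → F := Sum.elim 1 fun _ => δ
  let D : (ι ⊕ ι → F) ≃ₗ[F] (ι ⊕ ι → F) := LinearEquiv.piCongrRight fun i =>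
    LinearEquiv.smulOfNeZero F F (c i) (by rcases i with i | i <;> simp [c, hδ0])
  have D1 : ∀ x i, D x i = c i * x i := fun _ _ => rfl
  have hD : ∀ x y, sB ι F (D x) (D y) = δ * sB ι F x y := fun x y => by
    simp only [sB_eq_sum, D1, c, Finset.mul_sum, Sum.elim_inl, Sum.elim_inr, Pi.one_apply]
    exact Finset.sum_congr rfl fun i _ => by ring
  have hU : ∀ x, D x ∈ U0 F ι ↔ x ∈ U0 F ι := fun x => by
    simp [mem_U0, funext_iff, D1, c]
  obtain ⟨ω, hω⟩ := exists_weil (ι := ι) h2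
  let ρ0 : Representation ℂ (SG (sB ι F)) ((ι → F) → ℂ) := (Submonoid.subtype _).comp ω
  have hρ : ∀ g v, ρ0 g * Hs v = Hs (g.1 v) * ρ0 g := hω
  let ρs (s : ℂ) : Representation ℂ (SG (sB ι F)) (Ev F ι s) := (resEv s).comp ω
  have hM : ∀ s a z (v : Ev F ι s), v ∈ H.M (ρs s) a z ↔ v.1 ∈ H.M ρ0 a z := fun s a z v => by
    simp only [H.mem_M, Subtype.ext_iff]; rfl
  have hd : ∀ s : ℂ, s * s = 1 → 2 * finrank ℂ (Ev F ι s) ≤ Fintype.card F ^ Fintype.card ι + 1 :=
    fun s hs => by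
      have := finrank_Ev (ι := ι) h2 hs
      rcases mul_self_eq_one_iff.1 hs with rfl | rfl
      · exact le_of_eq (by exact_mod_cast this)
      · have : 2 * finrank ℂ (Ev F ι (-1)) + 1 = Fintype.card F ^ Fintype.card ι := by
          exact_mod_cast (eq_add_neg_iff_add_eq.1 this)
        omega
  have hR : ∀ s : ℂ, s * s = 1 → ∀ ρ : Representation ℂ (SG (sB ι F)) (Ev F ι s), H.R1 ρ :=
    fun s hs ρ => (H.bound_or ρ).resolve_right (by
      rw [finrank_U0]; exact (num_lt hq hι (hd s hs)).not_ge)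
  let v (s : ℂ) (hs : s * s = 1) (z : ι ⊕ ι → F) : Ev F ι s := ⟨_, vec_Ev H hs z⟩
  have v0 : ∀ s hs z, z ∉ U0 F ι → v s hs z ≠ 0 := fun s hs z hz h =>
    vec_ne H s hz (congrArg Subtype.val h)
  have v1 : ∀ s hs z, v s hs z ∈ H.M (ρs s) 2⁻¹ z := fun s hs z => (hM ..).2 (vec_mem H hρ s z)
  have v2 : ∀ s hs z, v s hs (D z) ∈ H.M ((ρs s).comp (tw D hδ0 hD)) (2⁻¹ * δ) z :=
    fun s hs z => H.M_tw D hδ0 hD hU (v1 s hs _)
  obtain ⟨z₀, hz₀⟩ : ∃ z, z ∉ U0 F ι := by
    obtain ⟨i⟩ := Fintype.card_pos_iff.1 (show 0 < Fintype.card ι by omega)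
    exact ⟨1, fun h => one_ne_zero (congrFun (mem_U0.1 h) i)⟩
  have hI : ∀ s : ℂ, s * s = 1 → (ρs s).IsIrreducible := fun s hs => by
    have : Nontrivial (Ev F ι s) := ⟨_, _, v0 s hs z₀ hz₀⟩
    refine H.irr_of_dim (fun f hf => Subtype.ext (no_fix H hρ fun g =>
      congrArg Subtype.val (hf g))) ?_
    have := hd s hs
    have h1 : Fintype.card F ^ 2 ≤ Fintype.card F ^ Fintype.card ι :=
      Nat.pow_le_pow_right (by omega) hι
    have : 9 ≤ Fintype.card F ^ 2 := by nlinarith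
    rw [finrank_U0]; omega
  have hI' : ∀ s : ℂ, s * s = 1 → Representation.IsIrreducible ((ρs s).comp (tw D hδ0 hD)) :=
    fun s hs => irr_comp (hI s hs) _ (tw_surj D hδ0 hD)
  obtain ⟨κ, hκ⟩ := neg_Par H hρ
  have hn : ∀ s (f : Ev F ι s), ρs s (negSG _) f = (κ * s) • f := fun s f => Subtype.ext (by
    change ρ0 (negSG _) f.1 = _
    rw [hκ, LinearMap.smul_apply, mem_Ev.1 f.2, smul_smul]; rfl)
  have hκ1 : κ * κ = 1 := by
    have := hn 1 (ρs 1 (negSG _) (v 1 (by simp) z₀))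
    rw [← End.mul_apply, ← map_mul, negSG_mul_self, map_one, End.one_apply, hn, smul_smul] at this
    simpa using (smul_left_injective ℂ (v0 1 (by simp) z₀ hz₀)
      (this.symm.trans (one_smul _ _).symm))
  refine ⟨fun s j => bif j then Representation.character ((ρs s).comp (tw D hδ0 hD))
    else (ρs s).character, fun s hs => ⟨fun j => ?_, fun e => ?_⟩, fun k ρ h hk => ?_⟩
  · have := hI s hs
    have := hI' s hs
    cases j <;> exact ⟨Char.isIrr_character _, by simpa using finrank_Ev (ι := ι) h2 hs⟩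
  · obtain ⟨f, hf, h0⟩ := (Submodule.ne_bot_iff _).1 (H.M_ne_bot (ρ' := ρs s) e.symm
      ((Submodule.ne_bot_iff _).2 ⟨_, v2 s hs z₀, v0 s hs _ (by rwa [hU])⟩))
    obtain ⟨x, -, hx⟩ := wt_weil H hρ (fun h => h0 (Subtype.ext h)) ((hM ..).1 hf)
    obtain ⟨r, hr, h1⟩ := H.exists_r hz₀
    have : 2⁻¹ * δ = 2⁻¹ * sB ι F (Sum.elim (-x) 0) r ^ 2 := eq_of_ψ fun b => by
      simpa [H.lz_tv, h1] using DFunLike.congr_fun hx (mkN _ (H.tv_mem hr b))
    exact hδ ⟨_, (mul_left_cancel₀ (inv_ne_zero h2) this).trans (sq _)⟩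
  · refine (H.bound_or ρ).imp (fun h1 => ?_) fun h1 => by simpa [finrank_U0] using h1
    obtain ⟨a, ha, z, hz, w, hw0, hw⟩ := H.exists_wt_ne h1 (nontriv_of_irr ρ h (by simpa using hk))
    obtain ⟨ε, e1, e2⟩ := neg_scalar h
    have hs : κ * ε * (κ * ε) = 1 := by linear_combination ε * ε * hκ1 + e1
    have e3 : κ * (κ * ε) = ε := by rw [← mul_assoc, hκ1, one_mul]
    have h2a : 2 * a ≠ 0 := mul_ne_zero h2 ha
    by_cases hsq : IsSquare (2 * a)
    · obtain ⟨t, ht⟩ := hsq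
      have ht0 : t ≠ 0 := by rintro rfl; simp_all
      rw [show a = 2⁻¹ * t ^ 2 by field_simp; linear_combination ht, Lag.M, ← H.lz_smul] at hw
      have hz' : t • z ∉ U0 F ι := by rwa [Submodule.smul_mem_iff _ ht0]
      exact ⟨κ * ε, false, hs, H.uniq h (hI _ hs) h1 (hR _ hs _) (inv_ne_zero h2) hz' hw
        (v1 _ hs _) hw0 (v0 _ hs _ hz') (e2 w) (by rw [hn, e3])⟩
    · obtain ⟨t, ht⟩ : IsSquare (2 * a * δ) := by
        rw [← quadraticChar_one_iff_isSquare (mul_ne_zero h2a hδ0), map_mul,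
          quadraticChar_neg_one_iff_not_isSquare.2 hsq, quadraticChar_neg_one_iff_not_isSquare.2 hδ]
        simp
      have ht0 : t / δ ≠ 0 := div_ne_zero (by rintro rfl; simp_all) hδ0
      rw [show a = 2⁻¹ * δ * (t / δ) ^ 2 by field_simp; linear_combination ht, Lag.M,
        ← H.lz_smul] at hw
      have hz' : (t / δ) • z ∉ U0 F ι := by rwa [Submodule.smul_mem_iff _ ht0]
      refine ⟨κ * ε, true, hs, H.uniq h (hI' _ hs) h1 (hR _ hs _)
        (mul_ne_zero (inv_ne_zero h2) hδ0) hz' hw (v2 _ hs _) hw0 (v0 _ hs _ (by rwa [hU])) (e2 w) ?_⟩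
      rw [MonoidHom.comp_apply, show tw D hδ0 hD (negSG _) = negSG _ from SG.ext fun x => by
        change D (-D.symm x) = -x; simp, hn, e3]

end Cfsg.Agent.ULT.SW
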