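import Cfsg.Agent.ULT.LF3

/-! Local fusion graphs of the symmetric groups have diameter two. -/

namespace Cfsg.Agent.ULT.LF
open Equiv Finset

variable {α : Type*} [Fintype α] [DecidableEq α]

theorem step {S : Finset α} {x y : Perm α} (H : Hyp S x y) (ih : IH S) (hB : ¬ Bad S x y) :
    Good S x y := by
  by_cases hxy : x = y
  · subst hxy
    have : OddF x x := fun p => ⟨1, odd_one, H.ix p⟩
    exact ⟨x, H.ix, H.sx, rfl, this, this⟩
  by_cases hC : ∃ a, Cyc x y a
  · obtain ⟨a, ha⟩ := hC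
    exact red7 H ih hB ha
  push Not at hC
  by_cases h1 : ∃ a, y a = a ∧ x a ≠ a ∧ y (x a) ≠ x a
  · obtain ⟨a, e1, e2, e3⟩ := h1
    exact red3 H ih e2.symm e3.symm e1 rfl rfl
  by_cases h2 : ∃ a, x a = a ∧ y a ≠ a ∧ x (y a) ≠ y a
  · obtain ⟨a, e1, e2, e3⟩ := h2
    exact Good.symm H (red3 H.symm ih e2.symm e3.symm e1 rfl rfl)
  push Not at h1 h2
  by_cases hs : x.support = y.support
  · have hm : ∀ p, x p ≠ p ↔ y p ≠ p := by
      intro p
      rw [← Perm.mem_support, ← Perm.mem_support, hs]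
    obtain ⟨a, ha⟩ : ∃ a, x a ≠ y a := by
      by_contra h
      push Not at h
      exact hxy (Equiv.ext h)
    have xa : x a ≠ a := by
      intro e
      have : y a = a := by
        by_contra h; exact (hm a).2 h e
      exact ha (e.trans this.symm)
    have ya : y a ≠ a := (hm a).1 xa
    obtain ⟨b, hb⟩ : ∃ b, x a = b := ⟨_, rfl⟩
    obtain ⟨c, hc⟩ : ∃ c, y a = c := ⟨_, rfl⟩
    obtain ⟨e, he⟩ : ∃ e, y b = e := ⟨_, rfl⟩
    obtain ⟨f, hf⟩ : ∃ f, x e = f := ⟨_, rfl⟩
    obtain ⟨d, hd⟩ : ∃ d, y f = d := ⟨_, rfl⟩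
    have xb := H.ix.sw hb
    have yc := H.iy.sw hc
    have ye := H.iy.sw he
    have xf := H.ix.sw hf
    have yd := H.iy.sw hd
    rw [hb, hc] at ha
    rw [hb] at xa
    rw [hc] at ya
    have n1 : e ≠ b := by rw [← he]; exact (hm b).1 (by rw [xb]; exact xa.symm)
    have n2 : e ≠ a := by rintro rfl; exact ha (ye.symm.trans hc)
    have n3 : e ≠ c := by rintro rfl; exact xa (ye.symm.trans yc)
    have n4 : f ≠ e := by rw [← hf]; exact (hm e).2 (by rw [ye]; exact n1.symm)
    have n5 : f ≠ a := by rintro rfl; exact n1 (xf.symm.trans hb)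
    have n6 : f ≠ b := by rintro rfl; exact n2 (xf.symm.trans xb)
    have n7 : f ≠ c := by
      rintro rfl
      exact hC a ⟨by rw [hb]; exact xa, by rw [hc]; exact ya, by rw [hb, hc]; exact ha,
        by rw [hb, hc, xf, he]⟩
    have n8 : d ≠ f := by rw [← hd]; exact (hm f).1 (by rw [xf]; exact n4.symm)
    have n9 : d ≠ a := by rintro rfl; exact n7 (yd.symm.trans hc)
    have n10 : d ≠ c := by rintro rfl; exact n5 (yd.symm.trans yc)
    have n11 : d ≠ b := by rintro rfl; exact n4 (yd.symm.trans he)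
    have n12 : d ≠ e := by rintro rfl; exact n6 (yd.symm.trans ye)
    exact red5 H ih (by simp [ya, ha.symm, n3.symm, n7.symm, n10.symm, xa.symm, n2.symm, n5.symm,
      n9.symm, n1.symm, n6.symm, n11.symm, n4.symm, n12.symm, n8.symm]) yc hb he hf hd
  · obtain ⟨a, ha1, ha2⟩ : ∃ a, x a ≠ a ∧ y a = a := by
      by_contra h
      push Not at h
      apply hs
      apply eq_of_subset_of_card_le _ H.c.ge
      intro p hp
      exact Perm.mem_support.2 (h p (Perm.mem_support.1 hp))
    obtain ⟨c, hc1, hc2⟩ : ∃ a, y a ≠ a ∧ x a = a := by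
      by_contra h
      push Not at h
      apply hs
      symm
      apply eq_of_subset_of_card_le _ H.c.le
      intro p hp
      exact Perm.mem_support.2 (h p (Perm.mem_support.1 hp))
    exact red4 H ih ha1.symm hc1.symm rfl ha2 (h1 a ha2 ha1) rfl hc2 (h2 c hc2 hc1) hC

theorem good (n : ℕ) : ∀ (S : Finset α) (x y : Perm α), #S = n → Hyp S x y → ¬ Bad S x y →
    Good S x y := by
  induction n using Nat.strong_induction_on with
  | _ n ih =>
    intro S x y hS H hB
    exact step H (fun S' x' y' hlt H' hB' => ih _ (hS ▸ hlt) S' x' y' rfl H' hB') hB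

theorem exists_mid (h5 : 5 ≤ Fintype.card α) {x y : Perm α} (ix : Inv x) (hc : IsConj x y) :
    ∃ z, IsConj x z ∧ Odd (orderOf (x * z)) ∧ Odd (orderOf (y * z)) := by
  have iy : Inv y := by
    obtain ⟨c, rfl⟩ := isConj_iff.1 hc
    intro p
    simp [ix _]
  have hcard : #x.support = #y.support := by
    rw [← Perm.sum_cycleType, ← Perm.sum_cycleType, Perm.isConj_iff_cycleType_eq.1 hc]
  obtain ⟨z, iz, -, cz, o1, o2⟩ := good _ univ x y rfl
    ⟨ix, iy, fun p hp => absurd (mem_univ p) hp, fun p hp => absurd (mem_univ p) hp, hcard⟩ (by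
      rintro ⟨h, -⟩
      rw [card_univ] at h
      omega)
  exact ⟨z, ix.isConj iz cz, o1.odd_orderOf, o2.odd_orderOf⟩

omit [DecidableEq α] in
theorem not_odd_of_swap {σ : Perm α} {a b : α} (hab : a ≠ b) (h1 : σ a = b) (h2 : σ b = a) :
    ¬ Odd (orderOf σ) := by
  rintro ⟨k, hk⟩
  have h3 : (σ ^ 2) a = a := by simp [pow_two, h1, h2]
  have h4 : (σ ^ orderOf σ) a = b := by
    rw [hk, pow_succ', pow_mul, Perm.mul_apply, Perm.pow_apply_eq_self_of_apply_eq_self h3, h1]
  rw [pow_orderOf_eq_one] at h4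
  exact hab h4

theorem exists_even (h5 : 5 ≤ Fintype.card α) {t : Perm α} (it : Inv t) (ht : t ≠ 1) :
    ∃ y, IsConj t y ∧ ¬ Odd (orderOf (t * y)) ∧ ¬ Odd (orderOf (y * t)) := by
  have key : ∃ y, IsConj t y ∧ Inv y ∧ ∃ a b, a ≠ b ∧ t (y a) = b ∧ t (y b) = a := by
    obtain ⟨a, ha⟩ : ∃ a, t a ≠ a := by
      by_contra h
      push Not at h
      exact ht (Equiv.ext h)
    obtain ⟨b, hb⟩ : ∃ b, t a = b := ⟨_, rfl⟩
    rw [hb] at ha
    have tb := it.sw hb
    obtain ⟨t1, i1, c1, t1a, t1b, t1o⟩ := exists_strip it ha.symm hb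
    by_cases h : ∃ c, c ≠ a ∧ c ≠ b ∧ t c ≠ c
    · obtain ⟨c, hca, hcb, hc⟩ := h
      obtain ⟨d, hd⟩ : ∃ d, t c = d := ⟨_, rfl⟩
      rw [hd] at hc
      have td := it.sw hd
      have hda : d ≠ a := by rintro rfl; exact hcb (td.symm.trans hb)
      have hdb : d ≠ b := by rintro rfl; exact hca (td.symm.trans tb)
      obtain ⟨t2, i2, c2, t2c, t2d, t2o⟩ := exists_strip i1 hc.symm (by rw [t1o c hca hcb, hd])
      obtain ⟨t3, i3, c3, t3a, t3c, t3o⟩ := exists_add i2 hca.symm
        (by rw [t2o a hca.symm hda.symm, t1a]) t2c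
      obtain ⟨y, iy, cy, yb, yd, yo⟩ := exists_add i3 hdb.symm
        (by rw [t3o b ha hcb.symm, t2o b hcb.symm hdb.symm, t1b]) (by rw [t3o d hda hc, t2d])
      refine ⟨y, it.isConj iy (by omega), iy, a, d, hda.symm, ?_, ?_⟩
      · rw [yo a ha.symm hda.symm, t3a, hd]
      · rw [yd, tb]
    · push Not at h
      have : 1 < #(univ \ {a, b} : Finset α) := by
        have h1 : #({a, b} : Finset α) ≤ 2 := card_le_two
        have h2 := card_sdiff_add_card_eq_card (subset_univ ({a, b} : Finset α))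
        rw [card_univ] at h2
        omega
      obtain ⟨c, hc, d, hd, hcd⟩ := one_lt_card.1 this
      simp only [mem_sdiff, mem_univ, mem_insert, mem_singleton, not_or, true_and] at hc hd
      obtain ⟨y, iy, cy, yc, yd, yo⟩ := exists_add i1 hcd
        (by rw [t1o c hc.1 hc.2, h c hc.1 hc.2]) (by rw [t1o d hd.1 hd.2, h d hd.1 hd.2])
      refine ⟨y, it.isConj iy (by omega), iy, a, b, ha.symm, ?_, ?_⟩
      · rw [yo a (Ne.symm hc.1) (Ne.symm hd.1), t1a, hb]
      · rw [yo b (Ne.symm hc.2) (Ne.symm hd.2), t1b, tb]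
  obtain ⟨y, hy, iy, a, b, hab, h1, h2⟩ := key
  have := not_odd_of_swap (σ := t * y) hab h1 h2
  refine ⟨y, hy, this, ?_⟩
  have e : y * t = t⁻¹ * (t * y) * t := by group
  rw [e]
  have : orderOf (t⁻¹ * (t * y) * t) = orderOf (t * y) := by
    have := (MulAut.conj t⁻¹).orderOf_eq (t * y)
    simpa using this
  rw [this]
  assumption

theorem main (h5 : 5 ≤ Fintype.card α) (t : Perm α) (ht : orderOf t = 2) :
    (SimpleGraph.fromRel fun x y : {x : Perm α // IsConj t x} =>
        Odd (orderOf (x.1 * y.1))).Connected ∧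
      (SimpleGraph.fromRel fun x y : {x : Perm α // IsConj t x} =>
        Odd (orderOf (x.1 * y.1))).diam = 2 := by
  set G := (SimpleGraph.fromRel fun x y : {x : Perm α // IsConj t x} =>
        Odd (orderOf (x.1 * y.1))) with hG
  have it : Inv t := by
    intro p
    have : t ^ 2 = 1 := by rw [← ht, pow_orderOf_eq_one]
    have := congrArg (fun σ : Perm α => σ p) this
    simpa [pow_two] using this
  have ht1 : t ≠ 1 := by rintro rfl; simp at ht
  have inv : ∀ x : {x : Perm α // IsConj t x}, Inv x.1 := by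
    rintro ⟨x, hx⟩
    obtain ⟨c, rfl⟩ := isConj_iff.1 hx
    intro p
    simp [it _]
  have le1 : ∀ u v : {x : Perm α // IsConj t x}, Odd (orderOf (u.1 * v.1)) → G.edist u v ≤ 1 := by
    intro u v h
    rw [SimpleGraph.edist_le_one_iff_adj_or_eq]
    by_cases huv : u = v
    · exact Or.inr huv
    · left
      rw [hG, SimpleGraph.fromRel_adj]
      exact ⟨huv, Or.inl h⟩
  have hle : G.ediam ≤ 2 := by
    rw [SimpleGraph.ediam_le_iff]
    intro u v
    obtain ⟨z, hz, o1, o2⟩ := exists_mid h5 (inv u) (u.2.symm.trans v.2)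
    have h1 := le1 u ⟨z, u.2.trans hz⟩ o1
    have h2 := le1 v ⟨z, u.2.trans hz⟩ o2
    rw [SimpleGraph.edist_comm] at h2
    calc G.edist u v ≤ _ := SimpleGraph.edist_triangle
      _ ≤ 1 + 1 := add_le_add h1 h2
      _ = 2 := rfl
  haveI : Nonempty {x : Perm α // IsConj t x} := ⟨⟨t, IsConj.refl t⟩⟩
  have hne : G.ediam ≠ ⊤ := ne_top_of_le_ne_top (by simp) hle
  refine ⟨SimpleGraph.connected_of_ediam_ne_top hne, ?_⟩
  obtain ⟨y, hy, o1, o2⟩ := exists_even h5 it ht1
  have hge : 2 ≤ G.ediam := by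
    refine le_trans ?_ (SimpleGraph.edist_le_ediam (u := ⟨t, IsConj.refl t⟩) (v := ⟨y, hy⟩))
    by_contra hlt
    have : G.edist ⟨t, IsConj.refl t⟩ ⟨y, hy⟩ ≤ 1 := by
      push Not at hlt
      exact Order.le_of_lt_add_one hlt
    rw [SimpleGraph.edist_le_one_iff_adj_or_eq] at this
    rcases this with h | h
    · rw [hG, SimpleGraph.fromRel_adj] at h
      rcases h.2 with h | h
      · exact o1 h
      · exact o2 h
    · have : t = y := congrArg Subtype.val h
      subst this
      apply o1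
      have : t * t = 1 := by ext p; simp [it p]
      rw [this]; simp
  rw [SimpleGraph.diam, le_antisymm hle hge]
  rfl

end Cfsg.Agent.ULT.LF
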