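import Mathlib
import Cfsg.Agent.PGrp.Rank2
import Cfsg.Agent.PGrp.Metacyclic
import Cfsg.Agent.S0112
import Cfsg.Agent.S0662

/-! Automorphisms of order `p` of metacyclic `p`-groups. -/

set_option autoImplicit false

namespace Cfsg.Agent.ULT.MC
open Subgroup Cfsg
open scoped commutatorElement

variable {L : Type*} [Group L] [Finite L] {p : ℕ} [hp : Fact p.Prime]

/-- The first two omega subgroups of a metacyclic group with no cyclic maximal subgroup. -/
structure St (p : ℕ) (W H : Subgroup L) : Prop where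
  memW : ∀ x, x ∈ W ↔ x ^ p = 1
  memH : ∀ x, x ∈ H ↔ x ^ p ∈ W
  cardW : Nat.card W = p ^ 2
  cardH : Nat.card H = p ^ 4
  cen : ∀ w ∈ W, ∀ h ∈ H, Commute w h
  pw : ∀ g ∈ H, ∀ h ∈ H, (g * h) ^ p = g ^ p * h ^ p
  surj : ∀ w ∈ W, ∃ h ∈ H, h ^ p = w

theorem exists_index_of_cyclic {K : Subgroup L} (hL : IsPGroup p L) (hK : IsCyclic K)
    (hi : K.index ∣ p) [Nontrivial L] : ∃ C : Subgroup L, IsCyclic C ∧ C.index = p := by
  rcases (Nat.dvd_prime hp.out).1 hi with h | h
  · rw [index_eq_one] at h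
    obtain ⟨M, -, h1, -⟩ := PGrp.exists_normal_index_prime_ge hL (H := ⊥) bot_ne_top
    exact ⟨M, PGrp.isCyclic_of_le hK (h ▸ le_top), h1⟩
  · exact ⟨K, hK, h⟩

theorem exists_st (hp2 : p ≠ 2) (hL : IsPGroup p L) (hmc : IsMetacyclic L) [Nontrivial L]
    (hnc : ∀ C : Subgroup L, IsCyclic C → C.index ≠ p) : ∃ W H : Subgroup L, St p W H := by
  have hodd : Odd p := hp.out.odd_of_ne_two hp2
  have hn : ∀ K : Subgroup L, IsCyclic K → ¬ K.index ∣ p := fun K hK hi => by
    obtain ⟨C, h1, h2⟩ := exists_index_of_cyclic hL hK hi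
    exact hnc C h1 h2
  have h1 : ¬ IsCyclic L := fun h =>
    hn ⊤ (isCyclic_of_surjective _ topEquiv.symm.surjective) (by simp)
  obtain ⟨⟨hWc, hWe⟩, hW⟩ := PGrp.omegaOne_of_isMetacyclic hp2 hL hmc h1
  set W := omegaOne p (⊤ : Subgroup L) with hWd
  haveI : W.Normal := PGrp.omegaOne_normal ⊤
  have memW : ∀ x, x ∈ W ↔ x ^ p = 1 := fun x =>
    ⟨hWe x, PGrp.mem_omegaOne (mem_top x)⟩
  have h2 : ¬ IsCyclic (L ⧸ W) := by
    intro h
    obtain ⟨b, hb⟩ := PGrp.exists_sup_zpowers_eq_top_of_isCyclic_quotient W h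
    by_cases hb1 : b = 1
    · rw [hb1, zpowers_one_eq_bot, sup_bot_eq] at hb
      obtain ⟨M, -, h3, -⟩ := PGrp.exists_normal_index_prime_ge hL (H := ⊥) bot_ne_top
      refine hnc M ?_ h3
      have := M.index_mul_card
      rw [h3, ← card_top (G := L), ← hb, hW, pow_two] at this
      exact isCyclic_of_prime_card (Nat.eq_of_mul_eq_mul_left hp.out.pos this)
    · apply hn (zpowers b) inferInstance
      have e1 := PGrp.card_sup_mul_card_inf (N := W) (H := zpowers b) le_normalizer_of_normal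
      rw [hb, hW, card_top, ← (zpowers b).index_mul_card] at e1
      have e2 : (zpowers b).index * Nat.card ↥(W ⊓ zpowers b) = p ^ 2 := by
        apply Nat.eq_of_mul_eq_mul_right (Nat.card_pos (α := zpowers b))
        rw [← e1]; ring
      have e3 : p ∣ Nat.card ↥(W ⊓ zpowers b) := by
        obtain ⟨k, hk⟩ := hL b
        obtain ⟨j, j1, j2⟩ := PGrp.exists_pow_notMem_pow_mem (N := ⊥) (p := p)
          (show b ∉ (⊥ : Subgroup L) from hb1) ⟨k, hk⟩
        rw [mem_bot] at j1 j2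
        rw [← orderOf_eq_prime j2 j1]
        exact Subgroup.orderOf_dvd_natCard _ (mem_inf.2 ⟨(memW _).2 j2, pow_mem (mem_zpowers b) _⟩)
      obtain ⟨c, hc⟩ := e3
      rw [hc, pow_two, mul_left_comm] at e2
      exact Dvd.intro _ (Nat.eq_of_mul_eq_mul_left hp.out.pos e2)
  obtain ⟨⟨hVc, hVe⟩, hV⟩ := PGrp.omegaOne_of_isMetacyclic hp2 (hL.to_quotient W)
    (PGrp.isMetacyclic_of_surjective hmc _ (QuotientGroup.mk'_surjective W)) h2
  set H := (omegaOne p (⊤ : Subgroup (L ⧸ W))).comap (QuotientGroup.mk' W) with hHd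
  have memH : ∀ x, x ∈ H ↔ x ^ p ∈ W := by
    intro x
    rw [hHd, mem_comap, ← QuotientGroup.eq_one_iff (x ^ p), QuotientGroup.mk_pow]
    exact ⟨hVe _, PGrp.mem_omegaOne (mem_top _)⟩
  have hWH : W ≤ H := fun x hx => (memH x).2 (pow_mem hx p)
  have cardH : Nat.card H = p ^ 4 := by
    have e1 := index_comap_of_surjective (omegaOne p (⊤ : Subgroup (L ⧸ W)))
      (QuotientGroup.mk'_surjective W)
    have e2 := H.index_mul_card
    have e3 := (omegaOne p (⊤ : Subgroup (L ⧸ W))).index_mul_card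
    have e4 := W.index_mul_card
    rw [← hHd] at e1
    rw [index_eq_card, ← e3, hV, hW, ← e1, ← e2] at e4
    apply Nat.eq_of_mul_eq_mul_left (Nat.pos_of_ne_zero (index_ne_zero_of_finite (H := H)))
    rw [← e4]; ring
  have hC : W ⊓ commutator L ≤ center L := by
    have h3 : Nat.card ↥(W ⊓ commutator L) ≤ p := PGrp.card_le_of_isCyclic_of_pow hp.out.ne_zero
      (PGrp.isCyclic_of_le (PGrp.isCyclic_commutator_of_isMetacyclic hmc) inf_le_right)
      (fun x hx => hWe x hx.1)
    obtain ⟨k, hk⟩ := PGrp.exists_card_eq_pow hL (W ⊓ commutator L)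
    rw [hk] at h3
    have h4 : k ≤ 1 := (Nat.pow_le_pow_iff_right hp.out.one_lt).1 (by rwa [pow_one])
    interval_cases k
    · rw [pow_zero, card_eq_one] at hk
      rw [hk]; exact bot_le
    · exact PGrp.le_center_of_card_eq_prime hL _ (by rw [hk, pow_one])
  have hcm : ∀ g ∈ H, ∀ h ∈ H, ⁅g, h⁆ ∈ W ∧ ∀ x, Commute x ⁅g, h⁆ := by
    intro g hg h hh
    have h3 : ⁅g, h⁆ ∈ W := by
      rw [← QuotientGroup.eq_one_iff, ← QuotientGroup.mk'_apply, map_commutatorElement,
        commutatorElement_eq_one_iff_mul_comm]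
      exact PGrp.isMulCommutative_iff_forall.1 hVc _ hg _ hh
    exact ⟨h3, fun x => mem_center_iff.1
      (hC ⟨h3, commutator_mem_commutator (mem_top g) (mem_top h)⟩) x⟩
  have pw : ∀ g ∈ H, ∀ h ∈ H, (g * h) ^ p = g ^ p * h ^ p := fun g hg h hh =>
    PGrp.mul_pow_of_commute_of_odd hodd ((hcm h hh g hg).2 g) ((hcm h hh g hg).2 h)
      (hWe _ (hcm h hh g hg).1)
  have surj : ∀ w ∈ W, ∃ h ∈ H, h ^ p = w := by
    let φ : H →* L := MonoidHom.mk' (fun h => (h : L) ^ p) fun g h => pw _ g.2 _ h.2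
    have k1 : φ.ker = W.subgroupOf H := by
      ext x
      rw [MonoidHom.mem_ker, mem_subgroupOf, memW]; rfl
    have k2 : φ.range ≤ W := by
      rintro _ ⟨x, rfl⟩
      exact (memH _).1 x.2
    have k3 : Nat.card φ.range = p ^ 2 := by
      have e1 := φ.ker.index_mul_card
      rw [index_ker, k1, Nat.card_congr (subgroupOfEquivOfLe hWH).toEquiv, hW, cardH] at e1
      apply Nat.eq_of_mul_eq_mul_right (pow_pos hp.out.pos 2)
      rw [e1]; ring
    have k4 := PGrp.eq_of_le_of_card_le k2 (by rw [k3, hW])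
    intro w hw
    rw [← k4] at hw
    obtain ⟨x, hx⟩ := hw
    exact ⟨x, x.2, hx⟩
  refine ⟨W, H, memW, memH, hW, cardH, fun w hw h hh => ?_, pw, surj⟩
  obtain ⟨g, hg, rfl⟩ := surj w hw
  rw [← commutatorElement_eq_one_iff_commute,
    PGrp.commutator_pow_left_of_commute ((hcm g hg h hh).2 g)]
  exact hWe _ (hcm g hg h hh).1

omit [Finite L] hp in
theorem pow_formula (a : MulAut L) {g u v t : L} (h1 : a g = g * u) (h2 : a u = u * v)
    (h3 : a v = v * t) (h4 : a t = t) (c1 : Commute v u) (c3 : Commute t v)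
    (k : ℕ) : (a ^ k) g = g * u ^ k * v ^ k.choose 2 * t ^ k.choose 3 := by
  induction k with
  | zero => simp
  | succ k ih =>
    rw [pow_succ', MulAut.mul_apply, ih, map_mul, map_mul, map_mul, map_pow, map_pow, map_pow,
      h1, h2, h3, h4, c1.symm.mul_pow, c3.symm.mul_pow, Nat.choose_succ_succ' k 1,
      Nat.choose_succ_succ' k 2, Nat.choose_one_right, pow_add, pow_add, pow_succ']
    group

namespace St
variable {W H : Subgroup L} (S : St p W H)
include S

omit [Finite L] hp in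
theorem aW (a : MulAut L) {x : L} (hx : x ∈ W) : a x ∈ W := by
  rw [S.memW] at hx ⊢
  rw [← map_pow, hx, map_one]

omit [Finite L] hp in
theorem aH (a : MulAut L) {x : L} (hx : x ∈ H) : a x ∈ H := by
  rw [S.memH] at hx ⊢
  rw [← map_pow]; exact S.aW a hx

omit [Finite L] hp in
theorem le : W ≤ H := fun x hx => (S.memH x).2 (pow_mem hx p)

omit [Finite L] hp in
theorem delta_pow (a : MulAut L) {x : L} (hx : x ∈ H) :
    (x⁻¹ * a x) ^ p = (x ^ p)⁻¹ * a (x ^ p) := by
  rw [S.pw _ (inv_mem hx) _ (S.aH a hx), inv_pow, map_pow]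

omit [Finite L] in
/-- the norm computation -/
theorem key (hp2 : p ≠ 2) (a : MulAut L) (ha : a ^ p = 1)
    (hu : ∀ w ∈ W, a (w⁻¹ * a w) = w⁻¹ * a w) {g u v t : L} (hg : g ∈ H) (e1 : u = g⁻¹ * a g)
    (e2 : v = u⁻¹ * a u) (e3 : t = v⁻¹ * a v) :
    v ∈ W ∧ t ∈ W ∧ u ^ p * t ^ p.choose 3 = 1 := by
  have uH : u ∈ H := e1 ▸ mul_mem (inv_mem hg) (S.aH a hg)
  have vW : v ∈ W := by
    rw [S.memW, e2, S.delta_pow a uH, e1, S.delta_pow a hg, hu _ ((S.memH g).1 hg),
      inv_mul_cancel]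
  have tW : t ∈ W := e3 ▸ mul_mem (inv_mem vW) (S.aW a vW)
  refine ⟨vW, tW, ?_⟩
  have := pow_formula a (g := g) (u := u) (v := v) (t := t) (by rw [e1]; group)
    (by rw [e2]; group) (by rw [e3]; group) (by rw [e3]; exact hu v vW) (S.cen v vW u uH)
    (S.cen t tW v (S.le vW)) p
  rw [ha, PGrp.pow_eq_one_of_dvd ((S.memW v).1 vW) (PGrp.prime_dvd_choose_two hp.out hp2), mul_one,
    MulAut.one_apply, mul_assoc] at this
  exact left_eq_mul.1 this

omit [Finite L] in
theorem eq_three (hp2 : p ≠ 2) (a : MulAut L) (ha : a ^ p = 1)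
    (hu : ∀ w ∈ W, a (w⁻¹ * a w) = w⁻¹ * a w) {x : L} (hx : x ∈ W) (hm : a x ≠ x) : p = 3 := by
  by_contra h3
  obtain ⟨g, hg, rfl⟩ := S.surj x hx
  obtain ⟨-, tW, h⟩ := S.key hp2 a ha hu hg rfl rfl rfl
  have h4 : 3 < p := by
    have := hp.out.two_le
    omega
  rw [PGrp.pow_eq_one_of_dvd ((S.memW _).1 tW) (hp.out.dvd_choose_self (by omega) h4), mul_one,
    S.delta_pow a hg, inv_mul_eq_one] at h
  exact hm h.symm

theorem card_fix (a : MulAut L) {x : L} (hx : x ∈ W) (hm : a x ≠ x) {z : L} (hz : z ∈ W)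
    (hz1 : z ≠ 1) (hza : a z = z) :
    W ⊓ (a : L →* L).eqLocus (MonoidHom.id L) = zpowers z ∧ Nat.card (zpowers z) = p := by
  have hc : Nat.card (zpowers z) = p := by
    rw [Nat.card_zpowers, orderOf_eq_prime ((S.memW z).1 hz) hz1]
  refine ⟨(PGrp.eq_of_le_of_card_le (zpowers_le.2 (mem_inf.2 ⟨hz, hza⟩)) ?_).symm, hc⟩
  have h1 : W ⊓ (a : L →* L).eqLocus (MonoidHom.id L) < W :=
    lt_of_le_of_ne inf_le_left fun e => hm (e.ge hx).2
  have h2 := card_dvd_of_le h1.le
  have h3 := PGrp.card_lt_of_lt h1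
  rw [S.cardW] at h2 h3
  obtain ⟨k, hk, e⟩ := (Nat.dvd_prime_pow hp.out).1 h2
  rw [e] at h3 ⊢
  have h4 := (Nat.pow_lt_pow_iff_right hp.out.one_lt).1 h3
  rw [hc]
  calc p ^ k ≤ p ^ 1 := Nat.pow_le_pow_right hp.out.pos (by omega)
    _ = p := pow_one p

theorem fix_mem (hp2 : p ≠ 2) (hL : IsPGroup p L) (a : MulAut L) (ha : a ^ p = 1)
    (hu : ∀ w ∈ W, a (w⁻¹ * a w) = w⁻¹ * a w) {x : L} (hx : x ∈ W) (hm : a x ≠ x) {y : L}
    (hy : a y = y) : y ∈ W := by
  by_contra hyW
  obtain ⟨j, j1, j2⟩ := PGrp.exists_pow_notMem_pow_mem (p := p) hyW (hL y)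
  set z := y ^ p ^ j with hz
  have hza : a z = z := by rw [hz, map_pow, hy]
  have zH : z ∈ H := (S.memH z).2 j2
  obtain ⟨g, hg, rfl⟩ := S.surj x hx
  obtain ⟨u, e1⟩ : ∃ u, u = g⁻¹ * a g := ⟨_, rfl⟩
  obtain ⟨vW, tW, h⟩ := S.key hp2 a ha hu hg e1 rfl rfl
  have uH : u ∈ H := e1 ▸ mul_mem (inv_mem hg) (S.aH a hg)
  obtain ⟨k1, -⟩ := S.card_fix a hx hm j2 (fun e => j1 ((S.memW z).2 e))
    (by rw [map_pow, hza])
  have h1 : u ^ p ∈ zpowers (z ^ p) := by
    rw [← k1]
    refine ⟨(S.memH u).1 uH, ?_⟩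
    show a (u ^ p) = u ^ p
    rw [e1, S.delta_pow a hg]
    exact hu _ hx
  obtain ⟨b, hb⟩ := h1
  have wW : z ^ (-b) * u ∈ W := by
    rw [S.memW, S.pw _ (zpow_mem zH _) _ uH, ← hb]
    simp only
    rw [← zpow_natCast, ← zpow_natCast, ← zpow_mul, ← zpow_mul, ← zpow_add]
    simp [mul_comm]
  have e2 : u⁻¹ * a u = (z ^ (-b) * u)⁻¹ * a (z ^ (-b) * u) := by
    rw [map_mul, map_zpow, hza]; group
  have e3 : (u⁻¹ * a u)⁻¹ * a (u⁻¹ * a u) = 1 := by
    rw [e2, hu _ wW, inv_mul_cancel]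
  rw [e3, one_pow, mul_one, e1, S.delta_pow a hg, inv_mul_eq_one] at h
  exact hm h.symm

end St

section sd
variable (a : MulAut L)

/-- the semidirect product with the group generated by `a` -/
abbrev SD (a : MulAut L) := SemidirectProduct L (zpowers a) (zpowers a).subtype

omit [Finite L] in
theorem normal_map {K : Subgroup L} [hK : K.Normal] (h : ∀ b : MulAut L, ∀ x ∈ K, b x ∈ K) :
    (K.map (SemidirectProduct.inl : L →* SD a)).Normal := by
  constructor
  rintro _ ⟨x, hx, rfl⟩ g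
  refine ⟨g.left * (g.right : MulAut L) x * g.left⁻¹, hK.conj_mem _ (h _ x hx) _, ?_⟩
  ext <;> simp

omit hp in
theorem card_sd {m : ℕ} (ha : orderOf a = p) (hm : Nat.card L = p ^ m) :
    Nat.card (SD a) = p ^ (m + 1) := by
  rw [Nat.card_congr SemidirectProduct.equivProd, Nat.card_prod, hm, Nat.card_zpowers, ha,
    pow_succ]

instance : Finite (SD a) := Finite.of_equiv _ SemidirectProduct.equivProd.symm

omit [Finite L] in
theorem conj_inl (x : L) : (SemidirectProduct.inr ⟨a, mem_zpowers a⟩ : SD a) *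
    SemidirectProduct.inl x * (SemidirectProduct.inr ⟨a, mem_zpowers a⟩)⁻¹ =
    SemidirectProduct.inl (a x) := by
  ext <;> simp

theorem unip {W H : Subgroup L} (S : St p W H) {m : ℕ} (ha : orderOf a = p)
    (hm : Nat.card L = p ^ m) : ∀ w ∈ W, a (w⁻¹ * a w) = w⁻¹ * a w := by
  have hG : IsPGroup p (SD a) := IsPGroup.of_card (card_sd a ha hm)
  haveI : W.Normal := ⟨fun x hx g => by
    rw [S.memW] at hx ⊢
    rw [conj_pow, hx]; simp⟩
  haveI := normal_map a (K := W) fun b x hx => S.aW b hx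
  have hc : Nat.card (W.map (SemidirectProduct.inl : L →* SD a)) = p ^ 2 := by
    rw [card_map_of_injective SemidirectProduct.inl_injective, S.cardW]
  obtain ⟨K, hK, k1, k2⟩ := PGrp.exists_normal_le_card_eq hG
    (W.map (SemidirectProduct.inl : L →* SD a)) 1 (by
      rw [hc]; exact Nat.pow_le_pow_right hp.out.pos (by omega))
  rw [pow_one] at k2
  have k3 := PGrp.le_center_of_card_eq_prime hG K k2
  obtain ⟨K', -, j1, -, j2, j3, -⟩ := PGrp.exists_step (P := ⊤) (hG.to_subgroup ⊤) le_top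
    le_normalizer_of_normal le_normalizer_of_normal (lt_of_le_of_ne k1 (fun e => by
      rw [e, hc] at k2
      have := hp.out.one_lt
      nlinarith))
  have j4 := PGrp.eq_of_le_of_card_le j1 (by rw [j2, hc, k2, pow_two])
  intro w hw
  have h1 : ⁅(SemidirectProduct.inl w⁻¹ : SD a), SemidirectProduct.inr ⟨a, mem_zpowers a⟩⁆ ∈ K :=
    j3 (commutator_mem_commutator (by rw [j4]; exact ⟨w⁻¹, inv_mem hw, rfl⟩) (mem_top _))
  have h2 : ⁅(SemidirectProduct.inl w⁻¹ : SD a),
      (SemidirectProduct.inr ⟨a, mem_zpowers a⟩ : SD a)⁆ = SemidirectProduct.inl (w⁻¹ * a w) := by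
    rw [map_mul, ← conj_inl, commutatorElement_def, map_inv, inv_inv]; group
  rw [h2] at h1
  apply SemidirectProduct.inl_injective (φ := (zpowers a).subtype)
  rw [← conj_inl, mem_center_iff.1 (k3 h1)]; group

theorem forward {W H : Subgroup L} (S : St p W H) (hp2 : p ≠ 2) {m : ℕ} (ha : orderOf a = p)
    (hm : Nat.card L = p ^ m) {x : L} (hx : x ∈ W) (hxa : a x ≠ x) :
    Group.nilpotencyClass (SD a) = m := by
  have hL : IsPGroup p L := IsPGroup.of_card hm
  have ha' : a ^ p = 1 := ha ▸ pow_orderOf_eq_one a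
  have hu := unip a S ha hm
  obtain ⟨k1, k2⟩ := S.card_fix a hx hxa (mul_mem (inv_mem hx) (S.aW a hx))
    (fun e => hxa (inv_mul_eq_one.1 e).symm) (hu x hx)
  have k3 : (a : L →* L).eqLocus (MonoidHom.id L) ≤ W := fun y hy =>
    S.fix_mem hp2 hL a ha' hu hx hxa hy
  rw [inf_eq_right.2 k3] at k1
  rw [← k1] at k2
  set t : SD a := SemidirectProduct.inr ⟨a, mem_zpowers a⟩ with ht
  have hmem : ∀ g : SD a, g ∈ centralizer {t} ↔ a g.left = g.left := by
    intro g
    rw [mem_centralizer_singleton_iff]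
    constructor
    · intro h
      simpa [ht] using (congrArg SemidirectProduct.left h).symm
    · intro h
      refine SemidirectProduct.ext (by simp [ht, h]) ?_
      simp only [ht, SemidirectProduct.mul_right, SemidirectProduct.right_inr]
      rw [mul_comm']
  have hc : Nat.card (centralizer {t}) = p ^ 2 := by
    let e : centralizer {t} ≃ (a : L →* L).eqLocus (MonoidHom.id L) × zpowers a :=
      ⟨fun g => (⟨g.1.left, (hmem _).1 g.2⟩, g.1.right), fun y => ⟨⟨y.1, y.2⟩, (hmem _).2 y.1.2⟩,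
        fun _ => rfl, fun _ => rfl⟩
    rw [Nat.card_congr e, Nat.card_prod, k2, Nat.card_zpowers, ha, pow_two]
  have hcm : IsMulCommutative (centralizer {t}) := IsPGroup.isMulCommutative_of_card_eq_prime_sq hc
  refine Cfsg.Agent.S0112.result (m + 1) (card_sd a ha hm) _ hc (le_antisymm ?_ ?_)
  · exact centralizer_le (by simp [mem_centralizer_singleton_iff])
  · exact le_centralizer _

theorem backward {W H : Subgroup L} (S : St p W H) (hmc : IsMetacyclic L) {m : ℕ}
    (ha : orderOf a = p) (hm : Nat.card L = p ^ m) (hcl : Group.nilpotencyClass (SD a) = m) :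
    ∃ x ∈ W, a x ≠ x := by
  by_contra hf
  push Not at hf
  have hm4 : 4 ≤ m := by
    have := card_le_of_le (le_top : H ≤ ⊤)
    rw [S.cardH, card_top, hm] at this
    exact (Nat.pow_le_pow_iff_right hp.out.one_lt).1 this
  have uniq : ∀ (k : ℕ) (A B : Subgroup L), k ≤ 2 → Nat.card A = p ^ k → Nat.card B = p ^ k →
      (A.map (SemidirectProduct.inl : L →* SD a)).Normal →
      (B.map (SemidirectProduct.inl : L →* SD a)).Normal → A = B := by
    intro k A B hk hA hB nA nB
    have h1 := (Cfsg.Agent.S0662.result (m + 1) (card_sd a ha hm) hcl (by omega)).1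
    have h2 : ∀ C : Subgroup L, Nat.card C = p ^ k →
        (C.map (SemidirectProduct.inl : L →* SD a)).index = p ^ (m + 1 - k) := by
      intro C hC
      have := (C.map (SemidirectProduct.inl : L →* SD a)).index_mul_card
      rw [card_map_of_injective SemidirectProduct.inl_injective, hC, card_sd a ha hm] at this
      apply Nat.eq_of_mul_eq_mul_right (pow_pos hp.out.pos k)
      rw [this, ← pow_add]; congr 1; omega
    apply map_injective (f := (SemidirectProduct.inl : L →* SD a)) SemidirectProduct.inl_injective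
    rw [h1 _ _ (by omega) (h2 A hA), h1 _ _ (by omega) (h2 B hB)]
  haveI nW : W.Normal := ⟨fun x hx g => S.aW (MulAut.conj g) hx⟩
  haveI nH : H.Normal := ⟨fun x hx g => S.aH (MulAut.conj g) hx⟩
  have ncyc : ¬ IsCyclic W := fun h => by
    have := PGrp.card_le_of_isCyclic_of_pow hp.out.ne_zero h fun x hx => (S.memW x).1 hx
    rw [S.cardW] at this
    have := hp.out.one_lt
    nlinarith
  by_cases hD : H ⊓ commutator L ≤ W
  · have hZ : ∀ w ∈ W, ∀ g : L, g * w * g⁻¹ = w := by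
      intro w hw g
      obtain ⟨h, hh, rfl⟩ := S.surj w hw
      have h1 : h⁻¹ * (MulAut.conj g) h ∈ W := by
        refine hD (mem_inf.2 ⟨mul_mem (inv_mem hh) (S.aH _ hh), ?_⟩)
        have : h⁻¹ * (MulAut.conj g) h = ⁅h⁻¹, g⁆ := by
          rw [MulAut.conj_apply, commutatorElement_def]; group
        rw [this]
        exact commutator_mem_commutator (mem_top _) (mem_top _)
      rw [S.memW, S.delta_pow _ hh, inv_mul_eq_one] at h1
      exact h1.symm
    have hN : ∀ w ∈ W, ((zpowers w).map (SemidirectProduct.inl : L →* SD a)).Normal := by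
      intro w hw
      apply PGrp.normal_of_le_center
      rw [MonoidHom.map_zpowers, zpowers_le, mem_center_iff]
      intro g
      have h1 : (g.right : MulAut L) w = w := by
        obtain ⟨k, hk⟩ := mem_powers_iff_mem_zpowers.2 g.right.2
        rw [← hk]
        clear hk
        induction k with
        | zero => rfl
        | succ k ih => simp only [pow_succ', MulAut.mul_apply] at ih ⊢; rw [ih, hf w hw]
      ext
      · have := hZ w hw g.left
        simp only [SemidirectProduct.mul_left, SemidirectProduct.left_inl, coe_subtype, h1,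
          SemidirectProduct.right_inl, map_one, MulAut.one_apply]
        exact mul_inv_eq_iff_eq_mul.1 this
      · simp
    have hc : ∀ w ∈ W, w ≠ 1 → Nat.card (zpowers w) = p ^ 1 := fun w hw h1 => by
      rw [Nat.card_zpowers, orderOf_eq_prime ((S.memW w).1 hw) h1, pow_one]
    obtain ⟨w, hw, hw1⟩ : ∃ w ∈ W, w ≠ 1 := by
      by_contra h
      push Not at h
      exact ncyc (by rw [(eq_bot_iff_forall W).2 h]; infer_instance)
    apply ncyc
    have : W = zpowers w := by
      refine le_antisymm (fun y hy => ?_) (zpowers_le.2 hw)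
      by_cases hy1 : y = 1
      · rw [hy1]; exact one_mem _
      · rw [uniq 1 _ _ (by omega) (hc w hw hw1) (hc y hy hy1) (hN w hw) (hN y hy)]
        exact mem_zpowers y
    rw [this]; infer_instance
  · have hDc : IsCyclic ↥(H ⊓ commutator L) :=
      PGrp.isCyclic_of_le (PGrp.isCyclic_commutator_of_isMetacyclic hmc) inf_le_right
    obtain ⟨y, hy, hyW⟩ := SetLike.not_le_iff_exists.1 hD
    have hc : Nat.card ↥(H ⊓ commutator L) = p ^ 2 := by
      apply le_antisymm
      · refine PGrp.card_le_of_isCyclic_of_pow (pow_ne_zero 2 hp.out.ne_zero) hDc fun x hx => ?_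
        rw [pow_two, pow_mul]
        exact (S.memW _).1 ((S.memH x).1 hx.1)
      · have : orderOf y = p ^ (1 + 1) := orderOf_eq_prime_pow (by rwa [pow_one, ← S.memW]) (by
          rw [pow_succ, pow_one, pow_mul]
          exact (S.memW _).1 ((S.memH y).1 hy.1))
        rw [← this]
        exact Nat.le_of_dvd Nat.card_pos (Subgroup.orderOf_dvd_natCard _ hy)
    apply ncyc
    rw [uniq 2 W _ le_rfl S.cardW hc (normal_map a fun b x hx => S.aW b hx)
      (normal_map a fun b x hx => ⟨S.aH b hx.1, PGrp.map_mem_commutator (b : L →* L) hx.2⟩)]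
    exact hDc

end sd

theorem main (hp2 : p ≠ 2) (hL : IsPGroup p L) (hmc : IsMetacyclic L)
    (hnc : ∀ C : Subgroup L, IsCyclic C → C.index ≠ p)
    (a : MulAut L) (ha : orderOf a = p) (m : ℕ) (hm : Nat.card L = p ^ m) :
    (∃ x : L, orderOf x = p ∧ a x ≠ x) ↔ (p = 3 ∧ Group.nilpotencyClass (SD a) = m) := by
  haveI : Nontrivial L := by
    by_contra h
    rw [not_nontrivial_iff_subsingleton] at h
    have : a = 1 := by ext x; exact Subsingleton.elim _ _
    rw [this, orderOf_one] at ha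
    exact hp.out.one_lt.ne ha
  obtain ⟨W, H, S⟩ := exists_st hp2 hL hmc hnc
  constructor
  · rintro ⟨x, hx, hxa⟩
    have hxW : x ∈ W := (S.memW x).2 (hx ▸ pow_orderOf_eq_one x)
    exact ⟨S.eq_three hp2 a (ha ▸ pow_orderOf_eq_one a) (unip a S ha hm) hxW hxa,
      forward a S hp2 ha hm hxW hxa⟩
  · rintro ⟨-, h⟩
    obtain ⟨x, hx, hxa⟩ := backward a S hmc ha hm h
    exact ⟨x, orderOf_eq_prime ((S.memW x).1 hx) (fun e => hxa (by rw [e, map_one])), hxa⟩

end Cfsg.Agent.ULT.MC
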