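import Mathlib
import Cfsg.Agent.ULT.PronB
import Cfsg.Agent.FSim.Crit
import Cfsg.Agent.GL2.Cent
import Cfsg.Agent.LocalEven.SylowIn

/-! The 2-fusion system of `PSp₄(q)`, `q` odd. -/

set_option autoImplicit false
set_option linter.unusedSectionVars false

namespace Cfsg.Agent.ULT
open Subgroup Cfsg.Agent.Core Matrix Cfsg.Agent.FSim Cfsg.Agent.Classical.SL2Basic
open scoped Pointwise MatrixGroups

variable {F : Type*} [Field F] [Finite F] {G H : Type*} [Group G] [Group H]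

theorem crit_quot [Finite G] (S : Sylow 2 G) {f : G →* H} (hf : Function.Surjective f)
    (hk : f.ker ≤ S) (h0 : ∃ s ∈ (S : Subgroup G), f s ≠ 1)
    (hN : ∀ g ∈ normalizer ((S : Subgroup G) : Set G), Odd (orderOf g) → g = 1 ∨
      ∃ P ≤ (S : Subgroup G), (S : Subgroup G) ≤ normalizer (P : Set G) ∧
        (∀ x ∈ (S : Subgroup G), (∀ y ∈ P, f y * f x = f x * f y) → x ∈ P) ∧
          ∃ s ∈ (S : Subgroup G), s * g ∈ PE 2 (normalizer (P : Set G)))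
    (hT : ∀ T, f.ker ≤ T → T ≤ S → ∀ u ∈ T, f u ≠ 1 →
      (∀ s ∈ (S : Subgroup G), f s * f u = f u * f s) →
      (∀ x ∈ T, ∀ g : G, g * x * g⁻¹ ∈ (S : Subgroup G) → g * x * g⁻¹ ∈ T) → (S : Subgroup G) ≤ T) :
    Crit 2 ((S : Subgroup G).map f) := by
  have := Finite.of_surjective f hf
  have h1 : ∀ x, f x ∈ (S : Subgroup G).map f → x ∈ (S : Subgroup G) := fun x h =>
    (comap_map_eq_self hk).le h
  have h2 := self_le_good (S.mapSurjective hf)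
  refine ⟨fun e => ?_, fun g hg => ?_, fun T hT1 hT2 hT3 => ?_⟩
  · obtain ⟨s, hs, h⟩ := h0
    exact h ((eq_bot_iff_forall _).mp e _ ⟨s, hs, rfl⟩)
  · obtain ⟨g, rfl⟩ := hf g
    have h3 : g ∈ normalizer ((S : Subgroup G) : Set G) := mem_normalizer_fintype fun s hs => h1 _ (by
      rw [map_mul, map_mul, map_inv]; exact (mem_normalizer_iff.mp hg _).mp ⟨s, hs, rfl⟩)
    obtain ⟨a, b, ha, hb, rfl, -, ⟨k, hk'⟩, h4⟩ := FGS.exists_pPart 2 g
    rw [map_mul]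
    refine mul_mem (h2 ⟨a, FGS.mem_sylow_of_mem_normalizer S hk' (zpowers_le.mpr h3 ha), rfl⟩) ?_
    have h5 := zpowers_le.mpr h3 hb
    rcases hN b h5 (Nat.coprime_two_right.mp h4) with rfl | ⟨P, h6, h7, h8, s, hs, h9⟩
    · rw [map_one]; exact one_mem _
    refine (mul_mem_cancel_left (h2 ⟨s, hs, rfl⟩)).mp ?_
    rw [← map_mul]
    refine mem_good (le_normalizer_map _ ⟨_, mul_mem (le_normalizer hs) h5, rfl⟩) (map_mono h6)
      (cen_of_normal (S.mapSurjective hf) ((map_mono h7).trans (le_normalizer_map _)) ?_)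
      ((closure_le ((PE 2 _).comap f)).mpr ?_ h9)
    · rintro _ ⟨x, hx, rfl⟩ h
      exact ⟨x, h8 x hx fun y hy => h _ ⟨y, hy, rfl⟩, rfl⟩
    · rintro x ⟨hx, k, hk⟩
      exact mem_PE (le_normalizer_map _ ⟨x, hx, rfl⟩) ⟨k, by rw [← map_pow, hk, map_one]⟩
  · obtain ⟨u, hu, h3, -, h4⟩ := exists_central (S.mapSurjective hf).2 hT1 hT2 hT3
    obtain ⟨u, rfl⟩ := hf u
    refine map_le_iff_le_comap.mpr (hT (T.comap f) (ker_le_comap _ _) (fun x hx => h1 x (hT1 hx)) u hu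
      h3 (fun s hs => h4 _ ⟨s, hs, rfl⟩) fun x hx g hg => ?_)
    rw [mem_comap, map_mul, map_mul, map_inv]
    exact hT3 _ hx _ ⟨_, hg, by rw [map_mul, map_mul, map_inv]⟩

theorem anti_sq (h2 : (2 : F) ≠ 0) {a b : SL(2, F)} (h : a * b = -(b * a)) : a * a = -1 := by
  rw [mul_self_eq_neg_one_iff h2]
  have := tr_conj b a
  rw [← neg_neg (b * a), ← h, neg_mul, mul_inv_cancel_right, tr_neg] at this
  exact (mul_eq_zero.mp (show 2 * tr a = 0 by linear_combination -this)).resolve_left h2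

theorem conj_of_sq (h2 : (2 : F) ≠ 0) {a b : SL(2, F)} (ha : a * a = -1) (hb : b * b = -1) :
    ∃ c, c * a * c⁻¹ = b := by
  have := Fintype.ofFinite F
  rw [mul_self_eq_neg_one_iff h2] at ha hb
  have k : ∀ a : SL(2, F), tr a = 0 → a.1.trace = 0 := fun a h => by rwa [trace_fin_two]
  refine isConj_iff.mp (GL2.isConj_SL_ss ?_ (by rw [k a ha, k b hb]))
  rintro ⟨x, h1, h3⟩
  rw [k a ha, ← two_mul, eq_comm, mul_eq_zero] at h1
  rw [h1.resolve_left h2, a.2] at h3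
  simp at h3

theorem toGL_range : (SpecialLinearGroup.toGL (n := Fin 2) (R := F)).range =
    SUB False (.id F) (Fin 2) := by
  ext g
  rw [mem_SUB]
  exact ⟨by rintro ⟨g, rfl⟩; exact ⟨False.elim, g.2⟩, fun h => ⟨⟨g.1, h.2⟩, Units.ext rfl⟩⟩

theorem sc_SL {a : SL(2, F)} (h : Sc a.1) : a = 1 ∨ a = -1 :=
  Classical.SL2Basic.mem_center_iff.mp ((SpecialLinearGroup.toGL_mem_center_iff a).mp (sc_iff.mp h))

theorem ne_neg_SL (h2 : (2 : F) ≠ 0) (a : SL(2, F)) : a ≠ -a := fun e =>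
  (SpecialLinearGroup.toGL a).ne_zero (zero_of_neg h2 (congrArg Subtype.val e).symm)

theorem exists_sylQ (h2 : (2 : F) ≠ 0) : ∃ Q : Sylow 2 SL(2, F), ∃ u ∈ (Q : Subgroup SL(2, F)),
    ∃ s ∈ (Q : Subgroup SL(2, F)), s * u = -(u * s) ∧
      ∀ a ∈ (Q : Subgroup SL(2, F)), a * u = u * a ∨ a * u = -(u * a) := by
  obtain ⟨p, hp⟩ := CharP.exists F
  have : NeZero p := ⟨CharP.char_ne_zero_of_finite F p⟩
  obtain ⟨x, y, h⟩ := CharP.sq_add_sq F p (-1)
  obtain ⟨Q, h1, h3, i, hi, j, hj, hij⟩ := exists_Q (b := False) (σ := .id F) h2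
    (x := x) (y := y) (by simpa [pow_two] using h) False.elim
  obtain ⟨R, h4, h5⟩ := exists_isSylowOf_ge h3 (toGL_range (F := F) ▸ h1)
  obtain ⟨S, rfl⟩ := exists_syl SpecialLinearGroup.toGL_injective h4
  obtain ⟨_, ⟨u, hu, rfl⟩, h6⟩ := exists_PC h4.isPGroup (h5 hi) fun e => hij (e.comm _)
  have k1 : ∀ a ∈ (S : Subgroup SL(2, F)), a * u = u * a ∨ a * u = -(u * a) := fun a ha =>
    let ⟨_, e⟩ := h6.2 _ ⟨a, ha, rfl⟩
    (sign_two e).imp (fun e => Subtype.ext (congrArg Units.val e))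
      fun e => Subtype.ext (congrArg Units.val e)
  refine ⟨S, u, hu, ?_⟩
  by_contra! hc
  have k2 := fun s hs => congrArg Subtype.val ((k1 s hs).resolve_right fun e =>
    let ⟨a, ha, h⟩ := hc s hs e; (k1 a ha).elim h.1 h.2)
  obtain ⟨i, hi', rfl⟩ := h5 hi
  obtain ⟨j, hj', rfl⟩ := h5 hj
  exact h6.1 (sc_of_two hij (k2 i hi').symm (k2 j hj').symm)

theorem norm_case (h2 : (2 : F) ≠ 0) (Q : Sylow 2 SL(2, F)) {i j : SL(2, F)}
    (hi : i ∈ (Q : Subgroup SL(2, F))) (hj : j ∈ (Q : Subgroup SL(2, F))) (hij : i * j = -(j * i))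
    {g : SL(2, F)} (hg : g ∈ normalizer ((Q : Subgroup SL(2, F)) : Set SL(2, F)))
    (ho : Odd (orderOf g)) : g = 1 ∨ ∃ u ∈ (Q : Subgroup SL(2, F)), ∃ v ∈ (Q : Subgroup SL(2, F)),
      u * v = -(v * u) ∧ ∀ s ∈ (Q : Subgroup SL(2, F)),
        (s * u = u * s ∨ s * u = -(u * s)) ∧ (s * v = v * s ∨ s * v = -(v * s)) := by
  rcases two_case h2 (Q.2.map SpecialLinearGroup.toGL) ⟨i, hi, rfl⟩ ⟨j, hj, rfl⟩
    (fun e => ne_neg_SL h2 _ ((Subtype.ext e).symm.trans hij)) (le_normalizer_map _ ⟨g, hg, rfl⟩)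
    (by rwa [orderOf_injective _ SpecialLinearGroup.toGL_injective]) with
    e | ⟨_, ⟨u, hu, rfl⟩, _, ⟨v, hv, rfl⟩, huv, k⟩
  · rcases sc_SL e with rfl | rfl
    · exact .inl rfl
    · exact .inl (eq_one_of_odd (isP_zpowers 1 (by simp)) (mem_zpowers _) ho)
  · refine .inr ⟨u, hu, v, hv, Subtype.ext (congrArg Units.val huv), fun s hs => ?_⟩
    exact (k _ ⟨s, hs, rfl⟩).imp (·.imp (fun e => Subtype.ext (congrArg Units.val e))
      fun e => Subtype.ext (congrArg Units.val e)) (·.imp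
        (fun e => Subtype.ext (congrArg Units.val e)) fun e => Subtype.ext (congrArg Units.val e))

theorem sc_of_anti (h2 : (2 : F) ≠ 0) {u v a : SL(2, F)} (h : u * v = -(v * u))
    (h1 : a * u = u * a) (h3 : a * v = v * a) : a = 1 ∨ a = -1 :=
  sc_SL (sc_of_two (fun e => ne_neg_SL h2 _ ((Subtype.ext e).symm.trans h))
    (congrArg Subtype.val h1) (congrArg Subtype.val h3))

theorem eight (h2 : (2 : F) ≠ 0) {u v a : SL(2, F)} (h : u * v = -(v * u))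
    (e1 : a * u = u * a ∨ a * u = -(u * a)) (e2 : a * v = v * a ∨ a * v = -(v * a)) :
    ∃ b, (b = 1 ∨ b = u ∨ b = v ∨ b = u * v) ∧ (a = b ∨ a = -b) := by
  have k5 : u⁻¹ * v = -(v * u⁻¹) := by
    rw [inv_mul_eq_iff_eq_mul, mul_neg, ← mul_assoc, h]; simp
  have k6 : v⁻¹ * u = -(u * v⁻¹) := by
    rw [inv_mul_eq_iff_eq_mul, mul_neg, ← mul_assoc, ← neg_mul, ← h]; simp
  have k : ∀ b, a * b⁻¹ * u = u * (a * b⁻¹) → a * b⁻¹ * v = v * (a * b⁻¹) → a = b ∨ a = -b :=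
    fun b e e' => (sc_of_anti h2 h e e').imp mul_inv_eq_one.mp fun e => by
      rw [mul_inv_eq_iff_eq_mul.mp e]; simp
  rcases e1 with e1 | e1 <;> rcases e2 with e2 | e2
  · exact ⟨1, .inl rfl, sc_of_anti h2 h e1 e2⟩
  · refine ⟨u, by simp, k u ?_ ?_⟩
    · rw [← mul_assoc, ← e1]; simp
    · rw [mul_assoc, k5, mul_neg, ← mul_assoc, e2]; simp [mul_assoc]
  · refine ⟨v, by simp, k v ?_ ?_⟩
    · rw [mul_assoc, k6, mul_neg, ← mul_assoc, e1]; simp [mul_assoc]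
    · rw [← mul_assoc, ← e2]; simp
  · refine ⟨u * v, by simp, k _ ?_ ?_⟩
    · rw [_root_.mul_inv_rev, ← mul_assoc u, ← neg_neg (u * a), ← e1, neg_mul, mul_assoc a u,
        ← mul_assoc u, ← neg_neg (u * v⁻¹), ← k6]
      simp [mul_assoc]
    · rw [_root_.mul_inv_rev, ← mul_assoc v, ← neg_neg (v * a), ← e2, mul_assoc, mul_assoc, k5]
      simp [mul_assoc]

variable (F G) in
/-- the wreathed subgroup `SL₂ ≀ 2` -/
structure WS where
  bl : SL(2, F) × SL(2, F) →* G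
  w : G
  inj : Function.Injective bl
  ww : w * w = 1
  wb : ∀ a d, w * bl (a, d) = bl (d, a) * w
  zc : ∀ g, g * bl (-1, -1) = bl (-1, -1) * g
  ct : ∀ g, g * bl (-1, 1) = bl (-1, 1) * g → ∃ a d, g = bl (a, d)
  en : ∀ u v : SL(2, F), u * u = -1 → v * v = -1 → u * v = -(v * u) → ∃ n,
    n * bl (-1, 1) = w * n ∧ n * w = bl (-1, 1) * n ∧ n * n = bl (-1, -1) ∧
      ∃ φ : SL(2, F) →* SL(2, F), φ u = v ∧ φ v = u ∧ φ (-1) = -1 ∧
        ∀ a, n * bl (a, a) = bl (φ a, φ a) * n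

theorem k4_of (h2 : (2 : F) ≠ 0) (Q : Sylow 2 SL(2, F)) {u v : SL(2, F)}
    (hu : u ∈ (Q : Subgroup SL(2, F))) (hv : v ∈ (Q : Subgroup SL(2, F))) (h : u * v = -(v * u))
    (k : ∀ s ∈ (Q : Subgroup SL(2, F)),
      (s * u = u * s ∨ s * u = -(u * s)) ∧ (s * v = v * s ∨ s * v = -(v * s))) :
    K4 (Q.mapSurjective (QuotientGroup.mk'_surjective (center SL(2, F))) : Subgroup PSL(2, F))
      u v := by
  have k3 : ∀ a c : SL(2, F), (a : PSL(2, F)) * c = c * a ↔ a * c = c * a ∨ a * c = -(c * a) :=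
    fun a c => mk_eq_mk_iff
  have k7 : ∀ a : SL(2, F), (a * u = u * a ∨ a * u = -(u * a)) → (a * v = v * a ∨ a * v = -(v * a)) →
      (a : PSL(2, F)) = 1 ∨ (a : PSL(2, F)) = u ∨ (a : PSL(2, F)) = v ∨ (a : PSL(2, F)) = u * v :=
    fun a e1 e2 => by
      obtain ⟨b, hb, e⟩ := eight h2 h e1 e2
      rw [mk_eq_mk_iff.mpr e]
      rcases hb with rfl | rfl | rfl | rfl <;> simp
  have k9 : ∀ a : PSL(2, F), a = 1 ∨ a = u ∨ a = v ∨ a = u * v → a ∈ (Q.mapSurjective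
      (QuotientGroup.mk'_surjective (center SL(2, F))) : Subgroup PSL(2, F)) := by
    rintro _ (rfl | rfl | rfl | rfl)
    exacts [one_mem _, ⟨u, hu, rfl⟩, ⟨v, hv, rfl⟩, ⟨u * v, mul_mem hu hv, rfl⟩]
  have k10 : ¬ u * v = v * u := fun e => ne_neg_SL h2 _ (e.symm.trans h)
  refine ⟨mk_eq_one_iff.mpr (.inr (anti_sq h2 h)), mk_eq_one_iff.mpr (.inr (anti_sq h2
    (neg_eq_iff_eq_neg.mp h.symm))), (k3 _ _).mpr (.inr h), fun e => k10 ?_, fun e => k10 ?_,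
    fun e => k10 ?_, fun a => ⟨?_, k9 a⟩, fun a e1 e2 => ?_⟩
  · rcases mk_eq_one_iff.mp e with rfl | rfl <;> simp
  · rcases mk_eq_one_iff.mp e with rfl | rfl <;> simp
  · rcases mk_eq_mk_iff.mp e with rfl | rfl <;> simp
  · rintro ⟨s, hs, rfl⟩
    exact k7 s (k s hs).1 (k s hs).2
  · obtain ⟨a, rfl⟩ := QuotientGroup.mk_surjective a
    exact k9 _ (k7 a ((k3 _ _).mp e1) ((k3 _ _).mp e2))

theorem neg_mem_Q (Q : Sylow 2 SL(2, F)) : -1 ∈ (Q : Subgroup SL(2, F)) := by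
  obtain ⟨j, -, hj⟩ := (Nat.dvd_prime_pow Nat.prime_two).mp
    (orderOf_dvd_of_pow_eq_one (show (-1 : SL(2, F)) ^ 2 ^ 1 = 1 by simp))
  exact FGS.mem_sylow_of_commute Q hj fun _ _ => by simp

section
variable (h2 : (2 : F) ≠ 0) {Q : Sylow 2 SL(2, F)} {u v : SL(2, F)}
  (hu : u ∈ (Q : Subgroup SL(2, F))) (hv : v ∈ (Q : Subgroup SL(2, F))) (huv : u * v = -(v * u))
  (k : ∀ s ∈ (Q : Subgroup SL(2, F)),
    (s * u = u * s ∨ s * u = -(u * s)) ∧ (s * v = v * s ∨ s * v = -(v * s)))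
  {φ : SL(2, F) →* SL(2, F)} (f1 : φ u = v) (f2 : φ v = u) (f3 : φ (-1) = -1)
include h2 hu hv huv k f1 f2 f3

theorem phi_mem : ∀ a ∈ (Q : Subgroup SL(2, F)), φ a ∈ (Q : Subgroup SL(2, F)) := by
  have f4 : ∀ a, φ (-a) = -φ a := fun a => by rw [← neg_one_mul, map_mul, f3, neg_one_mul]
  have f5 : ∀ a ∈ (Q : Subgroup SL(2, F)), φ a ∈ (Q : Subgroup SL(2, F)) := fun a ha => by
    obtain ⟨b, hb, e⟩ := eight h2 huv (k a ha).1 (k a ha).2
    have : φ b ∈ (Q : Subgroup SL(2, F)) := by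
      rcases hb with rfl | rfl | rfl | rfl <;> simp only [map_one, map_mul, f1, f2]
      exacts [one_mem _, hv, hu, mul_mem hv hu]
    rcases e with rfl | rfl
    exacts [this, by simpa [f4] using mul_mem (neg_mem_Q Q) this]
  exact f5

theorem sl2_gen {x : SL(2, F)} (hx : x ∈ normalizer ((Q : Subgroup SL(2, F)) : Set SL(2, F)))
    {L : Subgroup SL(2, F)} (l1 : (Q : Subgroup SL(2, F)) ≤ L) (l2 : x * (φ x)⁻¹ ∈ L) : x ∈ L := by
  have hK := k4_of h2 Q hu hv huv k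
  have f5 := phi_mem h2 hu hv huv k f1 f2 f3
  have f4 : ∀ a, φ (-a) = -φ a := fun a => by rw [← neg_one_mul, map_mul, f3, neg_one_mul]
  have l3 : ∀ a : SL(2, F), (a : PSL(2, F)) ∈ L.map (QuotientGroup.mk' _) → a ∈ L := by
    rintro a ⟨b, hb, e⟩
    rcases mk_eq_mk_iff.mp e with rfl | rfl
    exacts [hb, by simpa using mul_mem (l1 (neg_mem_Q Q)) hb]
  have l4 : ∀ c ∈ normalizer ((Q : Subgroup SL(2, F)) : Set SL(2, F)), (c : PSL(2, F)) ∈ normalizer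
      ((Q.mapSurjective (QuotientGroup.mk'_surjective (center SL(2, F))) : Subgroup PSL(2, F)) :
        Set PSL(2, F)) := fun c hc => le_normalizer_map _ ⟨c, hc, rfl⟩
  have l5 : φ x ∈ normalizer ((Q : Subgroup SL(2, F)) : Set SL(2, F)) :=
    mem_normalizer_fintype fun a ha => by
      obtain ⟨b, hb, e⟩ := eight h2 huv (k a ha).1 (k a ha).2
      have : ∃ c ∈ (Q : Subgroup SL(2, F)), φ c = b := by
        rcases hb with rfl | rfl | rfl | rfl
        exacts [⟨1, one_mem _, map_one _⟩, ⟨v, hv, f2⟩, ⟨u, hu, f1⟩,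
          ⟨v * u, mul_mem hv hu, by rw [map_mul, f1, f2]⟩]
      obtain ⟨c, hc, rfl⟩ := this
      have := f5 _ (conj_mem hx hc)
      rw [map_mul, map_mul, map_inv] at this
      rcases e with rfl | rfl
      exacts [this, by rw [mul_neg, neg_mul, ← neg_one_mul]; exact mul_mem (neg_mem_Q Q) this]
  by_cases l6 : (x : PSL(2, F)) ∈ (Q.mapSurjective (QuotientGroup.mk'_surjective (center SL(2, F))) :
    Subgroup PSL(2, F))
  · exact l3 x (map_mono l1 l6)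
  refine l3 x (hK.norm_le (map_mono l1) (l4 _ (mul_mem hx (inv_mem l5))) ⟨_, l2, rfl⟩
    (fun l7 => ?_) (l4 x hx))
  have l8 := hK.comm l7 (conj_mem (l4 _ l5) hK.mul.symm.am)
  have l9 : (x : PSL(2, F)) * (u * v) * (x : PSL(2, F))⁻¹ = ↑(φ (x * (u * v) * x⁻¹)) := by
    simp only [map_mul, map_inv, f1, f2, QuotientGroup.mk_mul, QuotientGroup.mk_inv] at l8 ⊢
    rw [← hK.ab]
    simpa [mul_assoc] using congrArg (· * (φ x : PSL(2, F)) * (x : PSL(2, F))⁻¹) l8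
  have l10 : (u : PSL(2, F)) * v * u = v := by rw [hK.ab, mul_assoc, hK.aa, mul_one]
  rcases (hK.mul.symm.conj (l4 x hx)).resolve_left l6 with e | e
  · rcases mk_eq_mk_iff.mp (show ((x * (u * v) * x⁻¹ : SL(2, F)) : PSL(2, F)) = u from e) with
      e' | e' <;> rw [e, e'] at l9 <;> simp only [f4, f1] at l9
    exacts [hK.ne l9, hK.ne (l9.trans (mk_eq_mk_iff.mpr (.inr rfl)))]
  · rw [l10] at e
    rcases mk_eq_mk_iff.mp (show ((x * (u * v) * x⁻¹ : SL(2, F)) : PSL(2, F)) = v from e) with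
      e' | e' <;> rw [e, e'] at l9 <;> simp only [f4, f2] at l9
    exacts [hK.ne l9.symm, hK.ne (l9.trans (mk_eq_mk_iff.mpr (.inr rfl))).symm]

end

namespace WS
variable (W : WS F G) (h2 : (2 : F) ≠ 0) {f : G →* H}
  (hk : ∀ x, f x = 1 ↔ x = 1 ∨ x = W.bl (-1, -1)) {Q : Sylow 2 SL(2, F)}

theorem bl_eq {a d a' d' : SL(2, F)} : W.bl (a, d) = W.bl (a', d') ↔ a = a' ∧ d = d' :=
  W.inj.eq_iff.trans Prod.mk_inj

theorem bl_mul (a d a' d' : SL(2, F)) : W.bl (a, d) * W.bl (a', d') = W.bl (a * a', d * d') :=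
  (map_mul _ _ _).symm

theorem bl_inv (a d : SL(2, F)) : (W.bl (a, d))⁻¹ = W.bl (a⁻¹, d⁻¹) := (map_inv _ _).symm

theorem wb' (a d : SL(2, F)) (g : G) : W.w * (W.bl (a, d) * g) = W.bl (d, a) * (W.w * g) := by
  rw [← mul_assoc, W.wb, mul_assoc]

theorem w_inv : W.w⁻¹ = W.w := inv_eq_of_mul_eq_one_right W.ww

theorem ct' {g : G} (h : g * W.bl (-1, 1) = W.bl (-1, -1) * (W.bl (-1, 1) * g)) :
    ∃ a d, g = W.bl (a, d) * W.w := by
  obtain ⟨a, d, e⟩ := W.ct (g * W.w) (by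
    rw [mul_assoc, W.wb, show W.bl (1, -1) = W.bl (-1, 1) * W.bl (-1, -1) by simp [bl_mul],
      ← mul_assoc g, ← mul_assoc g, h, ← W.zc, mul_assoc _ (W.bl (-1, -1)) (W.bl _), bl_mul]
    simp [mul_assoc, show W.bl (1, 1) = 1 from map_one _])
  exact ⟨a, d, by rw [← e, mul_assoc, W.ww, mul_one]⟩

include h2 in
theorem ne_w (a d a' d' : SL(2, F)) : W.bl (a, d) * W.w ≠ W.bl (a', d') := fun e => by
  have h := W.wb (-1) 1
  rw [eq_inv_mul_iff_mul_eq.mpr e, bl_inv, bl_mul, bl_mul, bl_mul, bl_eq] at h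
  exact ne_neg_SL h2 _ (by simpa using h.2)

include hk

theorem feq {a b : G} : f a = f b ↔ a = b ∨ a = W.bl (-1, -1) * b := by
  rw [← mul_inv_eq_one, ← map_inv, ← map_mul, hk, mul_inv_eq_one, mul_inv_eq_iff_eq_mul]

include h2

theorem pc {i j : SL(2, F)} (hi : i ∈ (Q : Subgroup SL(2, F))) (hj : j ∈ (Q : Subgroup SL(2, F)))
    (hij : i * j = -(j * i)) {u : G} (h1 : f u ≠ 1) (h : ∀ a ∈ (Q : Subgroup SL(2, F)),
      ∀ d ∈ (Q : Subgroup SL(2, F)), f (W.bl (a, d)) * f u = f u * f (W.bl (a, d))) :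
    f u = f (W.bl (-1, 1)) := by
  simp only [← map_mul, W.feq hk] at h
  rcases (W.feq hk).mp ((W.feq hk).mpr (h _ (neg_mem_Q Q) _ (one_mem _))).symm with e | e
  · obtain ⟨a, d, rfl⟩ := W.ct u e
    simp only [bl_mul, bl_eq] at h
    have k1 : ∀ s ∈ (Q : Subgroup SL(2, F)), a * s = s * a := fun s hs =>
      ((h s hs 1 (one_mem _)).resolve_right fun e => ne_neg_SL h2 d (by simpa using e.2)).1.symm
    have k2 : ∀ s ∈ (Q : Subgroup SL(2, F)), d * s = s * d := fun s hs =>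
      ((h 1 (one_mem _) s hs).resolve_right fun e => ne_neg_SL h2 a (by simpa using e.1)).2.symm
    rw [Ne, hk, ← map_one W.bl, ← Prod.mk_one_one, bl_eq, bl_eq] at h1
    rw [W.feq hk, bl_mul, bl_eq, bl_eq]
    rcases sc_of_anti h2 hij (k1 i hi) (k1 j hj) with rfl | rfl <;>
      rcases sc_of_anti h2 hij (k2 i hi) (k2 j hj) with rfl | rfl <;> simp at h1 ⊢
  · obtain ⟨a, d, rfl⟩ := W.ct' e
    have := h i hi 1 (one_mem _)
    simp only [mul_assoc, W.wb, ← mul_assoc (W.bl _), bl_mul, mul_left_inj, bl_eq] at this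
    have k : i = 1 ∨ i = -1 := this.imp (fun e => by simpa using e.1) fun e =>
      mul_right_cancel (b := a) (by simpa using e.1)
    rcases k with rfl | rfl <;> exact absurd (by simpa [eq_comm] using hij) (ne_neg_SL h2 j)

theorem ft_ne : f (W.bl (-1, 1)) ≠ 1 := by
  rw [Ne, hk, ← map_one W.bl, ← Prod.mk_one_one, bl_eq, bl_eq]
  simpa using ⟨(ne_neg_SL h2 1).symm, ne_neg_SL h2 1⟩

theorem exists_S [Finite G] {i j : SL(2, F)} (hi : i ∈ (Q : Subgroup SL(2, F)))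
    (hj : j ∈ (Q : Subgroup SL(2, F))) (hij : i * j = -(j * i)) : ∃ S : Sylow 2 G, ∀ x,
      x ∈ (S : Subgroup G) ↔ ∃ a ∈ (Q : Subgroup SL(2, F)), ∃ d ∈ (Q : Subgroup SL(2, F)),
        x = W.bl (a, d) ∨ x = W.bl (a, d) * W.w := by
  obtain ⟨S, hS⟩ : ∃ S : Sylow 2 G, zpowers W.w ⊔ ((Q : Subgroup SL(2, F)).prod Q).map W.bl ≤ S := by
    refine IsPGroup.exists_le_sylow ((isP_zpowers 1 (by simp [pow_two, W.ww])).to_sup_of_normal_right'
      (IsPGroup.map ?_ _) (zpowers_le.mpr (mem_normalizer_fintype ?_)))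
    · rintro ⟨⟨a, d⟩, h⟩
      obtain ⟨k, hk⟩ := pow_of_mem Q.2 h.1
      obtain ⟨l, hl⟩ := pow_of_mem Q.2 h.2
      exact ⟨max k l, Subtype.ext (Prod.ext (pow_max hk (le_max_left _ _))
        (pow_max hl (le_max_right _ _)))⟩
    · rintro _ ⟨⟨a, d⟩, h, rfl⟩
      exact ⟨(d, a), ⟨h.2, h.1⟩, by rw [W.wb, mul_inv_cancel_right]⟩
  have h1 : W.w ∈ (S : Subgroup G) := hS (mem_sup_left (mem_zpowers _))
  have h3 : ∀ a ∈ (Q : Subgroup SL(2, F)), ∀ d ∈ (Q : Subgroup SL(2, F)),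
      W.bl (a, d) ∈ (S : Subgroup G) := fun a ha d hd => hS (mem_sup_right ⟨_, ⟨ha, hd⟩, rfl⟩)
  have h4 : ∀ a d, W.bl (a, d) ∈ (S : Subgroup G) → a ∈ (Q : Subgroup SL(2, F)) := fun a d h =>
    (Q.3 ((S.2.comap_of_injective _ W.inj).map (.fst _ _)) fun x hx =>
      ⟨(x, 1), h3 x hx 1 (one_mem _), rfl⟩).le ⟨(a, d), h, rfl⟩
  have h5 : ∀ a d, W.bl (a, d) ∈ (S : Subgroup G) → d ∈ (Q : Subgroup SL(2, F)) := fun a d h =>
    h4 d a (by simpa [W.wb] using mul_mem (mul_mem h1 h) (inv_mem h1))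
  refine ⟨S, fun x => ⟨fun hx => ?_, ?_⟩⟩
  · have h6 := S.2.map f
    have : Nontrivial ((S : Subgroup G).map f) := ⟨⟨⟨_, _, h3 _ (neg_mem_Q Q) _ (one_mem _), rfl⟩, 1,
      fun e => W.ft_ne h2 hk (congrArg Subtype.val e)⟩⟩
    have := Finite.of_surjective _ (f.subgroupMap_surjective S)
    have := h6.center_nontrivial
    obtain ⟨⟨⟨_, u, hu, rfl⟩, hz⟩, h7⟩ := exists_ne (1 : center ((S : Subgroup G).map f))
    have h8 := fun s hs => congrArg Subtype.val (mem_center_iff.mp hz ⟨_, s, hs, rfl⟩)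
    have h9 := W.pc h2 hk hi hj hij (fun e => h7 (Subtype.ext (Subtype.ext e)))
      fun a ha d hd => h8 _ (h3 a ha d hd)
    have h10 : f x * f u = f u * f x := h8 x hx
    rw [h9, ← map_mul, ← map_mul, W.feq hk] at h10
    rcases h10 with e | e
    · obtain ⟨a, d, rfl⟩ := W.ct x e
      exact ⟨a, h4 a d hx, d, h5 a d hx, .inl rfl⟩
    · obtain ⟨a, d, rfl⟩ := W.ct' e
      rw [mul_mem_cancel_right h1] at hx
      exact ⟨a, h4 a d hx, d, h5 a d hx, .inr rfl⟩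
  · rintro ⟨a, ha, d, hd, rfl | rfl⟩
    exacts [h3 a ha d hd, mul_mem (h3 a ha d hd) h1]

section
variable {S : Sylow 2 G} (hS : ∀ x, x ∈ (S : Subgroup G) ↔ ∃ a ∈ (Q : Subgroup SL(2, F)),
  ∃ d ∈ (Q : Subgroup SL(2, F)), x = W.bl (a, d) ∨ x = W.bl (a, d) * W.w)
include hS

omit hk in
theorem bl_mem {a d : SL(2, F)} : W.bl (a, d) ∈ (S : Subgroup G) ↔
    a ∈ (Q : Subgroup SL(2, F)) ∧ d ∈ (Q : Subgroup SL(2, F)) := by
  refine ⟨fun h => ?_, fun h => (hS _).mpr ⟨a, h.1, d, h.2, .inl rfl⟩⟩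
  obtain ⟨b, hb, e, he, h | h⟩ := (hS _).mp h
  · obtain ⟨rfl, rfl⟩ := W.bl_eq.mp h
    exact ⟨hb, he⟩
  · exact absurd h.symm (W.ne_w h2 _ _ _ _)

omit hk h2 in
theorem w_mem : W.w ∈ (S : Subgroup G) := (hS _).mpr ⟨1, one_mem _, 1, one_mem _,
  .inr (by rw [Prod.mk_one_one, map_one, one_mul])⟩

theorem ft_comm {s : G} (hs : s ∈ (S : Subgroup G)) :
    f s * f (W.bl (-1, 1)) = f (W.bl (-1, 1)) * f s := by
  rw [← map_mul, ← map_mul, W.feq hk]
  obtain ⟨a, -, d, -, rfl | rfl⟩ := (hS _).mp hs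
  · simp [bl_mul]
  · simp [mul_assoc, W.wb, ← mul_assoc (W.bl _), bl_mul]

theorem sclosed {u s : SL(2, F)} (hu : u ∈ (Q : Subgroup SL(2, F)))
    (hs : s ∈ (Q : Subgroup SL(2, F))) (h : s * u = -(u * s))
    (h' : ∀ a ∈ (Q : Subgroup SL(2, F)), a * u = u * a ∨ a * u = -(u * a)) (T : Subgroup G)
    (h1 : f.ker ≤ T) (x : G) (hx : x ∈ T) (h3 : f x ≠ 1)
    (h4 : ∀ s ∈ (S : Subgroup G), f s * f x = f x * f s)
    (h5 : ∀ x ∈ T, ∀ g : G, g * x * g⁻¹ ∈ (S : Subgroup G) → g * x * g⁻¹ ∈ T) :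
    (S : Subgroup G) ≤ T := by
  have k1 : W.bl (-1, 1) ∈ T := by
    have := W.pc h2 hk hs hu h h3 fun a ha d hd => h4 _ ((W.bl_mem h2 hS).mpr ⟨ha, hd⟩)
    simpa using T.mul_mem (h1 (show W.bl (-1, 1) * x⁻¹ ∈ f.ker by simp [this])) hx
  have hs2 := anti_sq h2 h
  have hu2 := anti_sq h2 (neg_eq_iff_eq_neg.mp h.symm)
  obtain ⟨n, hn, -⟩ := W.en s u hs2 hu2 h
  have k2 : W.w ∈ T := by
    have := h5 _ k1 n
    rw [hn, mul_inv_cancel_right] at this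
    exact this (W.w_mem hS)
  have k3 : ∀ a ∈ (Q : Subgroup SL(2, F)), ∀ b ∈ (Q : Subgroup SL(2, F)), a * a = -1 → b * b = -1 →
      W.bl (a, b) ∈ T := fun a ha b hb e1 e2 => by
    have k4 := h5 _ k2 _ (mul_mem (mul_mem ((W.bl_mem h2 hS).mpr ⟨ha, one_mem _⟩) (W.w_mem hS))
      (inv_mem ((W.bl_mem h2 hS).mpr ⟨ha, one_mem _⟩)))
    rw [bl_inv, mul_assoc, W.wb, ← mul_assoc, bl_mul, mul_mem_cancel_right k2] at k4
    obtain ⟨c, rfl⟩ := conj_of_sq h2 (a := a⁻¹) (by rw [← _root_.mul_inv_rev, e1]; simp) e2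
    have := h5 _ k4 (W.bl (1, c))
    simp only [bl_inv, bl_mul, inv_one, mul_one, one_mul] at this
    exact this ((W.bl_mem h2 hS).mpr ⟨ha, hb⟩)
  have k4 : s * u * (s * u) = -1 := anti_sq h2 (b := u) (by
    rw [← mul_assoc, ← neg_mul, ← h])
  have k5 : ∀ a ∈ (Q : Subgroup SL(2, F)), a * u = -(u * a) → W.bl (a, 1) ∈ T := fun a ha e => by
    have := T.mul_mem (T.mul_mem (k3 a ha _ (mul_mem hs hu) (anti_sq h2 e) k4)
      (T.inv_mem (k3 s hs u hu hs2 hu2))) (k3 s hs _ (mul_mem (neg_mem_Q Q) hs) hs2 (by simp [hs2]))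
    simpa [bl_inv, bl_mul, hs2] using this
  have k6 : ∀ a ∈ (Q : Subgroup SL(2, F)), W.bl (a, 1) ∈ T := fun a ha => by
    rcases h' a ha with e | e
    · have := T.mul_mem (k5 _ (mul_mem ha hs) (by rw [mul_assoc, h, mul_neg, ← mul_assoc, e, mul_assoc]))
        (T.inv_mem (k5 s hs h))
      simpa [bl_inv, bl_mul] using this
    · exact k5 a ha e
  have k7 : ∀ a ∈ (Q : Subgroup SL(2, F)), ∀ d ∈ (Q : Subgroup SL(2, F)), W.bl (a, d) ∈ T :=
    fun a ha d hd => by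
      have := T.mul_mem (k6 a ha) (T.mul_mem (T.mul_mem k2 (k6 d hd)) (T.inv_mem k2))
      simpa [W.wb, bl_mul] using this
  intro y hy
  obtain ⟨a, ha, d, hd, rfl | rfl⟩ := (hS _).mp hy
  exacts [k7 a ha d hd, T.mul_mem (k7 a ha d hd) k2]

theorem norm_t {i j : SL(2, F)} (hi : i ∈ (Q : Subgroup SL(2, F)))
    (hj : j ∈ (Q : Subgroup SL(2, F))) (hij : i * j = -(j * i)) {g : G}
    (hg : g ∈ normalizer ((S : Subgroup G) : Set G)) (ho : Odd (orderOf g)) :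
    g * W.bl (-1, 1) = W.bl (-1, 1) * g := by
  have k1 := W.pc h2 hk hi hj hij (u := g * W.bl (-1, 1) * g⁻¹) (by
    simpa using W.ft_ne h2 hk) fun a ha d hd => by
      have := congrArg (fun x => f g * x * (f g)⁻¹) (W.ft_comm h2 hk hS
        (conj_mem' hg ((W.bl_mem h2 hS).mpr ⟨ha, hd⟩)))
      simpa [mul_assoc] using this
  · skip
    refine (odd_comm S.2 ho hg ((W.bl_mem h2 hS).mpr ⟨neg_mem_Q Q, one_mem _⟩) ?_).symm
    rcases (W.feq hk).mp k1 with e | e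
    · rw [← mul_inv_eq_iff_eq_mul.mp e, mul_inv_cancel_right]
    · have e' : W.bl (-1, 1) * g = W.bl (-1, -1) * (g * W.bl (-1, 1)) := by
        rw [mul_inv_eq_iff_eq_mul.mp e, ← mul_assoc, ← mul_assoc, bl_mul, bl_mul]; simp
      rw [e', mul_assoc, mul_inv_cancel_right]
      exact Commute.mul_left (W.zc g).symm (.refl g)

theorem good [Finite G] {i j : SL(2, F)} (hi : i ∈ (Q : Subgroup SL(2, F)))
    (hj : j ∈ (Q : Subgroup SL(2, F))) (hij : i * j = -(j * i)) (g : G)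
    (hg : g ∈ normalizer ((S : Subgroup G) : Set G)) (ho : Odd (orderOf g)) : g = 1 ∨
      ∃ P ≤ (S : Subgroup G), (S : Subgroup G) ≤ normalizer (P : Set G) ∧
        (∀ x ∈ (S : Subgroup G), (∀ y ∈ P, f y * f x = f x * f y) → x ∈ P) ∧
          ∃ s ∈ (S : Subgroup G), s * g ∈ PE 2 (normalizer (P : Set G)) := by
  obtain ⟨x, y, rfl⟩ := W.ct g (W.norm_t h2 hk hS hi hj hij hg ho)
  rw [orderOf_injective _ W.inj] at ho
  have hx : x ∈ normalizer ((Q : Subgroup SL(2, F)) : Set SL(2, F)) :=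
    mem_normalizer_fintype fun a ha => by
      have := conj_mem hg ((W.bl_mem h2 hS).mpr ⟨ha, one_mem _⟩)
      rw [bl_inv, bl_mul, bl_mul, W.bl_mem h2 hS] at this
      exact this.1
  have hxy : x * y⁻¹ ∈ (Q : Subgroup SL(2, F)) := by
    have := conj_mem hg (W.w_mem hS)
    rw [bl_inv, mul_assoc, W.wb, ← mul_assoc, bl_mul, mul_mem_cancel_right (W.w_mem hS),
      W.bl_mem h2 hS] at this
    exact this.1
  have hox : Odd (orderOf x) := ho.of_dvd_nat orderOf_fst_dvd_orderOf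
  have hoy : Odd (orderOf y) := ho.of_dvd_nat orderOf_snd_dvd_orderOf
  rcases norm_case h2 Q hi hj hij hx hox with rfl | ⟨u, hu, v, hv, huv, k⟩
  · obtain rfl := eq_one_of_odd Q.2 (show y ∈ (Q : Subgroup SL(2, F)) by simpa using hxy) hoy
    exact .inl (map_one W.bl)
  right
  have hK := k4_of h2 Q hu hv huv k
  have q1 : ∀ a ∈ (Q : Subgroup SL(2, F)), ∀ b ∈ (Q : Subgroup SL(2, F)),
      a * b = b * a ∨ a * b = -(b * a) := fun a ha b hb =>
    mk_eq_mk_iff.mp (hK.comm ⟨a, ha, rfl⟩ ⟨b, hb, rfl⟩)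
  have q2 : ∀ a ∈ (Q : Subgroup SL(2, F)), a⁻¹ = a ∨ a⁻¹ = -a := fun a ha => by
    refine mk_eq_mk_iff.mp (inv_eq_of_mul_eq_one_right (a := (a : PSL(2, F))) ?_)
    rcases (hK.mem _).mp ⟨a, ha, rfl⟩ with e | e | e | e <;>
      rw [show (a : PSL(2, F)) = _ from e]
    exacts [one_mul _, hK.aa, hK.bb, hK.mul.bb]
  obtain ⟨P, hP⟩ : ∃ P : Subgroup G, P = (S : Subgroup G) ⊓ (centralizer {f W.w}).comap f := ⟨_, rfl⟩
  have p0 : ∀ x, x ∈ P ↔ x ∈ (S : Subgroup G) ∧ f x * f W.w = f W.w * f x := fun x => by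
    rw [hP, mem_inf, mem_comap, mem_centralizer_singleton_iff]
  have p1 : W.w ∈ P := (p0 _).mpr ⟨W.w_mem hS, rfl⟩
  have p2 : ∀ a d, W.bl (a, d) ∈ P ↔ a ∈ (Q : Subgroup SL(2, F)) ∧ (d = a ∨ d = -a) := fun a d => by
    rw [p0, W.bl_mem h2 hS, ← map_mul, ← map_mul, W.feq hk, W.wb, ← mul_assoc, bl_mul,
      mul_left_inj, mul_left_inj, bl_eq, bl_eq]
    refine ⟨fun h => ⟨h.1.1, h.2.imp (·.2) fun e => by simpa using e.2⟩, ?_⟩
    rintro ⟨h, rfl | rfl⟩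
    exacts [⟨⟨h, h⟩, by simp⟩, ⟨⟨h, by simpa using mul_mem (neg_mem_Q Q) h⟩, by simp⟩]
  have p3 : W.bl (-1, 1) ∈ P := (p2 _ _).mpr ⟨neg_mem_Q Q, by simp⟩
  have p4 : ∀ n : G, (∀ a ∈ (Q : Subgroup SL(2, F)), n * W.bl (a, a) * n⁻¹ ∈ P) →
      n * W.bl (-1, 1) * n⁻¹ ∈ P → n * W.w * n⁻¹ ∈ P → n ∈ normalizer (P : Set G) :=
    fun n e1 e2 e3 => by
      have e4 : ∀ a d, W.bl (a, d) ∈ P → n * W.bl (a, d) * n⁻¹ ∈ P := fun a d h => by
        obtain ⟨h', rfl | rfl⟩ := (p2 _ _).mp h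
        · exact e1 _ h'
        · have := P.mul_mem (e1 _ (mul_mem (neg_mem_Q Q) h')) e2
          simpa [mul_assoc, ← mul_assoc (W.bl _), bl_mul] using this
      refine mem_normalizer_fintype fun x hx => ?_
      obtain ⟨a, -, d, -, rfl | rfl⟩ := (hS _).mp ((p0 _).mp hx).1
      · exact e4 a d hx
      · simpa [mul_assoc] using P.mul_mem (e4 a d ((mul_mem_cancel_right p1).mp hx)) e3
  have p5 : P ≤ S := hP ▸ inf_le_left
  have p6 : ∀ c ∈ normalizer ((Q : Subgroup SL(2, F)) : Set SL(2, F)),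
      W.bl (c, c) ∈ normalizer (P : Set G) := fun c hc => p4 _ (fun a ha => by
        rw [bl_inv, bl_mul, bl_mul, p2]; exact ⟨conj_mem hc ha, .inl rfl⟩)
      (by simpa [bl_inv, bl_mul] using p3)
      (by rwa [← W.wb, mul_inv_cancel_right])
  refine ⟨P, p5, fun s hs => ?_, fun s hs h => (p0 _).mpr ⟨hs, (h _ p1).symm⟩, W.bl (1, x * y⁻¹),
    (W.bl_mem h2 hS).mpr ⟨one_mem _, hxy⟩, ?_⟩
  · have e : ∀ b ∈ (Q : Subgroup SL(2, F)), ∀ d ∈ (Q : Subgroup SL(2, F)),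
        W.bl (b, d) ∈ normalizer (P : Set G) := fun b hb d hd => p4 _ (fun a ha => by
          rw [bl_inv, bl_mul, bl_mul, p2]
          refine ⟨conj_mem (le_normalizer hb) ha, ?_⟩
          rcases q1 b hb a ha with e | e <;> rcases q1 d hd a ha with e' | e' <;> simp [e, e'])
        (by simpa [bl_inv, bl_mul] using p3) (by
          rw [bl_inv, mul_assoc, W.wb, ← mul_assoc, bl_mul, mul_mem_cancel_right p1, p2]
          exact ⟨mul_mem hb (inv_mem hd), by simpa using q2 _ (mul_mem hb (inv_mem hd))⟩)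
    obtain ⟨a, ha, d, hd, rfl | rfl⟩ := (hS _).mp hs
    exacts [e a ha d hd, mul_mem (e a ha d hd) (le_normalizer p1)]
  rw [bl_mul, one_mul, inv_mul_cancel_right]
  have hu2 := anti_sq h2 huv
  have hv2 := anti_sq h2 (neg_eq_iff_eq_neg.mp huv.symm)
  obtain ⟨n, n1, n2, n3, φ, f1, f2, f3, n4⟩ := W.en u v hu2 hv2 huv
  have f5 := phi_mem h2 hu hv huv k f1 f2 f3
  have n5 : n ∈ normalizer (P : Set G) := p4 n (fun a ha => by
    rw [n4, mul_inv_cancel_right, p2]; exact ⟨f5 a ha, .inl rfl⟩)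
    (by rwa [n1, mul_inv_cancel_right]) (by rwa [n2, mul_inv_cancel_right])
  have n6 : ∃ k, n ^ 2 ^ k = 1 := ⟨2, by
    rw [show 2 ^ 2 = 2 * 2 by rfl, pow_mul, pow_two n, n3, pow_two, bl_mul,
      neg_mul_neg, one_mul]
    exact map_one W.bl⟩
  let L := (PE 2 (normalizer (P : Set G))).comap (W.bl.comp ((MonoidHom.id _).prod (.id _)))
  have l1 : (Q : Subgroup SL(2, F)) ≤ L := fun a ha =>
    le_PE (S.2.to_le p5) le_normalizer ((p2 _ _).mpr ⟨ha, .inl rfl⟩)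
  have l2 : x * (φ x)⁻¹ ∈ L := by
    have := mul_mem (mem_PE (mul_mem (mul_mem (p6 x hx) n5) (inv_mem (p6 x hx))) (pow_conj n6 _))
      (inv_mem (mem_PE n5 n6))
    rwa [bl_inv, mul_assoc _ n, n4, ← mul_assoc, mul_inv_cancel_right, bl_mul, map_inv] at this
  exact sl2_gen h2 hu hv huv k f1 f2 f3 hx l1 l2

end

omit hk in
theorem simple [Finite G] (hf : Function.Surjective f)
    (hk : ∀ x, f x = 1 ↔ x = 1 ∨ x = W.bl (-1, -1)) (S' : Sylow 2 H) :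
    (groupFusionSystem (S' : Subgroup H)).IsSimple 2 := by
  have := Finite.of_surjective f hf
  obtain ⟨Q, u, hu, s, hs, h, h'⟩ := exists_sylQ h2
  obtain ⟨S, hS⟩ := W.exists_S h2 hk hs hu h
  obtain ⟨c, rfl⟩ := MulAction.exists_smul_eq H (S.mapSurjective hf) S'
  have hk' : ∀ x, (MulAut.conj c).toMonoidHom.comp f x = 1 ↔ x = 1 ∨ x = W.bl (-1, -1) :=
    fun x => by simp [← hk]
  have := crit_quot S ((MulAut.conj c).surjective.comp hf) (fun x hx => by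
      rcases (hk' x).mp hx with rfl | rfl
      exacts [one_mem _, (W.bl_mem h2 hS).mpr ⟨neg_mem_Q Q, neg_mem_Q Q⟩])
    ⟨_, (W.bl_mem h2 hS).mpr ⟨neg_mem_Q Q, one_mem _⟩, W.ft_ne h2 hk'⟩
    (W.good h2 hk' hS hs hu h) fun T h1 _ => W.sclosed h2 hk' hS hu hs h h' T h1
  rw [← Subgroup.map_map] at this
  exact simple_of _ this.1 this.2.1 this.2.2

end WS

/-- the change of indices -/
def e4 : Fin 2 ⊕ Fin 2 ≃ Fin 2 ⊕ Fin 2 := Equiv.swap (.inl 1) (.inr 0)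

/-- block matrices adapted to the symplectic form -/
def bm (a b c d : Matrix (Fin 2) (Fin 2) F) : Matrix (Fin 2 ⊕ Fin 2) (Fin 2 ⊕ Fin 2) F :=
  (fromBlocks a b c d).submatrix e4 e4

theorem bm_mul (a b c d a' b' c' d' : Matrix (Fin 2) (Fin 2) F) : bm a b c d * bm a' b' c' d' =
    bm (a * a' + b * c') (a * b' + b * d') (c * a' + d * c') (c * b' + d * d') := by
  rw [bm, bm, submatrix_mul_equiv, fromBlocks_multiply, bm]

theorem bm_inj {a b c d a' b' c' d' : Matrix (Fin 2) (Fin 2) F} :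
    bm a b c d = bm a' b' c' d' ↔ a = a' ∧ b = b' ∧ c = c' ∧ d = d' := by
  rw [← fromBlocks_inj]
  refine ⟨fun h => ?_, fun h => by rw [bm, h, bm]⟩
  simpa [bm] using congrArg (·.submatrix e4.symm e4.symm) h

theorem bm_surj (X : Matrix (Fin 2 ⊕ Fin 2) (Fin 2 ⊕ Fin 2) F) : ∃ a b c d, X = bm a b c d :=
  ⟨_, _, _, _, by
    rw [bm, fromBlocks_toBlocks (X.submatrix e4.symm e4.symm)]
    simp⟩

theorem bm_one : bm 1 0 0 (1 : Matrix (Fin 2) (Fin 2) F) = 1 := by simp [bm]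

theorem bm_mem {a b c d : Matrix (Fin 2) (Fin 2) F} : bm a b c d ∈ symplecticGroup (Fin 2) F ↔
    a.det + b.det = 1 ∧ a * c.adjugate + b * d.adjugate = 0 ∧ c * a.adjugate + d * b.adjugate = 0 ∧
      c.det + d.det = 1 := by
  have h1 : J (Fin 2) F = bm !![0, -1; 1, 0] 0 0 !![0, -1; 1, 0] := by
    ext (i | i) (j | j) <;> fin_cases i <;> fin_cases j <;> simp [J, bm, e4, Equiv.swap_apply_def]
  have h2 : (bm a b c d)ᵀ = bm aᵀ cᵀ bᵀ dᵀ := by rw [bm, transpose_submatrix, fromBlocks_transpose, bm]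
  rw [SymplecticGroup.mem_iff, h1, h2, bm_mul, bm_mul, bm_inj]
  simp only [← Matrix.ext_iff, Fin.forall_fin_two, det_fin_two, adjugate_fin_two]
  simp [Matrix.mul_apply, Fin.sum_univ_two, vecMul, dotProduct]
  constructor <;> intro h <;> refine ⟨?_, ?_, ?_, ?_⟩ <;> grind

/-- the model of `SL₂ ≀ 2` in `Sp₄` -/
noncomputable def ws4 (h2 : (2 : F) ≠ 0) : WS F (symplecticGroup (Fin 2) F) where
  bl := { toFun x := ⟨bm x.1.1 0 0 x.2.1, by simp [bm_mem]⟩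
          map_one' := Subtype.ext bm_one
          map_mul' x y := Subtype.ext (by simp [bm_mul]) }
  w := ⟨bm 0 1 1 0, by simp [bm_mem]⟩
  inj x y h := by
    have := bm_inj.mp (congrArg Subtype.val h)
    exact Prod.ext (Subtype.ext this.1) (Subtype.ext this.2.2.2)
  ww := Subtype.ext (by simp [bm_mul, bm_one])
  wb a d := Subtype.ext (by simp [bm_mul])
  zc g := Subtype.ext (by obtain ⟨a, b, c, d, e⟩ := bm_surj g.1; simp [e, bm_mul])
  ct := by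
    rintro ⟨g, hg⟩ h
    obtain ⟨a, b, c, d, rfl⟩ := bm_surj g
    have := congrArg Subtype.val h
    simp [bm_mul, bm_inj] at this
    obtain rfl := zero_of_neg h2 this.1.symm
    obtain rfl := zero_of_neg h2 this.2
    simp [bm_mem] at hg
    exact ⟨⟨a, hg.1⟩, ⟨d, hg.2⟩, rfl⟩
  en u v hu hv h := by
    have e1 : u.1 * u.1 = -1 := congrArg Subtype.val hu
    have e2 : v.1 * v.1 = -1 := congrArg Subtype.val hv
    have e3 : u.1 * v.1 = -(v.1 * u.1) := congrArg Subtype.val h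
    have h1 : (u.1 + v.1) * (u.1 + v.1) = (-2 : F) • 1 := by
      rw [add_mul, mul_add, mul_add, e1, e2, e3, neg_smul, two_smul]; abel
    have h3 : (u.1 + v.1).det = 2 := by
      have t1 : u.1 0 0 + u.1 1 1 = 0 := (mul_self_eq_neg_one_iff h2).mp hu
      have t2 : v.1 0 0 + v.1 1 1 = 0 := (mul_self_eq_neg_one_iff h2).mp hv
      have := congrFun (congrFun h1 0) 0
      simp [Matrix.mul_apply, Fin.sum_univ_two] at this
      simp [det_fin_two]
      grind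
    have h6 : v.1 * (u.1 + v.1) = (u.1 + v.1) * u.1 := by rw [mul_add, add_mul, e1, e2, add_comm]
    have h7 : u.1 * (u.1 + v.1) = (u.1 + v.1) * v.1 := by rw [mul_add, add_mul, e1, e2, add_comm]
    generalize u.1 + v.1 = M at h1 h3 h6 h7
    let m : GL (Fin 2) F := .mkOfDetNeZero M (h3 ▸ h2)
    have h4 : ∀ a, (conjSL m a).1 * M = M * a.1 := fun a => by
      have := congrArg (fun x => (x * m).1) (toGL_conjSL m a)
      simpa [m] using this
    have h5 : ∀ a b : SL(2, F), b.1 * M = M * a.1 → conjSL m a = b :=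
      fun a b e => Subtype.ext (m.mul_left_inj.mp ((h4 a).trans e.symm))
    refine ⟨⟨bm (-(2⁻¹ : F) • M) ((2⁻¹ : F) • M) ((2⁻¹ : F) • M) ((2⁻¹ : F) • M), ?_⟩,
      Subtype.ext (by simp [bm_mul]), Subtype.ext (by simp [bm_mul]),
      Subtype.ext ?_, (conjSL m).toMonoidHom, h5 _ _ h6, h5 _ _ h7, h5 _ _ (by simp), fun a =>
        Subtype.ext (by simp [bm_mul, h4])⟩
    · rw [bm_mem]
      simp only [adjugate_smul, det_smul, h3, Fintype.card_fin, smul_mul_assoc, mul_smul_comm,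
        smul_smul, ← add_smul]
      exact ⟨by grind, by simp, by simp, by grind⟩
    · simp [bm_mul, h1, bm_inj, smul_smul, ← add_smul]
      rw [← neg_add, ← add_smul, show (2⁻¹ * (2⁻¹ * 2) + 2⁻¹ * (2⁻¹ * 2) : F) = 1 by grind, one_smul]

theorem simple_psp4 (h2 : (2 : F) ≠ 0) (S : Sylow 2 (PSp 2 F)) :
    (groupFusionSystem (S : Subgroup (PSp 2 F))).IsSimple 2 := by
  refine (ws4 h2).simple h2 (QuotientGroup.mk'_surjective _) (fun x => ?_) S
  rw [QuotientGroup.mk'_apply, QuotientGroup.eq_one_iff]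
  refine ⟨fun h => ?_, ?_⟩
  · obtain ⟨a, d, rfl⟩ := (ws4 h2).ct x (Subgroup.mem_center_iff.mp h _).symm
    have h1 := Subgroup.mem_center_iff.mp h (ws4 h2).w
    rw [WS.wb, mul_left_inj, WS.bl_eq] at h1
    obtain rfl := h1.1
    have h3 : d ∈ center SL(2, F) := Subgroup.mem_center_iff.mpr fun c => by
      have := Subgroup.mem_center_iff.mp h ((ws4 h2).bl (c, c))
      rw [WS.bl_mul, WS.bl_mul, WS.bl_eq] at this
      exact this.1
    rcases Classical.SL2Basic.mem_center_iff.mp h3 with rfl | rfl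
    exacts [.inl (map_one _), .inr rfl]
  · rintro (rfl | rfl)
    exacts [one_mem _, Subgroup.mem_center_iff.mpr (ws4 h2).zc]

end Cfsg.Agent.ULT
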