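import Mathlib

/-! Local fusion graphs of the symmetric groups: basic surgery lemmas. -/

namespace Cfsg.Agent.ULT.LF
open Equiv Finset

variable {α : Type*} [Fintype α] [DecidableEq α]

/-- every point has odd period under `x * z` -/
def OddF (x z : Perm α) : Prop := ∀ p, ∃ k, Odd k ∧ (fun q => x (z q))^[k] p = p

omit [Fintype α] [DecidableEq α] in
theorem OddF.ret {x z x' z' : Perm α} (T : α → Prop) (hx' : ∀ p, T p → T (x' p))
    (hz' : ∀ p, T p → T (z' p))
    (h1 : ∀ p, T p → ∃ k, Odd k ∧ (fun q => x (z q))^[k] p = x' (z' p))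
    (h2 : ∀ q, ¬ T q → (∃ i : ℕ, T ((fun q => x (z q))^[i] q)) ∨
      ∃ k, Odd k ∧ (fun q => x (z q))^[k] q = q)
    (h : OddF x' z') : OddF x z := by
  have key : ∀ j p, T p → T ((fun q => x' (z' q))^[j] p) ∧
      ∃ k, k % 2 = j % 2 ∧ (fun q => x (z q))^[k] p = (fun q => x' (z' q))^[j] p := by
    intro j
    induction j with
    | zero => intro p hp; exact ⟨hp, 0, rfl, rfl⟩
    | succ j ih =>
      intro p hp
      obtain ⟨hT, k, hk, he⟩ := ih p hp
      rw [Function.iterate_succ_apply']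
      refine ⟨hx' _ (hz' _ hT), ?_⟩
      obtain ⟨l, hl, hl'⟩ := h1 _ hT
      refine ⟨l + k, ?_, ?_⟩
      · rw [Nat.odd_iff] at hl; omega
      · rw [Function.iterate_add_apply, he, hl']
  have hT : ∀ p, T p → ∃ k, Odd k ∧ (fun q => x (z q))^[k] p = p := by
    intro p hp
    obtain ⟨j, hj, hj'⟩ := h p
    obtain ⟨-, k, hk, he⟩ := key j p hp
    refine ⟨k, ?_, he.trans hj'⟩
    rw [Nat.odd_iff] at hj ⊢; omega
  intro q
  by_cases hq : T q
  · exact hT q hq
  rcases h2 q hq with ⟨i, hi⟩ | h3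
  · obtain ⟨k, hk, he⟩ := hT _ hi
    refine ⟨k, hk, ?_⟩
    have hinj : Function.Injective (fun q => x (z q)) := x.injective.comp z.injective
    apply hinj.iterate i
    rw [← Function.iterate_add_apply, add_comm, Function.iterate_add_apply, he]
  · exact h3

omit [DecidableEq α] in
theorem OddF.odd_orderOf {x z : Perm α} (h : OddF x z) : Odd (orderOf (x * z)) := by
  choose k hk he using h
  have hK : Odd (∏ p, k p) := by
    classical
    exact Finset.prod_induction _ _ (fun a b => Odd.mul) odd_one (fun p _ => hk p)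
  have h1 : (x * z) ^ (∏ p, k p) = 1 := by
    classical
    ext p
    obtain ⟨m, hm⟩ := Finset.dvd_prod_of_mem k (Finset.mem_univ p)
    have : ((x * z) ^ (k p)) p = p := by
      rw [Perm.coe_pow]; exact he p
    rw [hm, pow_mul]
    simpa using Perm.pow_apply_eq_self_of_apply_eq_self this m
  exact Odd.of_dvd_nat hK (orderOf_dvd_of_pow_eq_one h1)

/-- involution (or identity) -/
def Inv (x : Perm α) : Prop := ∀ p, x (x p) = p

omit [Fintype α] [DecidableEq α] in
theorem Inv.sw {x : Perm α} (h : Inv x) {a b : α} (e : x a = b) : x b = a := by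
  rw [← e, h]

omit [Fintype α] [DecidableEq α] in
theorem ne_fix {x : Perm α} {a p : α} (h : x a = a) (hp : p ≠ a) : x p ≠ a := by
  intro e; exact hp (x.injective (e.trans h.symm))

theorem exists_add {z : Perm α} (hz : Inv z) {a b : α} (hab : a ≠ b) (ha : z a = a)
    (hb : z b = b) : ∃ w : Perm α, Inv w ∧ #w.support = #z.support + 2 ∧ w a = b ∧ w b = a ∧
      ∀ p, p ≠ a → p ≠ b → w p = z p := by
  have h3 : ∀ p, p ≠ a → p ≠ b → (z * swap a b) p = z p := by
    intro p h1 h2
    rw [Perm.mul_apply, swap_apply_of_ne_of_ne h1 h2]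
  have h1 : (z * swap a b) a = b := by simp [hb]
  have h2 : (z * swap a b) b = a := by simp [ha]
  refine ⟨z * swap a b, ?_, ?_, h1, h2, h3⟩
  · intro p
    by_cases hpa : p = a
    · rw [hpa, h1, h2]
    by_cases hpb : p = b
    · rw [hpb, h2, h1]
    rw [h3 p hpa hpb, h3 _ (ne_fix ha hpa) (ne_fix hb hpb), hz]
  · rw [Perm.Disjoint.card_support_mul, Perm.card_support_swap hab]
    intro p
    by_cases hpa : p = a
    · left; rw [hpa, ha]
    by_cases hpb : p = b
    · left; rw [hpb, hb]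
    right; exact swap_apply_of_ne_of_ne hpa hpb

theorem exists_strip {x : Perm α} (hx : Inv x) {a b : α} (hab : a ≠ b) (ha : x a = b) :
    ∃ w : Perm α, Inv w ∧ #w.support + 2 = #x.support ∧ w a = a ∧ w b = b ∧
      ∀ p, p ≠ a → p ≠ b → w p = x p := by
  have hb := hx.sw ha
  have h3 : ∀ p, p ≠ a → p ≠ b → (x * swap a b) p = x p := by
    intro p h1 h2
    rw [Perm.mul_apply, swap_apply_of_ne_of_ne h1 h2]
  have h1 : (x * swap a b) a = a := by simp [hb]
  have h2 : (x * swap a b) b = b := by simp [ha]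
  have hw : Inv (x * swap a b) := by
    intro p
    by_cases hpa : p = a
    · rw [hpa, h1, h1]
    by_cases hpb : p = b
    · rw [hpb, h2, h2]
    have := h3 p hpa hpb
    rw [h3 _ (ne_fix h1 hpa) (ne_fix h2 hpb), this, hx]
  refine ⟨x * swap a b, hw, ?_, h1, h2, h3⟩
  obtain ⟨w, -, hc, w1, w2, w3⟩ := exists_add hw hab h1 h2
  have : w = x := by
    ext p
    by_cases hpa : p = a
    · rw [hpa, w1, ha]
    by_cases hpb : p = b
    · rw [hpb, w2, hb]
    rw [w3 p hpa hpb, h3 p hpa hpb]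
  rw [← hc, this]

theorem Inv.isConj {x z : Perm α} (hx : Inv x) (hz : Inv z) (h : #z.support = #x.support) :
    IsConj x z := by
  haveI : Fact (Nat.Prime 2) := ⟨Nat.prime_two⟩
  have hx2 : x ^ 2 = 1 := by ext p; simp [pow_two, hx p]
  have hz2 : z ^ 2 = 1 := by ext p; simp [pow_two, hz p]
  rw [Perm.isConj_iff_cycleType_eq]
  have e1 := Perm.cycleType_of_pow_prime_eq_one hx2
  have e2 := Perm.cycleType_of_pow_prime_eq_one hz2
  have s1 := Perm.sum_cycleType x
  have s2 := Perm.sum_cycleType z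
  rw [e1, Multiset.sum_replicate, smul_eq_mul] at s1
  rw [e2, Multiset.sum_replicate, smul_eq_mul] at s2
  rw [e1, e2]
  congr 1
  omega

/-- supported in `S` -/
def Sup (S : Finset α) (x : Perm α) : Prop := ∀ p, p ∉ S → x p = p

omit [Fintype α] [DecidableEq α] in
theorem Sup.mem {S : Finset α} {x : Perm α} (h : Sup S x) {p : α} (hp : x p ≠ p) : p ∈ S := by
  by_contra e; exact hp (h p e)

/-- the conclusion -/
def Good (S : Finset α) (x y : Perm α) : Prop :=
  ∃ z : Perm α, Inv z ∧ Sup S z ∧ #z.support = #x.support ∧ OddF x z ∧ OddF y z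

/-- `p` lies on an alternating 4-cycle -/
def Cyc (x y : Perm α) (p : α) : Prop := x p ≠ p ∧ y p ≠ p ∧ x p ≠ y p ∧ x (y p) = y (x p)

/-- the exceptional configuration -/
def Bad (S : Finset α) (x y : Perm α) : Prop := #S = 4 ∧ ∀ p ∈ S, Cyc x y p

/-- the hypotheses -/
structure Hyp (S : Finset α) (x y : Perm α) : Prop where
  ix : Inv x
  iy : Inv y
  sx : Sup S x
  sy : Sup S y
  c : #x.support = #y.support

theorem Hyp.symm {S : Finset α} {x y : Perm α} (h : Hyp S x y) : Hyp S y x :=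
  ⟨h.iy, h.ix, h.sy, h.sx, h.c.symm⟩

theorem Good.symm {S : Finset α} {x y : Perm α} (H : Hyp S x y) (h : Good S y x) : Good S x y := by
  obtain ⟨z, h1, h2, h3, h4, h5⟩ := h
  exact ⟨z, h1, h2, h3.trans H.c.symm, h5, h4⟩

/-- induction hypothesis -/
def IH (S : Finset α) : Prop :=
  ∀ (S' : Finset α) (x y : Perm α), #S' < #S → Hyp S' x y → ¬ Bad S' x y → Good S' x y

omit [Fintype α] in
theorem card_sdiff_lt {S R : Finset α} {a : α} (h1 : a ∈ S) (h2 : a ∈ R) : #(S \ R) < #S := by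
  apply card_lt_card
  refine ⟨sdiff_subset, fun h => ?_⟩
  have := h h1
  rw [mem_sdiff] at this
  exact this.2 h2

/-- path end -/
theorem red3 {S : Finset α} {x y : Perm α} (H : Hyp S x y) (ih : IH S) {a b d : α}
    (hab : a ≠ b) (hbd : b ≠ d) (ya : y a = a) (xa : x a = b) (yb : y b = d) : Good S x y := by
  have xb := H.ix.sw xa
  have yd := H.iy.sw yb
  have had : a ≠ d := by
    intro e; rw [← e, ya] at yd; exact hab yd
  have aS : a ∈ S := H.sx.mem (by rw [xa]; exact hab.symm)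
  have bS : b ∈ S := H.sx.mem (by rw [xb]; exact hab)
  have dS : d ∈ S := H.sy.mem (by rw [yd]; exact hbd)
  obtain ⟨x', ix', cx, x'a, x'b, x'o⟩ := exists_strip H.ix hab xa
  obtain ⟨y', iy', cy, y'b, y'd, y'o⟩ := exists_strip H.iy hbd yb
  have y'a : y' a = a := by rw [y'o a hab had, ya]
  have H' : Hyp (S \ {a, b}) x' y' := by
    refine ⟨ix', iy', ?_, ?_, by have := H.c; omega⟩
    · intro p hp
      by_cases h1 : p = a
      · rw [h1, x'a]
      by_cases h2 : p = b
      · rw [h2, x'b]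
      have : p ∉ S := by simpa [h1, h2] using hp
      rw [x'o p h1 h2, H.sx p this]
    · intro p hp
      by_cases h1 : p = a
      · rw [h1, y'a]
      by_cases h2 : p = b
      · rw [h2, y'b]
      have : p ∉ S := by simpa [h1, h2] using hp
      rw [y'o p h2 (fun e => this (e ▸ dS)), H.sy p this]
  obtain ⟨z', iz', sz', cz', o1, o2⟩ := ih _ x' y' (card_sdiff_lt aS (by simp)) H' (by
    rintro ⟨-, h⟩
    exact (h d (by simp [dS, had.symm, hbd.symm])).2.1 y'd)
  have z'a : z' a = a := sz' a (by simp)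
  have z'b : z' b = b := sz' b (by simp)
  obtain ⟨z, iz, cz, za, zb, zo⟩ := exists_add iz' hab z'a z'b
  refine ⟨z, iz, ?_, by omega, ?_, ?_⟩
  · intro p hp
    rw [zo p (fun e => hp (e ▸ aS)) (fun e => hp (e ▸ bS)), sz' p (by simp [hp])]
  · refine OddF.ret (fun p => p ≠ a ∧ p ≠ b) (fun p hp => ⟨ne_fix x'a hp.1, ne_fix x'b hp.2⟩)
      (fun p hp => ⟨ne_fix z'a hp.1, ne_fix z'b hp.2⟩) ?_ ?_ o1
    · intro p hp
      refine ⟨1, odd_one, ?_⟩
      show x (z p) = _
      rw [zo p hp.1 hp.2, x'o _ (ne_fix z'a hp.1) (ne_fix z'b hp.2)]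
    · intro q hq
      right
      refine ⟨1, odd_one, ?_⟩
      show x (z q) = q
      by_cases h1 : q = a
      · rw [h1, za, xb]
      have h2 : q = b := by tauto
      rw [h2, zb, xa]
  · refine OddF.ret (fun p => p ≠ a ∧ p ≠ b) (fun p hp => ⟨ne_fix y'a hp.1, ne_fix y'b hp.2⟩)
      (fun p hp => ⟨ne_fix z'a hp.1, ne_fix z'b hp.2⟩) ?_ ?_ o2
    · intro p hp
      by_cases h : z' p = d
      · refine ⟨3, by decide, ?_⟩
        show y (z (y (z (y (z p))))) = _
        rw [zo p hp.1 hp.2, h, yd, zb, ya, za, yb, y'd]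
      · refine ⟨1, odd_one, ?_⟩
        show y (z p) = _
        rw [zo p hp.1 hp.2, y'o _ (ne_fix z'b hp.2) h]
    · intro q hq
      left
      by_cases h1 : q = a
      · refine ⟨1, ?_⟩
        show y (z q) ≠ a ∧ y (z q) ≠ b
        rw [h1, za, yb]; exact ⟨had.symm, hbd.symm⟩
      have h2 : q = b := by tauto
      refine ⟨2, ?_⟩
      show y (z (y (z q))) ≠ a ∧ y (z (y (z q))) ≠ b
      rw [h2, zb, ya, za, yb]; exact ⟨had.symm, hbd.symm⟩

end Cfsg.Agent.ULT.LF
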