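import Cfsg.Agent.ULT.LF1

/-! Local fusion graphs of the symmetric groups: the remaining reductions. -/

namespace Cfsg.Agent.ULT.LF
open Equiv Finset

variable {α : Type*} [Fintype α] [DecidableEq α]

omit [Fintype α] [DecidableEq α] in
theorem Cyc.elim {x y : Perm α} (ix : Inv x) (iy : Inv y) {q : α} (h : Cyc x y q) :
    ∃ b d c, [q, b, d, c].Nodup ∧ x q = b ∧ y q = d ∧ x d = c ∧ y b = c := by
  obtain ⟨h1, h2, h3, h4⟩ := h
  refine ⟨x q, y q, x (y q), ?_, rfl, rfl, rfl, h4.symm⟩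
  have a1 : q ≠ x (y q) := fun e => h3 (by rw [e, ix, ← e])
  have a2 : x q ≠ x (y q) := fun e => h2 (x.injective e).symm
  have a3 : y q ≠ x (y q) := fun e => h1 (by rw [h4] at e; exact (y.injective e).symm)
  simp [h1.symm, h2.symm, h3, a1, a2, a3]

theorem Bad.elim {S : Finset α} {x y : Perm α} (H : Hyp S x y) (h : Bad S x y) {q : α}
    (hq : q ∈ S) : ∃ b d c, [q, b, d, c].Nodup ∧ x q = b ∧ y q = d ∧ x d = c ∧ y b = c ∧
      ∀ p, p ∈ S ↔ p = q ∨ p = b ∨ p = d ∨ p = c := by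
  obtain ⟨b, d, c, hn, e1, e2, e3, e4⟩ := (h.2 q hq).elim H.ix H.iy
  refine ⟨b, d, c, hn, e1, e2, e3, e4, ?_⟩
  have hn' := hn
  simp only [List.nodup_cons, List.mem_cons, List.not_mem_nil, not_or, List.nodup_nil,
    or_false, and_true, not_false_eq_true] at hn'
  obtain ⟨⟨n1, n2, n3⟩, ⟨n4, n5⟩, n6⟩ := hn'
  have bS : b ∈ S := H.sx.mem (by rw [H.ix.sw e1]; exact n1)
  have dS : d ∈ S := H.sy.mem (by rw [H.iy.sw e2]; exact n2)
  have cS : c ∈ S := H.sx.mem (by rw [H.ix.sw e3]; exact n6)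
  have : [q, b, d, c].toFinset = S := by
    apply eq_of_subset_of_card_le
    · intro p hp
      simp only [List.mem_toFinset, List.mem_cons, List.not_mem_nil, or_false] at hp
      rcases hp with rfl | rfl | rfl | rfl <;> assumption
    · rw [List.toFinset_card_of_nodup hn, h.1]; rfl
  intro p
  rw [← this]; simp

omit [Fintype α] [DecidableEq α] in
theorem OddF.of_mem {S : Finset α} {x z : Perm α} (hx : Sup S x) (hz : Sup S z)
    (h : ∀ p ∈ S, ∃ k, Odd k ∧ (fun q => x (z q))^[k] p = p) : OddF x z := by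
  intro p
  by_cases hp : p ∈ S
  · exact h p hp
  · exact ⟨1, odd_one, by show x (z p) = p; rw [hz p hp, hx p hp]⟩

theorem direct8 {S : Finset α} {x : Perm α} (sx : Sup S x) {a b c d e f g h : α}
    (hn : [a, b, c, d, e, f, g, h].Nodup)
    (hS : ∀ p, p ∈ S ↔ p = a ∨ p = b ∨ p = c ∨ p = d ∨ p = e ∨ p = f ∨ p = g ∨ p = h)
    (hx : ∀ p ∈ S, x p ≠ p) :
    ∃ z : Perm α, Inv z ∧ Sup S z ∧ #z.support = #x.support ∧ z a = b ∧ z b = a ∧ z c = d ∧
      z d = c ∧ z e = f ∧ z f = e ∧ z g = h ∧ z h = g := by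
  have hc : #x.support = 8 := by
    have : x.support = [a, b, c, d, e, f, g, h].toFinset := by
      ext p
      rw [Perm.mem_support]
      constructor
      · intro hp
        have := (hS p).1 (sx.mem hp)
        simpa using this
      · intro hp
        exact hx p ((hS p).2 (by simpa using hp))
    rw [this, List.toFinset_card_of_nodup hn]; rfl
  have hn2 := List.nodup_reverse.2 hn
  simp only [List.reverse_cons, List.reverse_nil, List.nil_append, List.cons_append,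
    List.nodup_cons, List.mem_cons, List.not_mem_nil, not_or, List.nodup_nil,
    or_false, and_true, not_false_eq_true] at hn hn2
  have n1 : a ≠ b := by simp [hn]
  have n14 : c ≠ d := by simp [hn]
  have n23 : e ≠ f := by simp [hn]
  have n28 : g ≠ h := by simp [hn]
  obtain ⟨z1, i1, c1, a1, b1, o1⟩ := exists_add (z := 1) (fun _ => rfl) n1 rfl rfl
  obtain ⟨z2, i2, c2, a2, b2, o2⟩ := exists_add i1 n14 (by simp [*]) (by simp [*])
  obtain ⟨z3, i3, c3, a3, b3, o3⟩ := exists_add i2 n23 (by simp [*]) (by simp [*])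
  obtain ⟨z4, i4, c4, a4, b4, o4⟩ := exists_add i3 n28 (by simp [*]) (by simp [*])
  refine ⟨z4, i4, ?_, ?_, by simp [*], by simp [*], by simp [*], by simp [*], by simp [*],
    by simp [*], a4, b4⟩
  · intro p hp
    rw [hS] at hp
    simp only [not_or] at hp
    obtain ⟨p1, p2, p3, p4, p5, p6, p7, p8⟩ := hp
    simp [*]
  · rw [hc, c4, c3, c2, c1]; simp

/-- two paths of length one -/
theorem red4 {S : Finset α} {x y : Perm α} (H : Hyp S x y) (ih : IH S) {a b c d : α}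
    (hab : a ≠ b) (hcd : c ≠ d) (xa : x a = b) (ya : y a = a) (yb : y b = b) (yc : y c = d)
    (xc : x c = c) (xd : x d = d) (hno : ∀ p, ¬ Cyc x y p) : Good S x y := by
  have xb := H.ix.sw xa
  have yd := H.iy.sw yc
  have hac : a ≠ c := by rintro rfl; exact hab (xc.symm.trans xa)
  have had : a ≠ d := by rintro rfl; exact hab (xd.symm.trans xa)
  have hbc : b ≠ c := by rintro rfl; exact hab (xb.symm.trans xc)
  have hbd : b ≠ d := by rintro rfl; exact hab (xb.symm.trans xd)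
  have aS : a ∈ S := H.sx.mem (by rw [xa]; exact hab.symm)
  have bS : b ∈ S := H.sx.mem (by rw [xb]; exact hab)
  have cS : c ∈ S := H.sy.mem (by rw [yc]; exact hcd.symm)
  have dS : d ∈ S := H.sy.mem (by rw [yd]; exact hcd)
  obtain ⟨x', ix', cx, x'a, x'b, x'o⟩ := exists_strip H.ix hab xa
  obtain ⟨y', iy', cy, y'c, y'd, y'o⟩ := exists_strip H.iy hcd yc
  have y'a : y' a = a := by rw [y'o a hac had, ya]
  have y'b : y' b = b := by rw [y'o b hbc hbd, yb]
  have x'c : x' c = c := by rw [x'o c hac.symm hbc.symm, xc]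
  have x'd : x' d = d := by rw [x'o d had.symm hbd.symm, xd]
  have H' : Hyp (S \ {a, b, c, d}) x' y' := by
    refine ⟨ix', iy', ?_, ?_, by have := H.c; omega⟩
    · intro p hp
      by_cases h0 : p ∈ S
      · have : p = a ∨ p = b ∨ p = c ∨ p = d := by simpa [h0, -not_or] using hp
        rcases this with rfl | rfl | rfl | rfl <;> assumption
      rw [x'o p (fun e => h0 (e ▸ aS)) (fun e => h0 (e ▸ bS)), H.sx p h0]
    · intro p hp
      by_cases h0 : p ∈ S
      · have : p = a ∨ p = b ∨ p = c ∨ p = d := by simpa [h0, -not_or] using hp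
        rcases this with rfl | rfl | rfl | rfl <;> assumption
      rw [y'o p (fun e => h0 (e ▸ cS)) (fun e => h0 (e ▸ dS)), H.sy p h0]
  have tx : ∀ p, p ≠ a ∧ p ≠ b ∧ p ≠ c ∧ p ≠ d → x' p ≠ a ∧ x' p ≠ b ∧ x' p ≠ c ∧ x' p ≠ d :=
    fun p hp => ⟨ne_fix x'a hp.1, ne_fix x'b hp.2.1, ne_fix x'c hp.2.2.1, ne_fix x'd hp.2.2.2⟩
  have ty : ∀ p, p ≠ a ∧ p ≠ b ∧ p ≠ c ∧ p ≠ d → y' p ≠ a ∧ y' p ≠ b ∧ y' p ≠ c ∧ y' p ≠ d :=
    fun p hp => ⟨ne_fix y'a hp.1, ne_fix y'b hp.2.1, ne_fix y'c hp.2.2.1, ne_fix y'd hp.2.2.2⟩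
  obtain ⟨z', iz', sz', cz', o1, o2⟩ := ih _ x' y' (card_sdiff_lt aS (by simp)) H' (by
    rintro ⟨h4, h⟩
    obtain ⟨q, hq⟩ : (S \ {a, b, c, d}).Nonempty := card_pos.1 (by omega)
    have hq' : q ≠ a ∧ q ≠ b ∧ q ≠ c ∧ q ≠ d := by
      have := (mem_sdiff.1 hq).2
      simpa using this
    obtain ⟨h1, h2, h3, h5⟩ := h q hq
    have t1 := tx q hq'
    have t2 := ty q hq'
    rw [x'o _ t2.1 t2.2.1, y'o _ t1.2.2.1 t1.2.2.2] at h5
    rw [x'o q hq'.1 hq'.2.1] at h1 h3 h5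
    rw [y'o q hq'.2.2.1 hq'.2.2.2] at h2 h3 h5
    exact hno q ⟨h1, h2, h3, h5⟩)
  have z'a : z' a = a := sz' a (by simp)
  have z'b : z' b = b := sz' b (by simp)
  have z'c : z' c = c := sz' c (by simp)
  have z'd : z' d = d := sz' d (by simp)
  have tz : ∀ p, p ≠ a ∧ p ≠ b ∧ p ≠ c ∧ p ≠ d → z' p ≠ a ∧ z' p ≠ b ∧ z' p ≠ c ∧ z' p ≠ d :=
    fun p hp => ⟨ne_fix z'a hp.1, ne_fix z'b hp.2.1, ne_fix z'c hp.2.2.1, ne_fix z'd hp.2.2.2⟩
  obtain ⟨z, iz, cz, za, zc, zo⟩ := exists_add iz' hac z'a z'c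
  have zb : z b = b := by rw [zo b hab.symm hbc, z'b]
  have zd : z d = d := by rw [zo d had.symm hcd.symm, z'd]
  refine ⟨z, iz, ?_, by omega, ?_, ?_⟩
  · intro p hp
    rw [zo p (fun e => hp (e ▸ aS)) (fun e => hp (e ▸ cS)), sz' p (by simp [hp])]
  · refine OddF.ret (fun p => p ≠ a ∧ p ≠ b ∧ p ≠ c ∧ p ≠ d) tx tz ?_ ?_ o1
    · intro p hp
      refine ⟨1, odd_one, ?_⟩
      show x (z p) = _
      rw [zo p hp.1 hp.2.2.1, x'o _ (tz p hp).1 (tz p hp).2.1]
    · intro q hq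
      right
      have : q = a ∨ q = b ∨ q = c ∨ q = d := by tauto
      rcases this with rfl | rfl | rfl | rfl
      · exact ⟨3, by decide, by simp [*]⟩
      · exact ⟨3, by decide, by simp [*]⟩
      · exact ⟨3, by decide, by simp [*]⟩
      · exact ⟨1, by decide, by simp [*]⟩
  · refine OddF.ret (fun p => p ≠ a ∧ p ≠ b ∧ p ≠ c ∧ p ≠ d) ty tz ?_ ?_ o2
    · intro p hp
      refine ⟨1, odd_one, ?_⟩
      show y (z p) = _
      rw [zo p hp.1 hp.2.2.1, y'o _ (tz p hp).2.2.1 (tz p hp).2.2.2]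
    · intro q hq
      right
      have : q = a ∨ q = b ∨ q = c ∨ q = d := by tauto
      rcases this with rfl | rfl | rfl | rfl
      · exact ⟨3, by decide, by simp [*]⟩
      · exact ⟨1, by decide, by simp [*]⟩
      · exact ⟨3, by decide, by simp [*]⟩
      · exact ⟨3, by decide, by simp [*]⟩

end Cfsg.Agent.ULT.LF
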