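import Cfsg.Agent.ULT.LF2

/-! Local fusion graphs of the symmetric groups: long cycles and 4-cycles. -/

namespace Cfsg.Agent.ULT.LF
open Equiv Finset

variable {α : Type*} [Fintype α] [DecidableEq α]

omit [Fintype α] [DecidableEq α] in
theorem off4 {x : Perm α} {a b c d : α} (ha : x a = a) (hb : x b = b) (hc : x c = c)
    (hd : x d = d) (p : α) (hp : p ≠ a ∧ p ≠ b ∧ p ≠ c ∧ p ≠ d) :
    x p ≠ a ∧ x p ≠ b ∧ x p ≠ c ∧ x p ≠ d :=
  ⟨ne_fix ha hp.1, ne_fix hb hp.2.1, ne_fix hc hp.2.2.1, ne_fix hd hp.2.2.2⟩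

omit [Fintype α] [DecidableEq α] in
theorem not_off4 {q a b c d : α} (h : ¬ (q ≠ a ∧ q ≠ b ∧ q ≠ c ∧ q ≠ d)) :
    q = a ∨ q = b ∨ q = c ∨ q = d := by tauto

omit [Fintype α] in
theorem sup4 {S : Finset α} {x x' : Perm α} (sx : Sup S x) {a b c d : α} (ha : x' a = a)
    (hb : x' b = b) (hc : x' c = c) (hd : x' d = d) (ho : ∀ p, p ∉ S → x' p = x p) :
    Sup (S \ {a, b, c, d}) x' := by
  intro p hp
  by_cases h0 : p ∈ S
  · have : p = a ∨ p = b ∨ p = c ∨ p = d := by simpa [h0, -not_or] using hp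
    rcases this with rfl | rfl | rfl | rfl <;> assumption
  rw [ho p h0, sx p h0]

/-- a long alternating path -/
theorem red5 {S : Finset α} {x y : Perm α} (H : Hyp S x y) (ih : IH S) {c a b e f d : α}
    (hn : [c, a, b, e, f, d].Nodup) (yc : y c = a) (xa : x a = b) (yb : y b = e) (xe : x e = f)
    (yf : y f = d) : Good S x y := by
  have hn0 := hn
  have hn2 := List.nodup_reverse.2 hn
  simp only [List.reverse_cons, List.reverse_nil, List.nil_append, List.cons_append,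
    List.nodup_cons, List.mem_cons, List.not_mem_nil, not_or, List.nodup_nil,
    or_false, and_true, not_false_eq_true] at hn hn2
  have ya := H.iy.sw yc
  have xb := H.ix.sw xa
  have ye := H.iy.sw yb
  have xf := H.ix.sw xe
  have yd := H.iy.sw yf
  have aS : a ∈ S := H.sx.mem (by simp [xa, hn, hn2])
  have bS : b ∈ S := H.sx.mem (by simp [xb, hn, hn2])
  have eS : e ∈ S := H.sx.mem (by simp [xe, hn, hn2])
  have fS : f ∈ S := H.sx.mem (by simp [xf, hn, hn2])
  have cS : c ∈ S := H.sy.mem (by simp [yc, hn, hn2])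
  have dS : d ∈ S := H.sy.mem (by simp [yd, hn, hn2])
  obtain ⟨x1, ix1, cx1, x1a, x1b, x1o⟩ := exists_strip H.ix (by simp [hn]) xa
  obtain ⟨x', ix', cx', x'e, x'f, x'o⟩ := exists_strip (a := e) (b := f) ix1 (by simp [hn])
    (by simp [*])
  obtain ⟨y1, iy1, cy1, y1c, y1a, y1o⟩ := exists_strip H.iy (by simp [hn]) yc
  obtain ⟨y2, iy2, cy2, y2b, y2e, y2o⟩ := exists_strip (a := b) (b := e) iy1 (by simp [hn])
    (by simp [*])
  obtain ⟨y3, iy3, cy3, y3f, y3d, y3o⟩ := exists_strip (a := f) (b := d) iy2 (by simp [hn])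
    (by simp [*])
  obtain ⟨y', iy', cy', y'c, y'd, y'o⟩ := exists_add (a := c) (b := d) iy3 (by simp [hn])
    (by simp [*]) y3d
  have x'a : x' a = a := by simp [*]
  have x'b : x' b = b := by simp [*]
  have y'a : y' a = a := by simp [*]
  have y'b : y' b = b := by simp [*]
  have y'e : y' e = e := by simp [*]
  have y'f : y' f = f := by simp [*]
  have xo : ∀ p, p ≠ a ∧ p ≠ b ∧ p ≠ e ∧ p ≠ f → x' p = x p := by
    rintro p ⟨h1, h2, h3, h4⟩
    rw [x'o p h3 h4, x1o p h1 h2]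
  have yo : ∀ p, p ≠ a ∧ p ≠ b ∧ p ≠ e ∧ p ≠ f → p ≠ c → p ≠ d → y' p = y p := by
    rintro p ⟨h1, h2, h3, h4⟩ h5 h6
    rw [y'o p h5 h6, y3o p h4 h6, y2o p h2 h3, y1o p h5 h1]
  have nS : ∀ p, p ∉ S → p ≠ a ∧ p ≠ b ∧ p ≠ e ∧ p ≠ f := fun p hp =>
    ⟨fun h => hp (h ▸ aS), fun h => hp (h ▸ bS), fun h => hp (h ▸ eS), fun h => hp (h ▸ fS)⟩
  have H' : Hyp (S \ {a, b, e, f}) x' y' :=
    ⟨ix', iy', sup4 H.sx x'a x'b x'e x'f fun p hp => xo p (nS p hp),
      sup4 H.sy y'a y'b y'e y'f fun p hp =>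
        yo p (nS p hp) (fun h => hp (h ▸ cS)) (fun h => hp (h ▸ dS)), by have := H.c; omega⟩
  clear x1o x'o y1o y2o y3o y'o x1a x1b y1c y1a y2b y2e y3f y3d
  by_cases hB : Bad (S \ {a, b, e, f}) x' y'
  · obtain ⟨g, d', h, hm, e1, e2, e3, e4, hS⟩ := hB.elim H' (q := c) (by simp [cS, hn])
    obtain rfl : d = d' := y'c.symm.trans e2
    have gS : g ∈ S \ {a, b, e, f} := (hS g).2 (by simp)
    have hhS : h ∈ S \ {a, b, e, f} := (hS h).2 (by simp)
    simp only [mem_sdiff, mem_insert, mem_singleton, not_or] at gS hhS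
    have hm2 := List.nodup_reverse.2 hm
    simp only [List.reverse_cons, List.reverse_nil, List.nil_append, List.cons_append,
      List.nodup_cons, List.mem_cons, List.not_mem_nil, not_or, List.nodup_nil,
      or_false, and_true, not_false_eq_true] at hm hm2
    have xc : x c = g := by rw [← xo c (by simp [hn]), e1]
    have xd : x d = h := by rw [← xo d (by simp [hn2]), e3]
    have yg : y g = h := by rw [← yo g gS.2 (by simp [hm2]) (by simp [hm]), e4]
    have xg := H.ix.sw xc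
    have xh := H.ix.sw xd
    have yh := H.iy.sw yg
    have hS' : ∀ p, p ∈ S ↔ p = a ∨ p = b ∨ p = f ∨ p = d ∨ p = e ∨ p = g ∨ p = h ∨ p = c := by
      intro p
      have := hS p
      simp only [mem_sdiff, mem_insert, mem_singleton, not_or] at this
      constructor
      · intro hp
        by_cases h0 : p ≠ a ∧ p ≠ b ∧ p ≠ e ∧ p ≠ f
        · rcases this.1 ⟨hp, h0⟩ with rfl | rfl | rfl | rfl <;> simp
        · rcases not_off4 h0 with rfl | rfl | rfl | rfl <;> simp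
      · rintro (rfl | rfl | rfl | rfl | rfl | rfl | rfl | rfl)
        exacts [aS, bS, fS, dS, eS, gS.1, hhS.1, cS]
    obtain ⟨-, g1, g2, g3, g4⟩ := gS
    obtain ⟨-, h1, h2, h3, h4⟩ := hhS
    have g1' := Ne.symm g1
    have g2' := Ne.symm g2
    have g3' := Ne.symm g3
    have g4' := Ne.symm g4
    have h1' := Ne.symm h1
    have h2' := Ne.symm h2
    have h3' := Ne.symm h3
    have h4' := Ne.symm h4
    obtain ⟨z, iz, sz, cz, z1, z2, z3, z4, z5, z6, z7, z8⟩ := direct8 H.sx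
      (a := a) (b := b) (c := f) (d := d) (e := e) (f := g) (g := h) (h := c)
      (by simp [*]) hS' (by
        intro p hp
        rcases (hS' p).1 hp with rfl | rfl | rfl | rfl | rfl | rfl | rfl | rfl <;> simp [*])
    refine ⟨z, iz, sz, cz, OddF.of_mem H.sx sz ?_, OddF.of_mem H.sy sz ?_⟩
    · intro p hp
      rcases (hS' p).1 hp with rfl | rfl | rfl | rfl | rfl | rfl | rfl | rfl <;>
        exact ⟨3, by decide, by simp [*]⟩
    · intro p hp
      rcases (hS' p).1 hp with rfl | rfl | rfl | rfl | rfl | rfl | rfl | rfl <;>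
        exact ⟨3, by decide, by simp [*]⟩
  obtain ⟨z', iz', sz', cz', o1, o2⟩ := ih _ x' y' (card_sdiff_lt aS (by simp)) H' hB
  have z'a : z' a = a := sz' a (by simp)
  have z'b : z' b = b := sz' b (by simp)
  have z'e : z' e = e := sz' e (by simp)
  have z'f : z' f = f := sz' f (by simp)
  obtain ⟨z1, iz1, cz1, z1a, z1b, z1o⟩ := exists_add iz' (by simp [hn]) z'a z'b
  obtain ⟨z, iz, cz, ze, zf, zo⟩ := exists_add (a := e) (b := f) iz1 (by simp [hn])
    (by simp [*]) (by simp [*])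
  have za : z a = b := by simp [*]
  have zb : z b = a := by simp [*]
  have zo' : ∀ p, p ≠ a ∧ p ≠ b ∧ p ≠ e ∧ p ≠ f → z p = z' p := by
    rintro p ⟨h1, h2, h3, h4⟩
    rw [zo p h3 h4, z1o p h1 h2]
  have tz := off4 z'a z'b z'e z'f
  refine ⟨z, iz, ?_, by omega, ?_, ?_⟩
  · intro p hp
    rw [zo' p (nS p hp), sz' p (by simp [hp])]
  · refine OddF.ret _ (off4 x'a x'b x'e x'f) tz ?_ ?_ o1
    · intro p hp
      refine ⟨1, odd_one, ?_⟩
      show x (z p) = _
      rw [zo' p hp, xo _ (tz p hp)]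
    · intro q hq
      right
      have : q = a ∨ q = b ∨ q = e ∨ q = f := not_off4 hq
      rcases this with rfl | rfl | rfl | rfl <;> exact ⟨1, by decide, by simp [*]⟩
  · refine OddF.ret _ (off4 y'a y'b y'e y'f) tz ?_ ?_ o2
    · intro p hp
      by_cases h1 : z' p = c
      · refine ⟨3, by decide, ?_⟩
        show y (z (y (z (y (z p))))) = _
        rw [zo' p hp, h1, yc, za, yb, ze, yf, y'c]
      by_cases h2 : z' p = d
      · refine ⟨3, by decide, ?_⟩
        show y (z (y (z (y (z p))))) = _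
        rw [zo' p hp, h2, yd, zf, ye, zb, ya, y'd]
      refine ⟨1, odd_one, ?_⟩
      show y (z p) = _
      rw [zo' p hp, yo _ (tz p hp) h1 h2]
    · intro q hq
      left
      have : q = a ∨ q = b ∨ q = e ∨ q = f := not_off4 hq
      rcases this with rfl | rfl | rfl | rfl
      · exact ⟨2, by simp [*]⟩
      · exact ⟨1, by simp [*]⟩
      · exact ⟨1, by simp [*]⟩
      · exact ⟨2, by simp [*]⟩

omit [Fintype α] [DecidableEq α] in
theorem loc7a {x x' z z' : Perm α} {q a b c d : α} (hn : [q, a, b, c, d].Nodup)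
    (xa : x a = b) (xb : x b = a) (xc : x c = d) (xd : x d = c)
    (x'a : x' a = a) (x'b : x' b = b) (x'c : x' c = c) (x'd : x' d = d)
    (xo : ∀ p, p ≠ a ∧ p ≠ b ∧ p ≠ c ∧ p ≠ d → x' p = x p)
    (z'a : z' a = a) (z'b : z' b = b) (z'c : z' c = c) (z'd : z' d = d) (z'q : z' q = q)
    (zq : z q = a) (za : z a = q) (zb : z b = d) (zd : z d = b) (zc : z c = c)
    (zo : ∀ p, p ≠ a ∧ p ≠ b ∧ p ≠ c ∧ p ≠ d → p ≠ q → z p = z' p) (o : OddF x' z') :
    OddF x z := by
  have hn2 := List.nodup_reverse.2 hn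
  simp only [List.reverse_cons, List.reverse_nil, List.nil_append, List.cons_append,
    List.nodup_cons, List.mem_cons, List.not_mem_nil, not_or, List.nodup_nil,
    or_false, and_true, not_false_eq_true] at hn hn2
  have tz := off4 z'a z'b z'c z'd
  have hq : q ≠ a ∧ q ≠ b ∧ q ≠ c ∧ q ≠ d := hn.1
  have t := off4 x'a x'b x'c x'd q hq
  rw [xo q hq] at t
  refine OddF.ret _ (off4 x'a x'b x'c x'd) tz ?_ ?_ o
  · intro p hp
    by_cases h1 : p = q
    · refine ⟨5, by decide, ?_⟩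
      show x (z (x (z (x (z (x (z (x (z p))))))))) = _
      rw [h1, zq, xa, zb, xd, zc, xc, zd, xb, za, z'q, xo q hq]
    refine ⟨1, odd_one, ?_⟩
    show x (z p) = _
    rw [zo p hp h1, xo _ (tz p hp)]
  · intro p hp
    left
    have : p = a ∨ p = b ∨ p = c ∨ p = d := not_off4 hp
    clear xo zo
    rcases this with rfl | rfl | rfl | rfl
    · exact ⟨1, by simp [*]⟩
    · exact ⟨4, by simp [*]⟩
    · exact ⟨3, by simp [*]⟩
    · exact ⟨2, by simp [*]⟩

omit [Fintype α] [DecidableEq α] in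
theorem loc7b {x x' z z' : Perm α} {q r a b c d : α} (hn : [q, r, a, b, c, d].Nodup)
    (xa : x a = b) (xb : x b = a) (xc : x c = d) (xd : x d = c)
    (x'a : x' a = a) (x'b : x' b = b) (x'c : x' c = c) (x'd : x' d = d)
    (xo : ∀ p, p ≠ a ∧ p ≠ b ∧ p ≠ c ∧ p ≠ d → x' p = x p)
    (z'a : z' a = a) (z'b : z' b = b) (z'c : z' c = c) (z'd : z' d = d) (z'q : z' q = r)
    (z'r : z' r = q)
    (zq : z q = a) (za : z a = q) (zb : z b = d) (zd : z d = b) (zc : z c = r) (zr : z r = c)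
    (zo : ∀ p, p ≠ a ∧ p ≠ b ∧ p ≠ c ∧ p ≠ d → p ≠ q → p ≠ r → z p = z' p) (o : OddF x' z') :
    OddF x z := by
  have hn2 := List.nodup_reverse.2 hn
  simp only [List.reverse_cons, List.reverse_nil, List.nil_append, List.cons_append,
    List.nodup_cons, List.mem_cons, List.not_mem_nil, not_or, List.nodup_nil,
    or_false, and_true, not_false_eq_true] at hn hn2
  have tz := off4 z'a z'b z'c z'd
  have hq : q ≠ a ∧ q ≠ b ∧ q ≠ c ∧ q ≠ d := hn.1.2
  have hr : r ≠ a ∧ r ≠ b ∧ r ≠ c ∧ r ≠ d := hn.2.1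
  have t := off4 x'a x'b x'c x'd q hq
  rw [xo q hq] at t
  have t' := off4 x'a x'b x'c x'd r hr
  rw [xo r hr] at t'
  refine OddF.ret _ (off4 x'a x'b x'c x'd) tz ?_ ?_ o
  · intro p hp
    by_cases h1 : p = q
    · refine ⟨3, by decide, ?_⟩
      show x (z (x (z (x (z p))))) = _
      rw [h1, zq, xa, zb, xd, zc, z'q, xo r hr]
    by_cases h2 : p = r
    · refine ⟨3, by decide, ?_⟩
      show x (z (x (z (x (z p))))) = _
      rw [h2, zr, xc, zd, xb, za, z'r, xo q hq]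
    refine ⟨1, odd_one, ?_⟩
    show x (z p) = _
    rw [zo p hp h1 h2, xo _ (tz p hp)]
  · intro p hp
    left
    have : p = a ∨ p = b ∨ p = c ∨ p = d := not_off4 hp
    clear xo zo
    rcases this with rfl | rfl | rfl | rfl
    · exact ⟨1, by simp [*]⟩
    · exact ⟨2, by simp [*]⟩
    · exact ⟨1, by simp [*]⟩
    · exact ⟨2, by simp [*]⟩

/-- a 4-cycle component -/
theorem red7 {S : Finset α} {x y : Perm α} (H : Hyp S x y) (ih : IH S) (hB : ¬ Bad S x y)
    {a : α} (hC : Cyc x y a) : Good S x y := by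
  obtain ⟨b, d, c, hn, xa, ya, xd, yb⟩ := hC.elim H.ix H.iy
  have hn0 := hn
  have hn2 := List.nodup_reverse.2 hn
  simp only [List.reverse_cons, List.reverse_nil, List.nil_append, List.cons_append,
    List.nodup_cons, List.mem_cons, List.not_mem_nil, not_or, List.nodup_nil,
    or_false, and_true, not_false_eq_true] at hn hn2
  have xb := H.ix.sw xa
  have yd := H.iy.sw ya
  have xc := H.ix.sw xd
  have yc := H.iy.sw yb
  have aS : a ∈ S := H.sx.mem (by simp [xa, hn, hn2])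
  have bS : b ∈ S := H.sx.mem (by simp [xb, hn, hn2])
  have cS : c ∈ S := H.sx.mem (by simp [xc, hn, hn2])
  have dS : d ∈ S := H.sx.mem (by simp [xd, hn, hn2])
  obtain ⟨x1, ix1, cx1, x1a, x1b, x1o⟩ := exists_strip H.ix (by simp [hn]) xa
  obtain ⟨x', ix', cx', x'c, x'd, x'o⟩ := exists_strip (a := c) (b := d) ix1 (by simp [hn2])
    (by simp [*])
  obtain ⟨y1, iy1, cy1, y1a, y1d, y1o⟩ := exists_strip H.iy (by simp [hn]) ya
  obtain ⟨y', iy', cy', y'b, y'c, y'o⟩ := exists_strip (a := b) (b := c) iy1 (by simp [hn])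
    (by simp [*])
  have x'a : x' a = a := by simp [*]
  have x'b : x' b = b := by simp [*]
  have y'a : y' a = a := by simp [*]
  have y'd : y' d = d := by simp [*]
  have xo : ∀ p, p ≠ a ∧ p ≠ b ∧ p ≠ c ∧ p ≠ d → x' p = x p := by
    rintro p ⟨h1, h2, h3, h4⟩
    rw [x'o p h3 h4, x1o p h1 h2]
  have yo : ∀ p, p ≠ a ∧ p ≠ b ∧ p ≠ c ∧ p ≠ d → y' p = y p := by
    rintro p ⟨h1, h2, h3, h4⟩
    rw [y'o p h2 h3, y1o p h1 h4]
  have nS : ∀ p, p ∉ S → p ≠ a ∧ p ≠ b ∧ p ≠ c ∧ p ≠ d := fun p hp =>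
    ⟨fun h => hp (h ▸ aS), fun h => hp (h ▸ bS), fun h => hp (h ▸ cS), fun h => hp (h ▸ dS)⟩
  have H' : Hyp (S \ {a, b, c, d}) x' y' :=
    ⟨ix', iy', sup4 H.sx x'a x'b x'c x'd fun p hp => xo p (nS p hp),
      sup4 H.sy y'a y'b y'c y'd fun p hp => yo p (nS p hp), by have := H.c; omega⟩
  clear x1o x'o y1o y'o x1a x1b y1d y1a
  obtain ⟨q, hq⟩ : (S \ {a, b, c, d}).Nonempty := by
    by_contra hne
    rw [not_nonempty_iff_eq_empty, sdiff_eq_empty_iff_subset] at hne
    apply hB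
    have : S = [a, b, d, c].toFinset := by
      apply Subset.antisymm
      · intro p hp
        have := hne hp
        simp only [mem_insert, mem_singleton] at this
        rcases this with rfl | rfl | rfl | rfl <;> simp
      · intro p hp
        simp only [List.mem_toFinset, List.mem_cons, List.not_mem_nil, or_false] at hp
        rcases hp with rfl | rfl | rfl | rfl <;> assumption
    refine ⟨by rw [this, List.toFinset_card_of_nodup hn0]; rfl, ?_⟩
    intro p hp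
    have := hne hp
    simp only [mem_insert, mem_singleton] at this
    clear hne hp
    rcases this with rfl | rfl | rfl | rfl <;> simp [Cyc, xa, xb, xc, xd, ya, yb, yc, yd, hn, hn2]
  have mS : ∀ p, p ∈ S \ {a, b, c, d} → p ∈ S ∧ p ≠ a ∧ p ≠ b ∧ p ≠ c ∧ p ≠ d := by
    intro p hp
    simpa only [mem_sdiff, mem_insert, mem_singleton, not_or] using hp
  by_cases hB' : Bad (S \ {a, b, c, d}) x' y'
  · obtain ⟨b', d', c', hm, e1, e2, e3, e4, hS⟩ := hB'.elim H' hq
    have qS := mS q hq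
    have b'S := mS b' ((hS _).2 (by simp))
    have c'S := mS c' ((hS _).2 (by simp))
    have d'S := mS d' ((hS _).2 (by simp))
    have hm2 := List.nodup_reverse.2 hm
    simp only [List.reverse_cons, List.reverse_nil, List.nil_append, List.cons_append,
      List.nodup_cons, List.mem_cons, List.not_mem_nil, not_or, List.nodup_nil,
      or_false, and_true, not_false_eq_true] at hm hm2
    rw [xo _ qS.2] at e1
    rw [yo _ qS.2] at e2
    rw [xo _ d'S.2] at e3
    rw [yo _ b'S.2] at e4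
    have f1 := H.ix.sw e1
    have f2 := H.iy.sw e2
    have f3 := H.ix.sw e3
    have f4 := H.iy.sw e4
    have hS' : ∀ p, p ∈ S ↔
        p = a ∨ p = b ∨ p = q ∨ p = d' ∨ p = c ∨ p = b' ∨ p = d ∨ p = c' := by
      intro p
      have := hS p
      simp only [mem_sdiff, mem_insert, mem_singleton, not_or] at this
      constructor
      · intro hp
        by_cases h0 : p ≠ a ∧ p ≠ b ∧ p ≠ c ∧ p ≠ d
        · rcases this.1 ⟨hp, h0⟩ with rfl | rfl | rfl | rfl <;> simp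
        · rcases not_off4 h0 with rfl | rfl | rfl | rfl <;> simp
      · rintro (rfl | rfl | rfl | rfl | rfl | rfl | rfl | rfl)
        exacts [aS, bS, qS.1, d'S.1, cS, b'S.1, dS, c'S.1]
    have sy : ∀ p, p ∈ S ∧ p ≠ a ∧ p ≠ b ∧ p ≠ c ∧ p ≠ d → a ≠ p ∧ b ≠ p ∧ c ≠ p ∧ d ≠ p :=
      fun p hp => ⟨hp.2.1.symm, hp.2.2.1.symm, hp.2.2.2.1.symm, hp.2.2.2.2.symm⟩
    have q1 := sy _ qS
    have q2 := sy _ b'S
    have q3 := sy _ c'S
    have q4 := sy _ d'S
    replace qS := qS.2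
    replace b'S := b'S.2
    replace c'S := c'S.2
    replace d'S := d'S.2
    clear xo yo hS sy mS nS
    obtain ⟨z, iz, sz, cz, z1, z2, z3, z4, z5, z6, z7, z8⟩ := direct8 H.sx
      (a := a) (b := b) (c := q) (d := d') (e := c) (f := b') (g := d) (h := c')
      (by simp [hn, hn2, hm, hm2, q1, q2, q3, q4, qS, b'S, c'S, d'S]) hS' (by
        intro p hp
        rcases (hS' p).1 hp with rfl | rfl | rfl | rfl | rfl | rfl | rfl | rfl <;>
          simp [hn, hn2, hm, hm2, xa, xb, xc, xd, e1, e3, f1, f3])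
    refine ⟨z, iz, sz, cz, OddF.of_mem H.sx sz ?_, OddF.of_mem H.sy sz ?_⟩
    · intro p hp
      rcases (hS' p).1 hp with rfl | rfl | rfl | rfl | rfl | rfl | rfl | rfl <;>
        exact ⟨3, by decide, by
          simp [xa, xb, xc, xd, e1, e3, f1, f3, z1, z2, z3, z4, z5, z6, z7, z8]⟩
    · intro p hp
      rcases (hS' p).1 hp with rfl | rfl | rfl | rfl | rfl | rfl | rfl | rfl <;>
        exact ⟨3, by decide, by
          simp [ya, yb, yc, yd, e2, e4, f2, f4, z1, z2, z3, z4, z5, z6, z7, z8]⟩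
  obtain ⟨z', iz', sz', cz', o1, o2⟩ := ih _ x' y' (card_sdiff_lt aS (by simp)) H' hB'
  have z'a : z' a = a := sz' a (by simp)
  have z'b : z' b = b := sz' b (by simp)
  have z'c : z' c = c := sz' c (by simp)
  have z'd : z' d = d := sz' d (by simp)
  obtain ⟨qS, q1, q2, q3, q4⟩ := mS q hq
  have yo' : ∀ p, p ≠ a ∧ p ≠ d ∧ p ≠ c ∧ p ≠ b → y' p = y p := fun p hp =>
    yo p ⟨hp.1, hp.2.2.2, hp.2.2.1, hp.2.1⟩
  by_cases hr : z' q = q
  · obtain ⟨z1, iz1, cz1, z1q, z1a, z1o⟩ := exists_add iz' q1 hr z'a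
    obtain ⟨z, iz, cz, zb, zd, zo⟩ := exists_add (a := b) (b := d) iz1 (by simp [hn])
      (by rw [z1o _ q2.symm (by simp [hn2]), z'b]) (by rw [z1o _ q4.symm (by simp [hn2]), z'd])
    have zq : z q = a := by rw [zo _ q2 q4, z1q]
    have za : z a = q := by rw [zo _ (by simp [hn]) (by simp [hn]), z1a]
    have zc : z c = c := by
      rw [zo _ (by simp [hn2]) (by simp [hn2]), z1o _ q3.symm (by simp [hn2]), z'c]
    have zo' : ∀ p, p ≠ a ∧ p ≠ b ∧ p ≠ c ∧ p ≠ d → p ≠ q → z p = z' p := by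
      rintro p ⟨h1, h2, h3, h4⟩ h5
      rw [zo p h2 h4, z1o p h5 h1]
    refine ⟨z, iz, ?_, by omega, ?_, ?_⟩
    · intro p hp
      rw [zo' p (nS p hp) (fun h => hp (h ▸ qS)), sz' p (by simp [hp])]
    · exact loc7a (by simp [hn, hn2, q1, q2, q3, q4]) xa xb xc xd x'a x'b x'c x'd xo z'a z'b z'c
        z'd hr zq za zb zd zc zo' o1
    · exact loc7a (by simp [hn, hn2, q1, q2, q3, q4]) ya yd yc yb y'a y'd y'c y'b yo' z'a z'd z'c
        z'b hr zq za zd zb zc (fun p hp => zo' p ⟨hp.1, hp.2.2.2, hp.2.2.1, hp.2.1⟩) o2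
  obtain ⟨r, hzr⟩ : ∃ r, z' q = r := ⟨_, rfl⟩
  have hrq : q ≠ r := by rw [← hzr]; exact Ne.symm hr
  have z'r := iz'.sw hzr
  obtain ⟨rS, r1, r2, r3, r4⟩ := mS r (sz'.mem (by rw [z'r]; exact hrq))
  obtain ⟨z0, iz0, cz0, z0q, z0r, z0o⟩ := exists_strip iz' hrq hzr
  obtain ⟨z1, iz1, cz1, z1q, z1a, z1o⟩ := exists_add iz0 q1 z0q
    (by rw [z0o _ q1.symm r1.symm, z'a])
  obtain ⟨z2, iz2, cz2, z2b, z2d, z2o⟩ := exists_add (a := b) (b := d) iz1 (by simp [hn])
    (by rw [z1o _ q2.symm (by simp [hn2]), z0o _ q2.symm r2.symm, z'b])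
    (by rw [z1o _ q4.symm (by simp [hn2]), z0o _ q4.symm r4.symm, z'd])
  obtain ⟨z, iz, cz, zc, zr, zo⟩ := exists_add (a := c) (b := r) iz2 r3.symm
    (by rw [z2o _ (by simp [hn2]) (by simp [hn2]), z1o _ q3.symm (by simp [hn2]),
      z0o _ q3.symm r3.symm, z'c])
    (by rw [z2o _ r2 r4, z1o _ hrq.symm r1, z0r])
  have zq : z q = a := by rw [zo _ q3 hrq, z2o _ q2 q4, z1q]
  have za : z a = q := by
    rw [zo _ (by simp [hn]) r1.symm, z2o _ (by simp [hn]) (by simp [hn]), z1a]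
  have zb : z b = d := by rw [zo _ (by simp [hn]) r2.symm, z2b]
  have zd : z d = b := by rw [zo _ (by simp [hn]) r4.symm, z2d]
  have zo' : ∀ p, p ≠ a ∧ p ≠ b ∧ p ≠ c ∧ p ≠ d → p ≠ q → p ≠ r → z p = z' p := by
    rintro p ⟨h1, h2, h3, h4⟩ h5 h6
    rw [zo p h3 h6, z2o p h2 h4, z1o p h5 h1, z0o p h5 h6]
  refine ⟨z, iz, ?_, by omega, ?_, ?_⟩
  · intro p hp
    rw [zo' p (nS p hp) (fun h => hp (h ▸ qS)) (fun h => hp (h ▸ rS)), sz' p (by simp [hp])]
  · exact loc7b (by simp [hn, hn2, q1, q2, q3, q4, r1, r2, r3, r4, hrq]) xa xb xc xd x'a x'b x'c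
      x'd xo z'a z'b z'c z'd hzr z'r zq za zb zd zc zr zo' o1
  · exact loc7b (by simp [hn, hn2, q1, q2, q3, q4, r1, r2, r3, r4, hrq]) ya yd yc yb y'a y'd y'c
      y'b yo' z'a z'd z'c z'b hzr z'r zq za zd zb zc zr
      (fun p hp => zo' p ⟨hp.1, hp.2.2.2, hp.2.2.1, hp.2.1⟩) o2

end Cfsg.Agent.ULT.LF
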